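import Cfsg.Agent.H7.Polar
import Cfsg.Agent.H7.SLBase
import Cfsg.Agent.L0.Cores

set_option autoImplicit false

namespace CfsgH7

open Subgroup

section abstract

variable {K : Type*} [Group K]

/-- every `p'`-subgroup of the centraliser of `x` normalised by the inner automorphisms commuting
with `x` is trivial -/
def Bal (p : ℕ) (x : MulAut K) : Prop :=
  ∀ N : Subgroup (MulAut K), N ≤ centralizer {x} → (Nat.card N).Coprime p →
    (∀ k, x k = k → MulAut.conj k ∈ normalizer (N : Set (MulAut K))) → N = ⊥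

theorem aut_mul_conj (y : MulAut K) (k : K) :
    y * MulAut.conj k * y⁻¹ = MulAut.conj (y k) := by
  ext z
  simp

theorem conj_mem_centralizer {x : MulAut K} {k : K} (h : x k = k) :
    MulAut.conj k ∈ centralizer ({x} : Set (MulAut K)) := by
  rw [mem_centralizer_singleton_iff]
  have := aut_mul_conj x k
  rw [h] at this
  rw [← mul_inv_eq_iff_eq_mul.1 this]

theorem conj_inj_of_center (hZ : center K = ⊥) {k l : K} (h : MulAut.conj k = MulAut.conj l) :
    k = l := by
  have : l⁻¹ * k ∈ center K := by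
    rw [mem_center_iff]
    intro g
    have := DFunLike.congr_fun h g
    simp only [MulAut.conj_apply] at this
    calc g * (l⁻¹ * k) = l⁻¹ * (l * g * l⁻¹) * k := by group
      _ = l⁻¹ * k * g := by rw [← this]; group
  rw [hZ, mem_bot] at this
  exact (inv_mul_eq_one.1 this).symm

theorem fix_of_commute (hZ : center K = ⊥) {y : MulAut K} {k : K}
    (h : y * MulAut.conj k = MulAut.conj k * y) : y k = k :=
  conj_inj_of_center hZ (by rw [← aut_mul_conj, h, mul_inv_cancel_right])

theorem Bal.of_conj {p : ℕ} {x : MulAut K} (α : MulAut K) (h : Bal p (α * x * α⁻¹)) :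
    Bal p x := by
  intro N h1 h2 h3
  have := h (N.map (MulAut.conj α).toMonoidHom) (by
    rintro _ ⟨n, hn, rfl⟩
    have := mem_centralizer_singleton_iff.1 (h1 hn)
    rw [mem_centralizer_singleton_iff]
    change α * n * α⁻¹ * (α * x * α⁻¹) = α * x * α⁻¹ * (α * n * α⁻¹)
    calc α * n * α⁻¹ * (α * x * α⁻¹) = α * (n * x) * α⁻¹ := by group
      _ = _ := by rw [this]; group)
    (Nat.Coprime.coprime_dvd_left (card_map_dvd _ _) h2) (fun k hk => by
      have h4 : x (α⁻¹ k) = α⁻¹ k := by
        apply α.injective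
        simpa using hk
      have h5 := Subgroup.le_normalizer_map (H := N) (MulAut.conj α).toMonoidHom ⟨_, h3 _ h4, rfl⟩
      have h6 : (MulAut.conj α).toMonoidHom (MulAut.conj (α⁻¹ k)) = MulAut.conj k := by
        change α * _ * α⁻¹ = _
        rw [aut_mul_conj]; simp
      rwa [h6] at h5)
  exact (Subgroup.map_eq_bot_iff_of_injective _ (MulAut.conj α).injective).1 this

theorem card_fix_modEq [Finite K] {p : ℕ} [Fact p.Prime] {x : MulAut K} (hord : orderOf x = p) :
    Nat.card K ≡ Nat.card (MonoidHom.eqLocus x.toMonoidHom (MonoidHom.id K)) [MOD p] := by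
  classical
  haveI := Fintype.ofFinite K
  let f : Function.End K := fun z => x z
  have hf : f ^ p ^ 1 = 1 := by
    have h1 : ∀ (k : ℕ) (z : K), (f ^ k) z = (x ^ k) z := by
      intro k
      induction k with
      | zero => intro z; rfl
      | succ k ih => intro z; rw [pow_succ, pow_succ]; exact ih (x z)
    funext z
    rw [h1, pow_one, ← hord, pow_orderOf_eq_one]; rfl
  have := Equiv.Perm.card_fixedPoints_modEq hf
  rw [← Nat.card_eq_fintype_card, ← Nat.card_eq_fintype_card] at this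
  convert this using 1
  exact Nat.card_congr (Equiv.subtypeEquivRight fun _ => Iff.rfl)

theorem balance [Finite K] (hZ : center K = ⊥) (A : Subgroup (MulAut K))
    (hinn : ∀ k, MulAut.conj k ∈ A) {p : ℕ} [hp : Fact p.Prime] {x : MulAut K}
    (hord : orderOf x = p) {FT : Prop} (h1 : ∃ k, k ≠ 1 ∧ x k = k)
    (h2 : p ∣ Nat.card K → Bal p x) (h3 : ¬ p ∣ Nat.card K → FT) :
    Cfsg.pPrimeCore p ↥(A ⊓ centralizer {x}) ≠ ⊥ ↔
      (FT ∧ Nat.Coprime p (Nat.card (MonoidHom.eqLocus x.toMonoidHom (MonoidHom.id K)))) := by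
  have hm := card_fix_modEq hord
  have hiff : p ∣ Nat.card K ↔ p ∣ Nat.card (MonoidHom.eqLocus x.toMonoidHom (MonoidHom.id K)) :=
    hm.dvd_iff dvd_rfl
  constructor
  · intro h
    have hnd : ¬ p ∣ Nat.card K := fun hd => h (by
      have := h2 hd ((Cfsg.pPrimeCore p ↥(A ⊓ centralizer {x})).map (Subgroup.subtype _))
        ((map_subtype_le _).trans inf_le_right)
        (Nat.Coprime.coprime_dvd_left (card_map_dvd _ _) (CfsgL0.coprime_card_pPrimeCore _ _))
        (fun k hk => by
          have h5 := Subgroup.le_normalizer_map (H := Cfsg.pPrimeCore p ↥(A ⊓ centralizer {x}))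
            (Subgroup.subtype _) ⟨⟨MulAut.conj k, hinn k, conj_mem_centralizer hk⟩, by
              rw [normalizer_eq_top]; trivial, rfl⟩
          exact h5)
      exact (Subgroup.map_eq_bot_iff_of_injective _ (subtype_injective _)).1 this)
    exact ⟨h3 hnd, (Nat.Prime.coprime_iff_not_dvd hp.out).2 (mt hiff.2 hnd)⟩
  · rintro ⟨-, hc⟩ hb
    obtain ⟨k, hk1, hk⟩ := h1
    let C := MonoidHom.eqLocus x.toMonoidHom (MonoidHom.id K)
    let N := (C.map (MulAut.conj : K →* MulAut K)).subgroupOf (A ⊓ centralizer {x})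
    haveI : N.Normal := ⟨by
      rintro n ⟨c, hc, hcn⟩ g
      refine ⟨g.1 c, ?_, ?_⟩
      · have h7 := mem_centralizer_singleton_iff.1 g.2.2
        have h8 : x c = c := hc
        change x (g.1 c) = g.1 c
        rw [← MulAut.mul_apply, ← h7, MulAut.mul_apply, h8]
      · rw [← aut_mul_conj, hcn]; rfl⟩
    have hle : N ≤ Cfsg.pPrimeCore p _ := CfsgL0.le_pPrimeCore
      (Nat.Coprime.coprime_dvd_left ((CfsgL0.card_subgroupOf_dvd _ _).trans (card_map_dvd _ _))
        hc.symm)
    have := hle (x := ⟨MulAut.conj k, hinn k, conj_mem_centralizer hk⟩) ⟨k, hk, rfl⟩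
    rw [hb, mem_bot] at this
    exact hk1 (conj_inj_of_center hZ (by simpa using congrArg Subtype.val this))

theorem bal_of [Finite K] (hZ : center K = ⊥) {p : ℕ} {x : MulAut K} (I : Subgroup (MulAut K))
    (hI : ∀ k, MulAut.conj k ∈ I)
    (hP : ∀ M : Subgroup (MulAut K), M ≤ I ⊓ centralizer {x} → (Nat.card M).Coprime p →
      (∀ k, x k = k → MulAut.conj k ∈ normalizer (M : Set (MulAut K))) → M = ⊥)
    (h3 : ∀ y : MulAut K, y * x = x * y → (∀ k, x k = k → y k = k) → (orderOf y).Coprime p →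
      (∀ j : ℕ, y ^ j ∈ I → y ^ j = 1) → y = 1) : Bal p x := by
  intro N h1 h2 h4
  have h5 : N ⊓ I = ⊥ := hP _ (le_inf inf_le_right (inf_le_left.trans h1))
    (Nat.Coprime.coprime_dvd_left (card_dvd_of_le inf_le_left) h2) fun k hk =>
      inf_normalizer_le_normalizer_inf ⟨h4 k hk, le_normalizer (hI k)⟩
  rw [eq_bot_iff]
  intro y hy
  refine h3 y (mem_centralizer_singleton_iff.1 (h1 hy)) (fun k hk => fix_of_commute hZ ?_)
    (Nat.Coprime.coprime_dvd_left (Subgroup.orderOf_dvd_natCard _ hy) h2) fun j hj => ?_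
  · have h6 : y * MulAut.conj k * y⁻¹ * (MulAut.conj k)⁻¹ ∈ N ⊓ I := by
      refine ⟨?_, by rw [aut_mul_conj]; exact I.mul_mem (hI _) (I.inv_mem (hI _))⟩
      have := (mem_normalizer_iff.1 (h4 k hk) y⁻¹).1 (inv_mem hy)
      have h7 := mul_mem hy this
      rwa [← mul_assoc, ← mul_assoc] at h7
    rw [h5, mem_bot] at h6
    rwa [mul_inv_eq_one, mul_inv_eq_iff_eq_mul] at h6
  · have : y ^ j ∈ N ⊓ I := ⟨pow_mem hy j, hj⟩
    rwa [h5, mem_bot] at this

theorem eq_one_of_pow_coprime {A : Type*} [Group A] {y : A} {p : ℕ} (h : (orderOf y).Coprime p)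
    (h' : y ^ p = 1) : y = 1 :=
  orderOf_eq_one_iff.1 (Nat.Coprime.eq_one_of_dvd h (orderOf_dvd_of_pow_eq_one h'))

theorem center_eq_bot_of_simple [IsSimpleGroup K] {a b : K} (h : a * b ≠ b * a) : center K = ⊥ := by
  rcases (inferInstance : (center K).Normal).eq_bot_or_eq_top with h' | h'
  · exact h'
  · exact absurd (mem_center_iff.1 (h' ▸ mem_top b) a) h

end abstract

end CfsgH7
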