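import Cfsg.Agent.H7.Bal9
import Cfsg.Agent.H7.PSUField

set_option autoImplicit false

namespace CfsgH7

open Module Subgroup Matrix

variable {K : Type*} [Field K] [Fintype K] {n q : ℕ} (hK : Fintype.card K = q ^ 2) (hn : 3 ≤ n)

omit [Fintype K] in
theorem hSU (τ : K ≃+* K) (g : Cfsg.GU n K q) :
    ∃ g', fieldPSU τ * diagPSU g = diagPSU g' * fieldPSU τ := ⟨_, fieldPSU_diagPSU τ g⟩

include hK hn

theorem center_PSU : center (Cfsg.PSU n K q) = ⊥ :=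
  center_quot_eq_bot fun s hs => by
    rw [← diagPSU_suToGU, diagPSU_eq_one_iff hK hn] at hs
    obtain ⟨c, hc⟩ := hs
    refine mem_center_iff.2 fun t => Subtype.ext (Subtype.ext ?_)
    change t.1.1 * s.1.1 = s.1.1 * t.1.1
    rw [show s.1.1 = c • 1 from hc]
    simp

theorem not_three_two_of_simple (h : IsSimpleGroup (Cfsg.PSU n K q)) : ¬ (n = 3 ∧ q = 2) := by
  rintro ⟨rfl, rfl⟩
  have h1 : Nat.card (Cfsg.GU 3 K 2) = 648 := by
    have := CfsgH1.card_GU hK 3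
    rw [show CfsgH1.ordGU 2 3 = ((648 : ℕ) : ℤ) by simp [CfsgH1.ordGU, Fin.prod_univ_three]] at this
    exact_mod_cast this
  have h2 : Nat.card (Cfsg.PSU 3 K 2) ∣ 648 := by
    rw [← h1]
    refine (card_quotient_dvd_card _).trans (card_dvd_of_injective suToGU fun a b e => ?_)
    exact Subtype.ext (Subtype.ext (congrArg (fun g : Cfsg.GU 3 K 2 => g.1.1) e))
  haveI : Group.IsSolvable (Cfsg.PSU 3 K 2) :=
    CfsgH1.isSolvable_of_two_primes Nat.prime_two Nat.prime_three _ _ rfl fun r hr h => by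
      have h3 : r ∣ 2 ^ 3 * 3 ^ 4 := h.trans h2
      rcases (Nat.Prime.dvd_mul hr).1 h3 with h | h
      · exact Or.inl ((Nat.prime_dvd_prime_iff_eq hr Nat.prime_two).1 (hr.dvd_of_dvd_pow h))
      · exact Or.inr ((Nat.prime_dvd_prime_iff_eq hr Nat.prime_three).1 (hr.dvd_of_dvd_pow h))
  have h3 := IsSimpleGroup.comm_iff_isSolvable.2 this
  obtain ⟨a, ha⟩ := exists_ne (1 : Cfsg.PSU 3 K 2)
  exact ha (mem_bot.1 (center_PSU hK hn ▸ mem_center_iff.2 fun b => h3 b a))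

theorem balG_PSU (hs : ¬ (n = 3 ∧ q = 2)) (r : ℕ) [Fact r.Prime] [CharP K r] {p : ℕ}
    [Fact p.Prime] {x : MulAut (Cfsg.PSU n K q)} (hord : orderOf x = p) {F₀ : Type*} [Field F₀]
    [CharP F₀ r] (ε : F₀ →+* K) (P : GL (Fin n) K) (G : Subgroup (GL (Fin n) F₀))
    (E : G →* CU n K q) (hE : ∀ g, (E g).1 = P * Matrix.GeneralLinearGroup.map ε g.1 * P⁻¹)
    {X : RGeo F₀ (Fin n → F₀)} (hsim : ∀ g, X.Sim (matρ G g))
    (hroot : ∀ a, X.pt a → ∀ t ∈ X.Rt a, ∀ g : GL (Fin n) F₀, (∀ v, g.1 *ᵥ v = t v) →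
      g ∈ G ∧ P * Matrix.GeneralLinearGroup.map ε g * P⁻¹ ∈ Cfsg.GU n K q)
    (hle : Cfsg.inndiagPSU n K q ⊓ centralizer {x} = (diagCU.comp E).range)
    (hN : ∃ k, X.N = r ^ k) (hswap : X.Swap Set.univ) (hrich : X.Rich)
    (hbot : ∀ Λ : LG X G (MulAut (Cfsg.PSU n K q)), Λ.Bot p)
    (hτ : ∀ τ : K ≃+* K, (∀ c, τ (ε c) = ε c) → τ ^ p = 1) : BalG p x := by
  haveI : Nontrivial (Fin n) := Fin.nontrivial_iff_two_le.2 (by omega)
  obtain ⟨k, hN⟩ := hN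
  obtain ⟨σ, hσ, h2⟩ := exists_qfrob hK
  obtain ⟨P', -⟩ := exists_polarSU (n := n) hσ h2 (by omega)
  refine (balG_mat ((Cfsg.slToMat n K).comp (Cfsg.SU n K q).subtype)
    (fun a b h => Subtype.ext (Subtype.ext h)) P'.center_pow (center_PSU hK hn)
    (I := Cfsg.inndiagPSU n K q) (fun k => inndiagPSU_eq (K := K) ▸ inn_le_diagPSU_range ⟨k, rfl⟩)
    hord (matρ G) (diagCU.comp E) hsim (fun g => ?_) hle ε (jM P _)
    (jM_smul P _) (jM_injective P _) (fun a ha t ht => ?_) hN hswap hrich hbot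
    fun y _ h1 h2 => ?_).1
  · rw [MonoidHom.comp_apply, diagCU_eq_one_iff hK hn, ← matρ_scalar_iff,
      ← GL_map_scalar_iff ε g.1, hE]
    refine exists_congr fun c => ?_
    rw [Units.val_mul, Units.val_mul, Units.mul_inv_eq_iff_eq_mul, smul_mul_assoc, one_mul,
      ← Units.eq_inv_mul_iff_mul_eq, mul_smul_comm, Units.inv_mul]
  · obtain ⟨s, hs⟩ := exists_SL_of_pow r (hN ▸ X.Rt_pow ha ht)
    obtain ⟨h1, h3⟩ := hroot a ha t ht (Matrix.SpecialLinearGroup.toGL s) fun v => by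
      change s.1 *ᵥ v = _
      rw [hs, LinearMap.toMatrix'_mulVec]
    refine ⟨⟨_, h1⟩, ⟨conjSL P (Matrix.SpecialLinearGroup.map ε s), h3⟩, matρ_toGL hs h1, ?_, ?_⟩
    · rw [← diagPSU_suToGU, ← diagCU_inclusion]
      exact congrArg diagCU (Subtype.ext ((hE _).trans (Units.ext rfl)))
    · rw [jM_apply, ← hs]
      rfl
  · obtain ⟨g, τ, rfl⟩ := aut_psu hK hn hs y
    exact ⟨conjSU g * mapSU τ, g.1, τ, (map_mul (autQuot _) _ _).symm, fun s => rfl,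
      fun h => inndiagPSU_eq (K := K) ▸ df_pow_mem _ _ hSU g (hτ τ h)⟩

theorem balG_PSU_field (hs : ¬ (n = 3 ∧ q = 2)) (r : ℕ) [Fact r.Prime] [CharP K r] {p : ℕ}
    [hp : Fact p.Prime] (hpr : p ≠ r) (hp2 : p ≠ 2) {τ : K ≃+* K} (ho : orderOf τ = p) :
    BalG p (fieldPSU τ : MulAut (Cfsg.PSU n K q)) := by
  haveI : Nonempty (Fin n) := ⟨⟨0, by omega⟩⟩
  have hro := hp.out.odd_of_ne_two hp2
  haveI := Fintype.ofFinite (fixF τ)
  obtain ⟨q₀, hqr, hF₀⟩ : ∃ q₀, q = q₀ ^ p ∧ Fintype.card (fixF τ) = q₀ ^ 2 := by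
    have h1 := card_fixF τ
    rw [Nat.card_eq_fintype_card, Nat.card_eq_fintype_card, hK, ho] at h1
    obtain ⟨c, h3, h4⟩ := Nat.exists_eq_pow_of_exponent_coprime_of_pow_eq_pow
      (Nat.coprime_two_left.2 hro) h1
    exact ⟨c, h3, h4⟩
  let ε := (fixF τ).subtype
  have hε := fixF_spec τ
  obtain ⟨σ, hσ, -⟩ := exists_qfrob hK
  obtain ⟨σ₀, hσ₀, h2⟩ := exists_qfrob hF₀
  have hεσ : ∀ x, σ (ε x) = ε (σ₀ x) := fun x => by
    rw [hσ, hσ₀, ← map_pow, hqr, pow_pow_odd hF₀ hro]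
  let E : Cfsg.GU n (fixF τ) q₀ →* Cfsg.GU n K q :=
    ((Matrix.GeneralLinearGroup.map ε).comp (Cfsg.GU n _ q₀).subtype).codRestrict _
      (fun g => (GL_map_mem_GU_iff ε hσ hσ₀ hεσ g.1).2 g.2)
  have hE : (mapGU τ).eqLocus (MonoidHom.id _) = E.range := by
    ext g
    constructor
    · intro hg
      obtain ⟨g₀, hg₀⟩ := exists_GL_map_eq ε g.1 (fun i j => (hε _).1
        (congrFun (congrFun (congrArg (fun g : Cfsg.GU n K q => g.1.1) hg) i) j))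
      exact ⟨⟨g₀, (GL_map_mem_GU_iff ε hσ hσ₀ hεσ g₀).1 (hg₀ ▸ g.2)⟩, Subtype.ext hg₀⟩
    · rintro ⟨g₀, rfl⟩
      refine Subtype.ext (Units.ext ?_)
      ext i j
      exact (hε _).2 ⟨_, rfl⟩
  have hc := field_centralizer_SU hK hn (ho ▸ hro)
  obtain ⟨X, h1, h3, h4, h5, h6, h7⟩ := exists_geo_GU r hpr hσ₀ h2 hn (MulAut (Cfsg.PSU n K q))
  refine balG_PSU hK hn hs r ((orderOf_injective _ (fieldPSU_injective hK hn) τ).trans ho) ε 1 _
    ((inclusion GU_le_CU).comp E) (fun g => by rw [one_mul, inv_one, mul_one]; rfl) h1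
    (fun a ha t ht g hg => ?_) (by rw [inndiagPSU_eq, hc, hE, ← MonoidHom.range_comp]; rfl)
    h4 h5 h6 h7 fun τ' h => ho ▸ pow_eq_one_of_fix h
  have : g ∈ Cfsg.GU n _ q₀ := fun u v => by
    change Cfsg.hermForm _ _ _ (g.1 *ᵥ u) (g.1 *ᵥ v) = _
    rw [hg, hg, h3 a ha t ht]
  exact ⟨this, by rw [one_mul, inv_one, mul_one]; exact (E ⟨g, this⟩).2⟩

theorem balG_PSU_all (hs : ¬ (n = 3 ∧ q = 2)) (r : ℕ) [Fact r.Prime] [CharP K r] {p : ℕ}
    [hp : Fact p.Prime] (hpr : p ≠ r) {x : MulAut (Cfsg.PSU n K q)} (ho : orderOf x = p)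
    (hx : ∀ g, x ≠ diagPSU g) : BalG p x := by
  obtain ⟨g, τ, rfl⟩ := aut_psu hK hn hs x
  have hτ : τ ≠ 1 := by
    rintro rfl
    exact hx g (by rw [map_one, mul_one])
  have h1 := df_orderOf _ _ hSU (fun g τ h => (diag_field_eq_one_SU hK hn h).1) hτ ho
  by_cases hp2 : p = 2
  swap
  · exact (balG_PSU_field hK hn hs r hpr hp2 h1).of_isConjUnder
      (field_coset_SU hK hn (h1 ▸ hp.out.odd_of_ne_two hp2) g
        (by rw [h1, ← ho, pow_orderOf_eq_one]))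
  subst hp2
  obtain ⟨σ, hσ, h2⟩ := exists_qfrob hK
  obtain rfl : σ = τ := by
    haveI := finite_ringAut (F := K)
    haveI := ringAut_isCyclic (F := K)
    exact eq_of_orderOf_two h2 h1
  have hε := fixF_spec σ
  obtain ⟨B, D, e, hB⟩ := exists_UD_of_sq hσ h2 hε hK hn (inclusion GU_le_CU g)
    (by rw [diagCU_inclusion, ← ho, pow_orderOf_eq_one])
  rw [diagCU_inclusion] at e
  rw [e] at ho ⊢
  obtain ⟨X, h1, h3, h4, h5, h6, h7⟩ := exists_geo_SimG r hpr.symm (by simpa) B hB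
    (MulAut (Cfsg.PSU n K q))
  refine balG_PSU hK hn hs r ho _ D.P _ (D.emb hσ hε) (D.emb_coe hσ hε) h1
    (fun a ha t ht g hg => ?_) (D.centralizer hσ h2 hε hK hn) h4 h5 h6 h7
    fun τ' h => h2 ▸ pow_eq_one_of_fix h
  have h8 : ∀ u v, bf B.1 (g.1 *ᵥ u) (g.1 *ᵥ v) = 1 * bf B.1 u v := fun u v => by
    rw [hg, hg, h3 a ha t ht, one_mul]
  refine ⟨⟨1, h8⟩, (mem_GU_iff'' hσ).2 ?_⟩
  rw [D.herm_emb hε D ((bf_sim_iff _ _ _).1 h8), map_one, mul_one, div_self D.hδ, one_smul]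

end CfsgH7
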