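import Cfsg.Agent.H7.Bal5

set_option autoImplicit false

namespace CfsgH7

open CfsgH8 hiding map_mul map_one
open QuadraticMap hiding map_add map_sub map_smul map_zero map_neg sq
open Module Subgroup

variable {F V : Type*} [Field F] [AddCommGroup V] [Module F V] {Q : QuadraticForm F V}

open Polynomial in
theorem det_of_skew [FiniteDimensional F V] (hQ : ND Q) (h2 : (2 : F) ≠ 0) {m : ℕ}
    (hn : finrank F V = 2 * m) (T : V →ₗ[F] V) {l : F} (h1 : ∀ v, T (T v) = l • v)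
    (hs : ∀ u v, polar Q (T u) v = -polar Q u (T v)) : LinearMap.det T = (-l) ^ m := by
  classical
  let b := Module.finBasisOfFinrankEq F V hn
  let G := LinearMap.BilinForm.toMatrix b (polarBilin Q)
  let Γ := LinearMap.toMatrix b b T
  have hG : G.det ≠ 0 := (LinearMap.BilinForm.nondegenerate_iff_det_ne_zero b).1 hQ
  have e1 : Γ.transpose * G = -(G * Γ) := by
    rw [← LinearMap.BilinForm.toMatrix_compLeft, ← LinearMap.BilinForm.toMatrix_compRight,
      ← map_neg]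
    congr 1
    ext u v
    exact hs u v
  have e2 : Γ * Γ = l • 1 := by
    rw [← LinearMap.toMatrix_mul, show T * T = l • 1 from LinearMap.ext h1, map_smul,
      LinearMap.toMatrix_one]
  let M := Matrix.charmatrix (-Γ)
  have e3 : M = (X : F[X]) • 1 + Γ.map C := by
    ext i j : 1
    by_cases h : i = j <;> simp [M, h]
  have e1' : (Γ.map C).transpose * G.map C = -(G.map C * Γ.map C) := by
    rw [← Matrix.transpose_map, ← Matrix.map_mul, e1, Matrix.map_neg _ (map_neg C), Matrix.map_mul]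
  have e2' : Γ.map C * Γ.map C = (C l : F[X]) • 1 := by
    rw [← Matrix.map_mul, e2]
    ext i j : 1
    by_cases h : i = j <;> simp [h]
  have e4 : M.transpose * G.map C * M = (X ^ 2 - C l : F[X]) • G.map C := by
    rw [e3, Matrix.transpose_add, Matrix.transpose_smul, Matrix.transpose_one, add_mul, e1',
      mul_add, add_mul, add_mul, neg_mul, neg_mul, mul_assoc (G.map C), mul_assoc (G.map C), e2']
    simp only [Matrix.smul_mul, Matrix.mul_smul, one_mul, mul_one]
    module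
  have e5 := congrArg Matrix.det e4
  rw [Matrix.det_mul, Matrix.det_mul, Matrix.det_transpose, Matrix.det_smul, Fintype.card_fin,
    mul_right_comm, mul_left_inj' (by
      rw [← RingHom.mapMatrix_apply, ← RingHom.map_det]; simpa using hG),
    pow_mul', ← sq, sq_eq_sq_iff_eq_or_eq_neg] at e5
  have e6 : M.det.Monic := Matrix.charpoly_monic _
  have e7 : ((X ^ 2 - C l : F[X]) ^ m).Monic := (monic_X_pow_sub_C l two_ne_zero).pow m
  rcases e5 with e5 | e5
  · have := congrArg (eval 0) e5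
    rw [← LinearMap.det_toMatrix b, ← coe_evalRingHom, RingHom.map_det, e3] at *
    convert this using 2
    · ext i j
      by_cases h : i = j <;> simp [h, Γ]
    · simp
  · rw [e5, Monic, leadingCoeff_neg, e7] at e6
    exact absurd (by linear_combination -e6) h2

theorem sq_eq_of_scal (hQ : ND Q) [Nontrivial V] {T : V → V} {c e : F}
    (hT : ∀ v, Q (T v) = c * Q v) (h : ∀ v, T v = e • v) (v : V) : T (T v) = c • v := by
  obtain ⟨x, hx⟩ := hQ.exists_nonsing
  have := hT x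
  rw [h, Q_smul, mul_left_inj' hx] at this
  rw [h, h, smul_smul, ← this, sq]

theorem sieg_expand {u v : V} (hu : Q u = 0) (huv : polar Q u v = 0) (a : F) (y : V) :
    (sieg Q u (a • v)).1 y = y + a • (polar Q v y • u - polar Q u y • v) +
      a ^ 2 • (-(Q v * polar Q u y) • u) := by
  rw [sieg_apply hu (by rw [polar_sr, huv, mul_zero]), Q_smul, polar_sl]
  module

theorem exists_sieg_data [Finite F] [FiniteDimensional F V] (hQ : ND Q) (hn : 3 ≤ finrank F V) :
    ∃ u v x : V, Q u = 0 ∧ polar Q u v = 0 ∧ Q v ≠ 0 ∧ polar Q v x • u - polar Q u x • v ≠ 0 := by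
  obtain ⟨u, x, hu, h0, hx⟩ := exists_hyp hQ hn
  have h3 := finrank_perp2 hQ hu hx
  haveI : Nontrivial (perp2 Q u x) := Module.nontrivial_of_finrank_pos (R := F) (by omega)
  obtain ⟨⟨v, h1⟩, h2⟩ := (nd_perp2 hQ hu h0 hx).exists_nonsing
  change Q v ≠ 0 at h2
  refine ⟨u, v, x, hu, (mem_perp2.1 h1).1, h2, fun e => h2 ?_⟩
  rw [hx, one_smul, sub_eq_zero] at e
  rw [← e, Q_smul, hu, mul_zero]

section big

variable [Finite F] [hB : Big Q] (r : ℕ) [hr : Fact r.Prime] [CharP F r]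

omit [Finite F] hB in
theorem two_ne_zero_of_char (h2 : r ≠ 2) : (2 : F) ≠ 0 := fun h =>
  h2 ((Nat.prime_dvd_prime_iff_eq hr.out Nat.prime_two).1
    ((CharP.cast_eq_zero_iff F r 2).1 (by exact_mod_cast h)))

/-- the balance property for an involution induced by a similarity -/
theorem balG_inv (h2 : r ≠ 2) {γ : Gam Q} (hγ : γ.σ = 1) {l : Fˣ} (hl : γ * γ = scal Q l)
    (hy : ∀ y : MulAut (POm Q), y * Phi Q γ = Phi Q γ * y → (∀ k, Phi Q γ k = k → y k = k) →
      (orderOf y).Coprime 2 → y ∈ (Phi Q).range)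
    (H1 : ∀ M : Subgroup (MulAut (POm Q)), (Nat.card M).Coprime 2 →
      (∀ k, Phi Q γ k = k → MulAut.conj k ∈ normalizer (M : Set (MulAut (POm Q)))) →
      ∀ g : Gam Q, g.σ = 1 → g * γ = γ * g → Phi Q g ∈ M → ∀ v, g.T (g.T v) = (g.c : F) • v)
    {N N' : V → V} {x : V} (hx : N x ≠ 0)
    (H2 : ∀ a : F, ∃ s : Om Q, s ^ r = 1 ∧ ofOG Q s * γ = γ * ofOG Q s ∧
      ∀ y, s.1.1 y = y + a • N y + a ^ 2 • N' y) : BalG 2 (Phi Q γ) := by
  haveI := Big.nontrivial Q
  haveI := finite_POm (Q := Q)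
  have hF := two_ne_zero_of_char (F := F) r h2
  have key : ∀ θ : Gam Q, (∀ k, Phi Q γ k = k → Phi Q θ k = k) → ∀ a : F,
      θ.T (a • N x) = a • N (θ.T x) := fun θ h a => by
    obtain ⟨s, h1, h3, h4⟩ := H2 a
    obtain ⟨t, h5, h6, h7⟩ := H2 (-a)
    have e1 := θ.og_T s x
    have e2 := θ.og_T t x
    rw [og_eq_of_commute r h1 h h3, h4, h4, map_add, map_add] at e1
    rw [og_eq_of_commute r h5 h h6, h7, h7, map_add, map_add, neg_sq, neg_smul a (N x),
      map_neg] at e2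
    refine smul_right_injective V hF ?_
    linear_combination (norm := module) e2 - e1
  refine ⟨?_, fun _ => bal_of center_POm ((GO Q).map (Phi Q)) conj_mem_GO
    (fun M h1 h3 h4 => ?_) fun y h1 h3 h4 h5 => ?_⟩
  · by_contra h
    push Not at h
    have h1 : ∀ a : F, a • N x + a ^ 2 • N' x = 0 := fun a => by
      obtain ⟨s, h1, h3, h4⟩ := H2 a
      have h5 : pmk Q s = 1 := by
        by_contra h6
        exact h _ h6 (fix_of_commute center_POm (by erw [← Phi_ofOG, ← map_mul, ← h3, map_mul]))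
      have := h4 x
      rwa [hZ_Om r s ((QuotientGroup.eq_one_iff _).1 h5) h1, add_assoc, eq_comm, Subgroup.coe_one,
        OG.one_apply, add_eq_left] at this
    refine hx (smul_right_injective V hF ?_)
    linear_combination (norm := module) h1 1 - h1 (-1)
  · rw [eq_bot_iff]
    intro y hy
    obtain ⟨⟨g, hg, rfl⟩, h5⟩ := h1 hy
    obtain ⟨a, ha⟩ := Phi_eq_one_iff.1 (show Phi Q (g * γ * g⁻¹ * γ⁻¹) = 1 by
      simp only [map_mul, map_inv]
      rw [mem_centralizer_singleton_iff.1 h5]; simp)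
    rw [mul_inv_eq_iff_eq_mul] at ha
    have h6 : scal Q a * scal Q a = 1 := by
      have : (g * γ * g⁻¹) * (g * γ * g⁻¹) = γ * γ := by
        rw [show (g * γ * g⁻¹) * (g * γ * g⁻¹) = g * (γ * γ) * g⁻¹ by group, hl, scal_comm l hg,
          mul_inv_cancel_right]
      rwa [ha, mul_assoc, ← mul_assoc γ, scal_comm a hγ, mul_assoc, ← mul_assoc,
        mul_eq_right] at this
    have h7 : g * g * γ = γ * (g * g) := by
      rw [← mul_inv_eq_iff_eq_mul, show g * g * γ * (g * g)⁻¹ = g * (g * γ * g⁻¹) * g⁻¹ by group, ha,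
        ← mul_assoc, scal_comm a hg, mul_assoc, mul_assoc, ← mul_assoc g, ha, ← mul_assoc, h6,
        one_mul]
    obtain ⟨b, hb⟩ := eq_scal_of_T (g := g * g * (g * g)) Big.nd
      (H1 M h3 h4 (g * g) (by simp [mem_GO.1 hg]) h7 (by rw [map_mul]; exact mul_mem hy hy))
    have h8 : Phi Q g ^ 2 ^ 2 = 1 := by
      rw [← Phi_scal (Q := Q) b, ← hb, ← map_pow, sq 2, pow_mul, sq, sq]
    exact eq_one_of_pow_coprime (Nat.Coprime.pow_right 2
      (h3.coprime_dvd_left (M.orderOf_dvd_natCard hy))) h8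
  · obtain ⟨θ, rfl⟩ := hy y h1 h3 h4
    have := h5 1 ⟨θ ^ 1, by
      rw [SetLike.mem_coe, mem_GO, pow_one]
      exact RingEquiv.ext fun a => σ_fix_of_comm θ.T.injective (map_zero _) θ.smul hx
        (by simpa using key θ h3 1) (key θ h3 a), map_pow _ _ _⟩
    rwa [pow_one] at this

omit [Finite F] hB hr [CharP F r] in
theorem fixS_decomp (hF : (2 : F) ≠ 0) {s : OG Q} (hs : s * s = 1) (v : V) :
    ∃ u w, s.1 u = u ∧ s.1 w = -w ∧ v = u + w := by
  have h : s.1 (s.1 v) = v := congrArg (fun g : OG Q => g.1 v) hs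
  refine ⟨(2 : F)⁻¹ • (v + s.1 v), (2 : F)⁻¹ • (v - s.1 v), ?_, ?_, ?_⟩
  · rw [map_smul, map_add, h, add_comm]
  · rw [map_smul, map_sub, h, ← smul_neg, neg_sub]
  · match_scalars <;> field_simp <;> ring

omit [Finite F] hB hr [CharP F r] in
theorem polar_fix_neg (hF : (2 : F) ≠ 0) {s : OG Q} {u w : V} (hu : s.1 u = u) (hw : s.1 w = -w) :
    polar Q u w = 0 := by
  have := OG.map_polar s u w
  rw [hu, hw, polar_neg_right] at this
  exact (mul_eq_zero.1 (by linear_combination -this)).resolve_left hF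

omit [Finite F] hr [CharP F r] in
theorem nd_fixS (hF : (2 : F) ≠ 0) {s : OG Q} (hs : s * s = 1) : ND (res Q (fixS s)) :=
  ND.of_forall fun x hx => Subtype.ext (hB.nd.eq_zero fun y => by
    obtain ⟨u, w, h1, h2, rfl⟩ := fixS_decomp hF hs y
    rw [polar_add_right, polar_fix_neg hF (mem_fixS.1 x.2) h2, add_zero]
    exact hx ⟨u, mem_fixS.2 h1⟩)

omit [Finite F] hB hr [CharP F r] in
theorem sieg_comm_fix {s : OG Q} {u v : V} (hu : s.1 u = u) (hv : s.1 v = v) :
    ofOG Q (sieg Q u v) * ofOG Q s = ofOG Q s * ofOG Q (sieg Q u v) := by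
  rw [← map_mul, ← map_mul, mul_inv_eq_iff_eq_mul.1 (sieg_conj s u v), hu, hv]

theorem part_scalar (h2 : r ≠ 2) {s : OG Q} (hs : s * s = 1) (hodd : Odd (finrank F (fixS s)))
    {M : Subgroup (MulAut (POm Q))} (hM : (Nat.card M).Coprime 2)
    (hN : ∀ k, Phi Q (ofOG Q s) k = k → MulAut.conj k ∈ normalizer (M : Set (MulAut (POm Q))))
    {g : Gam Q} (hg : g.σ = 1) (hc : g * ofOG Q s = ofOG Q s * g) (hm : Phi Q g ∈ M) {v : V}
    (hv : s.1 v = v) : g.T (g.T v) = (g.c : F) • v := by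
  haveI := Big.fd Q
  haveI := Big.nontrivial Q
  haveI := finite_POm (Q := Q)
  have hF := two_ne_zero_of_char (F := F) r h2
  let G := GO Q ⊓ centralizer {ofOG Q s}
  have hG : ∀ (g : G) v, s.1 (g.1.T v) = g.1.T (s.1 v) := fun g v =>
    (congrArg (fun γ : Gam Q => γ.T v) (mem_centralizer_singleton_iff.1 g.2.2)).symm
  let ρ : G →* Module.End F (fixS s) :=
    { toFun := fun g => (Gam.lin g.1 g.2.1).toLinearMap.restrict fun v hv =>
        mem_fixS.2 ((hG g v).trans (congrArg g.1.T (mem_fixS.1 hv)))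
      map_one' := rfl
      map_mul' := fun _ _ => rfl }
  have hρ : ∀ g (v : fixS s), (ρ g v : V) = g.1.T v := fun _ _ => rfl
  haveI : Nontrivial (fixS s) := Module.nontrivial_of_finrank_pos (R := F) hodd.pos
  suffices ∃ c : F, ∀ v, ρ ⟨g, hg, mem_centralizer_singleton_iff.2 hc⟩ v = c • v by
    obtain ⟨c, h⟩ := this
    exact congrArg Subtype.val (sq_eq_of_scal (nd_fixS hF hs)
      (T := ρ ⟨g, hg, mem_centralizer_singleton_iff.2 hc⟩) (fun v => Gam.mapQ_of_lin hg v) h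
      ⟨v, mem_fixS.2 hv⟩)
  by_cases h1 : finrank F (fixS s) = 1
  · obtain ⟨c, h, -⟩ := LinearMap.existsUnique_eq_smul_id_of_finrank_eq_one h1
      (ρ ⟨g, hg, mem_centralizer_singleton_iff.2 hc⟩)
    exact ⟨c, fun v => by rw [h]; rfl⟩
  let Fx : Subgroup G :=
    { carrier := {g | ∀ w, s.1 w = -w → g.1.T w = w}
      one_mem' := fun _ _ => rfl
      mul_mem' := fun ha hb w hw => by
        rw [Subgroup.coe_mul, Gam.mul_T, hb w hw, ha w hw]
      inv_mem' := fun {a} ha w hw => by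
        rw [Subgroup.coe_inv]; nth_rw 1 [← ha w hw]; rw [Gam.inv_T_T] }
  haveI : Fx.Normal := ⟨fun a ha b w hw => by
    change b.1.T (a.1.T (b⁻¹.1.T w)) = w
    rw [ha _ (by rw [hG, hw, map_neg])]
    exact Gam.T_inv_T _ _⟩
  let Λ : LG (oGeo (res Q (fixS s)) r) G (MulAut (POm Q)) :=
    { ρ := ρ
      π := (Phi Q).comp G.subtype
      G₁ := (MulAut.conj : POm Q →* _).range.comap ((Phi Q).comp G.subtype) ⊓ Fx
      normal := inferInstance
      sim := fun g => ⟨g.1.c, g.1.c.ne_zero, fun v => Gam.mapQ_of_lin g.2.1 v⟩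
      k1 := fun g h => by
        obtain ⟨a, ha⟩ := Phi_eq_one_iff.1 h
        exact ⟨a, fun v => Subtype.ext (congrArg (fun γ : Gam Q => γ.T v) ha)⟩
      k2 := fun g hg h => Phi_eq_one_iff.2 (eq_scal_of_T (c := 1) Big.nd fun v => by
        obtain ⟨u, w, h3, h4, rfl⟩ := fixS_decomp hF hs v
        have := hρ g ⟨u, mem_fixS.2 h3⟩
        rw [h] at this
        rw [one_smul, map_add]
        exact congrArg₂ _ this.symm (hg.2 w h4))
      root := by
        rintro a ha _ ⟨v, hv, rfl⟩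
        have h3 : Q a = 0 := ha.2
        refine ⟨⟨_, ofOG_mem_GO (sieg Q a v), mem_centralizer_singleton_iff.2
          (sieg_comm_fix (mem_fixS.1 a.2) (mem_fixS.1 v.2))⟩,
          ⟨⟨pmk Q (sg Q a v), (Phi_ofOG _).symm⟩, fun w hw => ?_⟩, ?_⟩
        · change (sieg Q a v).1 w = w
          rw [sieg_apply_of_perp h3 hv (polar_fix_neg hF (mem_fixS.1 a.2) hw),
            polar_fix_neg hF (mem_fixS.1 v.2) hw, zero_smul, add_zero]
        · ext y
          rw [hρ, ofOG_T, sieg_apply h3 hv, LinearEquiv.coe_coe, sieg_apply ha.2 hv]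
          rfl }
  refine Λ.o_two (nd_fixS hF hs) (by obtain ⟨k, hk⟩ := hodd; omega) h2 hM ?_ hm
  rintro a ⟨⟨k, hk⟩, -⟩
  change Phi Q a.1 ∈ _
  change _ = Phi Q a.1 at hk
  rw [← hk]
  refine hN k (fix_of_commute center_POm ?_)
  rw [hk, ← map_mul, ← mem_centralizer_singleton_iff.1 a.2.2, map_mul]

theorem balG_iso (h2 : r ≠ 2) (hn : Even (finrank F V)) {s : OG Q} (hs : s * s = 1)
    (hd : dickF s ≠ 1)
    (hy : ∀ (y : MulAut (POm Q)) u v, u ≠ 0 → Q u = 0 → polar Q u v = 0 → Q v ≠ 0 →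
      y (pmk Q (sg Q u v)) = pmk Q (sg Q u v) → y ∈ (Phi Q).range) :
    BalG 2 (Phi Q (ofOG Q s)) := by
  haveI := Big.fd Q
  have hF := two_ne_zero_of_char (F := F) r h2
  have hneg : ∀ v, (negOne Q * s).1 v = -s.1 v := fun _ => rfl
  have hs' : negOne Q * s * (negOne Q * s) = 1 := OG.ext' fun v => by
    rw [OG.mul_apply, hneg, hneg, map_neg, neg_neg, ← OG.mul_apply, hs]
  have e1 : ofOG Q (negOne Q * s) = scal Q (-1) * ofOG Q s := by rw [map_mul, scal_neg_one]
  have e2 : Phi Q (ofOG Q (negOne Q * s)) = Phi Q (ofOG Q s) := by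
    rw [e1, map_mul, Phi_scal, one_mul]
  have e3 : ∀ g : Gam Q, g.σ = 1 →
      (g * ofOG Q (negOne Q * s) = ofOG Q (negOne Q * s) * g ↔ g * ofOG Q s = ofOG Q s * g) :=
    fun g hg => by rw [e1, ← mul_assoc, scal_comm _ hg, mul_assoc, mul_assoc, mul_right_inj]
  have hodd : ∀ s : OG Q, dickF s ≠ 1 → Odd (finrank F (fixS s)) := fun s h => by
    rw [Ne, dickF_eq_one_iff, Nat.not_even_iff_odd] at h
    rw [← finrank_movS_add s, Nat.even_add'] at hn
    exact hn.1 h
  have o1 := hodd s hd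
  have o2 := hodd (negOne Q * s) (by rwa [dick_mul, mem_SOg.1 (negOne_mem_SOg hn), one_mul])
  obtain ⟨u, v, x, h3, h4, h5, h6, h7⟩ : ∃ u v x : V, Q u = 0 ∧ polar Q u v = 0 ∧ Q v ≠ 0 ∧
      polar Q v x • u - polar Q u x • v ≠ 0 ∧ ∀ a : F,
        ofOG Q (sieg Q u (a • v)) * ofOG Q s = ofOG Q s * ofOG Q (sieg Q u (a • v)) := by
    have key : ∀ s : OG Q, s * s = 1 → 3 ≤ finrank F (fixS s) → ∃ u v x : V, Q u = 0 ∧
        polar Q u v = 0 ∧ Q v ≠ 0 ∧ polar Q v x • u - polar Q u x • v ≠ 0 ∧ ∀ a : F,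
        ofOG Q (sieg Q u (a • v)) * ofOG Q s = ofOG Q s * ofOG Q (sieg Q u (a • v)) := by
      intro s hs h
      obtain ⟨u, v, x, h3, h4, h5, h6⟩ := exists_sieg_data (nd_fixS hF hs) h
      exact ⟨u, v, x, h3, h4, h5, fun e => h6 (Subtype.ext e), fun a =>
        sieg_comm_fix (mem_fixS.1 u.2) (mem_fixS.1 (a • v).2)⟩
    by_cases h : 3 ≤ finrank F (fixS s)
    · exact key s hs h
    · have h3 : movS s ≤ fixS (negOne Q * s) := fun w hw => by
        obtain ⟨y, rfl⟩ := mem_movS.1 hw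
        rw [mem_fixS, hneg, map_sub, ← OG.mul_apply, hs, neg_sub, OG.one_apply]
      have h4 := Submodule.finrank_mono h3
      have h5 := finrank_movS_add s
      have h6 := hB.five
      obtain ⟨u, v, x, h⟩ := key _ hs' (by omega)
      simp only [e3 _ (ofOG_σ _)] at h
      exact ⟨u, v, x, h⟩
  refine balG_inv r h2 rfl (l := 1) (by rw [← map_mul, hs, map_one, map_one])
    (fun y _ h _ => hy y u v (fun e => h6 (by simp [e])) h3 h4 h5 (h _ (fix_of_commute center_POm ?_)))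
    (fun M h8 h9 g hg hc hm y => ?_) (N := fun x => polar Q v x • u - polar Q u x • v) h6
    fun a => ⟨sg Q u (a • v), sg_pow r _ _, h7 a, sieg_expand h3 h4 a⟩
  · have := h7 1
    rw [one_smul] at this
    erw [← Phi_ofOG, ← map_mul, ← this, map_mul]
    rfl
  · obtain ⟨u, w, h3, h4, rfl⟩ := fixS_decomp hF hs y
    rw [map_add, map_add, smul_add, part_scalar r h2 hs o1 h8 h9 hg hc hm h3,
      part_scalar r h2 hs' o2 h8 (e2 ▸ h9) hg ((e3 g hg).2 hc) hm (by rw [hneg, h4, neg_neg])]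

end big

section ext

open QuadraticAlgebra

variable {T : V →ₗ[F] V} {l : F}

/-- a vector space with an operator whose square is a scalar, as a module over the quadratic
algebra -/
theorem exists_extMod (hT : ∀ v, T (T v) = l • v) :
    ∃ (_ : Module (QuadraticAlgebra F l 0) V) (_ : IsScalarTower F (QuadraticAlgebra F l 0) V),
      ∀ (e : QuadraticAlgebra F l 0) (v : V), e • v = e.re • v + e.im • T v := by
  letI : Module (QuadraticAlgebra F l 0) V := Module.compHom V (R := Module.End F V)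
    (QuadraticAlgebra.lift (A := Module.End F V) ⟨T, by ext v; simp [hT]⟩).toRingHom
  have h : ∀ (e : QuadraticAlgebra F l 0) (v : V), e • v = e.re • v + e.im • T v := fun _ _ => rfl
  exact ⟨this, ⟨fun a e v => by rw [h, h, smul_add, smul_smul, smul_smul]; rfl⟩, h⟩

variable [Fact (∀ r : F, r ^ 2 ≠ l + 0 * r)] [Module (QuadraticAlgebra F l 0) V]

theorem exists_extForm (hF : (2 : F) ≠ 0) (hT : ∀ v, T (T v) = l • v)
    (h : ∀ (e : QuadraticAlgebra F l 0) (v : V), e • v = e.re • v + e.im • T v)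
    (hs : ∀ u v, polar Q (T u) v = polar Q u (T v)) :
    ∃ Q' : QuadraticForm (QuadraticAlgebra F l 0) V, (∀ v, (Q' v).re = Q v) ∧
      (∀ v, (Q' v).im = (2 * l)⁻¹ * polar Q (T v) v) ∧ ∀ u v, (polar Q' u v).re = polar Q u v := by
  have hl : l ≠ 0 := fun e => (Fact.out : ∀ r : F, r ^ 2 ≠ l + 0 * r) 0 (by simp [e])
  let B : LinearMap.BilinForm (QuadraticAlgebra F l 0) V :=
    LinearMap.mk₂ _ (fun u v => ⟨2⁻¹ * polar Q u v, (2 * l)⁻¹ * polar Q (T u) v⟩)
      (fun u u' v => by ext <;> simp [mul_add])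
      (fun e u v => by ext <;> simp [h, hT] <;> field_simp)
      (fun u u' v => by ext <;> simp [mul_add])
      (fun e u v => by ext <;> simp [h, hT, ← hs] <;> field_simp)
  refine ⟨B.toQuadraticMap, fun v => ?_, fun v => rfl, fun u v => ?_⟩
  · change 2⁻¹ * polar Q v v = _
    rw [polar_self', inv_mul_cancel_left₀ hF]
  · rw [LinearMap.BilinMap.polar_toQuadraticMap]
    change 2⁻¹ * polar Q u v + 2⁻¹ * polar Q v u = _
    rw [pcomm v]
    field_simp
    ring

end ext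

section big

variable [Finite F] [hB : Big Q] (r : ℕ) [hr : Fact r.Prime] [CharP F r]

theorem mem_Om_of_pow (h2 : r ≠ 2) {s : OG Q} (hs : s ^ r = 1) : s ∈ Om Q := by
  haveI := Big.fd Q
  have h : ∀ f : OG Q →* ℤˣ, f s = 1 := fun f => by
    have := congrArg f hs
    rwa [map_pow, map_one, Int.units_pow_eq_pow_mod_two,
      Nat.odd_iff.1 (hr.out.odd_of_ne_two h2), pow_one] at this
  exact mem_Om_iff.2 ⟨h (dick hB.nd Big.good), h (spin hB.nd Big.good)⟩

theorem balG_ext (h2 : r ≠ 2) (hn : Even (finrank F V)) {γ : Gam Q} (hγ : γ.σ = 1)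
    (hl : γ * γ = scal Q γ.c) (hsq : ¬ IsSquare (γ.c : F))
    (hy : ∀ y : MulAut (POm Q), y ∈ (Phi Q).range) : BalG 2 (Phi Q γ) := by
  haveI := Big.fd Q
  haveI := Big.nontrivial Q
  haveI := finite_POm (Q := Q)
  have hF := two_ne_zero_of_char (F := F) r h2
  haveI : Fact (∀ x : F, x ^ 2 ≠ γ.c + 0 * x) :=
    ⟨fun x h => hsq ⟨x, by rw [← sq, h, zero_mul, add_zero]⟩⟩
  have hT : ∀ v, γ.T (γ.T v) = (γ.c : F) • v := fun v => congrArg (fun γ : Gam Q => γ.T v) hl
  have hp : ∀ g : Gam Q, g.σ = 1 → ∀ u v, polar Q (g.T u) (g.T v) = g.c * polar Q u v :=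
    fun g hg u v => by rw [g.polar, hg]; rfl
  obtain ⟨_, _, h⟩ := exists_extMod (T := (γ.lin hγ).toLinearMap) hT
  obtain ⟨Q', q1, q2, q3⟩ := exists_extForm (Q := Q) hF hT h fun u v =>
    mul_left_cancel₀ γ.c.ne_zero (by
      change _ * polar Q (γ.T u) v = _ * polar Q u (γ.T v)
      rw [← polar_sr, ← hT, hp γ hγ])
  simp only [LinearEquiv.coe_coe, Gam.lin_apply] at h q2
  set E := QuadraticAlgebra F (γ.c : F) 0
  haveI : Finite E := Module.finite_of_finite F
  haveI : CharP E r := charP_of_injective_algebraMap (algebraMap F E).injective r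
  haveI : FiniteDimensional E V := Module.Finite.of_restrictScalars_finite F E V
  have hd : 3 ≤ finrank E V := by
    have := Module.finrank_mul_finrank F E V
    rw [QuadraticAlgebra.finrank_eq_two] at this
    have := hB.five
    omega
  have hQ' : ND Q' := ND.of_forall fun u hu => hB.nd.eq_zero fun v => by rw [← q3, hu]; rfl
  let ι : OG Q' →* OG Q :=
    { toFun := fun t => ⟨t.1.restrictScalars F, fun v => by
        rw [← q1, ← q1, LinearEquiv.restrictScalars_apply, OG.map_Q]⟩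
      map_one' := rfl
      map_mul' := fun _ _ => rfl }
  have hω : ∀ v, γ.T v = (QuadraticAlgebra.omega : E) • v := fun v => by simp [h]
  have hι : ∀ t, ofOG Q (ι t) * γ = γ * ofOG Q (ι t) := fun t => Gam.ext hB.nd fun v => by
    change t.1 (γ.T v) = γ.T (t.1 v)
    rw [hω, hω, map_smul]
  have hs : ∀ u v, ι (sieg Q' u v) ^ r = 1 := fun u v => by
    rw [← map_pow, sieg_pow_char, map_one]
  let G := GO Q ⊓ centralizer {γ}
  have hG : ∀ (g : G) v, g.1.T (γ.T v) = γ.T (g.1.T v) := fun g v =>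
    congrArg (fun γ : Gam Q => γ.T v) (mem_centralizer_singleton_iff.1 g.2.2)
  let ρ : G →* Module.End E V :=
    { toFun := fun g =>
        { toFun := g.1.T
          map_add' := map_add _
          map_smul' := fun e v => by
            rw [h, RingHom.id_apply, h, map_add, Gam.smul_of_lin g.2.1, Gam.smul_of_lin g.2.1, hG] }
      map_one' := rfl
      map_mul' := fun _ _ => rfl }
  have hρ : ∀ (g : G) v, Q' (ρ g v) = algebraMap F E g.1.c * Q' v := fun g v => by
    change Q' (g.1.T v) = _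
    ext
    · simp [E, q1, Gam.mapQ_of_lin g.2.1]
    · simp [E, q2, ← hG, hp _ g.2.1, mul_left_comm]
  let Λ : LG (oGeo Q' r) G (MulAut (POm Q)) :=
    { ρ := ρ
      π := (Phi Q).comp G.subtype
      G₁ := (MulAut.conj : POm Q →* _).range.comap ((Phi Q).comp G.subtype)
      normal := inferInstance
      sim := fun g => ⟨_, by simp, hρ g⟩
      k1 := fun g h => by
        obtain ⟨a, ha⟩ := Phi_eq_one_iff.1 h
        exact ⟨algebraMap F E a, fun v => (congrArg (fun γ : Gam Q => γ.T v) ha).trans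
          (algebraMap_smul E (a : F) v).symm⟩
      k2 := fun g _ h => Phi_eq_one_iff.2 (eq_scal_of_T (c := 1) Big.nd fun v =>
        (LinearMap.congr_fun h v).trans (one_smul _ _).symm)
      root := by
        rintro a ha _ ⟨v, hv, rfl⟩
        exact ⟨⟨_, ofOG_mem_GO (ι (sieg Q' a v)), mem_centralizer_singleton_iff.2 (hι _)⟩,
          ⟨pmk Q ⟨_, mem_Om_of_pow r h2 (hs a v)⟩, (Phi_ofOG _).symm⟩, rfl⟩ }
  obtain ⟨u, v, x, h3, h4, -, h6⟩ := exists_sieg_data hQ' hd
  refine balG_inv r h2 hγ hl (fun y _ _ _ => hy y) (fun M h8 h9 g hg hc hm y => ?_)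
    (N := fun x => polar Q' v x • u - polar Q' u x • v)
    (N' := fun y => -(Q' v * polar Q' u y) • u) h6
    fun a => ⟨⟨_, mem_Om_of_pow r h2 (hs u (algebraMap F E a • v))⟩, Subtype.ext (hs _ _), hι _,
      fun y => (sieg_expand h3 h4 _ y).trans (by rw [← map_pow, algebraMap_smul, algebraMap_smul])⟩
  obtain ⟨e, he⟩ := Λ.o_two hQ' hd h2 h8 (g := ⟨g, hg, mem_centralizer_singleton_iff.2 hc⟩) (by
    rintro a ⟨k, hk⟩
    change Phi Q a.1 ∈ _
    change _ = Phi Q a.1 at hk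
    rw [← hk]
    refine h9 k (fix_of_commute center_POm ?_)
    rw [hk, ← map_mul, ← mem_centralizer_singleton_iff.1 a.2.2, map_mul]) hm
  exact (sq_eq_of_scal hQ' (hρ _) he y).trans (algebraMap_smul E _ y)

theorem mul_self_mem_Dg {γ : Gam Q} (hγ : γ.σ = 1) : γ * γ ∈ Dg Q := by
  haveI := Big.nontrivial Q
  obtain ⟨v, hv⟩ := hB.nd.exists_nonsing
  rcases mem_Dg_or hγ hv with h | h
  · exact mul_mem h h
  · have := mul_mem h ((Dg_normal (Q := Q)).conj_mem _ h (ofOG Q (refl Q v)))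
    rwa [mul_assoc, ← mul_assoc (ofOG Q _), ← mul_assoc (ofOG Q _),
      ← map_mul, refl_mul_self, map_one, one_mul, mul_inv_cancel_right] at this

theorem eq_two_of_not_mem_Dg {p : ℕ} (hp : p.Prime) {γ : Gam Q} (hγ : γ.σ = 1) (hD : γ ∉ Dg Q)
    (ho : orderOf (Phi Q γ) = p) : p = 2 := by
  by_contra h
  obtain ⟨k, hk⟩ := hp.odd_of_ne_two h
  obtain ⟨a, ha⟩ := Phi_eq_one_iff.1 (show Phi Q (γ ^ p) = 1 by
    rw [map_pow, ← ho, pow_orderOf_eq_one])
  have := ha ▸ scal_mem_Dg (Q := Q) a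
  rw [hk, pow_succ, pow_mul, sq] at this
  exact hD ((mul_mem_cancel_left (pow_mem (mul_self_mem_Dg hγ) k)).1 this)

/-- the three kinds of involutions induced by similarities -/
theorem inv_cases (h2 : r ≠ 2) (hn : Even (finrank F V)) {γ : Gam Q} (hγ : γ.σ = 1)
    (hD : γ ∉ Dg Q) (ho : orderOf (Phi Q γ) = 2) :
    (∃ s : OG Q, s * s = 1 ∧ dickF s ≠ 1 ∧ Phi Q γ = Phi Q (ofOG Q s)) ∨
      (γ * γ = scal Q γ.c ∧ ¬ IsSquare (γ.c : F)) := by
  haveI := Big.fd Q
  have hF := two_ne_zero_of_char (F := F) r h2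
  obtain ⟨l, hl⟩ := Phi_eq_one_iff.1 (show Phi Q (γ * γ) = 1 by
    rw [map_mul, ← sq, ← ho, pow_orderOf_eq_one])
  have h1 : (γ.c : F) ^ 2 = l ^ 2 := by
    have := Gam.mul_c γ γ
    rw [hl, hγ, scal_c] at this
    rw [sq]
    exact this.symm
  have hT : ∀ v, γ.T (γ.T v) = (l : F) • v := fun v => congrArg (fun γ : Gam Q => γ.T v) hl
  rcases sq_eq_sq_iff_eq_or_eq_neg.1 h1 with h | h
  · obtain rfl := Units.ext h
    by_cases hsq : IsSquare (γ.c : F)
    · obtain ⟨a, s, e⟩ := exists_scal_mul_ofOG hγ hsq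
      refine Or.inl ⟨s, ofOG_injective ?_, fun hd => hD (e ▸ (scal_mul_mem_Dg_iff hn).2 hd),
        by rw [e, map_mul, Phi_scal, one_mul]⟩
      have h3 : γ.c = a * a := by rw [e, Gam.mul_c_of_lin rfl, scal_c, ofOG_c, mul_one, sq]
      rwa [h3, e, mul_assoc, ← mul_assoc (ofOG Q s), scal_comm a rfl, mul_assoc, ← mul_assoc,
        ← map_mul, mul_eq_left, ← map_mul, ← map_one (ofOG Q)] at hl
    · exact Or.inr ⟨hl, hsq⟩
  · obtain ⟨m, hm⟩ := hn
    refine absurd ⟨hγ, fun _ => ⟨fun _ => ?_, fun h => absurd h hF⟩⟩ hD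
    rw [detG_eq hγ (γ.lin hγ).toLinearMap fun _ => rfl,
      det_of_skew hB.nd hF (m := m) (by omega) _ hT fun u v => mul_left_cancel₀ l.ne_zero (by
        change _ * polar Q (γ.T u) v = _ * -polar Q u (γ.T v)
        rw [← polar_sr, ← hT, γ.polar, hγ, h]; simp), h, show finrank F V / 2 = m by omega]

theorem balG_ograph {p : ℕ} [hp : Fact p.Prime] (hpr : p ≠ r) (hn : Even (finrank F V)) {γ : Gam Q}
    (hγ : γ.σ = 1) (hD : γ ∉ Dg Q) (ho : orderOf (Phi Q γ) = p)
    (hy : Function.Surjective (Phi Q)) : p = 2 ∧ BalG p (Phi Q γ) := by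
  obtain rfl := eq_two_of_not_mem_Dg hp.out hγ hD ho
  refine ⟨rfl, ?_⟩
  rcases inv_cases r hpr.symm hn hγ hD ho with ⟨s, h1, h2, e⟩ | ⟨h1, h2⟩
  · exact e ▸ balG_iso r hpr.symm hn h1 h2 fun y _ _ _ _ _ _ _ => hy y
  · exact balG_ext r hpr.symm hn hγ h1 h2 hy

end big

theorem aniso_of_odd [Finite F] {σ : F ≃+* F} (ho : Odd (orderOf σ)) {ζ : fixF σ}
    (h : Aniso 1 ζ) : Aniso (1 : F) ζ := by
  rw [aniso_one_iff] at h ⊢
  intro t ht
  have h1 : σ t ^ 2 + σ t + ζ = 0 := by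
    have := congrArg σ ht
    rwa [map_add, map_add, map_pow, mem_fixF.1 ζ.2, map_zero] at this
  have h2 : σ t = t ∨ σ t = -1 - t := by
    rw [← sub_eq_zero, ← sub_eq_zero (a := σ t) (b := -1 - t), ← mul_eq_zero]
    linear_combination h1 - ht
  have h3 : σ t = t := by
    refine h2.elim id fun h2 => ?_
    obtain ⟨k, hk⟩ := ho
    have h4 : ∀ j : ℕ, (σ ^ (2 * j)) t = t := fun j => by
      induction j with
      | zero => rfl
      | succ j ih =>
        rw [mul_add, pow_add, RingAut.mul_apply, mul_one, sq, RingAut.mul_apply, h2, map_sub, h2]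
        simpa using ih
    nth_rw 1 [← h4 k]
    rw [← RingAut.mul_apply, ← pow_succ', ← hk, pow_orderOf_eq_one, RingAut.one_apply]
  exact h ⟨t, mem_fixF.2 h3⟩ (Subtype.ext ht)

theorem fieldClass_minus [Finite F] {m : ℕ} {a b : F} (hab : Aniso a b) [hB : Big (QM m F a b)]
    {φ : Gam (QM m F a b)} (hφ : FT φ) (h1 : φ.σ ≠ 1) (ho : Odd (orderOf φ.σ)) :
    Cfsg.IsFieldAutClassPOmegaMinus m (PhiM (QM_coe m F a b) φ) := by
  obtain ⟨ζ, hζ⟩ := exists_aniso (F := fixF φ.σ)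
  have hab' := aniso_of_odd ho hζ
  haveI : Big (QM m F 1 ζ) := ⟨ND_QM hab', hB.five⟩
  have hb : φ.σ ζ = ζ := mem_fixF.1 ζ.2
  have hσ : ∀ v, QM m F 1 ζ (φ.σ.toRingHom ∘ v) = φ.σ.toRingHom (QM m F 1 ζ v) := fun v => by
    rw [← QM_comp]
    simp [hb]
  obtain ⟨e, he⟩ : Iso (QM m F a b) (QM m F 1 ζ) :=
    (((ND_QM (m := m) hab').classify_even (m := m + 1) (by simp; ring) hab).resolve_left
      fun h => not_iso_QP_QM (m := m + 1) (by omega) hab' h).2
  let θ : SIso (QM m F a b) (QM m F 1 ζ) := SIso.ofSim e one_ne_zero fun v => by rw [he, one_mul]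
  have h2 : (gconj θ φ).σ = φ.σ := RingEquiv.ext fun _ => rfl
  obtain ⟨D⟩ := desc_QM' (φ := gconj θ φ) (m := m)
    (by rw [FT, h2, ← map_pow, show φ ^ orderOf φ.σ = 1 from hφ, map_one]) _
    (fixF_spec φ.σ) (by simp; ring) (not_MTS_QM hab') hζ
  obtain ⟨D'⟩ := desc_QM' (m := m) (FT_frob φ.σ hσ) _ (fixF_spec φ.σ) (by simp; ring)
    (not_MTS_QM hab') hζ
  obtain ⟨g, -, hg⟩ := D.exists_conj D' h2
  refine ⟨1, ζ, (pomE (QM_coe m F a b)).trans (θ.pom.trans ((Phi _ g).trans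
    (pomE (QM_coe m F 1 ζ)).symm)), φ.σ, hab', h1, map_one _, hb,
    (isFieldAut_iff (QM_coe m F 1 ζ) _ hσ).2 (MulEquiv.ext fun y => ?_)⟩
  rw [← hg, PhiM_apply, map_mul, map_mul, MulAut.mul_apply, MulAut.mul_apply, Phi_gconj, map_inv]
  simp [pomE_PhiM]

end CfsgH7
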