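import Cfsg.Agent.H7.Bal1

set_option autoImplicit false

namespace CfsgH7

open Subgroup

/-- points and root transformations on a vector space -/
structure RGeo (K V : Type*) [Field K] [AddCommGroup V] [Module K V] where
  pt : V → Prop
  Sim : Module.End K V → Prop
  Rt : V → Submonoid (Module.End K V)
  N : ℕ
  N_ne : N ≠ 0
  pt_ne : ∀ {a}, pt a → a ≠ 0
  pt_smul : ∀ {a} {c : K}, pt a → c ≠ 0 → pt (c • a)
  pt_map : ∀ {T a}, Sim T → Function.Injective T → pt a → pt (T a)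
  sim_smul : ∀ {T} {c : K}, Sim T → c ≠ 0 → Sim (c • T)
  Rt_smul : ∀ {a t} {c : K}, pt a → c ≠ 0 → t ∈ Rt a → t ∈ Rt (c • a)
  Rt_conj : ∀ {T T' a t}, Sim T → T * T' = 1 → T' * T = 1 → pt a → t ∈ Rt a →
    T * t * T' ∈ Rt (T a)
  Rt_pow : ∀ {a t}, pt a → t ∈ Rt a → t ^ N = 1
  Rt_sim : ∀ {a t}, pt a → t ∈ Rt a → Sim t

namespace RGeo

variable {K V : Type*} [Field K] [AddCommGroup V] [Module K V] (X : RGeo K V)

theorem pt_pa {a b : V} (ha : X.pt a) (h : Pa K a b) : X.pt b := by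
  obtain ⟨c, hc, rfl⟩ := h
  exact X.pt_smul ha hc

theorem Rt_pa {a b : V} (ha : X.pt a) (h : Pa K a b) {t} (ht : t ∈ X.Rt a) : t ∈ X.Rt b := by
  obtain ⟨c, hc, rfl⟩ := h
  exact X.Rt_smul ha hc ht

theorem Rt_inj {a : V} {t} (ha : X.pt a) (ht : t ∈ X.Rt a) : Function.Injective t := by
  intro u v h
  obtain ⟨n, hn⟩ := Nat.exists_eq_succ_of_ne_zero X.N_ne
  have h1 := X.Rt_pow ha ht
  rw [hn, pow_succ] at h1
  have h2 : ∀ w, w = (t ^ n) (t w) := fun w => (LinearMap.congr_fun h1 w).symm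
  rw [h2 u, h2 v, h]

/-- the monoid generated by the root transformations at points of `S` -/
def LS (S : Set V) : Submonoid (Module.End K V) :=
  Submonoid.closure {t | ∃ a ∈ S, X.pt a ∧ t ∈ X.Rt a}

theorem mem_LS {S : Set V} {a : V} (h : a ∈ S) (ha : X.pt a) {t} (ht : t ∈ X.Rt a) :
    t ∈ X.LS S := Submonoid.subset_closure ⟨a, h, ha, ht⟩

theorem mem_L {a : V} (ha : X.pt a) {t} (ht : t ∈ X.Rt a) : t ∈ X.LS Set.univ :=
  X.mem_LS (Set.mem_univ a) ha ht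

theorem LS_mono {S S' : Set V} (h : S ⊆ S') : X.LS S ≤ X.LS S' :=
  Submonoid.closure_mono fun _ ⟨a, h1, h2⟩ => ⟨a, h h1, h2⟩

theorem LS_pt {S : Set V} {t} (ht : t ∈ X.LS S) {a : V} (ha : X.pt a) : X.pt (t a) := by
  induction ht using Submonoid.closure_induction generalizing a with
  | mem t ht =>
    obtain ⟨b, -, hb, ht⟩ := ht
    exact X.pt_map (X.Rt_sim hb ht) (X.Rt_inj hb ht) ha
  | one => exact ha
  | mul s t _ _ hs ht => exact hs (ht ha)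

structure Closed (S : Set V) : Prop where
  pt : ∀ a ∈ S, X.pt a
  pa : ∀ a ∈ S, ∀ b, Pa K a b → b ∈ S
  map : ∀ t ∈ X.LS Set.univ, ∀ a ∈ S, t a ∈ S → ∀ b ∈ S, t b ∈ S

theorem Closed.map' {X : RGeo K V} {S : Set V} (h : X.Closed S) {t} (ht : t ∈ X.LS Set.univ)
    {a b c : V} (ha : a ∈ S) (hb : b ∈ S) (h1 : Pa K (t a) a) (h2 : Pa K (t b) c) : c ∈ S :=
  h.pa _ (h.map t ht a ha (h.pa _ ha _ h1.symm) b hb) _ h2

def Swap (S : Set V) : Prop :=
  ∃ t ∈ X.LS S, ∃ a b, X.pt a ∧ ¬ Pa K a b ∧ Pa K (t a) b ∧ Pa K (t b) a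

def Prim : Prop := ∀ S, X.Closed S → ∀ a ∈ S, ∀ b ∈ S, ¬ Pa K a b → ∀ c, X.pt c → c ∈ S

def Tri : Prop := ∀ S, X.Closed S → ∀ a ∈ S, ∀ b ∈ S, ¬ Pa K a b → X.Swap S

theorem Prim.tri {X : RGeo K V} (h : X.Prim) (hs : X.Swap Set.univ) : X.Tri := by
  intro S hS a ha b hb hab
  obtain ⟨t, ht, h'⟩ := hs
  refine ⟨t, Submonoid.closure_mono ?_ ht, h'⟩
  rintro s ⟨c, -, hc, hs⟩
  exact ⟨c, h S hS a ha b hb hab c hc, hc, hs⟩

/-- an opposition relation on the points -/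
structure Opp (o : V → V → Prop) : Prop where
  symm : ∀ a b, o a b → o b a
  npa : ∀ a b, X.pt a → o a b → ¬ Pa K a b
  pa : ∀ a b c, o a b → Pa K b c → o a c
  map : ∀ t ∈ X.LS Set.univ, ∀ a b, X.pt a → X.pt b → o a b → o (t a) (t b)
  trans : ∀ c a b, X.pt c → X.pt a → X.pt b → o c a → o c b →
    ∃ t ∈ X.LS Set.univ, Pa K (t c) c ∧ Pa K (t a) b ∧
      ∀ W : Submodule K V, a ∈ W → b ∈ W → c ∈ W → ∀ v ∈ W, t v ∈ W

variable {X} {o : V → V → Prop}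

theorem Opp.prim (h : X.Opp o) (h2 : ∀ a b, X.pt a → X.pt b → ∃ c, X.pt c ∧ o c a ∧ o c b)
    (h3 : ∀ a b, X.pt a → X.pt b → ¬ Pa K a b → ¬ o a b →
      ∃ t ∈ X.LS Set.univ, Pa K (t a) a ∧ o b (t b)) : X.Prim := by
  intro S hS
  have key : ∀ a ∈ S, ∀ b ∈ S, o a b → ∀ c, X.pt c → o a c → c ∈ S := by
    intro a ha b hb hab c hc hac
    obtain ⟨t, ht, h4, h5, -⟩ := h.trans a b c (hS.pt a ha) (hS.pt b hb) hc hab hac
    exact hS.map' ht ha hb h4 h5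
  have key2 : ∀ a ∈ S, ∀ b ∈ S, o a b → ∀ c, X.pt c → c ∈ S := by
    intro a ha b hb hab c hc
    obtain ⟨d, hd, h4, h5⟩ := h2 a c (hS.pt a ha) hc
    exact key d (key a ha b hb hab d hd (h.symm _ _ h4)) a ha h4 c hc h5
  intro a ha b hb hab
  by_cases ho : o a b
  · exact key2 a ha b hb ho
  · obtain ⟨t, ht, h4, h5⟩ := h3 a b (hS.pt a ha) (hS.pt b hb) hab ho
    exact key2 b hb (t b) (hS.map' ht ha hb h4 (Pa.refl _)) h5

theorem Opp.swap (h : X.Opp o) (h2 : ∀ a b, X.pt a → X.pt b → ∃ c, X.pt c ∧ o c a ∧ o c b)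
    {a : V} (ha : X.pt a) : X.Swap Set.univ := by
  obtain ⟨b, hb, hba, -⟩ := h2 a a ha ha
  obtain ⟨c, hc, hca, hcb⟩ := h2 a b ha hb
  obtain ⟨t, ht, -, h4, -⟩ := h.trans c a b hc ha hb hca hcb
  have h5 : o b (t b) := h.symm _ _ (h.pa _ _ _ (h.map t ht b a hb ha hba) h4)
  obtain ⟨s, hs, h6, h7, -⟩ := h.trans b (t b) a hb (X.LS_pt ht hb) ha h5 hba
  exact ⟨s * t, mul_mem hs ht, a, b, ha, h.npa a b ha (h.symm _ _ hba),
    ((h4.map s).trans h6), h7⟩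

/-- a set of vectors on which an element of order `p` acts freely and the root transformations
act transitively up to scalars -/
def Cnt (X : RGeo K V) (p : ℕ) : Prop :=
  ∀ T, X.Sim T → T ^ p = 1 → T ≠ 1 → ∃ Y : Set V, Y.Nonempty ∧ (∀ v ∈ Y, T v ∈ Y ∧ T v ≠ v) ∧
    (∀ v ∈ Y, ∀ c : K, c ≠ 0 → c • v ∈ Y) ∧
    ∀ u ∈ Y, ∀ v ∈ Y, ∃ t ∈ X.LS Set.univ, Pa K (t u) v ∧ ∀ w ∈ Y, t w ∈ Y

/-- the moved space of an element of order prime to the characteristic -/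
theorem fix_eq_zero {T : Module.End K V} {p : ℕ} (hp : (p : K) ≠ 0) (hT : T ^ p = 1) {v : V}
    (hv : v ∈ LinearMap.range (T - 1)) (h : T v = v) : v = 0 := by
  obtain ⟨w, rfl⟩ := hv
  have h1 : ∀ k : ℕ, (T ^ k) w = w + (k : K) • (T - 1) w := by
    intro k
    induction k with
    | zero => simp
    | succ k ih =>
      rw [pow_succ', Module.End.mul_apply, ih, map_add, map_smul, h]
      simp only [LinearMap.sub_apply, Module.End.one_apply, Nat.cast_add, Nat.cast_one]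
      module
  have h2 := h1 p
  rw [hT, Module.End.one_apply, left_eq_add, smul_eq_zero] at h2
  exact h2.resolve_left hp

theorem range_map_mem (T : Module.End K V) {v : V} (hv : v ∈ LinearMap.range (T - 1)) :
    T v ∈ LinearMap.range (T - 1) := by
  obtain ⟨w, rfl⟩ := hv
  exact ⟨T w, by simp⟩

theorem dvd_card_of_free [Finite V] {T : Module.End K V} {p : ℕ} [Fact p.Prime] (hT : T ^ p = 1)
    {Y : Set V} (h1 : ∀ v ∈ Y, T v ∈ Y ∧ T v ≠ v) : p ∣ Nat.card Y := by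
  classical
  haveI := Fintype.ofFinite V
  let f : Function.End Y := fun v => ⟨T v, (h1 v v.2).1⟩
  have hf : f ^ p ^ 1 = 1 := by
    have h4 : ∀ (k : ℕ) (z : Y), ((f ^ k) z : V) = (T ^ k) z := by
      intro k
      induction k with
      | zero => intro z; rfl
      | succ k ih => intro z; rw [pow_succ, pow_succ]; exact ih (f z)
    funext z
    apply Subtype.ext
    rw [h4, pow_one, hT]; rfl
  have h4 := Equiv.Perm.card_fixedPoints_modEq hf
  haveI : IsEmpty (Function.fixedPoints f) := ⟨fun z => (h1 z.1 z.1.2).2 (congrArg Subtype.val z.2)⟩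
  rwa [Fintype.card_eq_zero (α := Function.fixedPoints f), Nat.modEq_zero_iff_dvd,
    ← Nat.card_eq_fintype_card] at h4

theorem dvd_pow_finrank [Finite K] [FiniteDimensional K V] {T : Module.End K V} {p : ℕ}
    [Fact p.Prime] (hp : (p : K) ≠ 0) (hT : T ^ p = 1) :
    p ∣ Nat.card K ^ Module.finrank K (LinearMap.range (T - 1)) - 1 := by
  haveI : Finite V := Module.finite_of_finite K
  have hinj : Function.Injective T := by
    intro u v huv
    obtain ⟨n, rfl⟩ := Nat.exists_eq_succ_of_ne_zero (Fact.out : p.Prime).ne_zero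
    rw [pow_succ] at hT
    have h2 : ∀ w, w = (T ^ n) (T w) := fun w => (LinearMap.congr_fun hT w).symm
    rw [h2 u, h2 v, huv]
  have := dvd_card_of_free hT (Y := (LinearMap.range (T - 1) : Set V) \ {0}) fun v hv =>
    ⟨⟨range_map_mem T hv.1, fun h => hv.2 (hinj (by rw [map_zero]; exact h))⟩,
      fun e => hv.2 (fix_eq_zero hp hT hv.1 e)⟩
  rwa [Nat.card_coe_set_eq, Set.ncard_sdiff_singleton_of_mem (Submodule.zero_mem _),
    ← Nat.card_coe_set_eq, SetLike.coe_sort_coe, Module.natCard_eq_pow_finrank (K := K)] at this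

theorem finrank_range_ne_zero [FiniteDimensional K V] {T : Module.End K V} (hT : T ≠ 1) :
    Module.finrank K (LinearMap.range (T - 1)) ≠ 0 := fun h =>
  hT (sub_eq_zero.1 (LinearMap.range_eq_bot.1 (Submodule.finrank_eq_zero.1 h)))

theorem Opp.cnt (h : X.Opp o) {p : ℕ} (hp : (p : K) ≠ 0) (hp0 : p ≠ 0)
    (h2 : ∀ T, X.Sim T → T ^ p = 1 → T ≠ 1 → (∃ a ∈ LinearMap.range (T - 1), X.pt a) ∧
      ∀ a ∈ LinearMap.range (T - 1), ∀ b ∈ LinearMap.range (T - 1), X.pt a → X.pt b →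
        ∃ c ∈ LinearMap.range (T - 1), X.pt c ∧ o c a ∧ o c b) : X.Cnt p := by
  intro T hT hTp hT1
  obtain ⟨⟨a, ha, hpa⟩, h3⟩ := h2 T hT hTp hT1
  have hinj : Function.Injective T := by
    intro u v huv
    obtain ⟨n, rfl⟩ := Nat.exists_eq_succ_of_ne_zero hp0
    rw [pow_succ] at hTp
    have h2 : ∀ w, w = (T ^ n) (T w) := fun w => (LinearMap.congr_fun hTp w).symm
    rw [h2 u, h2 v, huv]
  refine ⟨{v | v ∈ LinearMap.range (T - 1) ∧ X.pt v}, ⟨a, ha, hpa⟩, fun v hv =>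
    ⟨⟨range_map_mem T hv.1, X.pt_map hT hinj hv.2⟩,
      fun e => X.pt_ne hv.2 (fix_eq_zero hp hTp hv.1 e)⟩,
    fun v hv c hc => ⟨Submodule.smul_mem _ _ hv.1, X.pt_smul hv.2 hc⟩, fun u hu v hv => ?_⟩
  obtain ⟨c, hc, hpc, h4, h5⟩ := h3 u hu.1 v hv.1 hu.2 hv.2
  obtain ⟨t, ht, -, h6, h7⟩ := h.trans c u v hpc hu.2 hv.2 h4 h5
  exact ⟨t, ht, h6, fun w hw => ⟨h7 _ hu.1 hv.1 hc w hw.1, X.LS_pt ht hw.2⟩⟩

/-- the root transformations induce the elementary matrices over `F₀` on a plane -/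
def Shear (X : RGeo K V) (F₀ : Type*) [Field F₀] : Prop :=
  ∃ (ε : F₀ →+* K) (a b : V), (∀ s t : K, s • a + t • b = 0 → s = 0 ∧ t = 0) ∧
    (∀ s : F₀, ∃ t ∈ X.LS Set.univ, t a = a ∧ t b = b + ε s • a) ∧
    ∀ s : F₀, ∃ t ∈ X.LS Set.univ, t b = b ∧ t a = a + ε s • b

end RGeo

theorem exists_mem_orderOf {A : Type*} [Group A] {S : Subgroup A} [Finite S] {p : ℕ} [Fact p.Prime]
    (h : p ∣ Nat.card S) : ∃ g ∈ S, orderOf g = p := by
  obtain ⟨g, hg⟩ := exists_prime_orderOf_dvd_card' p h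
  exact ⟨g, g.2, by rwa [Subgroup.orderOf_coe]⟩

theorem card_SL_two (F : Type*) [Field F] [Fintype F] :
    Fintype.card F ^ 2 - 1 ∣ Nat.card (Matrix.SpecialLinearGroup (Fin 2) F) := by
  classical
  have h1 := Subgroup.card_eq_card_quotient_mul_card_subgroup
    (Matrix.GeneralLinearGroup.det : GL (Fin 2) F →* Fˣ).ker
  have hs : Function.Surjective (Matrix.GeneralLinearGroup.det : GL (Fin 2) F →* Fˣ) := by
    intro u
    refine ⟨Matrix.GeneralLinearGroup.mkOfDetNeZero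
      (Matrix.diagonal (Function.update 1 0 (u : F))) ?_, ?_⟩
    · rw [Matrix.det_diagonal, Finset.prod_update_of_mem (Finset.mem_univ _)]; simp
    · ext; simp [Matrix.det_diagonal, Finset.prod_update_of_mem]
  rw [Nat.card_congr (QuotientGroup.quotientKerEquivOfSurjective _ hs).toEquiv,
    Nat.card_units, Nat.card_eq_fintype_card (α := F), Matrix.card_GL_field] at h1
  have h2 : Nat.card (Matrix.SpecialLinearGroup (Fin 2) F) =
      Nat.card (Matrix.GeneralLinearGroup.det : GL (Fin 2) F →* Fˣ).ker := by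
    refine Nat.card_congr (Equiv.ofBijective (fun A => ⟨Matrix.SpecialLinearGroup.toGL A, by
      ext; simp⟩) ⟨fun a b h => Matrix.SpecialLinearGroup.toGL_injective (congrArg Subtype.val h),
        ?_⟩)
    rintro ⟨A, hA⟩
    exact ⟨⟨A, by simpa using congrArg Units.val hA⟩, Subtype.ext (Units.ext rfl)⟩
  rw [← h2, Fin.prod_univ_two] at h1
  have h3 : 1 < Fintype.card F := Fintype.one_lt_card
  refine ⟨Fintype.card F, Nat.eq_of_mul_eq_mul_left (show 0 < Fintype.card F - 1 by omega) ?_⟩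
  rw [← h1]
  generalize Fintype.card F = q at h3
  obtain ⟨k, rfl⟩ := Nat.exists_eq_add_of_lt h3
  have e1 : (1 + k + 1) ^ 2 - (1 + k + 1) ^ ((1 : Fin 2) : ℕ) = (1 + k) * (1 + k + 1) := by
    rw [Nat.sub_eq_of_eq_add]; simp; ring
  rw [e1]
  simp
  ring

/-- a group acting by similarities on a geometry, with an image `π` which contains the root
transformations -/
structure LG {K V : Type*} [Field K] [AddCommGroup V] [Module K V] (X : RGeo K V) (G H : Type*)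
    [Group G] [Group H] where
  ρ : G →* Module.End K V
  π : G →* H
  G₁ : Subgroup G
  normal : G₁.Normal
  sim : ∀ g, X.Sim (ρ g)
  k1 : ∀ g, π g = 1 → ∃ c : K, ∀ v, ρ g v = c • v
  k2 : ∀ g ∈ G₁, ρ g = 1 → π g = 1
  root : ∀ a, X.pt a → ∀ t ∈ X.Rt a, ∃ g ∈ G₁, ρ g = t

namespace LG

variable {K V : Type*} [Field K] [AddCommGroup V] [Module K V] {X : RGeo K V} {G H : Type*}
  [Group G] [Group H] (Λ : LG X G H)

theorem ρ_mul (g h : G) (v : V) : Λ.ρ (g * h) v = Λ.ρ g (Λ.ρ h v) := by rw [map_mul]; rfl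

@[simp] theorem ρ_inv_apply (g : G) (v : V) : Λ.ρ g⁻¹ (Λ.ρ g v) = v := by
  rw [← ρ_mul, inv_mul_cancel, map_one]; rfl

@[simp] theorem ρ_apply_inv (g : G) (v : V) : Λ.ρ g (Λ.ρ g⁻¹ v) = v := by
  rw [← ρ_mul, mul_inv_cancel, map_one]; rfl

theorem ρ_inj (g : G) : Function.Injective (Λ.ρ g) := fun u v h => by
  rw [← Λ.ρ_inv_apply g u, h, ρ_inv_apply]

theorem pt_ρ (g : G) {a : V} (ha : X.pt a) : X.pt (Λ.ρ g a) := X.pt_map (Λ.sim g) (Λ.ρ_inj g) ha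

def RS (S : Set V) : Subgroup G :=
  closure {g | g ∈ Λ.G₁ ∧ ∃ a ∈ S, X.pt a ∧ Λ.ρ g ∈ X.Rt a}

theorem RS_le (S : Set V) : Λ.RS S ≤ Λ.G₁ := (closure_le _).2 fun _ h => h.1

theorem lift {S : Set V} {t} (ht : t ∈ X.LS S) : ∃ g ∈ Λ.RS S, Λ.ρ g = t := by
  induction ht using Submonoid.closure_induction with
  | mem t ht =>
    obtain ⟨a, h1, h2, h3⟩ := ht
    obtain ⟨g, hg, rfl⟩ := Λ.root a h2 t h3
    exact ⟨g, subset_closure ⟨hg, a, h1, h2, h3⟩, rfl⟩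
  | one => exact ⟨1, one_mem _, map_one _⟩
  | mul s t _ _ hs ht =>
    obtain ⟨g, hg, rfl⟩ := hs
    obtain ⟨h, hh, rfl⟩ := ht
    exact ⟨g * h, mul_mem hg hh, map_mul _ _ _⟩

theorem mem_Rt_of_RS {a : V} (ha : X.pt a) {g : G} (hg : g ∈ Λ.RS {a}) : Λ.ρ g ∈ X.Rt a := by
  induction hg using Subgroup.closure_induction with
  | mem g hg =>
    obtain ⟨-, b, rfl, -, h⟩ := hg
    exact h
  | one => rw [map_one]; exact one_mem _
  | mul g h _ _ hg hh => rw [map_mul]; exact mul_mem hg hh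
  | inv g _ hg =>
    obtain ⟨n, hn⟩ := Nat.exists_eq_succ_of_ne_zero X.N_ne
    have h1 := X.Rt_pow ha hg
    rw [hn, pow_succ] at h1
    have : Λ.ρ g⁻¹ = Λ.ρ g ^ n := by
      rw [← one_mul (Λ.ρ g⁻¹), ← h1, mul_assoc, ← map_mul, mul_inv_cancel, map_one, mul_one]
    rw [this]
    exact pow_mem hg n

variable [Finite H] {p : ℕ} [hp : Fact p.Prime]

theorem coprime_R (hN : p.Coprime X.N) {a : V} (ha : X.pt a) :
    (Nat.card ((Λ.RS {a}).map Λ.π)).Coprime p := by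
  rw [Nat.coprime_comm, Nat.Prime.coprime_iff_not_dvd hp.out]
  intro h
  obtain ⟨_, ⟨g, hg, rfl⟩, h1⟩ := exists_mem_orderOf h
  have h2 : Λ.π g ^ X.N = 1 := by
    rw [← map_pow]
    exact Λ.k2 _ (pow_mem (Λ.RS_le _ hg) _)
      (by rw [map_pow]; exact X.Rt_pow ha (Λ.mem_Rt_of_RS ha hg))
  have := orderOf_dvd_of_pow_eq_one h2
  rw [h1] at this
  exact hp.out.ne_one (hN.eq_one_of_dvd this)

theorem fix (hN : p.Coprime X.N) {M : Subgroup H} (hM : (Nat.card M).Coprime p)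
    (hn : ∀ g ∈ Λ.G₁, Λ.π g ∈ normalizer (M : Set H))
    (hkey : ∀ S, X.Closed S → ∀ a ∈ S, ∀ b ∈ S, ¬ Pa K a b → p ∣ Nat.card ((Λ.RS S).map Λ.π))
    {g : G} (hg : Λ.π g ∈ M) {a : V} (ha : X.pt a) : Pa K a (Λ.ρ g a) := by
  by_contra hab
  let S : Set V := {b | ∃ g, Λ.π g ∈ M ∧ Pa K (Λ.ρ g a) b}
  have hS : X.Closed S := by
    refine ⟨fun b ⟨g, _, h⟩ => X.pt_pa (Λ.pt_ρ g ha) h, fun b ⟨g, h1, h⟩ c h2 => ⟨g, h1, h.trans h2⟩,
      fun t ht a₁ ⟨g₁, h1, h2⟩ ⟨g₂, h3, h4⟩ b ⟨g₃, h5, h6⟩ => ?_⟩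
    obtain ⟨l, hl, rfl⟩ := Λ.lift ht
    refine ⟨l * (g₃ * g₁⁻¹) * l⁻¹ * g₂, ?_, ?_⟩
    · simp only [map_mul, map_inv]
      exact mul_mem ((mem_normalizer_iff.1 (hn l (Λ.RS_le _ hl)) _).1 (mul_mem h5 (inv_mem h1))) h3
    · have h7 := (h4.trans (h2.map (Λ.ρ l)).symm).map (Λ.ρ (l * (g₃ * g₁⁻¹) * l⁻¹))
      rw [Λ.ρ_mul]
      refine h7.trans ?_
      simp only [ρ_mul, ρ_inv_apply]
      exact h6.map _
  have h1 := hkey S hS a ⟨1, by simp, by simpa using Pa.refl _⟩ (Λ.ρ g a) ⟨g, hg, Pa.refl _⟩ hab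
  have h2 : (Λ.RS S).map Λ.π ≤ (Λ.RS {a}).map Λ.π ⊔ M := by
    rw [map_le_iff_le_comap, RS, closure_le]
    rintro h ⟨h3, w, ⟨k, h4, h5⟩, h6, h7⟩
    have h8 : k⁻¹ * h * k ∈ Λ.RS {a} := by
      refine subset_closure ⟨by simpa using Λ.normal.conj_mem h h3 k⁻¹, a, rfl, ha, ?_⟩
      have := X.Rt_conj (Λ.sim k⁻¹) (T' := Λ.ρ k) (by rw [← map_mul, inv_mul_cancel, map_one])
        (by rw [← map_mul, mul_inv_cancel, map_one]) (Λ.pt_ρ k ha) (X.Rt_pa h6 h5.symm h7)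
      rwa [ρ_inv_apply, ← map_mul, ← map_mul] at this
    have h9 : Λ.π h = Λ.π k * Λ.π (k⁻¹ * h * k) * (Λ.π k)⁻¹ := by simp [mul_assoc]
    rw [SetLike.mem_coe, mem_comap, h9]
    exact mul_mem (mul_mem (mem_sup_right h4) (mem_sup_left ⟨_, h8, rfl⟩))
      (inv_mem (mem_sup_right h4))
  have h3 := (h1.trans (card_dvd_of_le h2)).trans (CfsgL0.card_sup_dvd_of_le_normalizer
    (by rintro _ ⟨l, hl, rfl⟩; exact hn l (Λ.RS_le _ hl)))
  exact hp.out.ne_one (((Λ.coprime_R hN ha).mul_left hM).symm.eq_one_of_dvd h3)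

omit hp in
theorem scalar_pow {S : Set V} {g : G} (hg : g ∈ Λ.RS S) :
    ∃ c : K, ∀ v, (Λ.ρ g ^ Nat.card ((Λ.RS S).map Λ.π)) v = c • v := by
  rw [← map_pow]
  refine Λ.k1 _ ?_
  rw [map_pow]
  exact congrArg Subtype.val (pow_card_eq_one' (G := (Λ.RS S).map Λ.π) (x := ⟨_, g, hg, rfl⟩))

omit hp in
theorem two_dvd {S : Set V} (h : X.Swap S) : 2 ∣ Nat.card ((Λ.RS S).map Λ.π) := by
  obtain ⟨t, ht, a, b, ha, hab, h1, h2⟩ := h
  obtain ⟨g, hg, rfl⟩ := Λ.lift ht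
  obtain ⟨c, hc⟩ := Λ.scalar_pow hg
  by_contra h
  obtain ⟨k, hk⟩ := Nat.odd_iff.2 (Nat.two_dvd_ne_zero.1 h)
  have h3 : ∀ j : ℕ, Pa K ((Λ.ρ g ^ (2 * j + 1)) a) b := by
    intro j
    induction j with
    | zero => simpa using h1
    | succ j ih =>
      rw [show 2 * (j + 1) + 1 = (2 * j + 1) + 1 + 1 by ring, pow_succ', pow_succ']
      exact (((ih.map _).trans h2).map _).trans h1
  have h4 := h3 k
  rw [← hk, hc] at h4
  refine hab (Pa.trans ⟨c, fun h0 => ?_, rfl⟩ h4)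
  have h5 := hc a
  rw [h0, zero_smul, ← map_pow] at h5
  exact X.pt_ne (Λ.pt_ρ _ ha) h5

theorem dvd_of_shear {F₀ : Type*} [Field F₀] [Fintype F₀] (h : X.Shear F₀) (hp2 : p ≠ 2)
    (hd : p ∣ Fintype.card F₀ ^ 2 - 1) : p ∣ Nat.card ((Λ.RS Set.univ).map Λ.π) := by
  classical
  obtain ⟨ε, a, b, hab, h1, h2⟩ := h
  obtain ⟨A, hA⟩ := exists_prime_orderOf_dvd_card' p (hd.trans (card_SL_two F₀))
  let P : Matrix.SpecialLinearGroup (Fin 2) F₀ → Module.End K V → Prop := fun A t =>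
    t a = ε (A 0 0) • a + ε (A 1 0) • b ∧ t b = ε (A 0 1) • a + ε (A 1 1) • b
  have hmul : ∀ A B s t, P A s → P B t → P (A * B) (s * t) := by
    rintro A B s t ⟨h3, h4⟩ ⟨h5, h6⟩
    simp only [P, Module.End.mul_apply, h5, h6, map_add, map_smul, h3, h4,
      Matrix.SpecialLinearGroup.coe_mul, Matrix.mul_apply, Fin.sum_univ_two, map_mul]
    constructor <;> module
  have h3 : ∃ t ∈ X.LS Set.univ, P A t := by
    refine SL_induction (fun A => ∃ t ∈ X.LS Set.univ, P A t) (fun i j hij s => ?_)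
      (fun A B ⟨s, hs, h3⟩ ⟨t, ht, h4⟩ => ⟨s * t, mul_mem hs ht, hmul _ _ _ _ h3 h4⟩) A
    fin_cases i <;> fin_cases j
    · exact absurd rfl hij
    · obtain ⟨t, ht, h3, h4⟩ := h1 s
      exact ⟨t, ht, by simp [h3, Matrix.SpecialLinearGroup.transvection, Matrix.transvection],
        by simp [h4, Matrix.SpecialLinearGroup.transvection, Matrix.transvection, add_comm]⟩
    · obtain ⟨t, ht, h3, h4⟩ := h2 s
      exact ⟨t, ht, by simp [h4, Matrix.SpecialLinearGroup.transvection, Matrix.transvection],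
        by simp [h3, Matrix.SpecialLinearGroup.transvection, Matrix.transvection]⟩
    · exact absurd rfl hij
  obtain ⟨t, ht, h3⟩ := h3
  obtain ⟨g, hg, rfl⟩ := Λ.lift ht
  obtain ⟨c, hc⟩ := Λ.scalar_pow hg
  have h4 : ∀ k : ℕ, P (A ^ k) (Λ.ρ g ^ k) := by
    intro k
    induction k with
    | zero => simp [P]
    | succ k ih => rw [pow_succ, pow_succ]; exact hmul _ _ _ _ ih h3
  generalize Nat.card ((Λ.RS Set.univ).map Λ.π) = n at hc ⊢
  obtain ⟨h5, h6⟩ := h4 n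
  rw [hc] at h5 h6
  obtain ⟨e1, e2⟩ := hab (ε ((A ^ n) 0 0) - c) (ε ((A ^ n) 1 0))
    (by rw [sub_smul, h5]; abel)
  obtain ⟨e3, e4⟩ := hab (ε ((A ^ n) 0 1)) (ε ((A ^ n) 1 1) - c)
    (by rw [sub_smul, h6]; abel)
  have e5 : (A ^ n) 0 0 = (A ^ n) 1 1 := ε.injective (by rw [sub_eq_zero.1 e1, sub_eq_zero.1 e4])
  rw [map_eq_zero] at e2 e3
  have e6 := (A ^ n).det_coe
  rw [Matrix.det_fin_two, e2, mul_zero, sub_zero] at e6
  have e7 : (A ^ n) * (A ^ n) = 1 := by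
    ext i j
    fin_cases i <;> fin_cases j <;>
      simp only [Matrix.SpecialLinearGroup.coe_mul, Matrix.mul_apply, Fin.sum_univ_two] <;>
      simp [-Matrix.SpecialLinearGroup.coe_pow, e2, e3, e5] <;> rwa [e5] at e6
  rw [← pow_add, ← two_mul, ← orderOf_dvd_iff_pow_eq_one, hA] at e7
  exact ((Nat.coprime_primes hp.out Nat.prime_two).2 hp2).dvd_of_dvd_mul_left e7

theorem dvd_of_cnt [Finite K] [Finite V] (h : X.Cnt p) (hK : ¬ p ∣ Nat.card K - 1) {g : G}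
    (hg : orderOf (Λ.π g) = p) (hs : ∀ c : K, (∀ v, Λ.ρ g v = c • v) → Λ.π g = 1) :
    p ∣ Nat.card ((Λ.RS Set.univ).map Λ.π) := by
  classical
  by_contra hL
  have hg1 : Λ.π g ≠ 1 := fun e => hp.out.ne_one (by rw [← hg, e, orderOf_one])
  haveI : Nontrivial V := by
    by_contra hV
    rw [not_nontrivial_iff_subsingleton] at hV
    exact hg1 (hs 1 fun v => Subsingleton.elim _ _)
  obtain ⟨c, hc⟩ := Λ.k1 (g ^ p) (by rw [map_pow, ← hg, pow_orderOf_eq_one])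
  have hc0 : c ≠ 0 := by
    rintro rfl
    obtain ⟨v, hv⟩ := exists_ne (0 : V)
    exact hv (Λ.ρ_inj (g ^ p) (by rw [hc, zero_smul, map_zero]))
  have hcop : (Nat.card Kˣ).Coprime p := by
    rw [Nat.card_units, Nat.coprime_comm]
    exact (Nat.Prime.coprime_iff_not_dvd hp.out).2 hK
  obtain ⟨μ, hμ⟩ := (powCoprime hcop).surjective (Units.mk0 c hc0)⁻¹
  have hμ' : (μ : K) ^ p * c = 1 := by
    have := congrArg Units.val hμ
    simp only [powCoprime_apply, Units.val_pow_eq_pow_val, Units.val_inv_eq_inv_val,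
      Units.val_mk0] at this
    rw [this, inv_mul_cancel₀ hc0]
  obtain ⟨Y, ⟨y, hy⟩, h1, h2, h3⟩ := h ((μ : K) • Λ.ρ g) (X.sim_smul (Λ.sim g) μ.ne_zero)
    (by
      ext v
      rw [smul_pow, ← map_pow, LinearMap.smul_apply, hc, smul_smul, hμ', one_smul]; rfl)
    (fun e => hg1 (hs (μ⁻¹ : Kˣ) fun v => by
      have := LinearMap.congr_fun e v
      rw [LinearMap.smul_apply, Module.End.one_apply] at this
      conv_rhs => rw [← this]
      rw [smul_smul, Units.inv_mul, one_smul]))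
  have hT : ((μ : K) • Λ.ρ g) ^ p = 1 := by
    ext v
    rw [smul_pow, ← map_pow, LinearMap.smul_apply, hc, smul_smul, hμ', one_smul]; rfl
  generalize (μ : K) • Λ.ρ g = T at h1 hT
  -- `p` divides the size of `Y`
  have h4 := RGeo.dvd_card_of_free hT h1
  -- the transitive group
  let Γ₀ : Submonoid (Equiv.Perm V) :=
    { carrier := {γ | (∃ c : K, c ≠ 0 ∧ ∃ l ∈ Λ.RS Set.univ, ∀ v, γ v = c • Λ.ρ l v) ∧
        ∀ v ∈ Y, γ v ∈ Y}
      one_mem' := ⟨⟨1, one_ne_zero, 1, one_mem _, by simp⟩, fun _ h => h⟩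
      mul_mem' := by
        rintro γ δ ⟨⟨c, hc, l, hl, e⟩, h5⟩ ⟨⟨c', hc', l', hl', e'⟩, h6⟩
        exact ⟨⟨c * c', mul_ne_zero hc hc', l * l', mul_mem hl hl', fun v => by
          rw [Equiv.Perm.mul_apply, e, e', map_smul, smul_smul, ρ_mul]⟩,
          fun v hv => h5 _ (h6 _ hv)⟩ }
  let Γ : Subgroup (Equiv.Perm V) :=
    { Γ₀ with
      inv_mem' := fun {γ} hγ => (Submonoid.powers_le.2 hγ : Submonoid.powers γ ≤ Γ₀)
        (mem_powers_iff_mem_zpowers.2 (inv_mem (mem_zpowers γ))) }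
  have h5 : MulAction.orbit Γ y = Y := by
    ext v
    refine ⟨by rintro ⟨γ, rfl⟩; exact γ.2.2 y hy, fun hv => ?_⟩
    obtain ⟨t, ht, ⟨c, hc, e⟩, h6⟩ := h3 y hy v hv
    obtain ⟨l, hl, rfl⟩ := Λ.lift ht
    refine ⟨⟨Equiv.ofBijective (fun v => c • Λ.ρ l v) (Finite.injective_iff_bijective.1
      fun u w e => Λ.ρ_inj l (smul_right_injective V hc e)), ⟨c, hc, l, hl, fun _ => rfl⟩,
      fun w hw => h2 _ (h6 w hw) c hc⟩, e.symm⟩
  have h6 : p ∣ Nat.card Γ := by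
    rw [← Subgroup.index_mul_card (MulAction.stabilizer Γ y), MulAction.index_stabilizer, h5]
    refine Dvd.dvd.mul_right ?_ _
    rwa [← Nat.card_coe_set_eq]
  obtain ⟨γ, ⟨⟨c, hc, l, hl, e⟩, hγY⟩, h7⟩ := exists_mem_orderOf h6
  obtain ⟨d, hd⟩ := Λ.scalar_pow hl
  have h8 : ∀ (k : ℕ) v, (γ ^ k) v = c ^ k • (Λ.ρ l ^ k) v := by
    intro k
    induction k with
    | zero => intro v; simp
    | succ k ih => intro v; rw [pow_succ, Equiv.Perm.mul_apply, ih, e, map_smul, smul_smul,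
        ← pow_succ, pow_succ (Λ.ρ l), Module.End.mul_apply]
  generalize Nat.card ((Λ.RS Set.univ).map Λ.π) = n at hd hL
  have h9 : ∀ (k : ℕ) v, ((γ ^ n) ^ k) v = (c ^ n * d) ^ k • v := by
    intro k
    induction k with
    | zero => intro v; simp
    | succ k ih => intro v; rw [pow_succ, Equiv.Perm.mul_apply, ih, h8, hd, smul_smul, smul_smul,
        pow_succ, mul_assoc]
  have h10 : c ^ n * d ≠ 0 := by
    intro h0
    obtain ⟨v, hv⟩ := exists_ne (0 : V)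
    exact hv ((γ ^ n).injective (by
      have e1 := h9 1 v
      have e2 := h9 1 0
      rw [pow_one, pow_one, h0, zero_smul] at e1 e2
      rw [e1, e2]))
  have h11 : (γ ^ n) ^ Nat.card Kˣ = 1 := by
    ext v
    have := congrArg Units.val (pow_card_eq_one' (x := Units.mk0 _ h10))
    rw [Units.val_pow_eq_pow_val, Units.val_mk0, Units.val_one] at this
    rw [h9, this, one_smul]; rfl
  rw [← pow_mul, ← orderOf_dvd_iff_pow_eq_one, h7] at h11
  exact hL (hcop.symm.dvd_of_dvd_mul_right h11)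

omit hp in
theorem fix_two (hN : Nat.Coprime 2 X.N) (h : X.Tri) {M : Subgroup H} (hM : (Nat.card M).Coprime 2)
    (hn : ∀ g ∈ Λ.G₁, Λ.π g ∈ normalizer (M : Set H)) {g : G} (hg : Λ.π g ∈ M) {a : V}
    (ha : X.pt a) : Pa K a (Λ.ρ g a) :=
  Λ.fix hN hM hn (fun S hS a ha b hb hab => Λ.two_dvd (h S hS a ha b hb hab)) hg ha

theorem fix_prim (hN : p.Coprime X.N) (h : X.Prim) (hd : p ∣ Nat.card ((Λ.RS Set.univ).map Λ.π))
    {M : Subgroup H} (hM : (Nat.card M).Coprime p)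
    (hn : ∀ g ∈ Λ.G₁, Λ.π g ∈ normalizer (M : Set H)) {g : G} (hg : Λ.π g ∈ M) {a : V}
    (ha : X.pt a) : Pa K a (Λ.ρ g a) :=
  Λ.fix hN hM hn (fun S hS a ha b hb hab => hd.trans (card_dvd_of_le (map_mono (closure_mono
    fun _ ⟨h1, c, _, h2, h3⟩ => ⟨h1, c, h S hS a ha b hb hab c h2, h2, h3⟩)))) hg ha

/-- the prime `p` divides the order of the group generated by the root transformations -/
theorem dvd_L [Finite K] [Finite V] {F₀ : Type*} [Field F₀] [Fintype F₀] (h1 : X.Swap Set.univ)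
    (h2 : X.Shear F₀)
    (h3 : ¬ p ∣ Fintype.card F₀ ^ 2 - 1 → X.Cnt p ∧ ¬ p ∣ Nat.card K - 1)
    (hs : ∀ g (c : K), (∀ v, Λ.ρ g v = c • v) → Λ.π g = 1) (hd : p ∣ Nat.card Λ.π.range) :
    p ∣ Nat.card ((Λ.RS Set.univ).map Λ.π) := by
  by_cases hp2 : p = 2
  · rw [hp2]; exact Λ.two_dvd h1
  by_cases h4 : p ∣ Fintype.card F₀ ^ 2 - 1
  · exact Λ.dvd_of_shear h2 hp2 h4
  obtain ⟨_, ⟨g, rfl⟩, hg⟩ := exists_mem_orderOf hd
  exact Λ.dvd_of_cnt (h3 h4).1 (h3 h4).2 hg (hs g)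

omit hp in
theorem exists_ne_one (h : X.Swap Set.univ) : ∃ g ∈ Λ.G₁, Λ.π g ≠ 1 := by
  by_contra h1
  push Not at h1
  have h2 := Λ.two_dvd h
  rw [(Subgroup.map_eq_bot_iff _).2 fun g hg => h1 g (Λ.RS_le _ hg)] at h2
  simp at h2

end LG

end CfsgH7
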