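import Cfsg.Agent.H7.Bal2
import Cfsg.Agent.H8.MaxTS
import Cfsg.Agent.H8.Root

set_option autoImplicit false

namespace CfsgH7

open CfsgH8 hiding map_mul map_one
open QuadraticMap hiding map_add map_sub map_smul map_zero map_neg sq
open Module Subgroup

variable {K V : Type*} [Field K] [AddCommGroup V] [Module K V]

theorem polar_simE {Q : QuadraticForm K V} {T : Module.End K V} {c : K}
    (h : ∀ v, Q (T v) = c * Q v) (u v : V) : polar Q (T u) (T v) = c * polar Q u v :=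
  polar_congr T h u v

/-- singular points and Siegel transformations -/
noncomputable def oGeo (Q : QuadraticForm K V) (r : ℕ) [hr : Fact r.Prime] [CharP K r] :
    RGeo K V where
  pt a := a ≠ 0 ∧ Q a = 0
  Sim T := ∃ c : K, c ≠ 0 ∧ ∀ v, Q (T v) = c * Q v
  Rt a :=
    { carrier := {t | ∃ v, polar Q a v = 0 ∧ t = (sieg Q a v).1.toLinearMap}
      one_mem' := ⟨0, by simp, by rw [sieg_zero]; rfl⟩
      mul_mem' := by
        rintro _ _ ⟨v, hv, rfl⟩ ⟨w, hw, rfl⟩
        refine ⟨v + w, by simp [hv, hw], ?_⟩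
        by_cases hu : Q a = 0
        · rw [sieg_add hu hv hw]; rfl
        · simp only [sieg_of_not (fun h => hu h.1)]; rfl }
  N := r
  N_ne := hr.out.ne_zero
  pt_ne h := h.1
  pt_smul h hc := ⟨smul_ne_zero hc h.1, by rw [Q_smul, h.2, mul_zero]⟩
  pt_map := fun ⟨c, _, h⟩ hi ha => ⟨fun e => ha.1 (hi (by rw [e, map_zero])), by
    rw [h, ha.2, mul_zero]⟩
  sim_smul := fun {T d} ⟨c, hc, h⟩ hd => ⟨d ^ 2 * c, mul_ne_zero (pow_ne_zero _ hd) hc, fun v => by
    rw [LinearMap.smul_apply, Q_smul, h, mul_assoc]⟩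
  Rt_smul := fun {a t c} ha hc ⟨v, hv, e⟩ => ⟨c⁻¹ • v, by rw [polar_sl, polar_sr, hv]; simp, by
    rw [sieg_smul_left ha.2 (by rw [polar_sr, hv, mul_zero]), smul_smul, mul_inv_cancel₀ hc,
      one_smul, e]⟩
  Rt_conj := fun {T T' a t} ⟨c, hc, h⟩ h1 _ ha ⟨v, hv, e⟩ => by
    have h2 : polar Q (T a) (c⁻¹ • T v) = 0 := by rw [polar_sr, polar_simE h, hv]; simp
    refine ⟨c⁻¹ • T v, h2, LinearMap.ext fun x => ?_⟩
    have h3 : T (T' x) = x := LinearMap.congr_fun h1 x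
    rw [e]
    change T ((sieg Q a v).1 (T' x)) = (sieg Q (T a) (c⁻¹ • T v)).1 x
    generalize T' x = y at h3
    subst h3
    rw [sieg_apply ha.2 hv, sieg_apply (by rw [h, ha.2, mul_zero]) h2, polar_sl, polar_simE h,
      polar_simE h, Q_smul, h]
    simp only [map_sub, map_add, map_smul, smul_smul]
    congr 2
    · congr 2; field_simp
    · congr 1; field_simp
    · field_simp
  Rt_pow := fun {a t} _ ⟨v, _, e⟩ => by
    rw [e]
    have := congrArg (fun g : OG Q => LinearEquiv.automorphismGroup.toLinearMapMonoidHom g.1)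
      (sieg_pow_char r a v)
    rwa [Subgroup.coe_pow, map_pow] at this
  Rt_sim := fun {a t} _ ⟨v, _, e⟩ => ⟨1, one_ne_zero, fun x => by
    rw [e, one_mul]; exact OG.map_Q _ _⟩

variable {Q : QuadraticForm K V} {r : ℕ} [hr : Fact r.Prime] [CharP K r]

theorem oGeo_pt {a : V} : (oGeo Q r).pt a ↔ a ≠ 0 ∧ Q a = 0 := Iff.rfl

theorem sieg_mem_Rt {a v : V} (h : polar Q a v = 0) :
    (sieg Q a v).1.toLinearMap ∈ (oGeo Q r).Rt a := ⟨v, h, rfl⟩

theorem oGeo_polar {S : Set V} {t} (ht : t ∈ (oGeo Q r).LS S) (u v : V) :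
    polar Q (t u) (t v) = polar Q u v := by
  induction ht using Submonoid.closure_induction generalizing u v with
  | mem t ht =>
    obtain ⟨b, -, -, w, -, rfl⟩ := ht
    exact OG.map_polar _ _ _
  | one => rfl
  | mul s t _ _ hs ht => exact (hs _ _).trans (ht _ _)

omit hr [CharP K r] in
theorem sieg_trans {a b c : V} (ha : Q a = 0) (hb : Q b = 0) (hc : Q c = 0)
    (h1 : polar Q c a ≠ 0) (h2 : polar Q c b ≠ 0) :
    ∃ v, polar Q c v = 0 ∧ Pa K ((sieg Q c v).1 a) b ∧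
      ∀ W : Submodule K V, a ∈ W → b ∈ W → c ∈ W → ∀ x ∈ W, (sieg Q c v).1 x ∈ W := by
  have h3 : polar Q c ((polar Q c a)⁻¹ • a - (polar Q c b)⁻¹ • b) = 0 := by
    rw [polar_sub_right, polar_sr, polar_sr, inv_mul_cancel₀ h1, inv_mul_cancel₀ h2, sub_self]
  refine ⟨_, h3, ⟨polar Q c b / polar Q c a, div_ne_zero h2 h1, ?_⟩, fun W h4 h5 h6 x hx => ?_⟩
  · rw [sieg_apply hc h3, Q_sub, Q_smul, Q_smul, polar_sub_left, polar_sl, polar_sl, polar_sl,
      polar_sr, polar_self', ha, hb, pcomm b a]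
    match_scalars <;> field_simp <;> ring
  · rw [sieg_apply hc h3]
    exact W.sub_mem (W.sub_mem (W.add_mem hx (W.smul_mem _ h6))
      (W.smul_mem _ (W.sub_mem (W.smul_mem _ h4) (W.smul_mem _ h5)))) (W.smul_mem _ h6)

theorem oGeo_opp : (oGeo Q r).Opp fun a b => polar Q a b ≠ 0 where
  symm a b h := by rwa [pcomm]
  npa := by
    rintro a _ ha h ⟨c, -, rfl⟩
    exact h (by rw [polar_sr, polar_self', ha.2]; simp)
  pa := by
    rintro a b _ h ⟨c, hc, rfl⟩
    rw [polar_sr]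
    exact mul_ne_zero hc h
  map t ht a b _ _ h := by rwa [oGeo_polar ht]
  trans c a b hc ha hb h1 h2 := by
    obtain ⟨v, h3, h4, h5⟩ := sieg_trans ha.2 hb.2 hc.2 h1 h2
    exact ⟨_, (oGeo Q r).mem_L hc (sieg_mem_Rt h3), by
      change Pa K ((sieg Q c v).1 c) c
      rw [sieg_apply_self hc.2 h3]; exact Pa.refl _, h4, h5⟩

omit hr [CharP K r] in
theorem notMem_span_of_not_pa {a b : V} (hb : b ≠ 0) (h : ¬ Pa K a b) : b ∉ K ∙ a := by
  rw [Submodule.mem_span_singleton]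
  rintro ⟨c, rfl⟩
  exact h ⟨c, fun e => hb (by rw [e, zero_smul]), rfl⟩

variable [FiniteDimensional K V]

omit hr [CharP K r] in
theorem exists_partner_two (hQ : ND Q) {a b : V} (hb0 : b ≠ 0) (hb : Q b = 0) (h : ¬ Pa K a b)
    (hab : polar Q a b = 0) : ∃ w, Q w = 0 ∧ polar Q a w = 0 ∧ polar Q b w = 1 := by
  obtain ⟨w, h1, h2, h3⟩ := hQ.exists_partner hb (notMem_span_of_not_pa hb0 h) (fun x hx => by
    obtain ⟨c, rfl⟩ := Submodule.mem_span_singleton.1 hx
    rw [polar_sl, hab, mul_zero])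
  exact ⟨w, h1, h2 a (Submodule.mem_span_singleton_self a), h3⟩

omit hr [CharP K r] in
theorem common_opp (hQ : ND Q) (hn : 3 ≤ finrank K V) {a b : V} (ha0 : a ≠ 0) (ha : Q a = 0)
    (hb0 : b ≠ 0) (hb : Q b = 0) :
    ∃ c, (c ≠ 0 ∧ Q c = 0) ∧ polar Q c a ≠ 0 ∧ polar Q c b ≠ 0 := by
  suffices ∃ c, Q c = 0 ∧ polar Q c a ≠ 0 ∧ polar Q c b ≠ 0 by
    obtain ⟨c, h1, h2, h3⟩ := this
    exact ⟨c, ⟨fun e => h2 (by simp [e]), h1⟩, h2, h3⟩
  by_cases hab : polar Q a b = 0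
  · by_cases h : Pa K a b
    · obtain ⟨c, hc, rfl⟩ := h
      obtain ⟨w, h1, h2⟩ := hQ.exists_partner' ha ha0
      exact ⟨w, h1, by rw [pcomm, h2]; simp, by rw [pcomm, polar_sl, h2]; simpa⟩
    · obtain ⟨b', h1, h2, h3⟩ := exists_partner_two hQ hb0 hb h hab
      obtain ⟨a', h4, h5, h6⟩ := exists_partner_two hQ ha0 ha (mt Pa.symm h) (by rwa [pcomm])
      refine ⟨a' + b' - polar Q a' b' • a, ?_, ?_, ?_⟩
      · rw [Q_sub, Q_add, Q_smul, polar_sr, polar_add_left, pcomm a' a, pcomm b' a, h1, h2, h4, h6,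
          ha]
        ring
      · rw [polar_sub_left, polar_add_left, polar_sl, polar_self', pcomm a' a, pcomm b' a, h2, h6,
          ha]
        simp
      · rw [polar_sub_left, polar_add_left, polar_sl, hab, pcomm a' b, pcomm b' b, h3, h5]
        simp
  · have h1 : polar Q a ((polar Q a b)⁻¹ • b) = 1 := by rw [polar_sr, inv_mul_cancel₀ hab]
    have h2 : Q ((polar Q a b)⁻¹ • b) = 0 := by rw [Q_smul, hb, mul_zero]
    have h3 := finrank_perp2 hQ ha h1
    haveI : Nontrivial (perp2 Q a ((polar Q a b)⁻¹ • b)) :=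
      Module.nontrivial_of_finrank_pos (R := K) (by omega)
    obtain ⟨⟨w, hw⟩, h4⟩ := (nd_perp2 hQ ha h2 h1).exists_nonsing
    rw [res_apply] at h4
    rw [mem_perp2, polar_sl, mul_eq_zero, inv_eq_zero, or_iff_right hab] at hw
    refine ⟨w + a - (Q w / polar Q a b) • b, ?_, ?_, ?_⟩
    · rw [Q_sub, Q_add, Q_smul, polar_sr, polar_add_left, pcomm w a, pcomm w b, hw.1, hw.2, ha, hb]
      field_simp
      ring
    · rw [polar_sub_left, polar_add_left, polar_sl, polar_self', pcomm w a, hw.1, ha, pcomm b a,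
        div_mul_cancel₀ _ hab]
      simpa using h4
    · rw [polar_sub_left, polar_add_left, polar_sl, polar_self', pcomm w b, hw.2, hb]
      simpa using hab

theorem oGeo_swap [Finite K] (hQ : ND Q) (hn : 3 ≤ finrank K V) : (oGeo Q r).Swap Set.univ := by
  obtain ⟨a, ha⟩ := exists_sing (Q := Q) hn
  exact oGeo_opp.swap (fun a b ha hb => common_opp hQ hn ha.1 ha.2 hb.1 hb.2) ha

theorem oGeo_prim (hQ : ND Q) (hn : 5 ≤ finrank K V) : (oGeo Q r).Prim := by
  refine oGeo_opp.prim (fun a b ha hb => common_opp hQ (by omega) ha.1 ha.2 hb.1 hb.2)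
    fun a b ha hb hab h => ?_
  rw [not_not] at h
  obtain ⟨w, h1, h2, h3⟩ := exists_partner_two hQ hb.1 hb.2 hab h
  obtain ⟨v, hv, h4⟩ := exists_nonsing_perp hQ (U := Submodule.span K {a, w}) (by
    classical
    have := finrank_span_le_card (R := K) ({a, w} : Set V)
    have h5 : ({a, w} : Set V).toFinset.card ≤ 2 := by
      simpa using Finset.card_le_two
    omega)
  rw [mem_perp_span] at hv
  have h5 := hv a (by simp)
  have h6 := hv w (by simp)
  have h7 : w ≠ 0 := fun e => by simp [e] at h3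
  refine ⟨_, (oGeo Q r).mem_L ⟨h7, h1⟩ (sieg_mem_Rt h6), ?_, ?_⟩
  · change Pa K ((sieg Q w v).1 a) a
    rw [sieg_apply_of_perp h1 h6 (by rwa [pcomm]), pcomm, h5, zero_smul, add_zero]
    exact Pa.refl _
  · change polar Q b ((sieg Q w v).1 b) ≠ 0
    rw [sieg_apply h1 h6, polar_sub_right, polar_sub_right, polar_add_right, polar_sr, polar_sr,
      polar_sr, polar_self', hb.2, pcomm w b, h3, pcomm v b]
    simpa using h4

theorem oGeo_tri (hQ : ND Q) (hn : 3 ≤ finrank K V) : (oGeo Q r).Tri := by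
  intro S hS a ha b hb hab
  have ha' := hS.pt a ha
  have hb' := hS.pt b hb
  by_cases h : polar Q a b = 0
  · obtain ⟨v, h1, h2⟩ := hQ.exists_perp_one (notMem_span_of_not_pa hb'.1 hab)
    have h3 := h1 a (Submodule.mem_span_singleton_self a)
    have hc : a + b ∈ S := hS.map' ((oGeo Q r).mem_L ha' (sieg_mem_Rt h3)) ha hb (by
      change Pa K ((sieg Q a v).1 a) a
      rw [sieg_apply_self ha'.2 h3]; exact Pa.refl _) (by
      change Pa K ((sieg Q a v).1 b) _
      rw [sieg_apply_of_perp ha'.2 h3 h, pcomm, h2, one_smul, add_comm]; exact Pa.refl _)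
    have hc' := hS.pt _ hc
    obtain ⟨w, h4, h5⟩ := hQ.exists_perp_one (notMem_span_of_not_pa ha'.1 (mt Pa.symm hab))
    have h6 := h4 b (Submodule.mem_span_singleton_self b)
    have h7 : polar Q (a + b) (v - w) = 0 := by
      rw [polar_add_left, polar_sub_right, polar_sub_right, h2, h3, h5, h6]; ring
    have h8 : polar Q b ((-2 : K) • w) = 0 := by rw [polar_sr, h6, mul_zero]
    have h9 : polar Q b a = 0 := by rwa [pcomm]
    have e1 : (sieg Q (a + b) (v - w)).1 a = -b := by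
      rw [sieg_apply_of_perp hc'.2 h7 (by rw [polar_add_left, polar_self', ha'.2, h9]; simp),
        pcomm, polar_sub_right, h3, h5]
      module
    have e2 : (sieg Q (a + b) (v - w)).1 b = a + (2 : K) • b := by
      rw [sieg_apply_of_perp hc'.2 h7 (by rw [polar_add_left, polar_self', hb'.2, h]; simp),
        pcomm, polar_sub_right, h2, h6]
      module
    refine ⟨_, mul_mem ((oGeo Q r).mem_LS hb hb' (sieg_mem_Rt h8))
      ((oGeo Q r).mem_LS hc hc' (sieg_mem_Rt h7)), a, b, ha', hab, ?_, ?_⟩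
    · change Pa K ((sieg Q b _).1 ((sieg Q (a + b) _).1 a)) b
      rw [e1, map_neg, sieg_apply_self hb'.2 h8]
      exact ⟨-1, by simp, by simp⟩
    · change Pa K ((sieg Q b _).1 ((sieg Q (a + b) _).1 b)) a
      rw [e2, map_add, map_smul, sieg_apply_self hb'.2 h8, sieg_apply_of_perp hb'.2 h8 h9,
        polar_sl, pcomm, h5]
      exact ⟨1, by simp, by module⟩
  · obtain ⟨c, hc', h1, h2⟩ := common_opp hQ hn ha'.1 ha'.2 hb'.1 hb'.2
    obtain ⟨s, hs, h3, h4, -⟩ := oGeo_opp.trans a b c ha' hb' hc' h (by rwa [pcomm])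
    have hc : c ∈ S := hS.map' hs ha hb h3 h4
    obtain ⟨v, h5, h6, -⟩ := sieg_trans ha'.2 hb'.2 hc'.2 h1 h2
    have h7 : polar Q b ((sieg Q c v).1 b) ≠ 0 := by
      obtain ⟨k, hk, e⟩ := h6
      nth_rw 1 [e]
      rw [polar_sl, OG.map_polar]
      exact mul_ne_zero hk h
    obtain ⟨w, h8, h9, -⟩ := sieg_trans (by rw [OG.map_Q, hb'.2]) ha'.2 hb'.2 h7 (by rwa [pcomm])
    refine ⟨_, mul_mem ((oGeo Q r).mem_LS hb hb' (sieg_mem_Rt h8))
      ((oGeo Q r).mem_LS hc hc' (sieg_mem_Rt h5)), a, b, ha', hab, ?_, h9⟩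
    refine (h6.map (sieg Q b w).1.toLinearMap).trans ?_
    change Pa K ((sieg Q b w).1 b) b
    rw [sieg_apply_self hb'.2 h8]
    exact Pa.refl _

omit hr [CharP K r] [FiniteDimensional K V] in
theorem eq_one_of_pow_eq_one_of_not_dvd [Finite K] {p : ℕ} [hp : Fact p.Prime]
    (h : ¬ p ∣ Nat.card K - 1) {c : K} (hc : c ^ p = 1) : c = 1 := by
  have h0 : c ≠ 0 := by
    rintro rfl
    simp [hp.out.ne_zero] at hc
  have h1 : orderOf (Units.mk0 c h0) ∣ p := orderOf_dvd_of_pow_eq_one (Units.ext (by simpa))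
  have h2 := orderOf_dvd_natCard (Units.mk0 c h0)
  rw [Nat.card_units] at h2
  rcases (Nat.dvd_prime hp.out).1 h1 with h3 | h3
  · exact congrArg Units.val (orderOf_eq_one_iff.1 h3)
  · exact absurd (h3 ▸ h2) h

omit hr [CharP K r] [FiniteDimensional K V] in
theorem not_dvd_sub_one {p q : ℕ} (h : ¬ p ∣ q ^ 2 - 1) : ¬ p ∣ q - 1 := fun h' =>
  h (h'.trans (by simpa using Nat.sub_dvd_pow_sub_pow q 1 2))

theorem oGeo_cnt [Finite K] (hQ : ND Q) {p : ℕ} [hp : Fact p.Prime] (hpr : p ≠ r)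
    (hd : ¬ p ∣ Nat.card K ^ 2 - 1) : (oGeo Q r).Cnt p := by
  have hp0 : (p : K) ≠ 0 := by
    rw [Ne, CharP.cast_eq_zero_iff K r]
    exact fun h => hpr ((Nat.prime_dvd_prime_iff_eq hr.out hp.out).1 h).symm
  refine oGeo_opp.cnt hp0 hp.out.ne_zero fun T ⟨c, _, hc⟩ hT h1 => ?_
  have h2 := RGeo.dvd_pow_finrank hp0 hT
  have h3 := RGeo.finrank_range_ne_zero h1
  have h4 : 3 ≤ finrank K (LinearMap.range (T - 1)) := by
    by_contra h
    obtain h | h : finrank K (LinearMap.range (T - 1)) = 1 ∨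
      finrank K (LinearMap.range (T - 1)) = 2 := by omega
    · rw [h, pow_one] at h2
      exact not_dvd_sub_one hd h2
    · exact hd (h ▸ h2)
  haveI : Nontrivial V := Module.nontrivial_of_finrank_pos (R := K)
    (by have := (LinearMap.range (T - 1)).finrank_le; omega)
  have h5 : c = 1 := by
    obtain ⟨x, hx⟩ := hQ.exists_nonsing
    have : ∀ k : ℕ, Q ((T ^ k) x) = c ^ k * Q x := by
      intro k
      induction k with
      | zero => simp
      | succ k ih => rw [pow_succ', Module.End.mul_apply, hc, ih, pow_succ', mul_assoc]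
    have h6 := this p
    rw [hT, Module.End.one_apply, eq_comm, mul_eq_right₀ hx] at h6
    exact eq_one_of_pow_eq_one_of_not_dvd (not_dvd_sub_one hd) h6
  have h6 : ND (res Q (LinearMap.range (T - 1))) := by
    refine ND.of_forall fun x hx => Subtype.ext (RGeo.fix_eq_zero hp0 hT x.2 ?_)
    have hinj : Function.Surjective T := by
      intro v
      obtain ⟨n, hn⟩ := Nat.exists_eq_succ_of_ne_zero hp.out.ne_zero
      rw [hn, pow_succ'] at hT
      exact ⟨_, LinearMap.congr_fun hT v⟩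
    refine hQ.ext fun y => ?_
    obtain ⟨z, rfl⟩ := hinj y
    have := hx ⟨_, z, rfl⟩
    rw [polar_res] at this
    simp only [LinearMap.sub_apply, Module.End.one_apply, polar_sub_right, sub_eq_zero] at this
    rw [polar_simE hc, h5, one_mul, this]
  refine ⟨?_, fun a ha b hb ha' hb' => ?_⟩
  · obtain ⟨⟨a, ha⟩, h7, h8⟩ := exists_sing (Q := res Q (LinearMap.range (T - 1))) h4
    exact ⟨a, ha, fun e => h7 (Subtype.ext e), h8⟩
  · obtain ⟨⟨c, hc⟩, ⟨h7, h8⟩, h9⟩ := common_opp h6 h4 (a := ⟨a, ha⟩) (b := ⟨b, hb⟩)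
      (fun e => ha'.1 (congrArg Subtype.val e)) ha'.2 (fun e => hb'.1 (congrArg Subtype.val e)) hb'.2
    exact ⟨c, hc, ⟨fun e => h7 (Subtype.ext e), h8⟩, h9⟩

omit hr [CharP K r] in
theorem exists_two_hyp [Finite K] (hQ : ND Q) (hn : 5 ≤ finrank K V) :
    ∃ e f e' f' : V, Q e = 0 ∧ Q f = 0 ∧ polar Q e f = 1 ∧ Q e' = 0 ∧ Q f' = 0 ∧
      polar Q e' f' = 1 ∧ polar Q e e' = 0 ∧ polar Q f e' = 0 ∧ polar Q e f' = 0 ∧
      polar Q f f' = 0 := by
  obtain ⟨e, f, h1, h2, h3⟩ := exists_hyp hQ (by omega)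
  have h4 := finrank_perp2 hQ h1 h3
  obtain ⟨⟨e', he⟩, ⟨f', hf⟩, h5, h6, h7⟩ := exists_hyp (nd_perp2 hQ h1 h2 h3) (by omega)
  rw [mem_perp2] at he hf
  exact ⟨e, f, e', f', h1, h2, h3, h5, h6, h7, he.1, he.2, hf.1, hf.2⟩

theorem oGeo_shear [Finite K] (hQ : ND Q) (hn : 5 ≤ finrank K V) : (oGeo Q r).Shear K := by
  obtain ⟨e, f, e', f', h1, h2, h3, h4, h5, h6, h7, h8, h9, h10⟩ := exists_two_hyp hQ hn
  refine ⟨RingHom.id K, e, e', fun s t h => ?_, fun s => ?_, fun s => ?_⟩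
  · have e1 := congrArg (polar Q f) h
    have e2 := congrArg (polar Q f') h
    rw [polar_add_right, polar_sr, polar_sr, polar_zero_right] at e1 e2
    rw [pcomm f e, h3, h8] at e1
    rw [pcomm f' e, pcomm f' e', h9, h6] at e2
    exact ⟨by simpa using e1, by simpa using e2⟩
  · have : polar Q e (s • f') = 0 := by rw [polar_sr, h9, mul_zero]
    refine ⟨_, (oGeo Q r).mem_L ⟨fun e => by simp [e] at h3, h1⟩ (sieg_mem_Rt this),
      sieg_apply_self h1 this, ?_⟩
    change (sieg Q e _).1 e' = _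
    rw [sieg_apply_of_perp h1 this h7, polar_sl, pcomm, h6, mul_one]; rfl
  · have : polar Q e' (s • f) = 0 := by rw [polar_sr, pcomm, h8, mul_zero]
    refine ⟨_, (oGeo Q r).mem_L ⟨fun e => by simp [e] at h6, h4⟩ (sieg_mem_Rt this),
      sieg_apply_self h4 this, ?_⟩
    change (sieg Q e' _).1 e = _
    rw [sieg_apply_of_perp h4 this (by rwa [pcomm]), polar_sl, pcomm, h3, mul_one]; rfl

theorem oGeo_scal [Finite K] (hQ : ND Q) (hn : 3 ≤ finrank K V) {T : Module.End K V}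
    (hT : (oGeo Q r).Sim T) (hi : Function.Injective T)
    (h : ∀ a, (oGeo Q r).pt a → Pa K a (T a)) : ∃ c : K, ∀ v, T v = c • v := by
  obtain ⟨c, hc, h1⟩ := hT
  obtain ⟨a, ha⟩ := eq_scal_of_fix hQ hn (SIso.ofSim (LinearEquiv.ofInjectiveEndo T hi) hc h1)
    fun u hu => by
      change T u ∈ _
      by_cases h0 : u = 0
      · simp [h0]
      · obtain ⟨k, -, e⟩ := h u ⟨h0, hu⟩
        exact e ▸ Submodule.smul_mem _ _ (Submodule.mem_span_singleton_self u)
  exact ⟨a, fun v => congrArg (fun γ : Gam Q => γ.T v) ha⟩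

section LG

variable [Finite K] {G H : Type*} [Group G] [Group H] [Finite H] (Λ : LG (oGeo Q r) G H)

theorem LG.o_two (hQ : ND Q) (hn : 3 ≤ finrank K V) (h2 : r ≠ 2) {M : Subgroup H}
    (hM : (Nat.card M).Coprime 2) (hN : ∀ g ∈ Λ.G₁, Λ.π g ∈ normalizer (M : Set H)) {g : G}
    (hg : Λ.π g ∈ M) : ∃ c : K, ∀ v, Λ.ρ g v = c • v :=
  oGeo_scal hQ hn (Λ.sim g) (Λ.ρ_inj g) fun _ ha => Λ.fix_two
    ((Nat.coprime_primes Nat.prime_two hr.out).2 h2.symm) (oGeo_tri hQ hn) hM hN hg ha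

theorem LG.o_all (hQ : ND Q) (hn : 5 ≤ finrank K V) {p : ℕ} [hp : Fact p.Prime] (hpr : p ≠ r)
    (hs : ∀ g (c : K), (∀ v, Λ.ρ g v = c • v) → Λ.π g = 1) (hd : p ∣ Nat.card Λ.π.range)
    {M : Subgroup H} (hM : (Nat.card M).Coprime p)
    (hN : ∀ g ∈ Λ.G₁, Λ.π g ∈ normalizer (M : Set H)) (hle : M ≤ Λ.π.range) : M = ⊥ := by
  haveI := Fintype.ofFinite K
  haveI : Finite V := Module.finite_of_finite K
  rw [eq_bot_iff]
  intro m hm
  obtain ⟨g, rfl⟩ := hle hm
  obtain ⟨c, hc⟩ := oGeo_scal hQ (by omega) (Λ.sim g) (Λ.ρ_inj g) fun _ ha => Λ.fix_prim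
    ((Nat.coprime_primes hp.out hr.out).2 hpr) (oGeo_prim hQ hn)
    (Λ.dvd_L (oGeo_swap hQ (by omega)) (oGeo_shear hQ hn) (fun h => by
      rw [← Nat.card_eq_fintype_card] at h
      exact ⟨oGeo_cnt hQ hpr h, not_dvd_sub_one h⟩) hs hd) hM hN hm ha
  exact hs g c hc

end LG

end CfsgH7
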