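import Cfsg.Agent.H7.OField
import Cfsg.Prelude.Def_KGroupFacts

set_option autoImplicit false

namespace CfsgH7

open CfsgH8 hiding map_mul map_one
open QuadraticMap hiding map_add map_sub map_smul map_zero map_neg sq
open Module Subgroup

universe u

section mat

variable {F : Type u} [Field F] {ι : Type} [Fintype ι] [DecidableEq ι]
  {Q : QuadraticForm F (ι → F)} {q : (ι → F) → F}

theorem Inn_POmega_eq (h : ⇑Q = q) : Cfsg.Inn (Cfsg.POmega F q) = (sc (Om Q)).map (PhiM h) := by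
  ext β
  constructor
  · rintro ⟨x, rfl⟩
    obtain ⟨g, hg⟩ := QuotientGroup.mk'_surjective (center _) (pomE h x)
    exact ⟨ofOG Q g, ofOG_mem_sc g.2, by rw [PhiM_ofOG, hg, MulEquiv.symm_apply_apply]⟩
  · rintro ⟨_, ⟨a, g, hg, rfl⟩, rfl⟩
    rw [map_mul, PhiM_scal, one_mul]
    exact ⟨_, (PhiM_ofOG h ⟨g, hg⟩).symm⟩

theorem autSubgroupOf_sim (h : ⇑Q = q) (K : Subgroup (Gam Q)) (hK : ∀ γ ∈ K, SIso.σ γ = 1)
    (R : Matrix ι ι F → Prop)
    (hR : ∀ (γ : Gam Q) (M : Matrix ι ι F), γ.σ = 1 → (∀ v, γ.T v = M.mulVec v) → (R M ↔ γ ∈ K)) :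
    (Cfsg.autSubgroupOf fun β => ∃ g : GL ι F, g ∈ Cfsg.Geo.quadSimilarityGroup (F := F) q ∧
      R g ∧ Cfsg.IsInducedBySemilinearPOmega q g (RingEquiv.refl F) β) = K.map (PhiM h) := by
  refine autSubgroupOf_eq _ _ fun β => ⟨?_, ?_⟩
  · rintro ⟨g, ⟨c, hc⟩, h1, h2⟩
    subst h
    exact ⟨gamOf g (RingEquiv.refl F) c hc, (hR _ g rfl fun _ => rfl).1 h1,
      (isInduced_iff rfl (rep_gamOf g _ c hc)).1 h2⟩
  · rintro ⟨γ, hγ, rfl⟩
    obtain ⟨g, hg⟩ := exists_rep γ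
    rw [hK γ hγ] at hg
    refine ⟨g, ⟨γ.c, fun v => ?_⟩, (hR γ g (hK γ hγ) hg).2 hγ, (isInduced_iff h hg).2 rfl⟩
    rw [← h, ← Gam.mapQ_of_lin (hK γ hγ), hg]
    rfl

theorem isMax_iff [hB : Big Q] {E : Submodule F (ι → F)} (hE : MTS Q E) (U : Submodule F (ι → F)) :
    Cfsg.IsMaxTotallySingular Q U ↔ MTS Q U := by
  constructor
  · rintro ⟨h1, h2⟩
    obtain ⟨X, h3, h4, h5⟩ := exists_max_TS_ge (Q := Q) (U := U) h1
    obtain rfl := h2 X h4 h3
    have h6 := hE.1.finrank_le_of_max hB.nd h4 h5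
    have h7 := two_mul_finrank_le hB.nd h4.le_perp
    have h8 := hE.2
    exact ⟨h4, by omega⟩
  · rintro ⟨h1, h2⟩
    refine ⟨h1, fun W hW hUW => (Submodule.eq_of_le_of_finrank_le hUW ?_).symm⟩
    have h7 := two_mul_finrank_le hB.nd (TS.le_perp hW)
    omega

theorem preserves_iff (h : ⇑Q = q) [hB : Big Q] {E : Submodule F (ι → F)} (hE : MTS Q E)
    {γ : Gam Q} {M : Matrix ι ι F} (hM : ∀ v, γ.T v = M.mulVec v) :
    Cfsg.PreservesSingularClasses q M ↔ cls hE γ = 1 := by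
  subst h
  have h1 : ∀ U, Cfsg.imageSubmodule M U = γ.mapS U := fun U => by
    ext y
    obtain ⟨x, rfl⟩ := γ.T.surjective y
    rw [SIso.T_mem_mapS]
    constructor
    · rintro ⟨z, hz, e⟩
      rwa [← γ.T.injective ((hM z).trans e)]
    · exact fun hx => ⟨x, hx, (hM x).symm⟩
  constructor
  · intro H
    rw [cls_eq hE hE, par_eq_one_iff, ← h1]
    exact H E ((isMax_iff hE E).2 hE)
  · intro H U hU
    rw [cls_eq hE ((isMax_iff hE U).1 hU), par_eq_one_iff, ← h1] at H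
    exact H

/-- the standard field semisimilarity -/
noncomputable def frob (σ : F ≃+* F) (hσ : ∀ v, Q (σ.toRingHom ∘ v) = σ.toRingHom (Q v)) : Gam Q :=
  gamOf 1 σ 1 fun v => by
    rw [Units.val_one, Matrix.one_mulVec, Units.val_one, one_mul]
    exact hσ v

theorem frob_T (σ : F ≃+* F) (hσ : ∀ v, Q (σ.toRingHom ∘ v) = σ.toRingHom (Q v)) (v : ι → F)
    (k : ι) : (frob σ hσ).T v k = σ (v k) := by
  rw [frob, rep_gamOf]; simp

theorem frob_σ (σ : F ≃+* F) (hσ : ∀ v, Q (σ.toRingHom ∘ v) = σ.toRingHom (Q v)) :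
    (frob σ hσ).σ = σ := rfl

theorem isFieldAut_iff (h : ⇑Q = q) (σ : F ≃+* F)
    (hσ : ∀ v, Q (σ.toRingHom ∘ v) = σ.toRingHom (Q v)) {β : MulAut (Cfsg.POmega F q)} :
    Cfsg.IsFieldAutPOmegaOf q σ β ↔ β = PhiM h (frob σ hσ) := by
  rw [frob, ← isInduced_iff h (rep_gamOf 1 σ 1 _)]
  simp [Cfsg.IsFieldAutPOmegaOf, Cfsg.IsInducedBySemilinearPOmega]

theorem FT_frob [hB : Big Q] (σ : F ≃+* F) (hσ : ∀ v, Q (σ.toRingHom ∘ v) = σ.toRingHom (Q v)) :
    FT (frob σ hσ) := by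
  haveI := Big.nontrivial Q
  have : ∀ n v k, ((frob σ hσ) ^ n).T v k = (σ ^ n) (v k) := fun n => by
    induction n with
    | zero => intro v k; rfl
    | succ n ih => intro v k; rw [pow_succ, Gam.mul_T, ih, frob_T, pow_succ]; rfl
  refine Gam.ext hB.nd fun v => funext fun k => ?_
  rw [this, frob_σ, pow_orderOf_eq_one]; rfl

variable [Finite F]

theorem inndiagOdd_eq {m : ℕ} [Big (QO m F)] :
    Cfsg.inndiagPOmegaOdd m F = (Dg (QO m F)).map (PhiM (QO_coe m F)) := by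
  rw [← autSubgroupOf_sim _ (Dg _) (fun γ h => h.1) (fun _ => True) fun γ M h _ => by
    rw [mem_Dg_odd ⟨m, by simp; ring⟩]; simp [h]]
  simp only [true_and]
  rfl

theorem inndiagPlus_eq {m : ℕ} [Big (QP m F)] :
    Cfsg.inndiagPOmegaPlus m F = (Dg (QP m F)).map (PhiM (QP_coe m F)) :=
  autSubgroupOf_sim _ (Dg _) (fun _ h => h.1) _ fun γ M h hM => by
    rw [preserves_iff (QP_coe m F) MTS_stdE hM, mem_Dg_QH h]

theorem exists_quad_ext (F : Type u) [Field F] [Finite F] :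
    ∃ (K : Type u) (_ : Field K) (_ : Algebra F K), finrank F K = 2 := by
  obtain ⟨ζ, hζ⟩ := exists_aniso (F := F)
  haveI : Fact (∀ r : F, r ^ 2 ≠ -ζ + -1 * r) := ⟨fun r hr =>
    aniso_one_iff.1 hζ r (by linear_combination hr)⟩
  exact ⟨QuadraticAlgebra F (-ζ) (-1), inferInstance, inferInstance, QuadraticAlgebra.finrank_eq_two _ _⟩

theorem preserves_ext_iff {m : ℕ} {a b : F} (hab : Aniso a b) [hB : Big (QM m F a b)]
    {K : Type u} [Field K] [Algebra F K] (hK : finrank F K = 2) {γ : Gam (QM m F a b)}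
    {M : Matrix _ _ F} (h : γ.σ = 1) (hM : ∀ v, γ.T v = M.mulVec v) :
    Cfsg.PreservesSingularClasses
      (Cfsg.quadFormMinus m K (algebraMap F K a) (algebraMap F K b)) (M.map (algebraMap F K)) ↔
      γ ∈ Dg (QM m F a b) := by
  haveI : Module.Finite F K := Module.finite_of_finrank_pos (by omega)
  haveI : Finite K := Module.finite_of_finite F
  have hI := iso_QM_QP_ext hK m hab
  haveI : Big (QM m K (algebraMap F K a) (algebraMap F K b)) :=
    ⟨hI.nd ND_QH, by simpa using hB.five⟩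
  obtain ⟨E, h1, h2⟩ := hI.exists_TS MTS_stdE.1
  have hE : MTS (QM m K (algebraMap F K a) (algebraMap F K b)) E :=
    ⟨h1, by rw [h2, finrank_stdE]; simp; ring⟩
  let B := stdBC (algebraMap F K) (QM_comp (algebraMap F K) m a b)
  obtain ⟨g, H⟩ := B.exists_rel h
  have h3 : ∀ w, g.T w = (M.map (algebraMap F K)).mulVec w :=
    B.induction (fun v => by rw [H.T, hM]; exact (CfsgH8.map_mulVec_comp _ M v).symm)
      (fun x y hx hy => by rw [map_add, hx, hy, Matrix.mulVec_add])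
      fun a x hx => by rw [Gam.smul_of_lin H.σ, hx, Matrix.mulVec_smul]
  rw [preserves_iff (QM_coe _ _ _ _) hE h3, ← H.mem_Dg_iff, mem_Dg_iff_cls hE H.σ]
  obtain ⟨t, ht⟩ := exists_root_of_finrank_two hK 0 (-γ.c)
  exact ⟨t, by rw [H.c]; simp only [map_zero, map_neg] at ht; linear_combination -ht⟩

theorem inndiagMinus_eq {m : ℕ} {a b : F} (hab : Aniso a b) [Big (QM m F a b)] :
    Cfsg.inndiagPOmegaMinus m F a b = (Dg (QM m F a b)).map (PhiM (QM_coe m F a b)) :=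
  autSubgroupOf_sim _ (Dg _) (fun _ h => h.1) (Cfsg.PreservesSingularClassesMinus m a b)
    fun γ M h hM => by
    constructor
    · rintro ⟨K, _, _, hK, H⟩
      exact (preserves_ext_iff hab hK h hM).1 H
    · intro H
      obtain ⟨K, _, _, hK⟩ := exists_quad_ext F
      exact ⟨K, _, _, hK, (preserves_ext_iff hab hK h hM).2 H⟩

end mat

section types

variable {F₀ F V : Type*} [Field F₀] [Finite F₀] [Field F] [Finite F] [AddCommGroup V] [Module F V]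
  {Q : QuadraticForm F V} [hB : Big Q] {φ : Gam Q} (hφ : FT φ) (ε : F₀ →+* F)
  (hε : ∀ x, φ.σ x = x ↔ ∃ y, ε y = x)

include hφ hε

theorem desc_QO {m : ℕ} (hn : finrank F V = 2 * m + 1) : Nonempty (Desc ε (QO m F₀) φ) := by
  haveI := Big.fd Q
  obtain ⟨Q₀, ⟨D⟩⟩ := exists_desc hφ ε hε
  obtain ⟨c, hc, h⟩ := (D.nd hB.nd).classify_odd (m := m) (by simpa using hn)
  obtain ⟨D'⟩ := D.nonempty_of_iso h
  refine ⟨D'.comp (LinearEquiv.piCongrRight fun k => LinearEquiv.smulOfUnit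
    (Sum.elim (fun _ => 1) (Sum.elim (fun _ => Units.mk0 c hc) fun _ => 1) k)) (inv_ne_zero hc)
    fun v => ?_⟩
  simp only [QO, sumQ_apply, QH_apply, QU_apply, mul_add, Finset.mul_sum]
  congr 1
  · change _ = c⁻¹ * (c * (1 * _) ^ 2)
    field_simp
    rfl
  · refine Finset.sum_congr rfl fun i _ => ?_
    change _ = c⁻¹ * ((c * _) * (1 * _))
    field_simp
    rfl

omit hφ hε hB [Finite F] in
theorem not_MTS_QM {m : ℕ} {a b : F₀} (hab : Aniso a b) (W) : ¬ MTS (QM m F₀ a b) W := fun h => by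
  have h1 := finrank_TS_QM hab h.1
  have h2 := h.2
  simp at h2
  omega

omit hφ hε hB [Finite F] [Finite F₀] in
theorem Desc.exists_MTS_up {m : ℕ} (D : Desc ε (QP m F₀) φ) : ∃ E, MTS Q E :=
  ⟨_, D.MTS_up MTS_stdE⟩

theorem desc_or {m : ℕ} (hn : finrank F V = 2 * m) {a b : F₀} (hab : Aniso a b) :
    Nonempty (Desc ε (QP m F₀) φ) ∨ Nonempty (Desc ε (QM (m - 1) F₀ a b) φ) := by
  haveI := Big.fd Q
  obtain ⟨Q₀, ⟨D⟩⟩ := exists_desc hφ ε hε
  exact ((D.nd hB.nd).classify_even (m := m) (by simpa using hn) hab).imp D.nonempty_of_iso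
    fun h => D.nonempty_of_iso h.2

theorem desc_QP {m : ℕ} (hn : finrank F V = 2 * m) {E : Submodule F V} (hE : MTS Q E)
    (h : cls hE φ = 1) : Nonempty (Desc ε (QP m F₀) φ) := by
  obtain ⟨ζ, hζ⟩ := exists_aniso (F := F₀)
  refine (desc_or hφ ε hε hn hζ).resolve_right fun ⟨D⟩ => ?_
  obtain ⟨W, hW⟩ := D.exists_TS_succ hE hφ h (sumDec (QP (m - 1) F₀) (QB 1 ζ)).TS_stdTS (by
    rw [ODec.finrank_stdTS]; simp; ring)
  exact not_MTS_QM hζ W hW

theorem desc_QM {m : ℕ} (hn : finrank F V = 2 * m) {E : Submodule F V} (hE : MTS Q E)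
    (h : cls hE φ = -1) {a b : F₀} (hab : Aniso a b) :
    Nonempty (Desc ε (QM (m - 1) F₀ a b) φ) :=
  (desc_or hφ ε hε hn hab).resolve_left fun ⟨D⟩ => by
    simp [D.cls_eq_one hE MTS_stdE] at h

theorem desc_QM' {m : ℕ} (hn : finrank F V = 2 * (m + 1)) (hE : ∀ E, ¬ MTS Q E)
    {a b : F₀} (hab : Aniso a b) : Nonempty (Desc ε (QM m F₀ a b) φ) :=
  (desc_or hφ ε hε hn hab).resolve_left fun ⟨D⟩ => hE _ (D.MTS_up MTS_stdE)

end types

section abstract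

variable {F V : Type*} [Field F] [Finite F] [AddCommGroup V] [Module F V]
  {Q : QuadraticForm F V} [hB : Big Q] {A : Type*} [Group A] (Φ : Gam Q →* A)
  (hker : ∀ γ, Φ γ = 1 ↔ ∃ a, γ = scal Q a)

include hker

theorem exists_FT_of_prime {γ : Gam Q} (h : γ.σ ≠ 1) (hr : (orderOf (Φ γ)).Prime) :
    ∃ b, FT (scal Q b * γ) := by
  obtain ⟨a, ha⟩ := (hker (γ ^ orderOf (Φ γ))).1 (by rw [map_pow, pow_orderOf_eq_one])
  haveI := Fact.mk hr
  have h1 : orderOf γ.σ = orderOf (Φ γ) := orderOf_eq_prime (by rw [← Gam.pow_σ, ha, scal_σ]) h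
  exact exists_FT (h1 ▸ ha)

theorem coset_of_desc {V₀ : Type*} [AddCommGroup V₀] {φ : Gam Q} (hφ : FT φ)
    [Module (fixF φ.σ) V₀] (Q₀ : QuadraticForm (fixF φ.σ) V₀)
    (h : ∀ g ∈ Dg Q, FT (g * φ) → (∀ x, (g * φ).σ x = x ↔ ∃ y, (fixF φ.σ).subtype y = x) →
      Nonempty (Desc (fixF φ.σ).subtype Q₀ (g * φ))) :
    ∀ δ ∈ (Dg Q).map Φ, (δ * Φ φ) ^ orderOf (Φ φ) = 1 →
      Cfsg.IsConjUnder ((Dg Q).map Φ) (Φ φ) (δ * Φ φ) := by
  have h1 : ∀ g ∈ Dg Q, ∀ x, (g * φ).σ x = x ↔ ∃ y, (fixF φ.σ).subtype y = x := fun g hg x => by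
    rw [Gam.mul_σ, hg.1, one_mul, ← mem_fixF]
    simp
  refine coset_std Φ hker hφ fun g hg H => ?_
  obtain ⟨D⟩ := h 1 (one_mem _) (by rwa [one_mul]) (h1 1 (one_mem _))
  obtain ⟨D'⟩ := h g hg H (h1 g hg)
  rw [one_mul] at D
  exact D.exists_conj D' (by rw [Gam.mul_σ, hg.1, one_mul])

end abstract

theorem odd_of_aniso {F : Type*} [Field F] [Finite F] {σ : F ≃+* F} {a b : F} (hab : Aniso a b)
    (ha : σ a = a) (hb : σ b = b) : orderOf σ ≠ 2 := fun h => by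
  obtain ⟨t, ht⟩ := exists_root_of_finrank_two (F := fixF σ) (K := F) ((finrank_fixF σ).trans h)
    ⟨a, mem_fixF.2 ha⟩ ⟨b, mem_fixF.2 hb⟩
  exact one_ne_zero (hab t 1 (by rw [mul_one, one_pow, mul_one]; exact ht)).2

end CfsgH7
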