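import Cfsg.Agent.H7.Bal3
import Cfsg.Agent.H7.POApi
import Cfsg.Agent.H7.PSUField
import Cfsg.Agent.H8.Delta

set_option autoImplicit false

namespace CfsgH7

open Subgroup

section abstract

variable {K : Type*} [Group K]

/-- the two facts about an automorphism needed for the balance theorem -/
def BalG (p : ℕ) (x : MulAut K) : Prop :=
  (∃ k, k ≠ 1 ∧ x k = k) ∧ (p ∣ Nat.card K → Bal p x)

theorem BalG.of_congr {K' : Type*} [Group K'] (e : K ≃* K') {p : ℕ} {x : MulAut K}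
    (h : BalG p (MulAut.congr e x)) : BalG p x := by
  obtain ⟨⟨k, h1, h2⟩, h3⟩ := h
  refine ⟨⟨e.symm k, by simpa using h1, e.injective (by simpa using h2)⟩, fun hd N h4 h5 h6 => ?_⟩
  have := h3 (Nat.card_congr e.toEquiv ▸ hd) (N.map (MulAut.congr e).toMonoidHom) (by
    rintro _ ⟨n, hn, rfl⟩
    have := mem_centralizer_singleton_iff.1 (h4 hn)
    rw [mem_centralizer_singleton_iff]
    change MulAut.congr e n * _ = _ * MulAut.congr e n
    rw [← map_mul, this, map_mul])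
    (Nat.Coprime.coprime_dvd_left (card_map_dvd _ _) h5) (fun k hk => by
      have h7 : x (e.symm k) = e.symm k := e.injective (by simpa using hk)
      have h8 := Subgroup.le_normalizer_map (H := N) (MulAut.congr e).toMonoidHom ⟨_, h6 _ h7, rfl⟩
      have h9 : (MulAut.congr e).toMonoidHom (MulAut.conj (e.symm k)) = MulAut.conj k := by
        ext z
        simp
      rwa [h9] at h8)
  exact (Subgroup.map_eq_bot_iff_of_injective _ (MulAut.congr e).injective).1 this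

theorem BalG.congr {K' : Type*} [Group K'] (e : K ≃* K') {p : ℕ} {x : MulAut K}
    (h : BalG p x) : BalG p (MulAut.congr e x) :=
  BalG.of_congr e.symm (by convert h; ext z; simp)

theorem BalG.of_conj {p : ℕ} {x : MulAut K} (α : MulAut K) (h : BalG p (α * x * α⁻¹)) :
    BalG p x := BalG.of_congr α h

theorem BalG.of_isConjUnder {p : ℕ} {x y : MulAut K} {H : Subgroup (MulAut K)}
    (h : BalG p x) (h' : Cfsg.IsConjUnder H x y) : BalG p y := by
  obtain ⟨α, -, rfl⟩ := h'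
  exact BalG.of_conj α⁻¹ (by simpa [mul_assoc] using h)

theorem BalG.balance [Finite K] (hZ : center K = ⊥) (A : Subgroup (MulAut K))
    (hinn : ∀ k, MulAut.conj k ∈ A) {p : ℕ} [hp : Fact p.Prime] {x : MulAut K}
    (hord : orderOf x = p) {FT : Prop} (h : BalG p x) (h3 : ¬ p ∣ Nat.card K → FT) :
    Cfsg.pPrimeCore p ↥(A ⊓ centralizer {x}) ≠ ⊥ ↔
      (FT ∧ Nat.Coprime p (Nat.card (MonoidHom.eqLocus x.toMonoidHom (MonoidHom.id K)))) :=
  CfsgH7.balance hZ A hinn hord h.1 h.2 h3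

theorem dvd_card_inf [Finite K] (hZ : center K = ⊥) {p : ℕ} [Fact p.Prime] {x : MulAut K}
    (hord : orderOf x = p) {I : Subgroup (MulAut K)} (hI : ∀ k, MulAut.conj k ∈ I)
    (h : p ∣ Nat.card K) : p ∣ Nat.card ↥(I ⊓ centralizer {x}) := by
  refine (((card_fix_modEq hord).dvd_iff dvd_rfl).1 h).trans ?_
  rw [← Subgroup.card_map_of_injective (f := (MulAut.conj : K →* MulAut K))
    fun _ _ => conj_inj_of_center hZ]
  refine card_dvd_of_le ?_
  rintro _ ⟨k, hk, rfl⟩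
  exact ⟨hI k, conj_mem_centralizer hk⟩

theorem balG_of [Finite K] (hZ : center K = ⊥) {p : ℕ} {x : MulAut K} (I : Subgroup (MulAut K))
    (hI : ∀ k, MulAut.conj k ∈ I) (S : Set (MulAut K)) (hS : ∀ s ∈ S, ∃ k, MulAut.conj k = s)
    (hS' : ∀ s ∈ S, s * x = x * s) (h1 : ∃ s ∈ S, s ≠ 1)
    (hP : p ∣ Nat.card K → ∀ M : Subgroup (MulAut K), M ≤ I ⊓ centralizer {x} →
      (Nat.card M).Coprime p → (∀ s ∈ S, s ∈ normalizer (M : Set (MulAut K))) → M = ⊥)
    (h3 : ∀ y : MulAut K, y * x = x * y → (∀ k, x k = k → y k = k) → (orderOf y).Coprime p →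
      (∀ j : ℕ, y ^ j ∈ I → y ^ j = 1) → y = 1) : BalG p x := by
  refine ⟨?_, fun hd => bal_of hZ I hI (fun M h4 h5 h6 => hP hd M h4 h5 fun s hs => ?_) h3⟩
  · obtain ⟨s, hs, h2⟩ := h1
    obtain ⟨k, rfl⟩ := hS s hs
    exact ⟨k, fun e => h2 (by rw [e, map_one]), fix_of_commute hZ (hS' _ hs).symm⟩
  · obtain ⟨k, rfl⟩ := hS s hs
    exact h6 k (fix_of_commute hZ (hS' _ hs).symm)

instance innRangeNormal : (MulAut.conj : K →* MulAut K).range.Normal :=
  ⟨by rintro _ ⟨k, rfl⟩ y; exact ⟨y k, (aut_mul_conj y k).symm⟩⟩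

theorem two_dvd_card_of_LG [Finite K] (hZ : center K = ⊥) {F V G : Type*} [Field F]
    [AddCommGroup V] [Module F V] [Group G] {X : RGeo F V} (Λ : LG X G (MulAut K))
    (h : X.Swap Set.univ) (h1 : ∀ g ∈ Λ.G₁, ∃ k, MulAut.conj k = Λ.π g) : 2 ∣ Nat.card K := by
  refine (Λ.two_dvd h).trans ?_
  rw [← Subgroup.card_top (G := K), ← Subgroup.card_map_of_injective
    (f := (MulAut.conj : K →* MulAut K)) fun _ _ => conj_inj_of_center hZ]
  refine card_dvd_of_le ?_
  rintro _ ⟨g, hg, rfl⟩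
  obtain ⟨k, hk⟩ := h1 g (Λ.RS_le _ hg)
  exact ⟨k, trivial, hk⟩

end abstract

theorem σ_fix_of_comm {F V : Type*} [Field F] [AddCommGroup V] [Module F V] {σ : F → F}
    {T : V → V} (hi : Function.Injective T) (h0 : T 0 = 0) (hT : ∀ a v, T (a • v) = σ a • T v)
    {E : V → V} {x : V} (hx : E x ≠ 0) {a : F} (h1 : T (E x) = E (T x))
    (h2 : T (a • E x) = a • E (T x)) : σ a = a := by
  rw [hT, ← h1] at h2
  exact smul_left_injective F (fun e => hx (hi (e.trans h0.symm))) h2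

open CfsgH8 hiding map_mul map_one
open QuadraticMap hiding map_add map_sub map_smul map_zero map_neg sq
open Module

variable {F V : Type*} [Field F] [AddCommGroup V] [Module F V] {Q : QuadraticForm F V}

def gamρ (Q : QuadraticForm F V) : GO Q →* Module.End F V where
  toFun g := (Gam.lin g.1 g.2).toLinearMap
  map_one' := rfl
  map_mul' _ _ := rfl

theorem gamρ_apply (g : GO Q) (v : V) : gamρ Q g v = g.1.T v := rfl

theorem eq_scal_of_T (hQ : ND Q) [Nontrivial V] {g : Gam Q} {c : F} (h : ∀ v, g.T v = c • v) :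
    ∃ a, g = scal Q a := by
  have hc : c ≠ 0 := by
    rintro rfl
    obtain ⟨v, hv⟩ := exists_ne (0 : V)
    exact hv (g.T_eq_zero.1 (by rw [h, zero_smul]))
  exact ⟨Units.mk0 c hc, Gam.ext hQ h⟩

theorem σ_fix_sieg (θ : Gam Q) {u v x : V} (hu : Q u = 0) (hv : Q v = 0) (huv : polar Q u v = 0)
    (hx : polar Q v x • u - polar Q u x • v ≠ 0) {a : F}
    (h1 : θ.og (sieg Q u v) = sieg Q u v) (h2 : θ.og (sieg Q u (a • v)) = sieg Q u (a • v)) :
    θ.σ a = a := by
  have e : ∀ (b : F) y, (sieg Q u (b • v)).1 y = y + b • (polar Q v y • u - polar Q u y • v) := by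
    intro b y
    rw [sieg_apply hu (by rw [polar_sr, huv, mul_zero]), Q_smul, hv, polar_sl]
    module
  have e2 : ∀ b : F, θ.og (sieg Q u (b • v)) = sieg Q u (b • v) →
      θ.T (b • (polar Q v x • u - polar Q u x • v)) =
        b • (polar Q v (θ.T x) • u - polar Q u (θ.T x) • v) := by
    intro b hb
    have := θ.og_T (sieg Q u (b • v)) x
    rw [hb, e, e, map_add, add_right_inj] at this
    exact this.symm
  refine σ_fix_of_comm θ.T.injective (map_zero _) θ.smul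
    (E := fun y => polar Q v y • u - polar Q u y • v) hx ?_ (e2 a h2)
  simpa using e2 1 (by rwa [one_smul])

theorem BC.rel_sieg {F₀ V₀ : Type*} [Field F₀] [AddCommGroup V₀] [Module F₀ V₀] {ε : F₀ →+* F}
    {Q₀ : QuadraticForm F₀ V₀} (B : BC ε Q₀ Q) {u v : V₀} (hu : Q₀ u = 0)
    (huv : polar Q₀ u v = 0) :
    B.Rel (ofOG Q₀ (sieg Q₀ u v)) (ofOG Q (sieg Q (B.j u) ((B.y : F) • B.j v))) := by
  have h1 : Q (B.j u) = 0 := by simpa [hu] using (B.hQ u).symm
  have h2 : polar Q (B.j u) ((B.y : F) • B.j v) = 0 := by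
    rw [polar_sr, ← B.polar_j, huv, map_zero]
  refine ⟨rfl, rfl, by simp, fun x => ?_⟩
  rw [ofOG_T, ofOG_T, sieg_apply h1 h2, sieg_apply hu huv, polar_sl, Q_smul]
  simp only [map_sub, map_add, B.smul, map_mul, B.polar_j, B.hQ]
  module

section big

variable [Finite F] [hB : Big Q]

theorem center_POm : center (POm Q) = ⊥ := by
  rw [eq_bot_iff]
  intro z hz
  obtain ⟨g, rfl⟩ := QuotientGroup.mk_surjective z
  have : Phi Q (ofOG Q g) = 1 := by
    rw [Phi_ofOG]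
    ext y
    simp [← mem_center_iff.1 hz y]
  obtain ⟨a, ha⟩ := Phi_eq_one_iff.1 this
  exact (QuotientGroup.eq_one_iff _).2 (mem_center_of_scal ha)

theorem finite_POm : Finite (POm Q) := by
  haveI := Big.fd Q
  haveI : Finite V := Module.finite_of_finite F
  haveI : Finite (V ≃ₗ[F] V) := Finite.of_injective _ DFunLike.coe_injective
  infer_instance

theorem og_eq_of_fix (r : ℕ) [Fact r.Prime] [CharP F r] {θ : Gam Q} {s : Om Q} (hs : s ^ r = 1)
    (h : Phi Q θ (pmk Q s) = pmk Q s) : θ.og s = s := by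
  have h1 : s⁻¹ * commCongr θ.og s ∈ center (Om Q) := QuotientGroup.eq.1 h.symm
  have h2 := hZ_Om r _ h1 (by
    have h3 : Commute s⁻¹ (commCongr θ.og s) := by
      have := mem_center_iff.1 h1 s⁻¹
      rwa [mul_assoc, mul_right_inj] at this
    rw [h3.mul_pow, inv_pow, ← map_pow, hs, map_one, inv_one, one_mul])
  exact congrArg Subtype.val (inv_mul_eq_one.1 h2).symm

theorem conj_mem_GO (k : POm Q) : MulAut.conj k ∈ (GO Q).map (Phi Q) := by
  obtain ⟨g, rfl⟩ := QuotientGroup.mk_surjective k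
  exact ⟨_, ofOG_mem_GO g.1, Phi_ofOG g⟩

theorem og_eq_of_commute (r : ℕ) [Fact r.Prime] [CharP F r] {θ φ : Gam Q} {s : Om Q}
    (hs : s ^ r = 1) (h : ∀ k, Phi Q φ k = k → Phi Q θ k = k)
    (hc : ofOG Q s * φ = φ * ofOG Q s) : θ.og s = s :=
  og_eq_of_fix r hs (h _ (fix_of_commute center_POm (by
    erw [← Phi_ofOG, ← map_mul, ← hc, map_mul])))

theorem sg_pow (r : ℕ) [CharP F r] (u v : V) : sg Q u v ^ r = 1 :=
  Subtype.ext (sieg_pow_char r u v)

theorem balG_ofield (r : ℕ) [Fact r.Prime] [CharP F r] {p : ℕ} [hp : Fact p.Prime] (hpr : p ≠ r)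
    {φ : Gam Q} (hφ : FT φ) (hord : orderOf φ.σ = p)
    (hy : ∀ y : MulAut (POm Q), y * Phi Q φ = Phi Q φ * y → (∀ k, Phi Q φ k = k → y k = k) →
      (orderOf y).Coprime p → y ∈ (Phi Q).range) : BalG p (Phi Q φ) := by
  haveI := Big.fd Q
  haveI := Big.nontrivial Q
  haveI := finite_POm (Q := Q)
  obtain ⟨Q₀, ⟨D⟩⟩ := exists_desc hφ (fixF φ.σ).subtype fun x =>
    ⟨fun h => ⟨⟨x, mem_fixF.2 h⟩, rfl⟩, by rintro ⟨y, rfl⟩; exact mem_fixF.1 y.2⟩
  haveI := D.big
  haveI := Big.nontrivial Q₀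
  have hrel := D.rel_emb (GO Q₀) fun _ h => h
  let Λ : LG (oGeo Q₀ r) (GO Q₀) (MulAut (POm Q)) :=
    { ρ := gamρ Q₀
      π := (Phi Q).comp (D.emb (GO Q₀) fun _ h => h)
      G₁ := (MulAut.conj : POm Q →* _).range.comap ((Phi Q).comp (D.emb (GO Q₀) fun _ h => h))
      normal := inferInstance
      sim := fun g => ⟨g.1.c, g.1.c.ne_zero, Gam.mapQ_of_lin g.2⟩
      k1 := fun g h => by
        obtain ⟨a, ha⟩ := (hrel g).scal_iff.1 (Phi_eq_one_iff.1 h)
        exact ⟨a, fun v => by rw [gamρ_apply, ha]; rfl⟩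
      k2 := fun g _ h => Phi_eq_one_iff.2 ((hrel g).scal_iff.2
        (eq_scal_of_T (c := 1) Big.nd fun v => (LinearMap.congr_fun h v).trans (one_smul _ _).symm))
      root := by
        rintro a ha _ ⟨v, hv, rfl⟩
        refine ⟨⟨_, ofOG_mem_GO (sieg Q₀ a v)⟩, ⟨pmk Q (sg Q (D.j a) ((D.y : F) • D.j v)), ?_⟩, rfl⟩
        rw [MonoidHom.comp_apply, (hrel _).unique (D.rel_sieg ha.2 hv)]
        exact (Phi_ofOG _).symm }
  have hc : ∀ g, Λ.π g * Phi Q φ = Phi Q φ * Λ.π g := fun g => by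
    change Phi Q _ * _ = _ * Phi Q _
    rw [← map_mul, D.commute_of_rel Big.nd (hrel g), map_mul]
  have hle : (GO Q).map (Phi Q) ⊓ centralizer {Phi Q φ} = Λ.π.range := by
    refine le_antisymm ?_ ?_
    · rintro _ ⟨⟨g, hg, rfl⟩, h⟩
      obtain ⟨a, ha⟩ := Phi_eq_one_iff.1 (show Phi Q (g * φ * g⁻¹ * φ⁻¹) = 1 by
        simp only [map_mul, map_inv]
        rw [mem_centralizer_singleton_iff.1 h]; simp)
      obtain ⟨b, hb⟩ := exists_scal_commute hφ hg ha
      obtain ⟨g₀, h₀⟩ := D.rel_of_commute (g := scal Q b * g) (by simp [mem_GO.1 hg]) hb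
      refine ⟨⟨g₀, h₀.σ₀⟩, ?_⟩
      change Phi Q _ = _
      rw [(hrel _).unique h₀, map_mul, Phi_scal, one_mul]
    · rintro _ ⟨g, rfl⟩
      exact ⟨⟨_, (hrel g).σ, rfl⟩, mem_centralizer_singleton_iff.2 (hc g)⟩
  have hox : orderOf (Phi Q φ) = p := (orderOf_Phi _ (fun _ => Phi_eq_one_iff) hφ).trans hord
  refine balG_of center_POm ((GO Q).map (Phi Q)) conj_mem_GO (Λ.π '' Λ.G₁)
    (by rintro _ ⟨g, hg, rfl⟩; exact hg) (by rintro _ ⟨g, -, rfl⟩; exact hc g) ?_
    (fun hd M h1 h2 h3 => ?_) fun y h1 h2 h3 h4 => ?_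
  · obtain ⟨g, h1, h2⟩ := Λ.exists_ne_one (oGeo_swap Big.nd (by have := Big.five (Q := Q₀); omega))
    exact ⟨_, ⟨g, h1, rfl⟩, h2⟩
  · exact Λ.o_all Big.nd (Big.five Q₀) hpr (fun g c h => Phi_eq_one_iff.2 ((hrel g).scal_iff.2
      (eq_scal_of_T Big.nd h))) (hle ▸ dvd_card_inf center_POm hox conj_mem_GO hd) h2
      (fun g hg => h3 _ ⟨g, hg, rfl⟩) (hle ▸ h1)
  · obtain ⟨θ, rfl⟩ := hy y h1 h2 h3
    obtain ⟨e, f, e', f', q1, q2, q3, q4, q5, q6, q7, q8, q9, q10⟩ :=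
      exists_two_hyp (Big.nd (Q := Q₀)) (Big.five Q₀)
    have h5 : ∀ a, θ.og (sieg Q (D.j e) ((fixF φ.σ).subtype a • (D.y : F) • D.j e')) =
        sieg Q (D.j e) ((fixF φ.σ).subtype a • (D.y : F) • D.j e') := fun a => by
      have := D.commute_of_rel Big.nd (D.rel_sieg (v := a • e') q1 (by rw [polar_sr, q7, mul_zero]))
      rw [D.smul, smul_comm] at this
      exact og_eq_of_commute r (sg_pow r _ _) h2 this
    have h6 : θ.σ ∈ zpowers φ.σ := mem_zpowers_of_fix fun a ha =>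
      σ_fix_sieg θ (u := D.j e) (v := (D.y : F) • D.j e') (x := D.j f')
        (by simpa [q1] using (D.hQ e).symm) (by simpa [q4, Q_smul] using (D.hQ e').symm)
        (by rw [polar_sr, ← D.polar_j, q7, map_zero]) (by
          rw [polar_sl, ← D.polar_j, q6, smul_smul, mul_comm, ← D.polar_j, q9]
          simp only [map_one, map_zero, one_smul, zero_smul, sub_zero]
          intro e0
          have := D.inj (e0.trans (map_zero _).symm)
          simp [this] at q3)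
        (by simpa using h5 1) (h5 ⟨a, mem_fixF.2 ha⟩)
    refine eq_one_of_pow_coprime h3 (h4 p ⟨θ ^ p, ?_, map_pow _ _ _⟩)
    obtain ⟨k, hk⟩ := h6
    rw [SetLike.mem_coe, mem_GO, Gam.pow_σ, ← hk, ← zpow_natCast, ← zpow_mul, mul_comm, zpow_mul,
      zpow_natCast, ← hord, pow_orderOf_eq_one, one_zpow]

theorem two_dvd_POm : 2 ∣ Nat.card (POm Q) := by
  haveI := Big.fd Q
  haveI := Big.nontrivial Q
  haveI := finite_POm (Q := Q)
  obtain ⟨r, hr, _⟩ := exists_prime_char F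
  haveI := Fact.mk hr
  let Λ : LG (oGeo Q r) (GO Q) (MulAut (POm Q)) :=
    { ρ := gamρ Q
      π := (Phi Q).comp (GO Q).subtype
      G₁ := (MulAut.conj : POm Q →* _).range.comap ((Phi Q).comp (GO Q).subtype)
      normal := inferInstance
      sim := fun g => ⟨g.1.c, g.1.c.ne_zero, Gam.mapQ_of_lin g.2⟩
      k1 := fun g h => by
        obtain ⟨a, ha⟩ := Phi_eq_one_iff.1 h
        exact ⟨a, fun v => congrArg (fun γ : Gam Q => γ.T v) ha⟩
      k2 := fun g _ h => Phi_eq_one_iff.2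
        (eq_scal_of_T (c := 1) Big.nd fun v => (LinearMap.congr_fun h v).trans (one_smul _ _).symm)
      root := by
        rintro a ha _ ⟨v, hv, rfl⟩
        exact ⟨⟨_, ofOG_mem_GO (sieg Q a v)⟩, ⟨pmk Q (sg Q a v), (Phi_ofOG _).symm⟩, rfl⟩ }
  exact two_dvd_card_of_LG center_POm Λ (oGeo_swap Big.nd (by have := Big.five (Q := Q); omega))
    fun g hg => hg

end big

end CfsgH7
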