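import Cfsg.Agent.H7.POApi

set_option autoImplicit false

namespace CfsgH7

open CfsgH8 hiding map_mul map_one
open QuadraticMap hiding map_add map_sub map_smul map_zero map_neg sq
open Module Subgroup

universe u

variable {F : Type u} [Field F] [Finite F]

theorem minus_std {m : ℕ} {a b : F} (hab : Aniso a b) [hB : Big (QM m F a b)]
    {x : MulAut (Cfsg.POmega F (Cfsg.quadFormMinus m F a b))}
    (hx : Cfsg.IsFieldAutClassPOmegaMinus m x) :
    ∃ (α : MulAut _) (φ : Gam (QM m F a b)), α * x * α⁻¹ = PhiM (QM_coe m F a b) φ ∧ FT φ ∧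
      orderOf φ.σ ≠ 2 := by
  obtain ⟨a', b', ψ, σ, hab', -, ha, hb, hx⟩ := hx
  haveI : Big (QM m F a' b') := ⟨ND_QM hab', hB.five⟩
  have hσ : ∀ v, QM m F a' b' (σ.toRingHom ∘ v) = σ.toRingHom (QM m F a' b' v) := fun v => by
    rw [← QM_comp]
    simp [ha, hb]
  rw [isFieldAut_iff (QM_coe m F a' b') σ hσ] at hx
  obtain ⟨e, he⟩ : Iso (QM m F a' b') (QM m F a b) :=
    (((ND_QM (m := m) hab).classify_even (m := m + 1) (by simp; ring) hab').resolve_left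
      fun h => not_iso_QP_QM (m := m + 1) (by omega) hab h).2
  let θ : SIso (QM m F a' b') (QM m F a b) := SIso.ofSim e one_ne_zero fun v => by rw [he, one_mul]
  have h1 : (gconj θ (frob σ hσ)).σ = σ := RingEquiv.ext fun _ => rfl
  refine ⟨ψ.trans ((pomE (QM_coe m F a' b')).trans (θ.pom.trans (pomE (QM_coe m F a b)).symm)),
    gconj θ (frob σ hσ), MulEquiv.ext fun y => ?_, ?_,
    by rw [h1]; exact odd_of_aniso hab' ha hb⟩
  · rw [PhiM_apply, Phi_gconj, ← MulEquiv.apply_symm_apply (pomE (QM_coe m F a' b'))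
      (θ.pom.symm _), ← pomE_PhiM, ← hx]
    rfl
  · rw [FT, h1, ← map_pow, show frob σ hσ ^ orderOf σ = 1 from FT_frob σ hσ, map_one]

variable {m : ℕ} [hB : Big (QP m F)]

theorem cls_frob (σ : F ≃+* F) : cls MTS_stdE (frob σ (QH_comp _) : Gam (QP m F)) = 1 :=
  cls_of_fix _ MTS_stdE fun x hx => mem_stdE.2 fun i => by rw [frob_T, mem_stdE.1 hx, map_zero]

theorem gf_std (hs : Function.Surjective (Phi (QP m F)))
    {x : MulAut (Cfsg.POmega F (Cfsg.quadFormPlus m F))}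
    (hx : Cfsg.IsGraphFieldAutClassPOmegaPlus m x) (hr : (orderOf x).Prime) :
    ∃ φ : Gam (QP m F), x = PhiM (QP_coe m F) φ ∧ FT φ ∧ cls MTS_stdE φ = -1 := by
  obtain ⟨α, γ, φ, σ, v, r, hσ, hv, -, h1, h2, h3, e⟩ := hx
  rw [isFieldAut_iff (QP_coe m F) σ (QH_comp _)] at h3
  rw [isInduced_iff (QP_coe m F) (γ := ofOG _ (refl _ v)) fun y => by
    rw [h1]; exact (reflectionMatrix_mulVec (QP_coe m F) v y).symm] at h2
  obtain ⟨θ, rfl⟩ := PhiM_surjective (QP_coe m F) hs α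
  have h4 : x = PhiM (QP_coe m F) (θ⁻¹ * (ofOG _ (refl _ v) * frob σ (QH_comp _)) * θ) := by
    rw [map_mul, map_mul, map_mul, ← h2, ← h3, ← e, map_inv]; group
  obtain ⟨b, hb⟩ := exists_FT_of_prime _ (fun _ => PhiM_eq_one_iff (QP_coe m F))
    (γ := θ⁻¹ * (ofOG _ (refl _ v) * frob σ (QH_comp _)) * θ) (by
      simp only [frob_σ, Gam.mul_σ, ofOG_σ, one_mul, Gam.inv_σ, ne_eq, mul_assoc,
        inv_mul_eq_one, right_eq_mul]
      exact hσ) (h4 ▸ hr)
  refine ⟨_, by rw [map_mul, PhiM_scal, one_mul, ← h4], hb, ?_⟩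
  rw [map_mul, map_mul, map_mul, map_mul, cls_scal, cls_ofOG, dick_refl (QP_coe m F ▸ hv), cls_frob,
    map_inv]
  simp

theorem coset_plus {φ : Gam (QP m F)} (hφ : FT φ) :
    ∀ δ ∈ (Dg (QP m F)).map (PhiM (QP_coe m F)),
      (δ * PhiM (QP_coe m F) φ) ^ orderOf (PhiM (QP_coe m F) φ) = 1 →
      Cfsg.IsConjUnder ((Dg (QP m F)).map (PhiM (QP_coe m F))) (PhiM (QP_coe m F) φ)
        (δ * PhiM (QP_coe m F) φ) := by
  rcases Int.units_eq_one_or (cls MTS_stdE φ) with h | h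
  · exact coset_of_desc _ (fun _ => PhiM_eq_one_iff _) hφ (QP m _) fun g hg h3 h4 =>
      desc_QP h3 _ h4 (by simp; ring) MTS_stdE (by rw [map_mul, h, (mem_Dg_QH hg.1).1 hg, one_mul])
  · obtain ⟨ζ, hζ⟩ := exists_aniso (F := fixF φ.σ)
    exact coset_of_desc _ (fun _ => PhiM_eq_one_iff _) hφ (QM (m - 1) _ 1 ζ) fun g hg h3 h4 =>
      desc_QM h3 _ h4 (by simp; ring) MTS_stdE
        (by rw [map_mul, h, (mem_Dg_QH hg.1).1 hg, one_mul]) hζ

section count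

variable {F₀ : Type*} [Field F₀] [Fintype F₀] {ε : F₀ →+* F} {σ : F ≃+* F}
  (hε : ∀ x, σ x = x ↔ ∃ y, ε y = x) (h2 : orderOf σ = 2) (hF : (2 : F) ≠ 0)

include hε h2 hF

theorem negOne_mem_Om_QP : negOne (QP m F) ∈ Om (QP m F) := by
  rw [negOne_mem_commutator_iff ND_QH hF, discC_QH,
    chi_eq_one_iff.2 (by simpa using isSquare_of_two hε h2 (-1)), one_pow]
  exact ⟨MTS_even MTS_stdE, rfl⟩

omit hB in
theorem chi_skew_pow {s : Fˣ} {ν : F₀} (h3 : σ s = -s) (h4 : ε ν = s ^ 2) (h5 : ¬ IsSquare ν) :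
    chi ((s : F) ^ m) = 1 ↔ ¬ (Odd m ∧ Fintype.card F₀ % 4 = 1) := by
  have h2' : (2 : F₀) ≠ 0 := fun h => hF (by rw [← map_ofNat ε 2, h, map_zero])
  have h0 : ν ≠ 0 := by rintro rfl; exact h5 IsSquare.zero
  rw [chi_pow s.ne_zero, chi_eq_of_norm hε h2 s.ne_zero (a := -1 * ν) (by
    rw [map_mul, h4, h3]; simp [sq]), chi_mul (by simp) h0, chi_eq_neg_one_iff.2 h5,
    ← chi_neg_one_eq_one_iff h2']
  rcases Nat.even_or_odd m with h | h
  · rcases Int.units_eq_one_or (chi (-1 : F₀)) with h6 | h6 <;>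
      simp [h6, h.neg_one_pow, Nat.not_odd_iff_even.2 h]
  · rcases Int.units_eq_one_or (chi (-1 : F₀)) with h6 | h6 <;> simp [h6, h, h.neg_one_pow]

theorem count_field {V₀ : Type*} [AddCommGroup V₀] [Module F₀ V₀] {Q₀ : QuadraticForm F₀ V₀}
    (D : Desc ε Q₀ (frob σ (QH_comp _) : Gam (QP m F))) :
    (sc (Om (QP m F)) ⊔ (Dg (QP m F) ⊓ centralizer {frob σ (QH_comp _)})).relIndex (Dg (QP m F)) =
      if Odd m ∧ Fintype.card F₀ % 4 = 1 then 2 else 4 := by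
  haveI := Big.nontrivial (QP m F)
  obtain ⟨s, ν, h3, h4, h5⟩ := exists_skew hε h2 hF
  have hD : ∀ i : Fin m, (Sum.elim (fun _ => s ^ 2) fun _ => 1 : Fin m ⊕ Fin m → Fˣ) (.inl i) *
      (Sum.elim (fun _ => s ^ 2) fun _ => 1 : Fin m ⊕ Fin m → Fˣ) (.inr i) = s ^ 2 := fun _ => by simp
  have h6 := D.relIndex_even h2 (MTS_even MTS_stdE) hF (negOne_mem_Om_QP hε h2 hF)
    (dg_mem_Dg _ _ hD) (Gam.ext ND_QH fun x => funext fun k => by
      rw [Gam.mul_T, Gam.mul_T, dg_T, frob_T, frob_T, dg_T, map_mul]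
      rcases k with k | k <;> simp [h3]) h5 (by rw [dg_c, h4]; simp)
  rw [dg_mem_sc_Om_iff (negOne_mem_Om_QP hε h2 hF), show ∏ i : Fin m,
    (((Sum.elim (fun _ => s ^ 2) fun _ => 1 : Fin m ⊕ Fin m → Fˣ) (.inl i) : F) / s) = s ^ m by
      simp [sq], chi_skew_pow hε h2 hF h3 h4 h5] at h6
  split_ifs with h
  · exact h6.2 (not_not.2 h)
  · exact h6.1 h

end count

omit [Finite F] hB in
theorem refl_swap (i : Fin m) (y : Fin m ⊕ Fin m → F) (k : Fin m ⊕ Fin m) :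
    (refl (QP m F) (Pi.single (.inl i) 1 - Pi.single (.inr i) 1)).1 y k =
      y (Equiv.swap (.inl i) (.inr i) k) := by
  have h1 : QP m F (Pi.single (.inl i) 1 - Pi.single (.inr i) 1) = -1 := by
    simp [QH_apply, Pi.single_apply]
  have h2 : polar (QP m F) (Pi.single (.inl i) 1 - Pi.single (.inr i) 1) y =
      y (.inr i) - y (.inl i) := by
    simp [polar_QH, Pi.single_apply, Finset.sum_add_distrib, sub_eq_add_neg]
  rw [refl_apply, h1, h2]
  by_cases h3 : k = .inl i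
  · simp [h3]
  by_cases h4 : k = .inr i
  · simp [h4]
  simp [Equiv.swap_apply_of_ne_of_ne h3 h4, h3, h4]

/-- the standard graph-field semisimilarity -/
noncomputable def gfrob (σ : F ≃+* F) (i : Fin m) : Gam (QP m F) :=
  ofOG _ (refl _ (Pi.single (.inl i) 1 - Pi.single (.inr i) 1)) * frob σ (QH_comp _)

omit [Finite F] hB in
theorem gfrob_T (σ : F ≃+* F) (i : Fin m) (y : Fin m ⊕ Fin m → F) (k : Fin m ⊕ Fin m) :
    (gfrob σ i).T y k = σ (y (Equiv.swap (.inl i) (.inr i) k)) := by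
  rw [gfrob, Gam.mul_T, ofOG_T, refl_swap, frob_T]

omit [Finite F] hB in
theorem gfrob_σ (σ : F ≃+* F) (i : Fin m) : (gfrob σ i).σ = σ := by
  rw [gfrob, Gam.mul_σ, ofOG_σ, one_mul, frob_σ]

theorem cls_gfrob (σ : F ≃+* F) (i : Fin m) : cls MTS_stdE (gfrob σ i) = -1 := by
  rw [gfrob, map_mul, cls_ofOG, dick_refl (by simp [QH_apply, Pi.single_apply]), cls_frob, mul_one]

omit [Finite F] in
theorem FT_gfrob {σ : F ≃+* F} (h2 : orderOf σ = 2) (i : Fin m) : FT (gfrob σ i) := by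
  haveI := Big.nontrivial (QP m F)
  refine Gam.ext ND_QH fun x => funext fun k => ?_
  rw [gfrob_σ, h2, sq, Gam.mul_T, gfrob_T, gfrob_T, Equiv.swap_apply_self, ← RingAut.mul_apply, ← sq,
    ← h2, pow_orderOf_eq_one]
  rfl

theorem count_gf {F₀ : Type*} [Field F₀] [Fintype F₀] {ε : F₀ →+* F} {σ : F ≃+* F}
    (hε : ∀ x, σ x = x ↔ ∃ y, ε y = x) (h2 : orderOf σ = 2) (hF : (2 : F) ≠ 0) (i : Fin m)
    {V₀ : Type*} [AddCommGroup V₀] [Module F₀ V₀] {Q₀ : QuadraticForm F₀ V₀}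
    (D : Desc ε Q₀ (gfrob σ i)) :
    (sc (Om (QP m F)) ⊔ (Dg (QP m F) ⊓ centralizer {gfrob σ i})).relIndex (Dg (QP m F)) =
      if Odd m ∧ Fintype.card F₀ % 4 = 1 then 4 else 2 := by
  haveI := Big.nontrivial (QP m F)
  obtain ⟨s, ν, h3, h4, h5⟩ := exists_skew hε h2 hF
  obtain ⟨l, hl⟩ := exists_norm_eq σ ((hε _).2 ⟨ν, rfl⟩)
  rw [prod_range_two h2] at hl
  have hσ : ∀ x, σ (σ x) = x := fun x => by
    rw [← RingAut.mul_apply, ← sq, ← h2, pow_orderOf_eq_one]; rfl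
  obtain ⟨hl0, hl1⟩ : l ≠ 0 ∧ σ l ≠ 0 := mul_ne_zero_iff.1 (by rw [hl, h4]; simp)
  let E : Fin m ⊕ Fin m → Fˣ := Sum.elim (fun j => if j = i then Units.mk0 l hl0 else s ^ 2)
    fun j => if j = i then Units.mk0 (σ l) hl1 else 1
  have hD : ∀ j : Fin m, E (.inl j) * E (.inr j) = s ^ 2 := fun j => by
    by_cases h : j = i <;> simp [E, h, Units.ext_iff, hl, h4]
  have h6 := D.relIndex_even (by rwa [gfrob_σ]) (MTS_even MTS_stdE) hF (negOne_mem_Om_QP hε h2 hF)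
    (dg_mem_Dg _ _ hD) (Gam.ext ND_QH fun x => funext fun k => by
      rw [Gam.mul_T, Gam.mul_T, dg_T, gfrob_T, gfrob_T, dg_T, map_mul]
      congr 1
      by_cases h7 : k = .inl i
      · simp [h7, E, hσ]
      by_cases h8 : k = .inr i
      · simp [h8, E]
      rw [Equiv.swap_apply_of_ne_of_ne h7 h8]
      rcases k with k | k
      · simp [E, show k ≠ i by simpa using h7, h3]
      · simp [E, show k ≠ i by simpa using h8]) h5 (by rw [dg_c, h4]; simp)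
  have h7 : ∏ j, ((E (.inl j) : F) / s) = (s⁻¹ : Fˣ) ^ 2 * (l * s ^ m) := by
    have : ∀ j, ((E (.inl j) : F) / s) = (if j = i then (s⁻¹ : Fˣ) ^ 2 * l else 1) * s := fun j => by
      by_cases h : j = i <;> simp [E, h] <;> field_simp
    simp only [this, Finset.prod_mul_distrib]
    simp [mul_assoc]
  rw [dg_mem_sc_Om_iff (negOne_mem_Om_QP hε h2 hF), h7, chi_sq_mul (Units.ne_zero _),
    chi_mul hl0 (by simp), chi_eq_of_norm hε h2 hl0 hl.symm, chi_eq_neg_one_iff.2 h5] at h6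
  have h8 := chi_skew_pow (m := m) hε h2 hF h3 h4 h5
  split_ifs with h
  · exact h6.1 (by simpa [h, Int.units_ne_iff_eq_neg, neg_eq_iff_eq_neg] using h8)
  · exact h6.2 (by simp [h8.2 h])

end CfsgH7
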