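import Cfsg.Agent.H7.Bal4
import Cfsg.Agent.H7.POApi2

set_option autoImplicit false

namespace CfsgH7

open CfsgH8 hiding map_mul map_one
open QuadraticMap hiding map_add map_sub map_smul map_zero map_neg sq
open Module Subgroup

section mat

variable {F : Type*} [Field F] {ι : Type} [Fintype ι] [DecidableEq ι]
  {Q : QuadraticForm F (ι → F)} {q : (ι → F) → F}

theorem sim_pred (h : ⇑Q = q) {γ : Gam Q} (hγ : γ.σ = 1) (R : Matrix ι ι F → Prop)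
    (hR : ∀ M : Matrix ι ι F, (∀ v, γ.T v = M.mulVec v) → R M) :
    ∃ g : GL ι F, g ∈ Cfsg.Geo.quadSimilarityGroup (F := F) q ∧
      R g ∧ Cfsg.IsInducedBySemilinearPOmega q g (RingEquiv.refl F) (PhiM h γ) := by
  obtain ⟨g, hg⟩ := exists_rep γ
  rw [hγ] at hg
  refine ⟨g, ⟨γ.c, fun v => ?_⟩, hR g hg, (isInduced_iff h hg).2 rfl⟩
  rw [← h, ← Gam.mapQ_of_lin hγ, hg]
  rfl

variable [Finite F] [hB : Big Q]

theorem center_POmega (h : ⇑Q = q) : center (Cfsg.POmega F q) = ⊥ := by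
  rw [eq_bot_iff]
  intro z hz
  have : pomE h z ∈ center (POm Q) := (MulEquivClass.apply_mem_center_iff (pomE h)).2 hz
  rw [center_POm, mem_bot] at this
  exact (pomE h).injective (this.trans (map_one _).symm)

theorem finite_POmega (h : ⇑Q = q) : Finite (Cfsg.POmega F q) :=
  haveI := finite_POm (Q := Q)
  Finite.of_equiv _ (pomE h).symm.toEquiv

theorem two_dvd_POmega (h : ⇑Q = q) : 2 ∣ Nat.card (Cfsg.POmega F q) :=
  Nat.card_congr (pomE h).toEquiv ▸ two_dvd_POm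

omit [Finite F] hB in
theorem BalG.PhiM (h : ⇑Q = q) {p : ℕ} {γ : Gam Q} (h' : BalG p (Phi Q γ)) : BalG p (PhiM h γ) :=
  h'.congr (pomE h).symm

theorem exists_FT_PhiM (h : ⇑Q = q) {p : ℕ} [hp : Fact p.Prime] {γ : Gam Q} (hγ : γ.σ ≠ 1)
    (ho : orderOf (PhiM h γ) = p) : ∃ φ, FT φ ∧ PhiM h φ = PhiM h γ ∧ orderOf φ.σ = p := by
  obtain ⟨b, hb⟩ := exists_FT_of_prime _ (fun _ => PhiM_eq_one_iff h) hγ (ho ▸ hp.out)
  have : PhiM h (scal Q b * γ) = PhiM h γ := by rw [map_mul, PhiM_scal, one_mul]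
  exact ⟨_, hb, this, by rw [← orderOf_Phi _ (fun _ => PhiM_eq_one_iff h) hb, this, ho]⟩

omit hB in
theorem fixF_spec (σ : F ≃+* F) (x : F) : σ x = x ↔ ∃ y, (fixF σ).subtype y = x :=
  ⟨fun h => ⟨⟨x, mem_fixF.2 h⟩, rfl⟩, by rintro ⟨y, rfl⟩; exact mem_fixF.1 y.2⟩

theorem fieldClass_of_desc (h : ⇑Q = q) {φ : Gam Q} (hφ : φ.σ ≠ 1)
    (hσ : ∀ v, Q (φ.σ.toRingHom ∘ v) = φ.σ.toRingHom (Q v)) {V₀ : Type*} [AddCommGroup V₀]
    [Module (fixF φ.σ) V₀] {Q₀ : QuadraticForm (fixF φ.σ) V₀}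
    (D : Desc (fixF φ.σ).subtype Q₀ φ) (D' : Desc (fixF φ.σ).subtype Q₀ (frob φ.σ hσ)) :
    Cfsg.IsFieldAutClassPOmega q (PhiM h φ) := by
  obtain ⟨g, -, hg⟩ := D.exists_conj D' rfl
  exact ⟨PhiM h g, PhiM h (frob φ.σ hσ), φ.σ, hφ, (isFieldAut_iff h _ hσ).2 rfl,
    by rw [← hg, map_mul, map_mul, map_inv]⟩

end mat

end CfsgH7
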