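import Cfsg.Agent.H7.Bal4
import Cfsg.Agent.H7.Herm

set_option autoImplicit false

namespace CfsgH7

open Module Subgroup

variable {K V : Type*} [Field K] [AddCommGroup V] [Module K V]

theorem pow_eq_one_of_unip (r : ℕ) [hr : Fact r.Prime] [CharP K r] [Nontrivial V]
    {t : Module.End K V} (h : (t - 1) ^ 3 = 0) : t ^ r ^ 2 = 1 := by
  haveI : CharP (Module.End K V) r := charP_of_injective_algebraMap (algebraMap K _).injective r
  have h1 := sub_pow_char_pow_of_commute (p := r) (n := 2) (Commute.one_right t)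
  have h2 : 3 ≤ r ^ 2 := by nlinarith [hr.out.two_le]
  rwa [pow_eq_zero_of_le h2 h, one_pow, eq_comm, sub_eq_zero] at h1

theorem natCast_ne_zero_of_ne {r p : ℕ} [hr : Fact r.Prime] [CharP K r] [hp : Fact p.Prime]
    (hpr : p ≠ r) : (p : K) ≠ 0 := by
  rw [Ne, CharP.cast_eq_zero_iff K r]
  exact fun h => hpr ((Nat.prime_dvd_prime_iff_eq hr.out hp.out).1 h).symm

theorem two_le_finrank_range [Finite K] [FiniteDimensional K V] {T : Module.End K V} {p : ℕ}
    [Fact p.Prime] (hp : (p : K) ≠ 0) (hT : T ^ p = 1) (h1 : T ≠ 1) (hd : ¬ p ∣ Nat.card K - 1) :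
    2 ≤ finrank K (LinearMap.range (T - 1)) := by
  have h2 := RGeo.dvd_pow_finrank hp hT
  have h3 := RGeo.finrank_range_ne_zero h1
  by_contra h
  rw [show finrank K (LinearMap.range (T - 1)) = 1 by omega, pow_one] at h2
  exact hd h2

theorem coprime_sq {r p : ℕ} [hr : Fact r.Prime] [hp : Fact p.Prime] (hpr : p ≠ r) :
    p.Coprime (r ^ 2) := ((Nat.coprime_primes hp.out hr.out).2 hpr).pow_right 2

section main

variable {X : RGeo K V} {G H : Type*} [Group G] [Group H] [Finite H] (Λ : LG X G H)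

theorem LG.bot_of [Finite K] [FiniteDimensional K V] {p : ℕ} [Fact p.Prime] (hN : p.Coprime X.N)
    (h0 : X.Prim) (h1 : X.Swap Set.univ)
    (h2 : p ≠ 2 → ∃ (F₀ : Type) (_ : Field F₀) (_ : Fintype F₀), X.Shear F₀ ∧
      (¬ p ∣ Fintype.card F₀ ^ 2 - 1 → X.Cnt p ∧ ¬ p ∣ Nat.card K - 1))
    (h4 : ∀ T, X.Sim T → (∀ a, X.pt a → Pa K a (T a)) → ∃ c : K, ∀ v, T v = c • v)
    (hs : ∀ g (c : K), (∀ v, Λ.ρ g v = c • v) → Λ.π g = 1) (hd : p ∣ Nat.card Λ.π.range)
    {M : Subgroup H} (hM : (Nat.card M).Coprime p)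
    (hn : ∀ g ∈ Λ.G₁, Λ.π g ∈ normalizer (M : Set H)) (hle : M ≤ Λ.π.range) : M = ⊥ := by
  haveI : Finite V := Module.finite_of_finite K
  have hL : p ∣ Nat.card ((Λ.RS Set.univ).map Λ.π) := by
    by_cases hp2 : p = 2
    · rw [hp2]; exact Λ.two_dvd h1
    · obtain ⟨F₀, _, _, h5, h6⟩ := h2 hp2
      exact Λ.dvd_L h1 h5 h6 hs hd
  rw [eq_bot_iff]
  intro m hm
  obtain ⟨g, rfl⟩ := hle hm
  obtain ⟨c, hc⟩ := h4 _ (Λ.sim g) fun _ ha => Λ.fix_prim hN h0 hL hM hn hm ha
  exact hs g c hc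

end main

theorem RGeo.Shear.of_equiv {X : RGeo K V} {F₀ F₁ : Type*} [Field F₀] [Field F₁] (h : X.Shear F₀)
    (e : F₁ →+* F₀) : X.Shear F₁ := by
  obtain ⟨ε, a, b, h1, h2, h3⟩ := h
  exact ⟨ε.comp e, a, b, h1, fun s => h2 (e s), fun s => h3 (e s)⟩

theorem exists_small_field (F : Type*) [Field F] [Finite F] :
    ∃ (F₀ : Type) (_ : Field F₀) (_ : Fintype F₀), Nonempty (F₀ →+* F) ∧
      Fintype.card F₀ = Nat.card F := by
  haveI := Fintype.ofFinite F
  let e := Fintype.equivFin F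
  letI : Field (Fin (Fintype.card F)) := e.symm.field
  exact ⟨Fin (Fintype.card F), inferInstance, inferInstance, ⟨(e.symm.ringEquiv : _ →+* F)⟩, by simp⟩

section gl

variable (K V) in
/-- all points of the projective space and the transvections -/
def glGeo (r : ℕ) [hr : Fact r.Prime] [CharP K r] : RGeo K V where
  pt a := a ≠ 0
  Sim _ := True
  Rt a :=
    { carrier := {t | ∃ φ : Module.Dual K V, φ a = 0 ∧ ∀ v, t v = v + φ v • a}
      one_mem' := ⟨0, rfl, fun v => by simp⟩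
      mul_mem' := by
        rintro s t ⟨φ, h1, h2⟩ ⟨ψ, h3, h4⟩
        refine ⟨φ + ψ, by simp [h1, h3], fun v => ?_⟩
        rw [Module.End.mul_apply, h2, h4, map_add, map_smul, h1, LinearMap.add_apply]
        module }
  N := r ^ 2
  N_ne := pow_ne_zero _ hr.out.ne_zero
  pt_ne h := h
  pt_smul h hc := smul_ne_zero hc h
  pt_map _ hi ha e := ha (hi (by rw [e, map_zero]))
  sim_smul _ _ := trivial
  Rt_smul := fun {a t c} _ hc ⟨φ, h1, h2⟩ => ⟨c⁻¹ • φ, by simp [h1], fun v => by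
    rw [h2, LinearMap.smul_apply, smul_smul, smul_eq_mul]
    congr 2
    field_simp⟩
  Rt_conj := fun {T T' a t} _ h1 h2 _ ⟨φ, h3, h4⟩ => ⟨φ ∘ₗ T', by
    rw [LinearMap.comp_apply, ← Module.End.mul_apply, h2]; exact h3, fun v => by
    rw [Module.End.mul_apply, Module.End.mul_apply, h4, map_add, map_smul, ← Module.End.mul_apply,
      h1]; rfl⟩
  Rt_pow := fun {a t} ha ⟨φ, h1, h2⟩ => by
    haveI : Nontrivial V := ⟨a, 0, ha⟩
    refine pow_eq_one_of_unip r (LinearMap.ext fun v => ?_)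
    simp [pow_succ, h2, h1]
  Rt_sim _ _ := trivial

variable {r : ℕ} [hr : Fact r.Prime] [CharP K r]

omit hr [CharP K r] in
theorem exists_dual_of_not_pa {a c : V} (ha : a ≠ 0) (h : ¬ Pa K c a) :
    ∃ φ : Module.Dual K V, φ c = 0 ∧ φ a = 1 := by
  obtain ⟨φ, h1, h2⟩ := Submodule.exists_dual_map_eq_bot_of_notMem (notMem_span_of_not_pa ha h)
    inferInstance
  have h3 : φ c = 0 := by
    have : φ c ∈ (K ∙ c).map φ := ⟨c, Submodule.mem_span_singleton_self c, rfl⟩
    rwa [h2] at this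
  exact ⟨(φ a)⁻¹ • φ, by simp [h3], by simp [h1]⟩

def tvE (φ : Module.Dual K V) (a : V) : Module.End K V := 1 + φ.smulRight a

omit hr [CharP K r] in
@[simp] theorem tvE_apply (φ : Module.Dual K V) (a v : V) : tvE φ a v = v + φ v • a := rfl

theorem tvE_mem_L {φ : Module.Dual K V} {a : V} (h : φ a = 0) :
    tvE φ a ∈ (glGeo K V r).LS Set.univ := by
  by_cases ha : a = 0
  · rw [show tvE φ a = 1 from LinearMap.ext fun v => by simp [ha]]
    exact one_mem _
  · exact (glGeo K V r).mem_L (a := a) ha ⟨φ, h, fun _ => rfl⟩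

theorem glGeo_opp : (glGeo K V r).Opp fun a b => ¬ Pa K a b where
  symm a b h := mt Pa.symm h
  npa _ _ _ h := h
  pa a b c h h' h'' := h (h''.trans h'.symm)
  map t ht a b _ _ h := by
    have : Function.Injective t := by
      induction ht using Submonoid.closure_induction with
      | mem t ht =>
        obtain ⟨b, -, hb, ht⟩ := ht
        exact RGeo.Rt_inj _ hb ht
      | one => exact fun _ _ h => h
      | mul s t _ _ hs ht => exact hs.comp ht
    rintro ⟨c, hc, e⟩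
    exact h ⟨c, hc, this (by rw [e, map_smul])⟩
  trans c a b _ ha hb h1 h2 := by
    obtain ⟨φ, h3, h4, h5⟩ : ∃ φ : Module.Dual K V, φ c = 0 ∧ φ a = 1 ∧ φ b ≠ 0 := by
      obtain ⟨φ, h3, h4⟩ := exists_dual_of_not_pa ha h1
      obtain ⟨ψ, h5, h6⟩ := exists_dual_of_not_pa hb h2
      by_cases h7 : φ b = 0
      · exact ⟨ψ + (1 - ψ a) • φ, by simp [h3, h5], by simp [h4], by simp [h6, h7]⟩
      · exact ⟨φ, h3, h4, h7⟩
    refine ⟨tvE φ ((φ b)⁻¹ • b - a), tvE_mem_L (by simp [h4, h5]), by simpa [h3] using Pa.refl c,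
      ⟨φ b, h5, by simp [h4, smul_smul, h5]⟩, fun W h6 h7 _ v hv => ?_⟩
    exact W.add_mem hv (W.smul_mem _ (W.sub_mem (W.smul_mem _ h7) h6))

omit hr [CharP K r] in
theorem gl_common_opp {W : Submodule K V} (hW : 2 ≤ finrank K W) {a b : V} (ha : a ∈ W)
    (hb : b ∈ W) (ha0 : a ≠ 0) (hb0 : b ≠ 0) : ∃ c ∈ W, c ≠ 0 ∧ ¬ Pa K c a ∧ ¬ Pa K c b := by
  by_cases h : Pa K a b
  · obtain ⟨c, hc, h1⟩ : ∃ c ∈ W, c ∉ K ∙ a := by
      by_contra h1
      push Not at h1
      have := Submodule.finrank_mono (show W ≤ K ∙ a from h1)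
      rw [finrank_span_singleton ha0] at this
      omega
    have h2 : ¬ Pa K c a := fun h2 => by
      obtain ⟨k, -, e⟩ := h2.symm
      exact h1 (e ▸ Submodule.smul_mem _ _ (Submodule.mem_span_singleton_self a))
    exact ⟨c, hc, fun e => h1 (e ▸ Submodule.zero_mem _), h2, fun h3 => h2 (h3.trans h.symm)⟩
  · have key : ∀ {a b : V}, b ≠ 0 → ¬ Pa K a b → ¬ Pa K (a + b) a := by
      intro a b hb0 h h1
      obtain ⟨k, -, e⟩ := h1.symm
      exact notMem_span_of_not_pa hb0 h (Submodule.mem_span_singleton.2 ⟨k - 1, by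
        rw [sub_smul, ← e]; simp⟩)
    refine ⟨a + b, W.add_mem ha hb, fun e => h ⟨-1, by simp, ?_⟩, key hb0 h,
      add_comm a b ▸ key ha0 (mt Pa.symm h)⟩
    rw [neg_one_smul, eq_neg_iff_add_eq_zero, add_comm, e]

omit hr [CharP K r] in
theorem gl_common_opp' (hn : 2 ≤ finrank K V) {a b : V} (ha0 : a ≠ 0) (hb0 : b ≠ 0) :
    ∃ c, c ≠ 0 ∧ ¬ Pa K c a ∧ ¬ Pa K c b := by
  obtain ⟨c, -, h⟩ := gl_common_opp (W := (⊤ : Submodule K V)) (by rwa [finrank_top]) trivial trivial ha0 hb0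
  exact ⟨c, h⟩

theorem glGeo_prim (hn : 2 ≤ finrank K V) : (glGeo K V r).Prim :=
  glGeo_opp.prim (fun _ _ ha hb => gl_common_opp' hn ha hb) fun _ _ _ _ h h' => absurd h h'

theorem glGeo_swap (hn : 2 ≤ finrank K V) : (glGeo K V r).Swap Set.univ := by
  haveI : Nontrivial V := Module.nontrivial_of_finrank_pos (R := K) (by omega)
  obtain ⟨a, ha⟩ := exists_ne (0 : V)
  exact glGeo_opp.swap (fun _ _ ha hb => gl_common_opp' hn ha hb) ha

theorem glGeo_shear (hn : 2 ≤ finrank K V) : (glGeo K V r).Shear K := by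
  haveI : Nontrivial V := Module.nontrivial_of_finrank_pos (R := K) (by omega)
  obtain ⟨a, ha⟩ := exists_ne (0 : V)
  obtain ⟨b, hb, h, -⟩ := gl_common_opp' hn ha ha
  obtain ⟨φ, h1, h2⟩ := exists_dual_of_not_pa ha h
  obtain ⟨ψ, h3, h4⟩ := exists_dual_of_not_pa hb (mt Pa.symm h)
  refine ⟨RingHom.id K, a, b, fun s t e => ⟨?_, ?_⟩, fun s => ⟨tvE (s • ψ) a,
    tvE_mem_L (by simp [h3]), by simp [h3], by simp [h4]⟩, fun s => ⟨tvE (s • φ) b,
    tvE_mem_L (by simp [h1]), by simp [h1], by simp [h2]⟩⟩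
  · simpa [h1, h2] using congrArg φ e
  · simpa [h3, h4] using congrArg ψ e

theorem glGeo_cnt [Finite K] [FiniteDimensional K V] {p : ℕ} [hp : Fact p.Prime] (hpr : p ≠ r)
    (hd : ¬ p ∣ Nat.card K - 1) : (glGeo K V r).Cnt p := by
  refine glGeo_opp.cnt (natCast_ne_zero_of_ne hpr) hp.out.ne_zero fun T _ hT h1 => ?_
  have h2 := two_le_finrank_range (natCast_ne_zero_of_ne hpr) hT h1 hd
  refine ⟨?_, fun a ha b hb ha' hb' => gl_common_opp h2 ha hb ha' hb'⟩
  haveI : Nontrivial (LinearMap.range (T - 1)) :=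
    Module.nontrivial_of_finrank_pos (R := K) (by omega)
  obtain ⟨a, ha⟩ := exists_ne (0 : LinearMap.range (T - 1))
  exact ⟨a, a.2, fun e => ha (Subtype.ext e)⟩

omit hr [CharP K r] in
theorem gl_scal {T : Module.End K V} (h : ∀ a, a ≠ 0 → Pa K a (T a)) :
    ∃ c : K, ∀ v, T v = c • v := by
  obtain ⟨c, hc⟩ := T.exists_eq_smul_id_of_forall_notLinearIndependent fun v => by
    by_cases hv : v = 0
    · simp [hv, linearIndependent_fin2]
    · obtain ⟨k, -, e⟩ := h v hv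
      rw [LinearIndependent.pair_iff' hv]
      exact fun h => h k e.symm
  exact ⟨c, fun v => by rw [hc]; rfl⟩

theorem LG.gl_bot [Finite K] [FiniteDimensional K V] {G H : Type*} [Group G] [Group H] [Finite H]
    (Λ : LG (glGeo K V r) G H) (hn : 2 ≤ finrank K V) {p : ℕ} [Fact p.Prime] (hpr : p ≠ r)
    (hs : ∀ g (c : K), (∀ v, Λ.ρ g v = c • v) → Λ.π g = 1) (hd : p ∣ Nat.card Λ.π.range)
    {M : Subgroup H} (hM : (Nat.card M).Coprime p)
    (hN : ∀ g ∈ Λ.G₁, Λ.π g ∈ normalizer (M : Set H)) (hle : M ≤ Λ.π.range) : M = ⊥ := by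
  refine Λ.bot_of (coprime_sq hpr) (glGeo_prim hn) (glGeo_swap hn) (fun _ => ?_)
    (fun _ _ h => gl_scal h) hs hd hM hN hle
  obtain ⟨F₀, _, _, ⟨e⟩, h⟩ := exists_small_field K
  exact ⟨F₀, _, _, (glGeo_shear hn).of_equiv e, fun h' =>
    ⟨glGeo_cnt hpr (not_dvd_sub_one (h ▸ h')), not_dvd_sub_one (h ▸ h')⟩⟩

end gl

/-- a nondegenerate trace-valued skew-hermitian or alternating form -/
structure SF (K V : Type*) [Field K] [AddCommGroup V] [Module K V] where
  σ : K ≃+* K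
  σσ : ∀ x, σ (σ x) = x
  B : V → V → K
  add_left : ∀ u v w, B (u + v) w = B u w + B v w
  smul_left : ∀ (k : K) u v, B (k • u) v = k * B u v
  skew : ∀ u v, B v u = - σ (B u v)
  nondeg : ∀ u, (∀ v, B u v = 0) → u = 0
  hc : ∀ w, ∃ c, B w w + c - σ c = 0

def Polar.toSF {G : Type*} [Group G] (P : Polar K V G) : SF K V :=
  ⟨P.σ, P.σσ, P.B, P.add_left, P.smul_left, P.skew, P.nondeg, P.hc⟩

namespace SF

variable (P : SF K V)

attribute [simp] add_left smul_left σσ

@[simp] theorem zero_left (v : V) : P.B 0 v = 0 := by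
  simpa using P.smul_left 0 0 v

@[simp] theorem neg_left (u v : V) : P.B (-u) v = - P.B u v := by
  simpa using P.smul_left (-1) u v

@[simp] theorem sub_left (u v w : V) : P.B (u - v) w = P.B u w - P.B v w := by
  rw [sub_eq_add_neg, add_left, neg_left, sub_eq_add_neg]

@[simp] theorem add_right (u v w : V) : P.B u (v + w) = P.B u v + P.B u w := by
  rw [P.skew (v + w), P.skew v, P.skew w, add_left, map_add, neg_add]

@[simp] theorem smul_right (k : K) (u v : V) : P.B u (k • v) = P.σ k * P.B u v := by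
  rw [P.skew (k • v), P.skew v, smul_left, map_mul, mul_neg]

@[simp] theorem zero_right (v : V) : P.B v 0 = 0 := by
  rw [P.skew]; simp

@[simp] theorem neg_right (u v : V) : P.B u (-v) = - P.B u v := by
  simpa using P.smul_right (-1) u v

@[simp] theorem sub_right (u v w : V) : P.B u (v - w) = P.B u v - P.B u w := by
  rw [sub_eq_add_neg, add_right, neg_right, sub_eq_add_neg]

theorem perp_symm {u v : V} (h : P.B u v = 0) : P.B v u = 0 := by rw [P.skew, h]; simp

theorem ext_left {u v : V} (h : ∀ w, P.B u w = P.B v w) : u = v :=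
  sub_eq_zero.1 (P.nondeg _ fun w => by rw [sub_left, h, sub_self])

theorem exists_B_eq {x : V} (hx : x ≠ 0) (c : K) : ∃ v, P.B v x = c := by
  obtain ⟨v, hv⟩ : ∃ v, P.B v x ≠ 0 := by
    by_contra h
    push Not at h
    exact hx (P.nondeg _ fun v => P.perp_symm (h v))
  exact ⟨(c / P.B v x) • v, by rw [smul_left, div_mul_cancel₀ _ hv]⟩

def Bl (y : V) : Module.Dual K V where
  toFun x := P.B x y
  map_add' := by simp
  map_smul' := by simp

@[simp] theorem Bl_apply (y x : V) : P.Bl y x = P.B x y := rfl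

def res (W : Submodule K V) (h : ∀ u ∈ W, (∀ v ∈ W, P.B u v = 0) → u = 0) : SF K W where
  σ := P.σ
  σσ := P.σσ
  B u v := P.B u v
  add_left _ _ _ := P.add_left _ _ _
  smul_left _ _ _ := P.smul_left _ _ _
  skew _ _ := P.skew _ _
  nondeg u hu := Subtype.ext (h u u.2 fun v hv => hu ⟨v, hv⟩)
  hc w := P.hc w

/-- Eichler transformations -/
def E (a w : V) (c : K) : Module.End K V :=
  1 - (P.Bl a).smulRight w - (P.Bl w).smulRight a - c • (P.Bl a).smulRight a

theorem E_apply (a w : V) (c : K) (v : V) :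
    P.E a w c v = v - P.B v a • w - P.B v w • a - (c * P.B v a) • a := by
  simp [E, smul_smul]

theorem E_isom {a w : V} {c : K} (ha : P.B a a = 0) (hw : P.B w a = 0)
    (hc : P.B w w + c - P.σ c = 0) (u v : V) : P.B (P.E a w c u) (P.E a w c v) = P.B u v := by
  have hw' := P.perp_symm hw
  simp only [E_apply, sub_left, sub_right, smul_left, smul_right, ha, hw, hw', map_mul, P.skew v w,
    P.skew v a]
  linear_combination P.B u a * P.σ (P.B v a) * hc

theorem E_unip {a w : V} (c : K) (ha : P.B a a = 0) (hw : P.B w a = 0) :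
    (P.E a w c - 1) ^ 3 = 0 := by
  have hw' := P.perp_symm hw
  ext v
  simp [pow_succ, E_apply, ha, hw, hw']

def geo (r : ℕ) [hr : Fact r.Prime] [CharP K r] : RGeo K V where
  pt a := a ≠ 0 ∧ P.B a a = 0
  Sim T := ∃ m : K, m ≠ 0 ∧ P.σ m = m ∧ ∀ u v, P.B (T u) (T v) = m * P.B u v
  Rt a :=
    { carrier := {t | P.B a a = 0 → ∃ w c, P.B w a = 0 ∧ P.B w w + c - P.σ c = 0 ∧ t = P.E a w c}
      one_mem' := fun _ => ⟨0, 0, by simp, by simp, LinearMap.ext fun v => by simp [E_apply]⟩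
      mul_mem' := by
        intro s t hs ht ha
        obtain ⟨w, c, h1, h2, rfl⟩ := hs ha
        obtain ⟨w', c', h3, h4, rfl⟩ := ht ha
        refine ⟨w + w', c + c' - P.B w' w, by simp [h1, h3], ?_, LinearMap.ext fun v => ?_⟩
        · simp only [add_left, add_right, map_sub, map_add, P.skew w' w]
          linear_combination h2 + h4
        · simp only [Module.End.mul_apply, E_apply, sub_left, smul_left, ha, h3, add_right,
            P.perp_symm h1]
          module }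
  N := r ^ 2
  N_ne := pow_ne_zero _ hr.out.ne_zero
  pt_ne h := h.1
  pt_smul h hc := ⟨smul_ne_zero hc h.1, by simp [h.2]⟩
  pt_map := fun ⟨m, _, _, h⟩ hi ha => ⟨fun e => ha.1 (hi (by rw [e, map_zero])), by
    rw [h, ha.2, mul_zero]⟩
  sim_smul := fun {T c} ⟨m, h1, h2, h3⟩ hc => ⟨c * P.σ c * m, by simp [h1, hc],
    by simp [h2, mul_comm], fun u v => by simp [h3]; ring⟩
  Rt_smul := fun {a t k} ha hk ht _ => by
    obtain ⟨w, c, h1, h2, rfl⟩ := ht ha.2
    have hk' : P.σ k ≠ 0 := by simpa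
    refine ⟨(P.σ k)⁻¹ • w, c / (k * P.σ k), by simp [h1], ?_, LinearMap.ext fun v => ?_⟩
    · simp only [smul_left, smul_right, map_inv₀, σσ, map_div₀, map_mul]
      field_simp
      linear_combination h2
    · simp only [E_apply, smul_right, map_inv₀, σσ, smul_smul]
      congr 2
      · congr 2; field_simp
      · congr 1; field_simp
      · field_simp
  Rt_conj := fun {T T' a t} ⟨m, h1, h2, h3⟩ h4 _ ha ht _ => by
    obtain ⟨w, c, h5, h6, rfl⟩ := ht ha.2
    refine ⟨m⁻¹ • T w, c / m, by simp [h3, h5], ?_, LinearMap.ext fun x => ?_⟩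
    · simp only [smul_left, smul_right, map_inv₀, h2, map_div₀, h3]
      field_simp
      linear_combination h6
    · have h7 : T (T' x) = x := LinearMap.congr_fun h4 x
      change T (P.E a w c (T' x)) = _
      generalize T' x = y at h7
      subst h7
      simp only [E_apply, smul_right, map_inv₀, h2, h3, map_sub, map_smul, smul_smul]
      congr 2
      · congr 2; field_simp
      · congr 1; field_simp
      · field_simp
  Rt_pow := fun {a t} ha ht => by
    haveI : Nontrivial V := ⟨a, 0, ha.1⟩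
    obtain ⟨w, c, h1, -, rfl⟩ := ht ha.2
    exact pow_eq_one_of_unip r (P.E_unip c ha.2 h1)
  Rt_sim := fun {a t} ha ht => by
    obtain ⟨w, c, h1, h2, rfl⟩ := ht ha.2
    exact ⟨1, one_ne_zero, map_one _, fun u v => by rw [P.E_isom ha.2 h1 h2, one_mul]⟩

variable {r : ℕ} [hr : Fact r.Prime] [CharP K r]

theorem E_mem_Rt {a w : V} {c : K} (hw : P.B w a = 0) (hc : P.B w w + c - P.σ c = 0) :
    P.E a w c ∈ (P.geo r).Rt a := fun _ => ⟨w, c, hw, hc, rfl⟩

theorem geo_isom {S : Set V} {t} (ht : t ∈ (P.geo r).LS S) (u v : V) :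
    P.B (t u) (t v) = P.B u v := by
  induction ht using Submonoid.closure_induction generalizing u v with
  | mem t ht =>
    obtain ⟨b, -, hb, ht⟩ := ht
    obtain ⟨w, c, h1, h2, rfl⟩ := ht hb.2
    exact P.E_isom hb.2 h1 h2 u v
  | one => rfl
  | mul s t _ _ hs ht => exact (hs _ _).trans (ht _ _)

theorem geo_opp : (P.geo r).Opp fun a b => P.B a b ≠ 0 where
  symm a b h e := h (P.perp_symm e)
  npa := by
    rintro a _ ha h ⟨c, -, rfl⟩
    exact h (by simp [ha.2])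
  pa := by
    rintro a b _ h ⟨c, hc, rfl⟩
    simp [h, hc]
  map t ht a b _ _ h := by rwa [P.geo_isom ht]
  trans c a b hc ha hb h1 h2 := by
    have h3 : P.B a c ≠ 0 := fun e => h1 (P.perp_symm e)
    have h4 : P.B b c ≠ 0 := fun e => h2 (P.perp_symm e)
    obtain ⟨a', e1, e2, e3⟩ : ∃ a', a = (-P.B a c) • a' ∧ P.B a' c = -1 ∧ P.B a' a' = 0 :=
      ⟨(-P.B a c)⁻¹ • a, by simp [smul_smul, h3], by simp [h3], by simp [ha.2]⟩
    obtain ⟨b', e4, e5, e6⟩ : ∃ b', b = (-P.B b c) • b' ∧ P.B b' c = -1 ∧ P.B b' b' = 0 :=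
      ⟨(-P.B b c)⁻¹ • b, by simp [smul_smul, h4], by simp [h4], by simp [hb.2]⟩
    have h5 : P.B (b' - a') c = 0 := by simp [e2, e5]
    refine ⟨P.E c (b' - a') (P.B a' b'), (P.geo r).mem_L hc (P.E_mem_Rt h5 (by
      simp [e3, e6, P.skew a' b'])), ?_, ?_, fun W h6 h7 h8 v hv => ?_⟩
    · rw [E_apply, hc.2, P.perp_symm h5]
      simpa using Pa.refl c
    · have : P.E c (b' - a') (P.B a' b') a' = b' := by
        simp [E_apply, e2, e3]
      refine Pa.trans (Pa.symm ⟨-P.B a c, by simpa, ?_⟩) ⟨-P.B b c, by simpa, e4⟩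
      rw [← this, ← map_smul, ← e1, this]
    · have h9 : a' ∈ W := (W.smul_mem_iff (neg_ne_zero.2 h3)).1 (e1 ▸ h6)
      have h10 : b' ∈ W := (W.smul_mem_iff (neg_ne_zero.2 h4)).1 (e4 ▸ h7)
      rw [E_apply]
      exact W.sub_mem (W.sub_mem (W.sub_mem hv (W.smul_mem _ (W.sub_mem h10 h9)))
        (W.smul_mem _ h8)) (W.smul_mem _ h8)

omit hr [CharP K r] in
theorem adjust {x a : V} (ha : P.B a a = 0) (h : P.B x a = -1) :
    ∃ k : K, P.B (x + k • a) (x + k • a) = 0 := by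
  obtain ⟨k, hk⟩ := P.hc x
  refine ⟨k, ?_⟩
  simp only [add_left, add_right, smul_left, smul_right, ha, h, P.skew x a]
  simp only [map_neg, map_one]
  linear_combination hk

omit hr [CharP K r] in
theorem common_opp {a b : V} (ha0 : a ≠ 0) (ha : P.B a a = 0) (hb0 : b ≠ 0) (hb : P.B b b = 0) :
    ∃ c, (c ≠ 0 ∧ P.B c c = 0) ∧ P.B c a ≠ 0 ∧ P.B c b ≠ 0 := by
  suffices ∃ c, P.B c c = 0 ∧ P.B c a ≠ 0 ∧ P.B c b ≠ 0 by
    obtain ⟨c, h1, h2, h3⟩ := this
    exact ⟨c, ⟨fun e => h2 (by simp [e]), h1⟩, h2, h3⟩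
  by_cases hab : P.B a b = 0
  · obtain ⟨x, h1, h2⟩ : ∃ x, P.B x a = -1 ∧ P.B x b ≠ 0 := by
      obtain ⟨x, h1⟩ := P.exists_B_eq ha0 (-1)
      obtain ⟨y, h2⟩ := P.exists_B_eq hb0 1
      by_cases h3 : P.B x b = 0
      · exact ⟨y + (1 + P.B y a) • x, by simp [h1], by simp [h2, h3]⟩
      · exact ⟨x, h1, h3⟩
    obtain ⟨k, hk⟩ := P.adjust ha h1
    exact ⟨_, hk, by simp [ha, h1], by simp [hab, h2]⟩
  · refine ⟨a + P.B a b • b, ?_, by simp [ha, hab, P.skew a b], by simp [hb, hab]⟩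
    simp only [add_left, add_right, smul_left, smul_right, ha, hb, P.skew a b]
    ring

omit hr [CharP K r] in
theorem exists_perp_of_not_pa {a b : V} (ha : a ≠ 0) (hb : b ≠ 0) (h : ¬ Pa K a b) :
    ∃ x, P.B x a = 0 ∧ P.B x b = -1 := by
  obtain ⟨x, h1, h2⟩ : ∃ x, P.B x a = 0 ∧ P.B x b ≠ 0 := by
    by_contra h1
    push Not at h1
    obtain ⟨y, hy⟩ := P.exists_B_eq ha 1
    refine notMem_span_of_not_pa hb h (Submodule.mem_span_singleton.2 ⟨P.σ (P.B y b),
      P.ext_left fun x => ?_⟩)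
    have := h1 (x - P.B x a • y) (by simp [hy])
    rw [sub_left, smul_left, sub_eq_zero] at this
    rw [P.skew x b, this, smul_left, P.skew x a, map_mul]
    ring
  exact ⟨(-P.B x b)⁻¹ • x, by simp [h1], by simp [h2]⟩

theorem geo_prim : (P.geo r).Prim := by
  refine P.geo_opp.prim (fun a b ha hb => P.common_opp ha.1 ha.2 hb.1 hb.2)
    fun a b ha hb hab h => ?_
  rw [not_not] at h
  obtain ⟨x, h1, h2⟩ := P.exists_perp_of_not_pa ha.1 hb.1 hab
  obtain ⟨k, hk⟩ := P.adjust hb.2 h2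
  have h3 : P.B (x + k • b) b = -1 := by simp [h2, hb.2]
  have h4 : P.B (x + k • b) a = 0 := by simp [h1, P.perp_symm h]
  generalize x + k • b = w at hk h3 h4
  refine ⟨P.E w 0 1, (P.geo r).mem_L ⟨fun e => by simp [e] at h3, hk⟩
    (P.E_mem_Rt (by simp) (by simp)), ?_, ?_⟩
  · simpa [E_apply, P.perp_symm h4] using Pa.refl a
  · simp [E_apply, hb.2, P.skew w b, h3]

theorem geo_swap {a : V} (ha0 : a ≠ 0) (ha : P.B a a = 0) : (P.geo r).Swap Set.univ :=
  P.geo_opp.swap (fun a b ha hb => P.common_opp ha.1 ha.2 hb.1 hb.2) ⟨ha0, ha⟩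

omit hr [CharP K r] in
theorem exists_partner {e : V} (he0 : e ≠ 0) (he : P.B e e = 0) :
    ∃ f, P.B f f = 0 ∧ P.B f e = -1 := by
  obtain ⟨x, hx⟩ := P.exists_B_eq he0 (-1)
  obtain ⟨k, hk⟩ := P.adjust he hx
  exact ⟨_, hk, by simp [hx, he]⟩

theorem geo_shear {e : V} (he0 : e ≠ 0) (he : P.B e e = 0) {F₀ : Type*} [Field F₀]
    (ε : F₀ →+* K) (hε : ∀ s, P.σ (ε s) = ε s) : (P.geo r).Shear F₀ := by
  obtain ⟨f, hf, h⟩ := P.exists_partner he0 he
  have h' : P.B e f = 1 := by simp [P.skew f e, h]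
  refine ⟨ε, e, f, fun s t e1 => ⟨?_, ?_⟩, fun s => ⟨P.E e 0 (ε s), (P.geo r).mem_L ⟨he0, he⟩
    (P.E_mem_Rt (by simp) (by simp [hε])), by simp [E_apply, he], by simp [E_apply, h]⟩,
    fun s => ⟨P.E f 0 (-ε s), (P.geo r).mem_L ⟨fun e => by simp [e] at h, hf⟩
    (P.E_mem_Rt (by simp) (by simp [hε])), by simp [E_apply, hf], by simp [E_apply, h']⟩⟩
  · simpa [hf, h'] using congrArg (P.B · f) e1
  · simpa [he, h] using congrArg (P.B · e) e1

omit hr [CharP K r] in
theorem exists_iso [Finite K] [FiniteDimensional K V] (hn : 2 ≤ finrank K V) :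
    ∃ a, a ≠ 0 ∧ P.B a a = 0 := by
  haveI : Nontrivial V := Module.nontrivial_of_finrank_pos (R := K) (by omega)
  obtain ⟨x, hx⟩ := exists_ne (0 : V)
  by_cases h1 : P.B x x = 0
  · exact ⟨x, hx, h1⟩
  have h2 : orderOf P.σ = 2 := by
    refine orderOf_eq_prime (RingEquiv.ext P.σσ) fun h => h1 ?_
    obtain ⟨c, hc⟩ := P.hc x
    simpa [h] using hc
  obtain ⟨y, hy, h3⟩ : ∃ y, y ≠ 0 ∧ P.B y x = 0 := by
    have := LinearMap.finrank_range_add_finrank_ker (P.Bl x)
    have h3 := (LinearMap.range (P.Bl x)).finrank_le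
    rw [finrank_self] at h3
    haveI : Nontrivial (LinearMap.ker (P.Bl x)) :=
      Module.nontrivial_of_finrank_pos (R := K) (by omega)
    obtain ⟨y, hy⟩ := exists_ne (0 : LinearMap.ker (P.Bl x))
    exact ⟨y, fun e => hy (Subtype.ext e), y.2⟩
  by_cases h4 : P.B y y = 0
  · exact ⟨y, hy, h4⟩
  have h5 : ∀ v, P.σ (P.B v v) = -P.B v v := fun v => by rw [eq_neg_iff_add_eq_zero, add_comm,
    ← eq_neg_iff_add_eq_zero, ← P.skew]
  obtain ⟨μ, hμ⟩ := exists_norm_two h2 (c := -(P.B x x / P.B y y))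
    (by rw [map_neg, map_div₀, h5, h5, neg_div_neg_eq])
  refine ⟨x + μ • y, fun e => h1 ?_, ?_⟩
  · simpa [h3] using congrArg (P.B · x) e
  · simp only [add_left, add_right, smul_left, smul_right, h3, P.perp_symm h3]
    field_simp at hμ
    linear_combination hμ

theorem geo_cnt [Finite K] [FiniteDimensional K V] {p : ℕ} [hp : Fact p.Prime] (hpr : p ≠ r)
    (hd : ¬ p ∣ Nat.card K - 1) : (P.geo r).Cnt p := by
  have hp0 : (p : K) ≠ 0 := natCast_ne_zero_of_ne hpr
  refine P.geo_opp.cnt hp0 hp.out.ne_zero fun T ⟨c, _, _, hc⟩ hT h1 => ?_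
  have h4 := two_le_finrank_range hp0 hT h1 hd
  haveI : Nontrivial V := Module.nontrivial_of_finrank_pos (R := K)
    (by have := (LinearMap.range (T - 1)).finrank_le; omega)
  have h5 : c = 1 := by
    obtain ⟨x, hx⟩ := exists_ne (0 : V)
    obtain ⟨y, hy⟩ := P.exists_B_eq hx 1
    have : ∀ k : ℕ, P.B ((T ^ k) y) ((T ^ k) x) = c ^ k := by
      intro k
      induction k with
      | zero => simpa
      | succ k ih => rw [pow_succ', Module.End.mul_apply, Module.End.mul_apply, hc, ih, pow_succ']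
    have h6 := this p
    rw [hT, Module.End.one_apply, Module.End.one_apply, hy] at h6
    exact eq_one_of_pow_eq_one_of_not_dvd hd h6.symm
  have h6 : ∀ u ∈ LinearMap.range (T - 1), (∀ v ∈ LinearMap.range (T - 1), P.B u v = 0) →
      u = 0 := by
    refine fun x hx h => RGeo.fix_eq_zero hp0 hT hx ?_
    have hinj : Function.Surjective T := by
      intro v
      obtain ⟨n, hn⟩ := Nat.exists_eq_succ_of_ne_zero hp.out.ne_zero
      rw [hn, pow_succ'] at hT
      exact ⟨_, LinearMap.congr_fun hT v⟩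
    refine P.ext_left fun y => ?_
    obtain ⟨z, rfl⟩ := hinj y
    have := h _ ⟨z, rfl⟩
    simp only [LinearMap.sub_apply, Module.End.one_apply, sub_right, sub_eq_zero] at this
    rw [hc, h5, one_mul, this]
  refine ⟨?_, fun a ha b hb ha' hb' => ?_⟩
  · obtain ⟨⟨a, ha⟩, h7, h8⟩ := (P.res _ h6).exists_iso h4
    exact ⟨a, ha, fun e => h7 (Subtype.ext e), h8⟩
  · obtain ⟨⟨c, hc⟩, ⟨h7, h8⟩, h9⟩ := (P.res _ h6).common_opp (a := ⟨a, ha⟩) (b := ⟨b, hb⟩)
      (fun e => ha'.1 (congrArg Subtype.val e)) ha'.2 (fun e => hb'.1 (congrArg Subtype.val e)) hb'.2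
    exact ⟨c, hc, ⟨fun e => h7 (Subtype.ext e), h8⟩, h9⟩

omit hr [CharP K r] in
theorem scal {e : V} (he0 : e ≠ 0) (he : P.B e e = 0) {T : Module.End K V}
    (h : ∀ a, a ≠ 0 ∧ P.B a a = 0 → Pa K a (T a)) : ∃ c : K, ∀ v, T v = c • v := by
  have key : ∀ a b (s : K), P.B a a = 0 → P.B b b = 0 → P.B a b ≠ 0 → T a = s • a →
      T b = s • b := by
    intro a b s ha hb hab h1
    have hba : P.B b a ≠ 0 := fun e => hab (P.perp_symm e)
    obtain ⟨t, -, h2⟩ := h b ⟨fun e => by simp [e] at hab, hb⟩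
    obtain ⟨u, -, h3⟩ := h (a + P.B a b • b) ⟨fun e => hab (by
      simpa [hb] using congrArg (P.B · b) e), by
      simp only [add_left, add_right, smul_left, smul_right, ha, hb, P.skew a b]; ring⟩
    rw [map_add, map_smul, h1, h2] at h3
    have h4 := congrArg (P.B · b) h3
    have h5 := congrArg (P.B · a) h3
    simp [ha, hb, hab, hba] at h4 h5
    have h6 : t = u := mul_left_cancel₀ (mul_ne_zero hab hba) (by linear_combination h5)
    rw [h2, h6, h4]
  obtain ⟨s, -, hs⟩ := h e ⟨he0, he⟩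
  have h1 : ∀ x, P.B x e = -1 → T x = s • x := by
    intro x hx
    obtain ⟨k, hk⟩ := P.adjust he hx
    have := key e _ s he hk (by simp [he, P.skew x e, hx]) hs
    rw [map_add, map_smul, hs, smul_add, smul_comm, add_left_inj] at this
    exact this
  obtain ⟨x, hx⟩ := P.exists_B_eq he0 (-1)
  refine ⟨s, fun v => ?_⟩
  have := h1 (v + (1 + P.B v e) • x) (by simp [hx])
  rwa [map_add, map_smul, h1 x hx, smul_add, smul_comm, add_left_inj] at this

end SF

theorem LG.sf_bot [Finite K] [FiniteDimensional K V] {G H : Type*} [Group G] [Group H] [Finite H]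
    {P : SF K V} {r : ℕ} [Fact r.Prime] [CharP K r] (Λ : LG (P.geo r) G H)
    (hn : 2 ≤ finrank K V) {p : ℕ} [Fact p.Prime] (hpr : p ≠ r)
    (hs : ∀ g (c : K), (∀ v, Λ.ρ g v = c • v) → Λ.π g = 1) (hd : p ∣ Nat.card Λ.π.range)
    {M : Subgroup H} (hM : (Nat.card M).Coprime p)
    (hN : ∀ g ∈ Λ.G₁, Λ.π g ∈ normalizer (M : Set H)) (hle : M ≤ Λ.π.range) : M = ⊥ := by
  obtain ⟨e, he0, he⟩ := P.exists_iso hn
  refine Λ.bot_of (coprime_sq hpr) P.geo_prim (P.geo_swap he0 he) (fun _ => ?_)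
    (fun _ _ h => P.scal he0 he h) hs hd hM hN hle
  obtain ⟨F₀, _, _, ⟨ε⟩, h⟩ := exists_small_field (fixF P.σ)
  refine ⟨F₀, inferInstance, inferInstance, P.geo_shear he0 he ((fixF P.σ).subtype.comp ε) fun s => mem_fixF.1 (ε s).2,
    fun h' => ?_⟩
  have h1 : ¬ p ∣ Nat.card K - 1 := by
    rw [card_fixF P.σ, ← h]
    rcases (Nat.dvd_prime Nat.prime_two).1 (orderOf_dvd_of_pow_eq_one (x := P.σ) (n := 2)
      (RingEquiv.ext P.σσ)) with h2 | h2
    · rw [h2, pow_one]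
      exact not_dvd_sub_one h'
    · rwa [h2]
  exact ⟨P.geo_cnt hpr h1, h1⟩

end CfsgH7
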