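import Cfsg.Agent.H7.Bal6

set_option autoImplicit false

namespace CfsgH7

open Module Subgroup

section rich

variable {K V : Type*} [Field K] [AddCommGroup V] [Module K V]

/-- the ring generated by the root transformations sees all scalars -/
def RGeo.Rich (X : RGeo K V) : Prop :=
  ∀ S : Subring (Module.End K V), (∀ a, X.pt a → ∀ t ∈ X.Rt a, t ∈ S) →
    ∀ c : K, ∃ E ∈ S, E ≠ 0 ∧ c • E ∈ S

variable {r : ℕ} [hr : Fact r.Prime] [CharP K r]

theorem glGeo_rich (hn : 2 ≤ finrank K V) : (glGeo K V r).Rich := by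
  intro S hS c
  haveI : Nontrivial V := Module.nontrivial_of_finrank_pos (R := K) (by omega)
  obtain ⟨a, ha⟩ := exists_ne (0 : V)
  obtain ⟨b, hb, h, -⟩ := gl_common_opp' hn ha ha
  obtain ⟨ψ, h3, h4⟩ := exists_dual_of_not_pa hb (mt Pa.symm h)
  refine ⟨tvE ψ a - 1, sub_mem (hS a ha _ ⟨ψ, h3, fun _ => rfl⟩) (one_mem _), fun e => ha ?_, ?_⟩
  · simpa [h4] using LinearMap.congr_fun e b
  · convert sub_mem (hS a ha (tvE (c • ψ) a) ⟨c • ψ, by simp [h3], fun _ => rfl⟩) (one_mem _)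
    ext v
    simp [smul_smul]

theorem SF.geo_rich [Finite K] [FiniteDimensional K V] (P : SF K V) (hn : 2 ≤ finrank K V)
    (h : P.σ = 1 ∨ 3 ≤ finrank K V) : (P.geo r).Rich := by
  intro S hS c
  obtain ⟨e, he0, he⟩ := P.exists_iso hn
  obtain ⟨f, hf, h1⟩ := P.exists_partner he0 he
  have h2 : P.B e f = 1 := by simp [P.skew f e, h1]
  have hf0 : f ≠ 0 := fun e => by simp [e] at h1
  obtain ⟨w, h3, h4, h5⟩ : ∃ w, P.B w e = 0 ∧ P.B w f = 0 ∧ P.B w w + c - P.σ c = 0 := by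
    by_cases h0 : P.σ = 1
    · exact ⟨0, by simp, by simp, by simp [h0]⟩
    have ho : orderOf P.σ = 2 := orderOf_eq_prime (RingEquiv.ext P.σσ) h0
    obtain ⟨x, hx0, h3, h4⟩ : ∃ x, x ≠ 0 ∧ P.B x e = 0 ∧ P.B x f = 0 := by
      have := LinearMap.finrank_range_add_finrank_ker ((P.Bl e).prod (P.Bl f))
      have h3 := (LinearMap.range ((P.Bl e).prod (P.Bl f))).finrank_le
      rw [finrank_prod, finrank_self] at h3
      haveI : Nontrivial (LinearMap.ker ((P.Bl e).prod (P.Bl f))) :=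
        Module.nontrivial_of_finrank_pos (R := K) (by have := h.resolve_left h0; omega)
      obtain ⟨y, hy⟩ := exists_ne (0 : LinearMap.ker ((P.Bl e).prod (P.Bl f)))
      exact ⟨y, fun e => hy (Subtype.ext e), congrArg Prod.fst y.2, congrArg Prod.snd y.2⟩
    obtain ⟨y, h5, h6, h7⟩ : ∃ y, P.B y e = 0 ∧ P.B y f = 0 ∧ P.B y y ≠ 0 := by
      by_cases hx : P.B x x = 0
      · obtain ⟨θ, hθ⟩ := exists_ne_of_orderOf ho
        obtain ⟨z, hz⟩ := P.exists_B_eq hx0 1
        obtain ⟨y, e1, e2, e3⟩ : ∃ y, P.B y e = 0 ∧ P.B y f = 0 ∧ P.B y x = 1 :=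
          ⟨z - P.B z f • e + P.B z e • f, by simp [he, h1], by simp [hf, h2],
            by simp [hz, P.perp_symm h3, P.perp_symm h4]⟩
        by_cases hy : P.B y y = 0
        · exact ⟨y + θ • x, by simp [e1, h3], by simp [e2, h4], by
            simp only [P.add_left, P.add_right, P.smul_left, P.smul_right, hy, hx, e3, P.skew y x]
            intro e
            apply hθ
            simp only [map_one] at e
            linear_combination -e⟩
        · exact ⟨y, e1, e2, hy⟩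
      · exact ⟨x, h3, h4, hx⟩
    have h8 : P.σ (P.B y y) = -P.B y y := by
      rw [eq_neg_iff_add_eq_zero, add_comm, ← eq_neg_iff_add_eq_zero, ← P.skew]
    obtain ⟨μ, hμ⟩ := exists_norm_two ho (c := (P.σ c - c) / P.B y y)
      (by rw [map_div₀, h8, map_sub, P.σσ, ← neg_sub, neg_div_neg_eq])
    refine ⟨μ • y, by simp [h5], by simp [h6], ?_⟩
    rw [P.smul_left, P.smul_right, ← mul_assoc, hμ, div_mul_cancel₀ _ h7]
    ring
  have h6 : 1 - P.E f 0 1 ∈ S := sub_mem (one_mem _)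
    (hS f ⟨hf0, hf⟩ _ (P.E_mem_Rt (by simp) (by simp)))
  refine ⟨_, h6, fun e0 => hf0 ?_, ?_⟩
  · simpa [SF.E_apply, h2] using LinearMap.congr_fun e0 e
  · convert mul_mem (mul_mem h6 (hS e ⟨he0, he⟩ _ (P.E_mem_Rt h3 h5))) h6
    ext v
    simp [SF.E_apply, h1, h2, h4, hf, P.perp_symm h4, smul_smul, mul_comm]

open CfsgH8 hiding map_mul map_one in
open QuadraticMap hiding map_add map_sub map_smul map_zero map_neg sq in
theorem oGeo_rich [Finite K] [FiniteDimensional K V] {Q : QuadraticForm K V} (hQ : ND Q)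
    (hn : 3 ≤ finrank K V) (h2 : (2 : K) ≠ 0) : (oGeo Q r).Rich := by
  intro S hS c
  obtain ⟨e, f, he, hf, h1⟩ := exists_hyp hQ hn
  have he0 : e ≠ 0 := fun e => by simp [e] at h1
  have h3 := finrank_perp2 hQ he h1
  haveI : Nontrivial (perp2 Q e f) := Module.nontrivial_of_finrank_pos (R := K) (by omega)
  obtain ⟨⟨w, hw⟩, hw0⟩ := exists_ne (0 : perp2 Q e f)
  rw [mem_perp2] at hw
  have key : ∀ d : K, (sieg Q e (d • w)).1.toLinearMap - (sieg Q e ((-d) • w)).1.toLinearMap ∈ S :=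
    fun d => sub_mem (hS e ⟨he0, he⟩ _ (sieg_mem_Rt (by rw [polar_sr, hw.1, mul_zero])))
      (hS e ⟨he0, he⟩ _ (sieg_mem_Rt (by rw [polar_sr, hw.1, mul_zero])))
  have key2 : ∀ (d : K) v, ((sieg Q e (d • w)).1.toLinearMap -
      (sieg Q e ((-d) • w)).1.toLinearMap) v = (2 * d) • (polar Q w v • e - polar Q e v • w) := by
    intro d v
    simp only [LinearMap.sub_apply, LinearEquiv.coe_coe]
    rw [sieg_apply he (by rw [polar_sr, hw.1, mul_zero]),
      sieg_apply he (by rw [polar_sr, hw.1, mul_zero]), polar_sl, polar_sl, Q_smul, Q_smul]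
    module
  refine ⟨_, key 1, fun e0 => hw0 (Subtype.ext ?_), ?_⟩
  · have := LinearMap.congr_fun e0 f
    rw [key2, pcomm, hw.2, h1] at this
    simpa [h2] using this
  · convert key c using 1
    ext v
    rw [LinearMap.smul_apply, key2, key2, smul_smul]
    congr 1
    ring

end rich

section mat

open Matrix

variable {ι : Type*} [Fintype ι] [DecidableEq ι] {F F₀ : Type*} [Field F] [Field F₀]

def semiR (M : GL ι F) (ε : F₀ →+* F) : Matrix ι ι F₀ →+* Matrix ι ι F where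
  toFun A := M.1 * A.map ε * (M⁻¹).1
  map_one' := by simp
  map_mul' A B := by
    rw [Matrix.map_mul]
    simp only [Matrix.mul_assoc, Units.inv_mul_cancel_left]
  map_zero' := by simp
  map_add' A B := by rw [Matrix.map_add _ (map_add ε), Matrix.mul_add, Matrix.add_mul]

theorem semiR_apply (M : GL ι F) (ε : F₀ →+* F) (A : Matrix ι ι F₀) :
    semiR M ε A = M.1 * A.map ε * (M⁻¹).1 := rfl

theorem semiR_smul (M : GL ι F) (ε : F₀ →+* F) (c : F₀) (A : Matrix ι ι F₀) :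
    semiR M ε (c • A) = ε c • semiR M ε A := by
  rw [semiR_apply, semiR_apply, ← Matrix.smul_mul, ← Matrix.mul_smul]
  congr 2
  ext i j
  simp

theorem semiR_injective (M : GL ι F) (ε : F₀ →+* F) : Function.Injective (semiR M ε) := by
  intro A B h
  exact Matrix.map_injective ε.injective
    ((Units.mul_right_inj M).1 ((Units.mul_left_inj M⁻¹).1 h))

noncomputable def jM (M : GL ι F) (ε : F₀ →+* F) : Module.End F₀ (ι → F₀) →+* Matrix ι ι F :=
  (semiR M ε).comp (LinearMap.toMatrixAlgEquiv' (R := F₀) (n := ι)).toRingEquiv.toRingHom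

theorem jM_apply (M : GL ι F) (ε : F₀ →+* F) (t : Module.End F₀ (ι → F₀)) :
    jM M ε t = M.1 * (LinearMap.toMatrix' t).map ε * (M⁻¹).1 := rfl

theorem jM_smul (M : GL ι F) (ε : F₀ →+* F) (c : F₀) (t : Module.End F₀ (ι → F₀)) :
    jM M ε (c • t) = ε c • jM M ε t := by
  rw [jM_apply, map_smul]
  exact semiR_smul M ε c _

theorem jM_injective (M : GL ι F) (ε : F₀ →+* F) : Function.Injective (jM M ε) :=
  (semiR_injective M ε).comp LinearMap.toMatrixAlgEquiv'.injective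

noncomputable def matρ (G : Subgroup (GL ι F)) : G →* Module.End F (ι → F) :=
  (Matrix.toLinAlgEquiv' (R := F) (n := ι)).toMulEquiv.toMonoidHom.comp
    ((Units.coeHom _).comp G.subtype)

theorem matρ_apply (G : Subgroup (GL ι F)) (g : G) (v : ι → F) : matρ G g v = g.1.1 *ᵥ v := rfl

theorem toMatrix'_matρ (G : Subgroup (GL ι F)) (g : G) : LinearMap.toMatrix' (matρ G g) = g.1.1 :=
  LinearMap.toMatrix'_toLin' _

theorem matρ_scalar_iff (G : Subgroup (GL ι F)) (g : G) :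
    (∃ c : F, g.1.1 = c • 1) ↔ ∃ c : F, ∀ v, matρ G g v = c • v := by
  refine exists_congr fun c => ⟨fun h v => by rw [matρ_apply, h, smul_mulVec, one_mulVec],
    fun h => ?_⟩
  rw [← toMatrix'_matρ, show matρ G g = c • 1 from LinearMap.ext h, map_smul,
    LinearMap.toMatrix'_one]

theorem exists_SL_of_pow (r : ℕ) [hr : Fact r.Prime] [CharP F r] {t : Module.End F (ι → F)} {k : ℕ}
    (h : t ^ r ^ k = 1) : ∃ s : Matrix.SpecialLinearGroup ι F, s.1 = LinearMap.toMatrix' t := by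
  refine ⟨⟨_, ?_⟩, rfl⟩
  have h1 := congrArg LinearMap.det h
  rw [map_pow, map_one, ← sub_eq_zero, ← one_pow (r ^ k), ← sub_pow_char_pow,
    pow_eq_zero_iff (pow_ne_zero _ hr.out.ne_zero), sub_eq_zero] at h1
  rw [LinearMap.det_toMatrix', h1]

theorem matρ_toGL {G : Subgroup (GL ι F)} {s : Matrix.SpecialLinearGroup ι F}
    {t : Module.End F (ι → F)} (h : s.1 = LinearMap.toMatrix' t)
    (hs : Matrix.SpecialLinearGroup.toGL s ∈ G) : matρ G ⟨_, hs⟩ = t :=
  LinearMap.ext fun v => by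
    rw [matρ_apply]
    change s.1 *ᵥ v = _
    rw [h, LinearMap.toMatrix'_mulVec]

end mat

section main

variable {K V : Type*} [Field K] [AddCommGroup V] [Module K V] {X : RGeo K V}

def LG.Bot {G H : Type*} [Group G] [Group H] (Λ : LG X G H) (p : ℕ) : Prop :=
  (∀ g (c : K), (∀ v, Λ.ρ g v = c • v) → Λ.π g = 1) → p ∣ Nat.card Λ.π.range →
    ∀ M : Subgroup H, (Nat.card M).Coprime p → (∀ g ∈ Λ.G₁, Λ.π g ∈ normalizer (M : Set H)) →
      M ≤ Λ.π.range → M = ⊥

theorem balG_mat {ι F S G : Type*} [Fintype ι] [DecidableEq ι] [Field F] [Group S] [Finite S]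
    [Group G] (mat : S →* Matrix ι ι F) (hmat : Function.Injective mat) {r : ℕ}
    (hZ : ∀ z ∈ center S, z ^ r = 1 → z = 1) (hZ' : center (S ⧸ center S) = ⊥)
    {I : Subgroup (MulAut (S ⧸ center S))} (hI : ∀ k, MulAut.conj k ∈ I)
    {p : ℕ} [Fact p.Prime] {x : MulAut (S ⧸ center S)} (hord : orderOf x = p)
    (ρ : G →* Module.End K V) (π : G →* MulAut (S ⧸ center S)) (hsim : ∀ g, X.Sim (ρ g))
    (hker : ∀ g, π g = 1 ↔ ∃ c : K, ∀ v, ρ g v = c • v)
    (hle : I ⊓ centralizer {x} = π.range) (ε : K →+* F) (j : Module.End K V →+* Matrix ι ι F)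
    (hj : ∀ c t, j (c • t) = ε c • j t) (hji : Function.Injective j)
    (hroot : ∀ a, X.pt a → ∀ t ∈ X.Rt a, ∃ (g : G) (s : S), ρ g = t ∧
      π g = MulAut.conj (QuotientGroup.mk s) ∧ mat s = j t)
    {k : ℕ} (hN : X.N = r ^ k) (hswap : X.Swap Set.univ) (hrich : X.Rich)
    (hbot : ∀ Λ : LG X G (MulAut (S ⧸ center S)), Λ.Bot p)
    (hy : ∀ y : MulAut (S ⧸ center S), y * x = x * y → (∀ k, x k = k → y k = k) →
      (orderOf y).Coprime p → ∃ (α : MulAut S) (M : GL ι F) (τ : F ≃+* F), y = autQuot S α ∧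
        (∀ s, mat (α s) = semiR M τ (mat s)) ∧ ((∀ c, τ (ε c) = ε c) → y ^ p ∈ I)) :
    BalG p x ∧ 2 ∣ Nat.card (S ⧸ center S) := by
  let Λ : LG X G (MulAut (S ⧸ center S)) :=
    { ρ := ρ
      π := π
      G₁ := (MulAut.conj : S ⧸ center S →* _).range.comap π
      normal := inferInstance
      sim := hsim
      k1 := fun g => (hker g).1
      k2 := fun g _ h => (hker g).2 ⟨1, fun v => by rw [h, one_smul]; rfl⟩
      root := fun a ha t ht => by
        obtain ⟨g, s, h1, h2, -⟩ := hroot a ha t ht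
        exact ⟨g, ⟨_, h2.symm⟩, h1⟩ }
  have hc : ∀ g, π g * x = x * π g := fun g =>
    mem_centralizer_singleton_iff.1 (hle.ge ⟨g, rfl⟩).2
  refine ⟨balG_of hZ' I hI (π '' Λ.G₁) (by rintro _ ⟨g, hg, rfl⟩; exact hg)
    (by rintro _ ⟨g, -, rfl⟩; exact hc g) ?_ (fun hd M h1 h2 h3 => ?_) fun y h1 h2 h3 h4 => ?_,
    two_dvd_card_of_LG hZ' Λ hswap fun g hg => hg⟩
  · obtain ⟨g, h1, h2⟩ := Λ.exists_ne_one hswap
    exact ⟨_, ⟨g, h1, rfl⟩, h2⟩
  · exact hbot Λ (fun g c h => (hker g).2 ⟨c, h⟩) (hle ▸ dvd_card_inf hZ' hord hI hd) M h2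
      (fun g hg => h3 _ ⟨g, hg, rfl⟩) (hle ▸ h1)
  · obtain ⟨α, M, τ, rfl, h5, h6⟩ := hy y h1 h2 h3
    refine eq_one_of_pow_coprime h3 (h4 p (h6 fun c => ?_))
    obtain ⟨E, h7, h8, h9⟩ := hrich (RingHom.eqLocus ((semiR M τ).comp j) j) (fun a ha t ht => by
      obtain ⟨g, s, -, e2, e3⟩ := hroot a ha t ht
      have e4 : s ^ r ^ k = 1 := hmat (by rw [map_pow, e3, ← map_pow, ← hN, X.Rt_pow ha ht,
        map_one, map_one])
      have e5 := eq_of_mk_eq_of_pow hZ (a := α s) (by rw [← map_pow, e4, map_one]) e4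
        (h2 _ (fix_of_commute hZ' (e2 ▸ (hc g).symm)))
      change semiR M τ (j t) = j t
      rw [← e3, ← h5, e5]) c
    change semiR M τ (j E) = j E at h7
    change semiR M τ (j (c • E)) = j (c • E) at h9
    rw [hj, semiR_smul, h7] at h9
    exact smul_left_injective F (fun e => h8 (hji (e.trans (map_zero _).symm))) h9

variable [Finite K] [FiniteDimensional K V] {G H : Type*} [Group G] [Group H] [Finite H]
  {r : ℕ} [Fact r.Prime] [CharP K r] {p : ℕ} [Fact p.Prime]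

theorem gl_Bot (hn : 2 ≤ finrank K V) (hpr : p ≠ r) (Λ : LG (glGeo K V r) G H) : Λ.Bot p :=
  fun h1 h2 _ h3 h4 h5 => Λ.gl_bot hn hpr h1 h2 h3 h4 h5

theorem sf_Bot (hn : 2 ≤ finrank K V) (hpr : p ≠ r) {P : SF K V} (Λ : LG (P.geo r) G H) :
    Λ.Bot p := fun h1 h2 _ h3 h4 h5 => Λ.sf_bot hn hpr h1 h2 h3 h4 h5

theorem o_Bot {Q : QuadraticForm K V} (hQ : CfsgH8.ND Q) (hn : 3 ≤ finrank K V) (hr : r ≠ 2)
    (Λ : LG (oGeo Q r) G H) : Λ.Bot 2 := by
  intro h1 _ M h3 h4 h5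
  rw [eq_bot_iff]
  intro m hm
  obtain ⟨g, rfl⟩ := h5 hm
  obtain ⟨c, hc⟩ := Λ.o_two hQ hn hr h3 h4 hm
  exact h1 g c hc

end main

end CfsgH7
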