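import Cfsg.Agent.H7.PSUField
import Cfsg.Agent.H7.Symp

set_option autoImplicit false

namespace CfsgH7

open Subgroup Matrix

variable {F : Type*} [Field F] {m : ℕ}

theorem conj_mem_Sp (g : Cfsg.GSp m F) (s : symplecticGroup (Fin m) F) :
    g.1.1 * s.1 * (g.1⁻¹).1 ∈ symplecticGroup (Fin m) F := by
  obtain ⟨c, hc⟩ := g.2
  rw [mem_Sp_iff_form]
  intro u v
  rw [← mulVec_mulVec, ← mulVec_mulVec, ← mulVec_mulVec, ← mulVec_mulVec, hc,
    (mem_Sp_iff_form _).1 s.2, ← hc, mulVec_mulVec, mulVec_mulVec, Units.mul_inv, one_mulVec,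
    one_mulVec]

/-- conjugation of `Sp` by `GSp` -/
def conjSp : Cfsg.GSp m F →* MulAut (symplecticGroup (Fin m) F) where
  toFun g :=
    { toFun := fun s => ⟨g.1.1 * s.1 * (g.1⁻¹).1, conj_mem_Sp g s⟩
      invFun := fun s => ⟨(g.1⁻¹).1 * s.1 * g.1.1, conj_mem_Sp g⁻¹ s⟩
      left_inv := fun s => Subtype.ext (by
        simp only [← Matrix.mul_assoc, Units.inv_mul, one_mul]
        rw [Matrix.mul_assoc, Units.inv_mul, mul_one])
      right_inv := fun s => Subtype.ext (by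
        simp only [← Matrix.mul_assoc, Units.mul_inv, one_mul]
        rw [Matrix.mul_assoc, Units.mul_inv, mul_one])
      map_mul' := fun s t => Subtype.ext (by
        change g.1.1 * (s.1 * t.1) * (g.1⁻¹).1 = g.1.1 * s.1 * (g.1⁻¹).1 * (g.1.1 * t.1 * (g.1⁻¹).1)
        simp only [Matrix.mul_assoc, Units.inv_mul_cancel_left]) }
  map_one' := by
    refine MulEquiv.ext fun s => Subtype.ext ?_
    change (1 : GL (Fin m ⊕ Fin m) F).1 * s.1 * ((1 : GL (Fin m ⊕ Fin m) F)⁻¹).1 = s.1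
    simp
  map_mul' g h := by
    refine MulEquiv.ext fun s => Subtype.ext ?_
    change (g.1 * h.1).1 * s.1 * ((g.1 * h.1)⁻¹).1 =
      g.1.1 * (h.1.1 * s.1 * (h.1⁻¹).1) * (g.1⁻¹).1
    simp only [_root_.mul_inv_rev, Units.val_mul, Matrix.mul_assoc]

theorem conjSp_coe (g : Cfsg.GSp m F) (s : symplecticGroup (Fin m) F) :
    (conjSp g s).1 = g.1.1 * s.1 * (g.1⁻¹).1 := rfl

/-- field automorphisms of `Sp` -/
def mapSp : (F ≃+* F) →* MulAut (symplecticGroup (Fin m) F) where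
  toFun σ :=
    { toFun := fun s => ⟨s.1.map σ, SymplecticGroup.map_mem s.2 σ⟩
      invFun := fun s => ⟨s.1.map σ.symm, SymplecticGroup.map_mem s.2 σ.symm⟩
      left_inv := fun s => by ext i j; exact σ.symm_apply_apply _
      right_inv := fun s => by ext i j; exact σ.apply_symm_apply _
      map_mul' := fun s t => Subtype.ext (map_mul_mat σ _ _) }
  map_one' := by
    ext s i j
    rfl
  map_mul' g h := by
    ext s i j
    rfl

theorem mapSp_coe (σ : F ≃+* F) (s : symplecticGroup (Fin m) F) :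
    (mapSp σ s).1 = s.1.map σ := rfl

theorem map_J' {F' : Type*} [Field F'] (ε : F →+* F') : (J (Fin m) F).map ε = J (Fin m) F' :=
  map_J _ ε

theorem map_smul_J {F' : Type*} [Field F'] (ε : F →+* F') (c : F) :
    (c • J (Fin m) F).map ε = ε c • J (Fin m) F' := by
  rw [← map_J' ε]
  ext i j
  simp only [map_apply, Matrix.smul_apply, smul_eq_mul, map_mul]

theorem map_sim {F' : Type*} [Field F'] (ε : F →+* F')
    {A : Matrix (Fin m ⊕ Fin m) (Fin m ⊕ Fin m) F} {c : F}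
    (h : Aᵀ * J (Fin m) F * A = c • J (Fin m) F) :
    (A.map ε)ᵀ * J (Fin m) F' * A.map ε = ε c • J (Fin m) F' := by
  rw [← map_smul_J, ← h, Matrix.map_mul, Matrix.map_mul, map_J', transpose_map]

theorem GL_map_mem_GSp {F' : Type*} [Field F'] (ε : F →+* F') {g : GL (Fin m ⊕ Fin m) F}
    (hg : g ∈ Cfsg.GSp m F) : Matrix.GeneralLinearGroup.map ε g ∈ Cfsg.GSp m F' := by
  obtain ⟨c, hc⟩ := (mem_GSp_iff _).1 hg
  exact (mem_GSp_iff _).2 ⟨Units.map (ε : F →* F') c, map_sim ε hc⟩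

/-- extension of scalars on `GSp` -/
def embGSp {F' : Type*} [Field F'] (ε : F →+* F') : Cfsg.GSp m F →* Cfsg.GSp m F' :=
  ((Matrix.GeneralLinearGroup.map ε).comp (Cfsg.GSp m F).subtype).codRestrict _
    (fun g => GL_map_mem_GSp ε g.2)

/-- field automorphisms of `GSp` -/
def mapGSp (τ : F ≃+* F) : Cfsg.GSp m F →* Cfsg.GSp m F := embGSp (τ : F →+* F)

theorem mapGSp_coe (τ : F ≃+* F) (g : Cfsg.GSp m F) : (mapGSp τ g).1 = mapGL' τ g.1 := rfl

/-- inner-diagonal automorphisms of `PSp` -/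
def diagPSp : Cfsg.GSp m F →* MulAut (Cfsg.PSp m F) := (autQuot _).comp conjSp

/-- field automorphisms of `PSp` -/
def fieldPSp : (F ≃+* F) →* MulAut (Cfsg.PSp m F) := (autQuot _).comp mapSp

theorem diagPSp_mk (g : Cfsg.GSp m F) (s : symplecticGroup (Fin m) F) :
    diagPSp g (QuotientGroup.mk s) = QuotientGroup.mk (conjSp g s) := rfl

theorem fieldPSp_mk (τ : F ≃+* F) (s : symplecticGroup (Fin m) F) :
    fieldPSp τ (QuotientGroup.mk s) = QuotientGroup.mk (mapSp τ s) := rfl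

theorem fieldPSp_diagPSp (τ : F ≃+* F) (g : Cfsg.GSp m F) :
    fieldPSp τ * diagPSp g = diagPSp (mapGSp τ g) * fieldPSp τ := by
  simp only [fieldPSp, diagPSp, MonoidHom.comp_apply, ← map_mul]
  congr 1
  refine MulEquiv.ext fun s => Subtype.ext ?_
  change (g.1.1 * s.1 * (g.1⁻¹).1).map τ = g.1.1.map τ * s.1.map τ * (g.1⁻¹).1.map τ
  rw [map_mul_mat, map_mul_mat]

theorem isStdFieldAutPSp_iff {σ : F ≃+* F} {β : MulAut (Cfsg.PSp m F)} :
    Cfsg.IsStdFieldAutPSp σ β ↔ β = fieldPSp σ :=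
  ⟨fun h => mulAut_quot_ext fun s => h s (mapSp σ s) rfl,
    fun h s s' e => by rw [h, fieldPSp_mk]; congr 1; exact Subtype.ext e.symm⟩

theorem isInducedBySemilinearPSp_iff {g : Cfsg.GSp m F} {σ : F ≃+* F}
    {β : MulAut (Cfsg.PSp m F)} :
    Cfsg.IsInducedBySemilinearPSp g.1 σ β ↔ β = diagPSp g * fieldPSp σ :=
  ⟨fun h => mulAut_quot_ext fun s => h s (conjSp g (mapSp σ s)) rfl,
    fun h s s' e => by
      rw [h, MulAut.mul_apply, fieldPSp_mk, diagPSp_mk]; congr 1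
      exact Subtype.ext e.symm⟩

theorem isInnerDiagonalAutPSp_iff {β : MulAut (Cfsg.PSp m F)} :
    Cfsg.IsInnerDiagonalAutPSp β ↔ ∃ g, β = diagPSp g := by
  constructor
  · rintro ⟨g, hg, h⟩
    exact ⟨⟨g, hg⟩, ((isInducedBySemilinearPSp_iff (g := ⟨g, hg⟩) (σ := 1)).1 h).trans
      (by rw [map_one, mul_one])⟩
  · rintro ⟨g, h⟩
    exact ⟨g.1, g.2, (isInducedBySemilinearPSp_iff (σ := 1)).2 (by rw [map_one, mul_one, h])⟩

theorem inndiagPSp_eq : Cfsg.inndiagPSp m F = (diagPSp : Cfsg.GSp m F →* _).range := by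
  apply le_antisymm
  · apply (closure_le _).2
    intro β hβ
    obtain ⟨g, rfl⟩ := isInnerDiagonalAutPSp_iff.1 hβ
    exact ⟨g, rfl⟩
  · rintro _ ⟨g, rfl⟩
    exact subset_closure (isInnerDiagonalAutPSp_iff.2 ⟨g, rfl⟩)

/-- inclusion of `Sp` in `GSp` -/
def spToGSp (s : symplecticGroup (Fin m) F) : Cfsg.GSp m F :=
  ⟨⟨s.1, (s⁻¹).1, congrArg Subtype.val (mul_inv_cancel s), congrArg Subtype.val (inv_mul_cancel s)⟩,
    1, fun u v => by simpa using (mem_Sp_iff_form _).1 s.2 u v⟩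

theorem diagPSp_spToGSp (s : symplecticGroup (Fin m) F) :
    diagPSp (spToGSp s) = MulAut.conj (QuotientGroup.mk s : Cfsg.PSp m F) :=
  mulAut_quot_ext fun _ => rfl

theorem inn_le_diagPSp_range :
    Cfsg.Inn (Cfsg.PSp m F) ≤ (diagPSp : Cfsg.GSp m F →* _).range := by
  rintro _ ⟨s, rfl⟩
  obtain ⟨s, rfl⟩ := QuotientGroup.mk_surjective s
  exact ⟨_, diagPSp_spToGSp s⟩

theorem diagPSp_scalar {g : Cfsg.GSp m F} {c : F} (e : g.1.1 = c • 1) : diagPSp g = 1 := by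
  apply mulAut_quot_ext
  intro s
  rw [diagPSp_mk]
  congr 1
  refine Subtype.ext ?_
  rw [conjSp_coe, e, Matrix.smul_mul, one_mul, Matrix.smul_mul, ← Matrix.mul_smul, ← one_mul
    (g.1⁻¹).1, ← Matrix.smul_mul, ← e, Units.mul_inv, mul_one]

theorem diagPSp_eq_of_smul {g h : Cfsg.GSp m F} {c : F} (e : g.1.1 = c • h.1.1) :
    diagPSp g = diagPSp h := by
  have : diagPSp (g * h⁻¹) = 1 := diagPSp_scalar (c := c) (by
    rw [coe_mul, coe_inv, Units.val_mul, e, Matrix.smul_mul, Units.mul_inv])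
  rwa [map_mul, map_inv, mul_inv_eq_one] at this

theorem exists_polarSp (hm : 1 ≤ m) :
    ∃ P : Polar F (Fin m ⊕ Fin m → F) (symplecticGroup (Fin m) F), (∀ x, P.σ x = x) ∧
      (∀ u v, P.B u v = Cfsg.sympForm m F u v) ∧ ∀ g v, P.ρ g v = g.1 *ᵥ v := by
  let a : Fin m := ⟨0, by omega⟩
  let P : Polar F (Fin m ⊕ Fin m → F) (symplecticGroup (Fin m) F) :=
    { σ := 1
      σσ := fun x => rfl
      B := Cfsg.sympForm m F
      add_left := fun u v w => add_dotProduct _ _ _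
      smul_left := fun k u v => smul_dotProduct _ _ _
      skew := sympForm_skew
      nondeg := fun u h => toBilin'_nondeg isUnit_J u fun y => by
        rw [Matrix.toBilin'_apply']; exact h y
      ρ := (Matrix.toLinAlgEquiv' (R := F) (n := Fin m ⊕ Fin m)).toMulEquiv.toMonoidHom.comp
        (symplecticGroup (Fin m) F).subtype
      inj := fun g h e => Subtype.ext ((Matrix.toLinAlgEquiv' (R := F)).injective e)
      isom := fun g => (mem_Sp_iff_form _).1 g.2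
      e := Pi.single (.inr a) 1
      f := Pi.single (.inl a) 1
      he := sympForm_self _
      hf := sympForm_self _
      hef := by simp [Cfsg.sympForm, J]
      hc := fun w => ⟨0, by simp [sympForm_self]⟩
      fin := inferInstance
      mem := fun T h1 h2 => ⟨⟨LinearMap.toMatrix' T, (mem_Sp_iff_form _).2 fun u v => by
          rw [LinearMap.toMatrix'_mulVec, LinearMap.toMatrix'_mulVec]
          exact h1 u v⟩, Matrix.toLin'_toMatrix' T⟩ }
  exact ⟨P, fun _ => rfl, fun _ _ => rfl, fun _ _ => rfl⟩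

theorem diag_field_eq_one_Sp [Finite F] (hm : 2 ≤ m) {g : Cfsg.GSp m F} {τ : F ≃+* F}
    (h : diagPSp g * fieldPSp τ = 1) : τ = 1 ∧ ∃ c : F, g.1.1 = c • 1 := by
  obtain ⟨P, -, -, hρ⟩ := exists_polarSp (F := F) (m := m) (by omega)
  haveI := Polar.nontrivial_W (P := P) (by simp; omega)
  exact Polar.rigid_matrix hρ fun s =>
    ⟨conjSp g (mapSp τ s), rfl, MulEquiv.congr_fun h (QuotientGroup.mk s)⟩

/-- The automorphisms of `PSp_2m(q)`. -/
theorem aut_psp [Finite F] (hm : 2 ≤ m) (hs : (2 : F) ≠ 0 ∨ 3 ≤ m) (β : MulAut (Cfsg.PSp m F)) :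
    ∃ (g : Cfsg.GSp m F) (τ : F ≃+* F), β = diagPSp g * fieldPSp τ := by
  obtain ⟨P, hσ, hB, hρ⟩ := exists_polarSp (F := F) (m := m) (by omega)
  obtain ⟨M, α, c, hc0, -, h1, h3⟩ := (Polar.aut_symplectic (P := P) hσ
    (fun v => by rw [hB, sympForm_self]) (by simp; omega) (hs.imp id fun h => by simp; omega)
    β).matrix hρ
  refine ⟨⟨M, Units.mk0 c hc0, fun u v => ?_⟩, α, isInducedBySemilinearPSp_iff.1 h3⟩
  obtain ⟨u, rfl⟩ := α.surjective.comp_left u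
  obtain ⟨v, rfl⟩ := α.surjective.comp_left v
  simp only
  rw [← hB, h1, hB, sympForm_map, Units.val_mk0]

theorem diagPSp_eq_one_iff [Finite F] (hm : 2 ≤ m) {g : Cfsg.GSp m F} :
    diagPSp g = 1 ↔ ∃ c : F, g.1.1 = c • 1 :=
  ⟨fun h => (diag_field_eq_one_Sp hm (τ := 1) (by rw [map_one, mul_one, h])).2,
    fun ⟨_, hc⟩ => diagPSp_scalar hc⟩

theorem diagPSp_eq_iff [Finite F] (hm : 2 ≤ m) {g h : Cfsg.GSp m F} :
    diagPSp g = diagPSp h ↔ ∃ c : F, g.1.1 = c • h.1.1 := by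
  refine ⟨fun e => ?_, fun ⟨_, hc⟩ => diagPSp_eq_of_smul hc⟩
  rw [← mul_inv_eq_one, ← map_inv, ← map_mul, diagPSp_eq_one_iff hm] at e
  obtain ⟨c, hc⟩ := e
  refine ⟨c, ?_⟩
  rw [coe_mul, coe_inv, Units.val_mul, Units.mul_inv_eq_iff_eq_mul, Matrix.smul_mul, one_mul] at hc
  exact hc

theorem fieldPSp_injective [Finite F] (hm : 2 ≤ m) :
    Function.Injective (fieldPSp : (F ≃+* F) →* MulAut (Cfsg.PSp m F)) :=
  (injective_iff_map_eq_one _).2 fun σ h =>
    (diag_field_eq_one_Sp hm (g := 1) (by rw [map_one, one_mul, h])).1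

/-- the multiplier of a symplectic similarity -/
noncomputable def multSp [Nonempty (Fin m)] : Cfsg.GSp m F →* Fˣ :=
  MonoidHom.mk' (fun g => ((mem_GSp_iff g.1).1 g.2).choose) (fun g h => by
    apply Units.ext
    apply smul_J_inj (m := m)
    rw [← ((mem_GSp_iff _).1 (g * h).2).choose_spec, coe_mul, Units.val_mul, transpose_mul,
      Units.val_mul, mul_smul, ← ((mem_GSp_iff _).1 h.2).choose_spec, ← Matrix.smul_mul,
      ← Matrix.mul_smul, ← ((mem_GSp_iff _).1 g.2).choose_spec]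
    simp only [Matrix.mul_assoc])

theorem multSp_spec [Nonempty (Fin m)] (g : Cfsg.GSp m F) :
    g.1.1ᵀ * J (Fin m) F * g.1.1 = (multSp g : F) • J (Fin m) F :=
  ((mem_GSp_iff g.1).1 g.2).choose_spec

theorem multSp_eq [Nonempty (Fin m)] {g : Cfsg.GSp m F} {c : F}
    (h : g.1.1ᵀ * J (Fin m) F * g.1.1 = c • J (Fin m) F) : (multSp g : F) = c :=
  smul_J_inj ((multSp_spec g).symm.trans h)

theorem multSp_surjective [Nonempty (Fin m)] : Function.Surjective (multSp : Cfsg.GSp m F → Fˣ) := by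
  intro c
  have e : (fromBlocks ((c : F) • 1) 0 0 1 : Matrix (Fin m ⊕ Fin m) (Fin m ⊕ Fin m) F)ᵀ *
      J (Fin m) F * fromBlocks ((c : F) • 1) 0 0 1 = (c : F) • J (Fin m) F := by
    simp [J, fromBlocks_transpose, fromBlocks_multiply, fromBlocks_smul]
  have hu : IsUnit (fromBlocks ((c : F) • 1) 0 0 1 : Matrix (Fin m ⊕ Fin m) (Fin m ⊕ Fin m) F) := by
    rw [Matrix.isUnit_iff_isUnit_det]
    simp
  exact ⟨⟨hu.unit, (mem_GSp_iff _).2 ⟨c, e⟩⟩, Units.ext (multSp_eq e)⟩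

theorem sim_smul {A : Matrix (Fin m ⊕ Fin m) (Fin m ⊕ Fin m) F} {c : F}
    (h : Aᵀ * J (Fin m) F * A = c • J (Fin m) F) (x : F) :
    (x • A)ᵀ * J (Fin m) F * (x • A) = (x ^ 2 * c) • J (Fin m) F := by
  rw [transpose_smul, Matrix.smul_mul, Matrix.smul_mul, Matrix.mul_smul, h, smul_smul, smul_smul, sq]

theorem smulGL_mem_GSp {g : GL (Fin m ⊕ Fin m) F} (hg : g ∈ Cfsg.GSp m F) {x : F} (hx : x ≠ 0) :
    smulGL x hx g ∈ Cfsg.GSp m F := by
  obtain ⟨c, hc⟩ := (mem_GSp_iff _).1 hg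
  exact (mem_GSp_iff _).2 ⟨Units.mk0 x hx ^ 2 * c, by
    rw [smulGL_coe, sim_smul hc x]; simp⟩

theorem mem_inn_of_multSp [Nonempty (Fin m)] {g : Cfsg.GSp m F}
    (h : multSp g ∈ (powMonoidHom 2 : Fˣ →* Fˣ).range) : diagPSp g ∈ Cfsg.Inn (Cfsg.PSp m F) := by
  obtain ⟨c, hc⟩ := h
  have hc' : (c : F) ^ 2 = multSp g := congrArg Units.val hc
  let s : symplecticGroup (Fin m) F := ⟨(c : F)⁻¹ • g.1.1, by
    rw [SymplecticGroup.mem_iff', sim_smul (multSp_spec g), ← hc', inv_pow,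
      inv_mul_cancel₀ (pow_ne_zero _ c.ne_zero), one_smul]⟩
  refine ⟨QuotientGroup.mk s, ?_⟩
  rw [← diagPSp_spToGSp]
  exact diagPSp_eq_of_smul (c := (c : F)⁻¹) rfl

theorem diagPSp_mem_inn_iff [Finite F] [Nonempty (Fin m)] (hm : 2 ≤ m) {g : Cfsg.GSp m F} :
    diagPSp g ∈ Cfsg.Inn (Cfsg.PSp m F) ↔ multSp g ∈ (powMonoidHom 2 : Fˣ →* Fˣ).range := by
  refine ⟨?_, mem_inn_of_multSp⟩
  rintro ⟨s, hs⟩
  obtain ⟨s, rfl⟩ := QuotientGroup.mk_surjective s
  rw [← diagPSp_spToGSp] at hs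
  obtain ⟨c, hc⟩ := (diagPSp_eq_iff hm).1 hs.symm
  refine ⟨Units.mk0 c (GL_smul_ne_zero hc), Units.ext (multSp_eq ?_).symm⟩
  rw [hc, sim_smul (c := 1) (by rw [one_smul]; exact SymplecticGroup.mem_iff'.1 s.2), mul_one]
  rfl

theorem diagPSp_range_normal [Finite F] (hm : 2 ≤ m) :
    (diagPSp : Cfsg.GSp m F →* _).range.Normal := by
  haveI : Nonempty (Fin m) := ⟨⟨0, by omega⟩⟩
  by_cases h2 : (2 : F) = 0
  · have : (diagPSp : Cfsg.GSp m F →* _).range = Cfsg.Inn (Cfsg.PSp m F) := by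
      refine le_antisymm ?_ inn_le_diagPSp_range
      rintro _ ⟨g, rfl⟩
      apply mem_inn_of_multSp
      haveI : CharP F 2 := CharTwo.of_one_ne_zero_of_two_eq_zero one_ne_zero h2
      obtain ⟨x, hx⟩ := FiniteField.isSquare_of_char_two (ringChar.eq F 2) (multSp g : F)
      have hx0 : x ≠ 0 := by
        rintro rfl
        simp at hx
      exact ⟨Units.mk0 x hx0, Units.ext (by simp [hx, sq])⟩
    rw [this]
    infer_instance
  · constructor
    rintro _ ⟨h, rfl⟩ β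
    obtain ⟨g, σ, rfl⟩ := aut_psp hm (Or.inl h2) β
    refine ⟨g * mapGSp σ h * g⁻¹, ?_⟩
    rw [mul_assoc (diagPSp g), fieldPSp_diagPSp, map_mul, map_mul, map_inv]
    group

theorem gnorm_mapGSp (τ : F ≃+* F) (g : Cfsg.GSp m F) (k : ℕ) :
    (gnorm (mapGSp τ) g k).1.1 = mnorm τ g.1.1 k := by
  induction k with
  | zero => rfl
  | succ k ih => rw [gnorm, mnorm, coe_mul, Units.val_mul, mapGSp_coe, mapGL'_coe, ih]

theorem alt_congr_J_fixed [Finite F] (τ : F ≃+* F) {H : Matrix (Fin m ⊕ Fin m) (Fin m ⊕ Fin m) F}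
    (hH : IsUnit H) (halt : ∀ v, v ⬝ᵥ H *ᵥ v = 0) (hτ : H.map τ = H) :
    ∃ k : GL (Fin m ⊕ Fin m) F, k.1ᵀ * H * k.1 = J (Fin m) F ∧ k.1.map τ = k.1 := by
  obtain ⟨H₀, hH₀⟩ := exists_GL_map_eq (fixF τ).subtype hH.unit
    (fun i j => ⟨⟨H i j, mem_fixF.2 (congrFun (congrFun hτ i) j)⟩, rfl⟩)
  have e : H₀.1.map (fixF τ).subtype = H := congrArg Units.val hH₀
  obtain ⟨k, hk⟩ := alt_congr_J H₀.isUnit (fun v => by
    apply (fixF τ).subtype.injective
    rw [RingHom.map_dotProduct, map_zero, ← halt ((fixF τ).subtype ∘ v), ← e]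
    congr 1
    ext i
    exact RingHom.map_mulVec _ _ _ _)
  refine ⟨Matrix.GeneralLinearGroup.map (fixF τ).subtype k, ?_, ?_⟩
  · change (k.1.map (fixF τ).subtype)ᵀ * H * k.1.map (fixF τ).subtype = _
    rw [← e, ← transpose_map, ← Matrix.map_mul, ← Matrix.map_mul, hk, map_J']
  · ext i j
    exact mem_fixF.1 (k.1 i j).2

theorem field_coset_Sp [Finite F] (hm : 2 ≤ m) (τ : F ≃+* F) (g : Cfsg.GSp m F)
    (h : (diagPSp g * fieldPSp τ) ^ orderOf τ = 1) :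
    Cfsg.IsConjUnder (diagPSp : Cfsg.GSp m F →* _).range (fieldPSp τ) (diagPSp g * fieldPSp τ) := by
  haveI : Nonempty (Fin m) := ⟨⟨0, by omega⟩⟩
  rw [pow_eq_gnorm diagPSp (mapGSp τ) _ (fieldPSp_diagPSp τ), ← map_pow, pow_orderOf_eq_one,
    map_one, mul_one, diagPSp_eq_one_iff hm] at h
  obtain ⟨c, hc⟩ := h
  have hc0 := GL_smul_one_ne_zero hc
  rw [gnorm_mapGSp] at hc
  obtain ⟨h, a, ha, e⟩ := hilbert90_PGL τ g.1 hc0 hc
  have hu : IsUnit (h.1ᵀ * J (Fin m) F * h.1) :=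
    (((isUnit_transpose _).2 h.isUnit).mul isUnit_J).mul h.isUnit
  have hH : (h.1ᵀ * J (Fin m) F * h.1).map τ =
      (a ^ 2 * (multSp g : F)⁻¹) • (h.1ᵀ * J (Fin m) F * h.1) := by
    have h1 : (a • h.1)ᵀ * J (Fin m) F * (a • h.1) =
        (multSp g : F) • (h.1ᵀ * J (Fin m) F * h.1).map τ := by
      rw [← e, transpose_mul, map_mul_mat, map_mul_mat, ← Matrix.smul_mul, ← Matrix.mul_smul,
        show (J (Fin m) F).map τ = J (Fin m) F from map_J' (τ : F →+* F), ← multSp_spec,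
        transpose_map]
      simp only [Matrix.mul_assoc]
    rw [mul_comm, mul_smul, eq_inv_smul_iff₀ (multSp g).ne_zero, ← h1, transpose_smul,
      Matrix.smul_mul, Matrix.smul_mul, Matrix.mul_smul, smul_smul, sq]
  obtain ⟨y, hy0, hy⟩ := exists_fixed_of_map_eq_smul τ hu.unit hH
  obtain ⟨k, hk1, hk2⟩ := alt_congr_J_fixed τ (H := y • (h.1ᵀ * J (Fin m) F * h.1))
    (by rw [← one_mul (_ * _), ← Matrix.smul_mul]; exact (isUnit_smul_one hy0).mul hu)
    (fun v => by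
      rw [smul_mulVec, dotProduct_smul, ← dot_mulVec_mulVec]
      exact smul_eq_zero_of_right _ (sympForm_self _))
    (by rw [map_smul_mat, hH, smul_smul, mul_comm, hy])
  refine conj_of_twisted diagPSp (mapGSp τ) _ (fieldPSp_diagPSp τ)
    (h := ⟨h * k, (mem_GSp_iff _).2 ⟨(Units.mk0 y hy0)⁻¹, ?_⟩⟩) (diagPSp_eq_of_smul (c := a) ?_)
  · conv_rhs => rw [← hk1]
    simp [smul_smul, hy0, Matrix.mul_assoc]
  · change g.1.1 * (h.1 * k.1).map τ = a • (h.1 * k.1)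
    rw [map_mul_mat, hk2, ← Matrix.mul_assoc, e, Matrix.smul_mul]

theorem field_centralizer_Sp [Finite F] (hm : 2 ≤ m) (τ : F ≃+* F) {F₀ : Type*} [Field F₀]
    (ε : F₀ →+* F) (hε : ∀ x, τ x = x ↔ ∃ y, ε y = x) :
    (diagPSp : Cfsg.GSp m F →* _).range ⊓ centralizer {fieldPSp τ} =
      (embGSp ε).range.map diagPSp := by
  haveI : Nonempty (Fin m) := ⟨⟨0, by omega⟩⟩
  ext y
  rw [mem_inf]
  constructor
  · rintro ⟨⟨g, rfl⟩, hg⟩
    rw [mem_centralizer_twisted diagPSp (mapGSp τ) _ (fieldPSp_diagPSp τ),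
      diagPSp_eq_iff hm] at hg
    obtain ⟨c, hc⟩ := hg
    obtain ⟨x, hx0, hx⟩ := exists_fixed_of_map_eq_smul τ g.1 hc
    have hfix : (x • g.1.1).map τ = x • g.1.1 := by
      rw [map_smul_mat, show g.1.1.map τ = _ from hc, smul_smul, mul_comm, hx]
    obtain ⟨g₀, hg₀⟩ := exists_GL_map_eq ε (smulGL x hx0 g.1) fun i j =>
      (hε _).1 (congrFun (congrFun hfix i) j)
    have e : g₀.1.map ε = x • g.1.1 := congrArg Units.val hg₀
    have h1 := sim_smul (multSp_spec g) x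
    have h2 := map_sim (τ : F →+* F) h1
    rw [show (x • g.1.1).map (τ : F →+* F) = _ from hfix, h1] at h2
    obtain ⟨μ, hμ⟩ := (hε _).1 (smul_J_inj h2).symm
    have hμ0 : μ ≠ 0 := by
      rintro rfl
      simp [hx0] at hμ
    refine ⟨⟨_, smulGL_mem_GSp g.2 hx0⟩, ⟨⟨g₀, (mem_GSp_iff _).2 ⟨Units.mk0 μ hμ0, ?_⟩⟩,
      Subtype.ext hg₀⟩, diagPSp_eq_of_smul (c := x) rfl⟩
    apply Matrix.map_injective ε.injective
    simp only
    rw [Matrix.map_mul, Matrix.map_mul, transpose_map, e, map_J', h1, ← hμ, map_smul_J, Units.val_mk0]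
  · rintro ⟨_, ⟨g, rfl⟩, rfl⟩
    refine ⟨⟨_, rfl⟩, ?_⟩
    rw [mem_centralizer_twisted diagPSp (mapGSp τ) _ (fieldPSp_diagPSp τ)]
    congr 1
    refine Subtype.ext (Units.ext ?_)
    ext i j
    exact (hε _).2 ⟨_, rfl⟩

theorem map_mult_embGSp [Nonempty (Fin m)] {F₀ : Type*} [Field F₀] (ε : F₀ →+* F) :
    (embGSp (m := m) ε).range.map multSp = (Units.map (ε : F₀ →* F)).range := by
  have : (multSp : Cfsg.GSp m F →* Fˣ).comp (embGSp ε) =
      (Units.map (ε : F₀ →* F)).comp multSp :=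
    MonoidHom.ext fun g => Units.ext (multSp_eq (map_sim ε (multSp_spec g)))
  rw [← MonoidHom.range_comp, this, MonoidHom.range_comp,
    MonoidHom.range_eq_top.2 multSp_surjective, ← MonoidHom.range_eq_map]

end CfsgH7
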