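import Cfsg.Agent.H7.Polar7
import Cfsg.Agent.H7.PSpApi

set_option autoImplicit false

namespace CfsgH7

open Subgroup Matrix

variable {F : Type*} [Field F]

/-- index set for `Sp₄` -/
abbrev I4 := Fin 2 ⊕ Fin 2

/-- first index of the line attached to an index -/
def sp1 : I4 → I4
  | .inl _ => .inl 0
  | .inr _ => .inr 0

/-- second index of the line attached to an index -/
def sp2 : I4 → I4
  | .inl 0 => .inl 1
  | .inl 1 => .inr 1
  | .inr 0 => .inr 1
  | .inr 1 => .inl 1

/-- the exceptional isogeny of `Sp₄` in characteristic two, on matrices -/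
def spW (A : Matrix I4 I4 F) : Matrix I4 I4 F :=
  of fun i j => A (sp1 i) (sp1 j) * A (sp2 i) (sp2 j) + A (sp1 i) (sp2 j) * A (sp2 i) (sp1 j)

theorem spW_apply (A : Matrix I4 I4 F) (i j : I4) : spW A i j =
    A (sp1 i) (sp1 j) * A (sp2 i) (sp2 j) + A (sp1 i) (sp2 j) * A (sp2 i) (sp1 j) := rfl

theorem I4_forall {p : I4 → Prop} :
    (∀ i, p i) ↔ p (.inl 0) ∧ p (.inl 1) ∧ p (.inr 0) ∧ p (.inr 1) := by
  simp [Sum.forall, Fin.forall_fin_two, and_assoc]

theorem spW_transpose (A : Matrix I4 I4 F) : spW Aᵀ = (spW A)ᵀ := by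
  ext i j
  simp only [spW_apply, transpose_apply]
  ring

theorem sp_row {A : Matrix I4 I4 F} (hA : A ∈ symplecticGroup (Fin 2) F) (p q : I4) :
    A p (.inr 0) * A q (.inl 0) + A p (.inr 1) * A q (.inl 1) -
      A p (.inl 0) * A q (.inr 0) - A p (.inl 1) * A q (.inr 1) = J (Fin 2) F p q := by
  rw [← SymplecticGroup.mem_iff.1 hA]
  simp [mul_apply, J, Fintype.sum_sum_type, one_apply]
  ring

variable [CharP F 2]

theorem spW_J : spW (J (Fin 2) F) = J (Fin 2) F := by
  ext i j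
  revert i j
  simp [I4_forall, spW_apply, sp1, sp2, J, CharTwo.neg_eq]

theorem spW_mul {A B : Matrix I4 I4 F} (hA : A ∈ symplecticGroup (Fin 2) F)
    (hB : B ∈ symplecticGroup (Fin 2) F) : spW (A * B) = spW A * spW B := by
  have h2 : (2 : F) = 0 := CharTwo.two_eq_zero
  ext i k
  have h1 := sp_row hA (sp1 i) (sp2 i)
  have h3 := sp_row (SymplecticGroup.transpose_mem hB) (sp1 k) (sp2 k)
  have e : ∀ i, J (Fin 2) F (sp1 i) (sp2 i) = 0 := by simp [I4_forall, sp1, sp2, J]
  rw [e] at h1 h3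
  simp only [spW_apply, mul_apply, Fintype.sum_sum_type, Fin.sum_univ_two, transpose_apply] at h3 ⊢
  generalize sp1 i = p at *
  generalize sp2 i = q at *
  generalize sp1 k = r at *
  generalize sp2 k = s at *
  simp only [sp1, sp2]
  grind

theorem spW_mem {A : Matrix I4 I4 F} (hA : A ∈ symplecticGroup (Fin 2) F) :
    spW A ∈ symplecticGroup (Fin 2) F := by
  rw [SymplecticGroup.mem_iff, ← spW_transpose, ← spW_J, ← spW_mul hA (SymplecticGroup.J_mem _ _),
    ← spW_mul (mul_mem hA (SymplecticGroup.J_mem _ _)) (SymplecticGroup.transpose_mem hA),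
    SymplecticGroup.mem_iff.1 hA, spW_J]

theorem spW_spW {A : Matrix I4 I4 F} (hA : A ∈ symplecticGroup (Fin 2) F) (i j : I4) :
    spW (spW A) i j = A i j ^ 2 := by
  have h := sp_row hA
  simp only [CharTwo.sub_eq_add] at h
  have hab := h (.inl 0) (.inl 1)
  have had := h (.inl 0) (.inr 1)
  have hac := h (.inl 0) (.inr 0)
  have hbd := h (.inl 1) (.inr 1)
  have hbc := h (.inl 1) (.inr 0)
  have hcd := h (.inr 0) (.inr 1)
  simp [J, CharTwo.neg_eq] at hab had hac hbd hbc hcd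
  revert i j
  simp only [I4_forall, spW_apply, sp1, sp2]
  refine ⟨⟨?_, ?_, ?_, ?_⟩, ⟨?_, ?_, ?_, ?_⟩, ⟨?_, ?_, ?_, ?_⟩, ⟨?_, ?_, ?_, ?_⟩⟩
  all_goals grind

/-- the exceptional isogeny as a homomorphism -/
def spWHom : symplecticGroup (Fin 2) F →* symplecticGroup (Fin 2) F :=
  MonoidHom.mk' (fun A => ⟨spW A.1, spW_mem A.2⟩) fun A B => Subtype.ext (spW_mul A.2 B.2)

theorem spWHom_injective :
    Function.Injective (spWHom : symplecticGroup (Fin 2) F → symplecticGroup (Fin 2) F) := by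
  intro A B h
  ext i j
  have h1 : spW (spW A.1) i j = spW (spW B.1) i j := by
    rw [show spW A.1 = spW B.1 from congrArg Subtype.val h]
  rw [spW_spW A.2, spW_spW B.2] at h1
  have h2 : (A.1 i j - B.1 i j) ^ 2 = 0 := by
    rw [CharTwo.sub_eq_add, CharTwo.add_sq, h1, CharTwo.add_self_eq_zero]
  exact sub_eq_zero.1 (pow_eq_zero_iff two_ne_zero |>.1 h2)

variable [Finite F]

variable (F) in
/-- the exceptional graph automorphism of `Sp₄(2^f)` -/
noncomputable def omSp : MulAut (symplecticGroup (Fin 2) F) :=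
  MulEquiv.ofBijective spWHom (Finite.injective_iff_bijective.1 spWHom_injective)

theorem omSp_coe (A : symplecticGroup (Fin 2) F) : (omSp F A).1 = spW A.1 := rfl

variable (F) in
/-- the exceptional graph automorphism of `PSp₄(2^f)` -/
noncomputable def omPSp : MulAut (Cfsg.PSp 2 F) := autQuot _ (omSp F)

theorem omPSp_mk (A : symplecticGroup (Fin 2) F) :
    omPSp F (QuotientGroup.mk A) = QuotientGroup.mk (omSp F A) := rfl

theorem omPSp_sq {τ : F ≃+* F} (hτ : ∀ x, τ x = x ^ 2) : omPSp F ^ 2 = fieldPSp τ := by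
  apply mulAut_quot_ext
  intro A
  rw [sq, MulAut.mul_apply, omPSp_mk, omPSp_mk, fieldPSp_mk]
  congr 1
  ext i j
  rw [omSp_coe, omSp_coe, spW_spW A.2, mapSp_coe, map_apply, hτ]

theorem omPSp_fieldPSp (τ : F ≃+* F) : omPSp F * fieldPSp τ = fieldPSp τ * omPSp F := by
  apply mulAut_quot_ext
  intro A
  rw [MulAut.mul_apply, MulAut.mul_apply, omPSp_mk, fieldPSp_mk, omPSp_mk, fieldPSp_mk]
  congr 1
  ext i j
  simp [omSp_coe, mapSp_coe, spW_apply]

omit [CharP F 2] [Finite F] in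
theorem sympForm_two (u v : I4 → F) : Cfsg.sympForm 2 F u v =
    u (.inr 0) * v (.inl 0) + u (.inr 1) * v (.inl 1) -
      u (.inl 0) * v (.inr 0) - u (.inl 1) * v (.inr 1) := by
  simp [Cfsg.sympForm, J, dotProduct, mulVec, Fintype.sum_sum_type, one_apply]
  ring

omit [CharP F 2] [Finite F] in
theorem exists_polarSp4 :
    ∃ P : Polar F (I4 → F) (symplecticGroup (Fin 2) F), (∀ x, P.σ x = x) ∧
      (∀ u v, P.B u v = Cfsg.sympForm 2 F u v) ∧ (∀ g v, P.ρ g v = g.1 *ᵥ v) ∧
      P.e = Pi.single (.inr 0) 1 ∧ P.f = Pi.single (.inl 0) 1 := by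
  let P : Polar F (I4 → F) (symplecticGroup (Fin 2) F) :=
    { σ := 1
      σσ := fun x => rfl
      B := Cfsg.sympForm 2 F
      add_left := fun u v w => add_dotProduct _ _ _
      smul_left := fun k u v => smul_dotProduct _ _ _
      skew := sympForm_skew
      nondeg := fun u h => toBilin'_nondeg isUnit_J u fun y => by
        rw [Matrix.toBilin'_apply']; exact h y
      ρ := (Matrix.toLinAlgEquiv' (R := F) (n := I4)).toMulEquiv.toMonoidHom.comp
        (symplecticGroup (Fin 2) F).subtype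
      inj := fun g h e => Subtype.ext ((Matrix.toLinAlgEquiv' (R := F)).injective e)
      isom := fun g => (mem_Sp_iff_form _).1 g.2
      e := Pi.single (.inr 0) 1
      f := Pi.single (.inl 0) 1
      he := sympForm_self _
      hf := sympForm_self _
      hef := by simp [Cfsg.sympForm, J]
      hc := fun w => ⟨0, by simp [sympForm_self]⟩
      fin := inferInstance
      mem := fun T h1 h2 => ⟨⟨LinearMap.toMatrix' T, (mem_Sp_iff_form _).2 fun u v => by
          rw [LinearMap.toMatrix'_mulVec, LinearMap.toMatrix'_mulVec]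
          exact h1 u v⟩, Matrix.toLin'_toMatrix' T⟩ }
  exact ⟨P, fun _ => rfl, fun _ _ => rfl, fun _ _ => rfl, rfl, rfl⟩

/-- short root element -/
def spS (a b : F) : Matrix I4 I4 F := fromBlocks !![1, 0; a, 1] 0 !![0, b; b, 0] !![1, a; 0, 1]

omit [Finite F] in
theorem spW_spS (a b : F) (v : I4 → F) : spW (spS a b) *ᵥ v =
    v + Cfsg.sympForm 2 F v (Sum.elim 0 ![b, a]) • (Sum.elim 0 ![b, a] : I4 → F) := by
  ext i
  revert i
  simp [I4_forall, sympForm_two, mulVec, dotProduct, Fintype.sum_sum_type, spW_apply, sp1, sp2, spS]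
  grind

omit [Finite F] in
theorem spS_mem (a b : F) : spS a b ∈ symplecticGroup (Fin 2) F := by
  rw [SymplecticGroup.mem_iff]
  ext i j
  revert i j
  simp [I4_forall, mul_apply, Fintype.sum_sum_type, spS, J, one_apply]
  grind

/-- every automorphism of `PSp₄(2^f)` is in `PΓSp` or in the coset of the graph automorphism -/
theorem aut_psp4 (β : MulAut (Cfsg.PSp 2 F)) : ∃ (g : Cfsg.GSp 2 F) (τ : F ≃+* F),
    β = diagPSp g * fieldPSp τ ∨ omPSp F * β = diagPSp g * fieldPSp τ := by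
  obtain ⟨P, hσ, hB, hρ, he, hf⟩ := exists_polarSp4 (F := F)
  have halt : ∀ v, P.B v v = 0 := fun v => by rw [hB, sympForm_self]
  have hdim : 2 < Module.finrank F (I4 → F) := by simp
  haveI := Polar.nontrivial_W (P := P) hdim
  have key : ∀ {β : MulAut (Cfsg.PSp 2 F)} {y}, P.Rel β P.e y →
      ∃ (g : Cfsg.GSp 2 F) (τ : F ≃+* F), β = diagPSp g * fieldPSp τ := by
    intro β y hy
    obtain ⟨M, α, c, hc0, -, h1, h3⟩ := (Polar.ind_symplectic' hdim hσ halt hy).matrix hρ
    refine ⟨⟨M, Units.mk0 c hc0, fun u v => ?_⟩, α, isInducedBySemilinearPSp_iff.1 h3⟩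
    obtain ⟨u, rfl⟩ := α.surjective.comp_left u
    obtain ⟨v, rfl⟩ := α.surjective.comp_left v
    simp only
    rw [← hB, h1, hB, sympForm_map, Units.val_mk0]
  obtain ⟨g, h | ⟨w₀, hw₀, h⟩⟩ := Polar.dichotomy hσ halt β
  · obtain ⟨g', τ, e⟩ := key h
    exact ⟨g', τ, Or.inl e⟩
  · have hW : ∀ w : P.W, w.1 (.inl 0) = 0 ∧ w.1 (.inr 0) = 0 := by
      intro w
      have h1 := w.2.1
      have h2 := w.2.2
      rw [hB, he, sympForm_two] at h1
      rw [hB, hf, sympForm_two] at h2
      simpa using And.intro h1 h2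
    let y : P.W → I4 → F := fun w => Sum.elim 0 ![w.1 (.inr 1), w.1 (.inl 1)]
    have hy0 : y w₀ ≠ 0 := by
      intro h0
      apply hw₀
      ext i
      revert i
      have h1 := congrFun h0 (.inr 0)
      have h2 := congrFun h0 (.inr 1)
      simp [y] at h1 h2
      simp [I4_forall, hW, h1, h2]
    have hE : ∀ (w : P.W) z, P.IsE w 0 z → P.IsT (y w) 1 (omSp F z) := by
      intro w z hz v
      have e : z.1 = spS (w.1 (.inl 1)) (w.1 (.inr 1)) := by
        ext i j
        have := congrFun (hz (Pi.single j 1)) i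
        rw [hρ, mulVec_single_one, hB, hB, he] at this
        change z.1 i j = _ at this
        rw [this]
        revert i j
        simp [I4_forall, sympForm_two, hW, spS, CharTwo.neg_eq]
      rw [hρ, omSp_coe, e, spW_spS, hB, one_mul]
    have hr : P.Rel (omPSp F * MulAut.conj (QuotientGroup.mk g⁻¹) * β) P.e (y w₀) := by
      refine ⟨Polar.iso_e, ⟨hy0, halt _⟩, fun a t _ ht => ?_⟩
      obtain ⟨w, z, hw, hz, e⟩ := h a t ht
      obtain ⟨k, hk⟩ : ∃ k : F, y w = k • y w₀ := by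
        rw [hB, sympForm_two] at hw
        simp only [hW, zero_mul, zero_add, sub_zero, mul_zero] at hw
        by_cases h1 : w₀.1 (.inl 1) = 0
        · have h2 : w₀.1 (.inr 1) ≠ 0 := by
            intro h2
            apply hy0
            ext i
            revert i
            simp [I4_forall, y, h1, h2]
          refine ⟨w.1 (.inr 1) / w₀.1 (.inr 1), ?_⟩
          ext i
          revert i
          simp [I4_forall, y, h1, h2] at hw ⊢
          exact hw
        · refine ⟨w.1 (.inl 1) / w₀.1 (.inl 1), ?_⟩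
          ext i
          revert i
          simp [I4_forall, y, h1]
          field_simp
          linear_combination hw
      have h3 := hE w z hz
      rw [hk, Polar.isT_smul] at h3
      refine ⟨_, _, hσ _, h3, ?_⟩
      rw [MulAut.mul_apply, MulAut.mul_apply, e, MulAut.conj_apply, ← omPSp_mk]
      congr 1
      simp only [QuotientGroup.mk_mul, QuotientGroup.mk_inv]
      group
    obtain ⟨g', τ, e⟩ := key hr
    refine ⟨spToGSp (omSp F g) * g', τ, Or.inr ?_⟩
    rw [map_mul, mul_assoc, ← e, diagPSp_spToGSp, ← omPSp_mk]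
    ext x
    simp [mul_assoc]

omit [CharP F 2] [Finite F] in
theorem rank_one_diag_field {m : ℕ} (g : Cfsg.GSp m F) (τ : F ≃+* F)
    {A : symplecticGroup (Fin m) F} {x y : Fin m ⊕ Fin m → F} (h : A.1 = 1 + vecMulVec x y) :
    ∃ x' y', (conjSp g (mapSp τ A)).1 = 1 + vecMulVec x' y' := by
  refine ⟨g.1.1 *ᵥ (τ ∘ x), (τ ∘ y) ᵥ* (g.1⁻¹).1, ?_⟩
  have : (1 + vecMulVec x y).map τ = 1 + vecMulVec (τ ∘ x) (τ ∘ y) := by
    ext i j
    simp [vecMulVec_apply, one_apply, apply_ite τ]
  rw [conjSp_coe, mapSp_coe, h, this, mul_add, add_mul, mul_one, Units.mul_inv, mul_vecMulVec,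
    vecMulVec_mul]

theorem omPSp_ne (g : Cfsg.GSp 2 F) (τ : F ≃+* F) : omPSp F ≠ diagPSp g * fieldPSp τ := by
  intro h
  obtain ⟨P, hσ, -⟩ := exists_polarSp4 (F := F)
  have h1 : diagPSp (mapGSp τ⁻¹ g⁻¹) * fieldPSp τ⁻¹ * omPSp F = 1 := by
    rw [← fieldPSp_diagPSp, h, map_inv, map_inv]
    group
  have h2 := MulEquiv.congr_fun h1 (QuotientGroup.mk ⟨spS 1 0, spS_mem 1 0⟩)
  rw [MulAut.mul_apply, MulAut.mul_apply, omPSp_mk, fieldPSp_mk, diagPSp_mk, MulAut.one_apply] at h2
  obtain ⟨x, y, h3⟩ := rank_one_diag_field (mapGSp τ⁻¹ g⁻¹) τ⁻¹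
    (A := omSp F ⟨spS 1 0, spS_mem 1 0⟩) (x := Pi.single (.inr 1) 1) (y := Pi.single (.inl 1) 1) (by
      ext i j
      revert i j
      simp [I4_forall, omSp_coe, spW_apply, sp1, sp2, spS, vecMulVec_apply])
  rw [Polar.mk_inj_char_two hσ h2] at h3
  have e1 := congrFun (congrFun h3 (.inl 1)) (.inl 0)
  have e2 := congrFun (congrFun h3 (.inr 0)) (.inr 1)
  have e3 := congrFun (congrFun h3 (.inl 1)) (.inr 1)
  simp [spS, vecMulVec_apply] at e1 e2 e3
  rcases e3 with e3 | e3
  · simp [e3] at e1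
  · simp [e3] at e2

omit [Finite F] in
theorem diagPSp_mem_inn_char_two [Finite F] {m : ℕ} [Nonempty (Fin m)] (g : Cfsg.GSp m F) :
    diagPSp g ∈ Cfsg.Inn (Cfsg.PSp m F) := by
  apply mem_inn_of_multSp
  obtain ⟨x, hx⟩ := FiniteField.isSquare_of_char_two (ringChar.eq F 2) (multSp g : F)
  have hx0 : x ≠ 0 := by
    rintro rfl
    simp at hx
  exact ⟨Units.mk0 x hx0, Units.ext (by simp [hx, sq])⟩

end CfsgH7
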