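import Cfsg.Agent.H7.Bal7
import Cfsg.Agent.H7.Bal5
import Cfsg.Agent.H7.Sp4

set_option autoImplicit false

namespace CfsgH7

open Module Subgroup Matrix

section df

variable {G T A : Type*} [Group G] [Group T] [Group A] (d : G →* A) (f : T →* A)
  (h : ∀ τ g, ∃ g', f τ * d g = d g' * f τ)

def dfSub : Subgroup A where
  carrier := {β | ∃ g τ, β = d g * f τ}
  one_mem' := ⟨1, 1, by simp⟩
  mul_mem' := by
    rintro _ _ ⟨g, τ, rfl⟩ ⟨k, υ, rfl⟩
    obtain ⟨k', e⟩ := h τ k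
    exact ⟨g * k', τ * υ, by rw [mul_assoc, ← mul_assoc (f τ), e, map_mul, map_mul]; group⟩
  inv_mem' := by
    rintro _ ⟨g, τ, rfl⟩
    obtain ⟨k, e⟩ := h τ⁻¹ g⁻¹
    exact ⟨k, τ⁻¹, by rw [← e, map_inv, map_inv, _root_.mul_inv_rev]⟩

include h in
theorem df_pow (g : G) (τ : T) (k : ℕ) : ∃ g', (d g * f τ) ^ k = d g' * f (τ ^ k) := by
  induction k with
  | zero => exact ⟨1, by simp⟩
  | succ k ih =>
    obtain ⟨g', e⟩ := ih
    obtain ⟨g'', e'⟩ := h (τ ^ k) g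
    exact ⟨g' * g'', by
      rw [pow_succ, e, mul_assoc, ← mul_assoc (f _), e', pow_succ, map_mul, map_mul]; group⟩

include h in
theorem df_pow_mem (g : G) {τ : T} {k : ℕ} (hk : τ ^ k = 1) : (d g * f τ) ^ k ∈ d.range := by
  obtain ⟨g', e⟩ := df_pow d f h g τ k
  exact ⟨g', by rw [e, hk, map_one, mul_one]⟩

include h in
theorem df_orderOf (h1 : ∀ g τ, d g * f τ = 1 → τ = 1) {g : G} {τ : T} (hτ : τ ≠ 1) {p : ℕ}
    [Fact p.Prime] (ho : orderOf (d g * f τ) = p) : orderOf τ = p := by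
  obtain ⟨g', e⟩ := df_pow d f h g τ p
  rw [← ho, pow_orderOf_eq_one, ho] at e
  exact orderOf_eq_prime (h1 _ _ e.symm) hτ

theorem mem_of_index_two {H : Subgroup A} {ω : A} (hω : ∀ β, β ∈ H ∨ ω * β ∈ H) {x : A} {n : ℕ}
    (hn : Odd n) (hx : x ^ n = 1) : x ∈ H := by
  by_contra h1
  have h2 : x ^ 2 ∈ H := by
    have := mul_mem (inv_mem ((hω x⁻¹).resolve_left fun e => h1 ((inv_mem_iff).1 e)))
      ((hω x).resolve_left h1)
    simpa [mul_assoc, sq] using this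
  obtain ⟨k, rfl⟩ := hn
  rw [pow_succ, pow_mul, mul_eq_one_iff_inv_eq] at hx
  exact h1 (hx ▸ inv_mem (pow_mem h2 k))

end df

theorem center_quot_eq_bot {S : Type*} [Group S]
    (h : ∀ s : S, MulAut.conj (QuotientGroup.mk s : S ⧸ center S) = 1 → s ∈ center S) :
    center (S ⧸ center S) = ⊥ := by
  rw [eq_bot_iff]
  intro z hz
  obtain ⟨g, rfl⟩ := QuotientGroup.mk_surjective z
  refine (QuotientGroup.eq_one_iff _).2 (h g ?_)
  ext y
  simp [← mem_center_iff.1 hz y]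

theorem pow_eq_one_of_fix {F : Type*} [Field F] [Finite F] {σ τ : F ≃+* F}
    (h : ∀ c : fixF σ, τ c = c) : τ ^ orderOf σ = 1 := by
  obtain ⟨k, rfl⟩ := mem_zpowers_of_fix (τ := σ) (σ := τ) fun x hx => h ⟨x, mem_fixF.2 hx⟩
  rw [← zpow_natCast, ← _root_.zpow_mul, mul_comm, _root_.zpow_mul, zpow_natCast,
    pow_orderOf_eq_one, _root_.one_zpow]

variable {F : Type*} [Field F] [Finite F] {m : ℕ}

theorem center_PSp (hm : 2 ≤ m) : center (Cfsg.PSp m F) = ⊥ :=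
  center_quot_eq_bot fun s hs => by
    rw [← diagPSp_spToGSp, diagPSp_eq_one_iff hm] at hs
    obtain ⟨c, hc⟩ := hs
    refine mem_center_iff.2 fun t => Subtype.ext ?_
    change t.1 * s.1 = s.1 * t.1
    rw [show s.1 = c • 1 from hc]
    simp

omit [Finite F] in
theorem hSp (τ : F ≃+* F) (g : Cfsg.GSp m F) :
    ∃ g', fieldPSp τ * diagPSp g = diagPSp g' * fieldPSp τ := ⟨_, fieldPSp_diagPSp τ g⟩

theorem omPSp_not_fix [CharP F 2] (g : Cfsg.GSp 2 F) (τ : F ≃+* F) {y : MulAut (Cfsg.PSp 2 F)}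
    (h : omPSp F * y = diagPSp g * fieldPSp τ) :
    y (QuotientGroup.mk ⟨spS 1 0, spS_mem 1 0⟩) ≠ QuotientGroup.mk ⟨spS 1 0, spS_mem 1 0⟩ := by
  intro hy
  obtain ⟨P, hσ, -⟩ := exists_polarSp4 (F := F)
  have h1 : diagPSp (mapGSp τ⁻¹ g⁻¹) * fieldPSp τ⁻¹ * (omPSp F * y) = 1 := by
    rw [← fieldPSp_diagPSp, h, map_inv, map_inv]
    group
  have h2 := MulEquiv.congr_fun h1 (QuotientGroup.mk ⟨spS 1 0, spS_mem 1 0⟩)
  rw [MulAut.mul_apply, MulAut.mul_apply, MulAut.mul_apply, hy, omPSp_mk, fieldPSp_mk, diagPSp_mk,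
    MulAut.one_apply] at h2
  obtain ⟨x, y, h3⟩ := rank_one_diag_field (mapGSp τ⁻¹ g⁻¹) τ⁻¹
    (A := omSp F ⟨spS 1 0, spS_mem 1 0⟩) (x := Pi.single (.inr 1) 1) (y := Pi.single (.inl 1) 1) (by
      ext i j
      revert i j
      simp [I4_forall, omSp_coe, spW_apply, sp1, sp2, spS, vecMulVec_apply])
  rw [Polar.mk_inj_char_two hσ h2] at h3
  have e1 := congrFun (congrFun h3 (.inl 1)) (.inl 0)
  have e2 := congrFun (congrFun h3 (.inr 0)) (.inr 1)
  have e3 := congrFun (congrFun h3 (.inl 1)) (.inr 1)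
  simp [spS, vecMulVec_apply] at e1 e2 e3
  rcases e3 with e3 | e3
  · simp [e3] at e1
  · simp [e3] at e2

theorem char_two_of {r : ℕ} [hr : Fact r.Prime] [CharP F r] (h : (2 : F) = 0) : r = 2 :=
  (Nat.prime_dvd_prime_iff_eq hr.out Nat.prime_two).1 ((CharP.cast_eq_zero_iff F r 2).1 h)

theorem balG_Sp (hm : 2 ≤ m) (r : ℕ) [Fact r.Prime] [CharP F r] {p : ℕ} [Fact p.Prime]
    (hpr : p ≠ r) {σ : F ≃+* F} (ho : orderOf σ = p) :
    BalG p (fieldPSp σ : MulAut (Cfsg.PSp m F)) := by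
  obtain ⟨P, h1, h2, h3⟩ := exists_polarSp (F := fixF σ) (m := m) (by omega)
  obtain ⟨P', -⟩ := exists_polarSp (F := F) (m := m) (by omega)
  have hn : 2 ≤ finrank (fixF σ) (Fin m ⊕ Fin m → fixF σ) := by simp; omega
  haveI : Nonempty (Fin m) := ⟨⟨0, by omega⟩⟩
  refine (balG_mat (X := P.toSF.geo r) (symplecticGroup (Fin m) F).subtype Subtype.val_injective
    P'.center_pow (center_PSp hm) (I := diagPSp.range) (fun k => inn_le_diagPSp_range ⟨k, rfl⟩)
    ((orderOf_injective _ (fieldPSp_injective hm) σ).trans ho) (matρ (Cfsg.GSp m (fixF σ)))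
    (diagPSp.comp (embGSp (fixF σ).subtype)) (fun g => ?_) (fun g => ?_)
    (by rw [field_centralizer_Sp hm σ _ (fixF_spec σ), MonoidHom.range_comp]) (fixF σ).subtype
    (jM 1 _) (jM_smul 1 _) (jM_injective 1 _) (fun a ha t ht => ?_) rfl
    (P.toSF.geo_swap P.e_ne P.he) (P.toSF.geo_rich hn (Or.inl (RingEquiv.ext h1)))
    (sf_Bot hn hpr) fun y _ hy _ => ?_).1
  · obtain ⟨c, hc⟩ := g.2
    exact ⟨c, c.ne_zero, h1 _, fun u v => (h2 _ _).trans ((hc u v).trans (by rw [← h2]; rfl))⟩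
  · rw [MonoidHom.comp_apply, diagPSp_eq_one_iff hm, ← matρ_scalar_iff]
    exact GL_map_scalar_iff _ g.1
  · have h4 : LinearMap.toMatrix' t ∈ symplecticGroup (Fin m) (fixF σ) :=
      (mem_Sp_iff_form _).2 fun u v => by
        rw [LinearMap.toMatrix'_mulVec, LinearMap.toMatrix'_mulVec, ← h2, ← h2]
        exact P.toSF.geo_isom ((P.toSF.geo r).mem_L ha ht) u v
    refine ⟨spToGSp ⟨_, h4⟩, ⟨_, SymplecticGroup.map_mem h4 (fixF σ).subtype⟩,
      LinearMap.ext fun v => (matρ_apply _ _ _).trans (LinearMap.toMatrix'_mulVec t v), ?_,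
      by simp [jM_apply]⟩
    rw [← diagPSp_spToGSp, MonoidHom.comp_apply]
    congr 1
    exact Subtype.ext (Units.ext rfl)
  · obtain ⟨g, τ, rfl⟩ : ∃ g τ, y = diagPSp g * fieldPSp τ := by
      by_cases hs : (2 : F) ≠ 0 ∨ 3 ≤ m
      · exact aut_psp hm hs y
      · push Not at hs
        obtain rfl : m = 2 := by omega
        obtain rfl := char_two_of (r := r) hs.1
        obtain ⟨g, τ, h | h⟩ := aut_psp4 y
        · exact ⟨g, τ, h⟩
        · refine absurd (hy _ ?_) (omPSp_not_fix g τ h)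
          rw [fieldPSp_mk]
          congr 1
          refine Subtype.ext ?_
          ext i j
          revert i j
          simp [I4_forall, mapSp_coe, spS]
    exact ⟨conjSp g * mapSp τ, g.1, τ, (map_mul (autQuot _) _ _).symm, fun s => rfl,
      fun h => df_pow_mem _ _ hSp g (ho ▸ pow_eq_one_of_fix h)⟩

theorem psp_diag_field (hm : 2 ≤ m) (r : ℕ) [Fact r.Prime] [CharP F r] {p : ℕ} [hp : Fact p.Prime]
    (hpr : p ≠ r) {x : MulAut (Cfsg.PSp m F)} (ho : orderOf x = p) :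
    ∃ g τ, x = diagPSp g * fieldPSp τ := by
  by_cases hs : (2 : F) ≠ 0 ∨ 3 ≤ m
  · exact aut_psp hm hs x
  · push Not at hs
    obtain rfl : m = 2 := by omega
    obtain rfl := char_two_of (r := r) hs.1
    refine mem_of_index_two (H := dfSub _ _ hSp) (ω := omPSp F) (fun β => ?_)
      (hp.out.odd_of_ne_two hpr) (ho ▸ pow_orderOf_eq_one x)
    obtain ⟨g, τ, h | h⟩ := aut_psp4 β
    · exact Or.inl ⟨g, τ, h⟩
    · exact Or.inr ⟨g, τ, h⟩

end CfsgH7
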