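import Cfsg.Agent.H7.Graph3
import Cfsg.Agent.H7.PSUField

/-! Involutory graph automorphisms of the unitary groups. -/

namespace CfsgH7
open Matrix Subgroup Cfsg CfsgH1
open CfsgH8 hiding map_mul map_one

variable {K : Type*} [Field K] {n q : ℕ}

/-- The conformal unitary group. -/
def CU (n : ℕ) (K : Type*) [Field K] (q : ℕ) : Subgroup (GL (Fin n) K) :=
  Geo.similarityGroup (hermForm n K q)

theorem herm_sim_iff {σ : K ≃+* K} (hσ : ∀ x, σ x = x ^ q) (g : Matrix (Fin n) (Fin n) K) (c : K) :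
    (∀ u v, hermForm n K q (g *ᵥ u) (g *ᵥ v) = c * hermForm n K q u v) ↔
      gᵀ * g.map σ = c • 1 := by
  rw [← form_eq_iff]
  simp only [hermForm_eq hσ, map_mulVec_comp]
  have : ∀ u v, (g *ᵥ u) ⬝ᵥ g.map σ *ᵥ v = u ⬝ᵥ (gᵀ * g.map σ) *ᵥ v := fun u v => by
    rw [← mulVec_mulVec, dotProduct_mulVec u, vecMul_transpose]
  simp only [this, smul_mulVec, one_mulVec, dotProduct_smul, smul_eq_mul]
  refine ⟨fun h u v => ?_, fun h u v => h u _⟩
  obtain ⟨v, rfl⟩ := σ.surjective.comp_left v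
  exact h u v

theorem mem_CU_iff {σ : K ≃+* K} (hσ : ∀ x, σ x = x ^ q) {g : GL (Fin n) K} :
    g ∈ CU n K q ↔ ∃ c : Kˣ, g.1ᵀ * g.1.map σ = (c : K) • 1 :=
  exists_congr fun c => herm_sim_iff hσ g.1 c

theorem mem_GU_iff'' {σ : K ≃+* K} (hσ : ∀ x, σ x = x ^ q) {g : GL (Fin n) K} :
    g ∈ GU n K q ↔ g.1ᵀ * g.1.map σ = 1 := by
  have := herm_sim_iff hσ g.1 1
  simp only [one_mul, one_smul] at this
  exact this

theorem GU_le_CU : GU n K q ≤ CU n K q := fun g hg => ⟨1, fun u v => by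
  rw [Units.val_one, one_mul]; exact hg u v⟩

def conjCU : CU n K q →* MulAut (SU n K q) :=
  restrAut (conjSL.comp (CU n K q).subtype) _ (fun g s hs u v => by
    change hermForm n K q
      (((g.1 : Matrix (Fin n) (Fin n) K) * s.1 * ((g.1⁻¹ : GL (Fin n) K) : Matrix _ _ K)) *ᵥ u)
      (((g.1 : Matrix (Fin n) (Fin n) K) * s.1 * ((g.1⁻¹ : GL (Fin n) K) : Matrix _ _ K)) *ᵥ v) = _
    simp only [← mulVec_mulVec]
    obtain ⟨c, hc⟩ := g.2
    refine (hc _ _).trans ((congrArg _ (hs _ _)).trans ?_)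
    rw [← hc, mulVec_mulVec, mulVec_mulVec, Units.mul_inv, one_mulVec, one_mulVec])

def diagCU : CU n K q →* MulAut (PSU n K q) := (autQuot _).comp conjCU

theorem diagCU_mk (g : CU n K q) (s : SU n K q) :
    diagCU g (QuotientGroup.mk s) = QuotientGroup.mk (conjCU g s) := rfl

theorem conjCU_coe (g : CU n K q) (s : SU n K q) :
    ((conjCU g s).1 : Matrix (Fin n) (Fin n) K) =
      (g.1 : Matrix (Fin n) (Fin n) K) * s.1 * (g.1⁻¹ : GL (Fin n) K) := rfl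

theorem diagCU_inclusion (g : GU n K q) : diagCU (inclusion GU_le_CU g) = diagPSU g := rfl

def mapCU (τ : K ≃+* K) : CU n K q →* CU n K q :=
  ((mapGL' τ).comp (CU n K q).subtype).codRestrict _ (fun g => by
    obtain ⟨c, hc⟩ := g.2
    refine ⟨Units.map (τ : K →* K) c, fun u v => ?_⟩
    obtain ⟨u, rfl⟩ := τ.surjective.comp_left u
    obtain ⟨v, rfl⟩ := τ.surjective.comp_left v
    change hermForm n K q (g.1.1.map τ *ᵥ (τ ∘ u)) (g.1.1.map τ *ᵥ (τ ∘ v)) = τ c * _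
    rw [← map_mulVec_comp, ← map_mulVec_comp, hermForm_map, hermForm_map, hc, map_mul])

theorem mapCU_coe (τ : K ≃+* K) (g : CU n K q) : (mapCU τ g).1 = mapGL' τ g.1 := rfl

theorem fieldPSU_diagCU (τ : K ≃+* K) (g : CU n K q) :
    fieldPSU τ * diagCU g = diagCU (mapCU τ g) * fieldPSU τ := by
  simp only [fieldPSU, diagCU, MonoidHom.comp_apply, ← map_mul]
  congr 1
  refine MulEquiv.ext fun s => Subtype.ext ?_
  exact MulEquiv.congr_fun (mapSL_conjSL τ g.1) s.1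

theorem diagCU_eq_of_smul {g h : CU n K q} {c : K} (hc : c ≠ 0) (e : g.1.1 = c • h.1.1) :
    diagCU g = diagCU h := by
  have e' : g.1 = smulGL c hc h.1 := Units.ext e
  simp only [diagCU, MonoidHom.comp_apply]
  congr 1
  refine MulEquiv.ext fun s => Subtype.ext (Subtype.ext ?_)
  rw [conjCU_coe, conjCU_coe, e']
  change c • h.1.1 * _ * c⁻¹ • (h.1⁻¹).1 = _
  rw [Matrix.smul_mul, Matrix.smul_mul, Matrix.mul_smul, smul_smul, mul_inv_cancel₀ hc, one_smul]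

section fin
variable [Fintype K] (hK : Fintype.card K = q ^ 2)
include hK

theorem diag_field_eq_one_CU (hn : 3 ≤ n) {g : CU n K q} {τ : K ≃+* K}
    (h : diagCU g * fieldPSU τ = 1) : τ = 1 ∧ ∃ c : K, g.1.1 = c • 1 := by
  obtain ⟨σ, hσ, h2⟩ := exists_qfrob hK
  obtain ⟨P, -, -, hρ⟩ := exists_polarSU (n := n) hσ h2 (by omega)
  haveI := Polar.nontrivial_W (P := P) (by simp; omega)
  exact Polar.rigid_matrix hρ fun s =>
    ⟨conjCU g (mapSU τ s), rfl, MulEquiv.congr_fun h (QuotientGroup.mk s)⟩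

theorem diagCU_eq_iff (hn : 3 ≤ n) {g h : CU n K q} :
    diagCU g = diagCU h ↔ ∃ c : K, c ≠ 0 ∧ g.1.1 = c • h.1.1 := by
  haveI : Nonempty (Fin n) := ⟨⟨0, by omega⟩⟩
  refine ⟨fun e => ?_, fun ⟨c, hc, e⟩ => diagCU_eq_of_smul hc e⟩
  obtain ⟨-, c, hc⟩ := diag_field_eq_one_CU hK hn (g := g * h⁻¹) (τ := 1) (by
    rw [map_one, mul_one, map_mul, map_inv, e, mul_inv_cancel])
  refine ⟨c, GL_smul_one_ne_zero hc, ?_⟩
  have : g.1.1 = (g * h⁻¹).1.1 * h.1.1 := by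
    rw [← Units.val_mul, ← coe_mul, inv_mul_cancel_right]
  rw [this, hc, Matrix.smul_mul, Matrix.one_mul]

theorem diagCU_eq_one_iff (hn : 3 ≤ n) {g : CU n K q} :
    diagCU g = 1 ↔ ∃ c : K, g.1.1 = c • 1 := by
  haveI : Nonempty (Fin n) := ⟨⟨0, by omega⟩⟩
  rw [← map_one diagCU, diagCU_eq_iff hK hn]
  exact ⟨fun ⟨c, _, h⟩ => ⟨c, h⟩, fun ⟨c, h⟩ => ⟨c, GL_smul_one_ne_zero h, h⟩⟩

theorem exists_GU_smul [Nonempty (Fin n)] (g : CU n K q) :
    ∃ (h : GU n K q) (x : K), x ≠ 0 ∧ g.1.1 = x • h.1.1 := by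
  obtain ⟨σ, hσ, h2⟩ := exists_qfrob hK
  obtain ⟨c, hc⟩ := (mem_CU_iff hσ).1 g.2
  have h1 : σ c = c := by
    have e : (g.1.1ᵀ * g.1.1.map σ).map σ = (g.1.1ᵀ * g.1.1.map σ)ᵀ := by
      rw [map_mul_mat, transpose_mul, transpose_transpose, ← transpose_map]
      congr 1
      ext i j
      exact invol_of_orderOf h2 _
    rw [hc] at e
    simpa using congrFun (congrFun e (Classical.arbitrary _)) (Classical.arbitrary _)
  obtain ⟨x, hx⟩ := exists_norm_two h2 h1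
  have hx0 : x ≠ 0 := by rintro rfl; exact c.ne_zero (by rw [← hx, zero_mul])
  refine ⟨⟨smulGL x⁻¹ (inv_ne_zero hx0) g.1, (mem_GU_iff'' hσ).2 ?_⟩, x, hx0, ?_⟩
  · rw [smulGL_coe, map_smul_mat, transpose_smul, Matrix.smul_mul, Matrix.mul_smul, hc, ← hx,
      smul_smul, smul_smul, map_inv₀]
    have : σ x ≠ 0 := by simpa using hx0
    rw [show x⁻¹ * (σ x)⁻¹ * (x * σ x) = 1 by field_simp, one_smul]
  · rw [smulGL_coe, smul_inv_smul₀ hx0]

theorem diagCU_range [Nonempty (Fin n)] :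
    (diagCU : CU n K q →* _).range = (diagPSU : GU n K q →* _).range := by
  apply le_antisymm
  · rintro _ ⟨g, rfl⟩
    obtain ⟨h, x, hx, e⟩ := exists_GU_smul hK g
    exact ⟨h, (diagCU_eq_of_smul (h := inclusion GU_le_CU h) hx e).symm⟩
  · rintro _ ⟨g, rfl⟩
    exact ⟨inclusion GU_le_CU g, rfl⟩

end fin

/-- Data for an `F₀`-form of the unitary space. -/
structure UD (σ : K ≃+* K) {F₀ : Type*} [Field F₀] (ε : F₀ →+* K) (B : GL (Fin n) F₀) where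
  P : GL (Fin n) K
  δ : K
  hδ : δ ≠ 0
  eq : P.1ᵀ * P.1.map σ = δ • B.1.map ε

section ud
variable {σ : K ≃+* K} {F₀ : Type*} [Field F₀] {ε : F₀ →+* K} (hσ : ∀ x, σ x = x ^ q)
  (h2 : orderOf σ = 2) (hε : ∀ x, σ x = x ↔ ∃ y, ε y = x)

include hε in
theorem map_map_fix {ι κ : Type*} (B : Matrix ι κ F₀) : (B.map ε).map σ = B.map ε := by
  ext i j; exact (hε _).2 ⟨_, rfl⟩

include h2 in
theorem map_map_invol {ι κ : Type*} (B : Matrix ι κ K) : (B.map σ).map σ = B := by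
  ext i j; exact invol_of_orderOf h2 _

include hε in
theorem mapGL'_GLmap (k : GL (Fin n) F₀) :
    mapGL' σ (Matrix.GeneralLinearGroup.map ε k) = Matrix.GeneralLinearGroup.map ε k :=
  Units.ext (map_map_fix hε _)

include h2 in
theorem mapGL'_mapGL' (k : GL (Fin n) K) : mapGL' σ (mapGL' σ k) = k :=
  Units.ext (map_map_invol h2 _)

include hε in
theorem exists_GL_of_map_eq_smul [Finite K] {ι : Type*} [Fintype ι] [DecidableEq ι] [Nonempty ι]
    (g : GL ι K) {c : K} (hc : g.1.map σ = c • g.1) :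
    ∃ (x : K) (hx : x ≠ 0) (k : GL ι F₀), Matrix.GeneralLinearGroup.map ε k = smulGL x hx g := by
  obtain ⟨x, hx, e4⟩ := exists_fixed_of_map_eq_smul σ g hc
  refine ⟨x, hx, exists_GL_map_eq ε (smulGL x hx g) fun i j => (hε _).1 ?_⟩
  have : σ (g.1 i j) = c * g.1 i j := congrFun (congrFun hc i) j
  change σ (x * g.1 i j) = x * g.1 i j
  rw [map_mul, this, ← mul_assoc, mul_comm (σ x), e4]

theorem herm_conj_inv {g P : GL (Fin n) K} {M : Matrix (Fin n) (Fin n) K}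
    (h : (g * P).1ᵀ * (g * P).1.map σ = M) :
    g.1ᵀ * g.1.map σ = (P⁻¹).1ᵀ * M * (P⁻¹).1.map σ := by
  rw [← h, Matrix.mul_assoc, Matrix.mul_assoc, ← map_mul_mat, ← Matrix.mul_assoc, ← transpose_mul,
    ← Units.val_mul, mul_inv_cancel_right]

theorem herm_inv_self (P : GL (Fin n) K) :
    (P⁻¹).1ᵀ * (P.1ᵀ * P.1.map σ) * (P⁻¹).1.map σ = 1 := by
  rw [← herm_conj_inv (g := 1) (by rw [one_mul])]
  simp

variable {B B' : GL (Fin n) F₀}

include hε in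
theorem UD.herm_mul (D : UD σ ε B) (k : GL (Fin n) F₀) :
    (D.P * Matrix.GeneralLinearGroup.map ε k).1ᵀ *
      (D.P * Matrix.GeneralLinearGroup.map ε k).1.map σ = D.δ • (k.1ᵀ * B.1 * k.1).map ε := by
  change (D.P.1 * k.1.map ε)ᵀ * (D.P.1 * k.1.map ε).map σ = _
  rw [transpose_mul, map_mul_mat, map_map_fix hε, Matrix.mul_assoc, ← Matrix.mul_assoc D.P.1ᵀ,
    D.eq, Matrix.map_mul, Matrix.map_mul, Matrix.smul_mul, Matrix.mul_smul, transpose_map,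
    Matrix.mul_assoc]

include hε in
theorem UD.herm_emb (D : UD σ ε B) (D' : UD σ ε B') {k : GL (Fin n) F₀} {c : F₀}
    (h : k.1ᵀ * B.1 * k.1 = c • B'.1) :
    (D.P * Matrix.GeneralLinearGroup.map ε k * D'.P⁻¹).1ᵀ *
      (D.P * Matrix.GeneralLinearGroup.map ε k * D'.P⁻¹).1.map σ = (D.δ * ε c / D'.δ) • 1 := by
  rw [herm_conj_inv (P := D'.P) (by rw [inv_mul_cancel_right, D.herm_mul hε, h])]
  have : D.δ • (c • B'.1).map ε = (D.δ * ε c / D'.δ) • (D'.P.1ᵀ * D'.P.1.map σ) := by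
    rw [D'.eq, smul_smul, div_mul_cancel₀ _ D'.hδ, mul_smul]
    congr 1
    ext i j; simp
  rw [this, Matrix.mul_smul, Matrix.smul_mul, herm_inv_self]

include hσ h2 hε

theorem UD.mem (D : UD σ ε B) : D.P * (mapGL' σ D.P)⁻¹ ∈ CU n K q := by
  have h1 : σ D.δ ≠ 0 := by simpa using D.hδ
  refine (mem_CU_iff hσ).2 ⟨Units.mk0 _ (div_ne_zero D.hδ h1), ?_⟩
  rw [herm_conj_inv (P := mapGL' σ D.P) (by rw [inv_mul_cancel_right])]
  have : D.P.1ᵀ * D.P.1.map σ =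
      (D.δ / σ D.δ) • ((mapGL' σ D.P).1ᵀ * (mapGL' σ D.P).1.map σ) := by
    rw [mapGL'_coe, ← transpose_map, ← map_mul_mat, D.eq, map_smul_mat, map_map_fix hε, smul_smul,
      div_mul_cancel₀ _ h1]
  rw [this, Matrix.mul_smul, Matrix.smul_mul, herm_inv_self]
  rfl

def UD.aut (D : UD σ ε B) : MulAut (PSU n K q) := diagCU ⟨_, D.mem hσ h2 hε⟩ * fieldPSU σ

theorem UD.aut_sq (D : UD σ ε B) : D.aut hσ h2 hε ^ 2 = 1 := by
  rw [sq, UD.aut, mul_assoc, ← mul_assoc (fieldPSU σ), fieldPSU_diagCU, mul_assoc, ← map_mul,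
    ← sq, ← h2, pow_orderOf_eq_one, map_one, mul_one, ← map_mul, ← map_one diagCU]
  congr 1
  apply Subtype.ext
  rw [coe_mul, mapCU_coe, map_mul, map_inv, mapGL'_mapGL' h2]
  simp

theorem UD.conj_eq (D : UD σ ε B) (h : CU n K q) :
    diagCU h * D.aut hσ h2 hε * (diagCU h)⁻¹ =
      diagCU (h * ⟨_, D.mem hσ h2 hε⟩ * (mapCU σ h)⁻¹) * fieldPSU σ := by
  rw [UD.aut, ← map_inv diagCU, mul_assoc, mul_assoc, fieldPSU_diagCU, ← mul_assoc, ← mul_assoc,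
    ← map_mul, ← map_mul, map_inv (mapCU σ)]

omit h2 in
theorem UD.emb_mem (D : UD σ ε B) (D' : UD σ ε B') {k : GL (Fin n) F₀} {c : F₀} (hc : c ≠ 0)
    (h : k.1ᵀ * B.1 * k.1 = c • B'.1) :
    D.P * Matrix.GeneralLinearGroup.map ε k * D'.P⁻¹ ∈ CU n K q :=
  (mem_CU_iff hσ).2 ⟨Units.mk0 _ (div_ne_zero (mul_ne_zero D.hδ (by simpa using hc)) D'.hδ),
    D.herm_emb hε D' h⟩

theorem UD.conj_emb (D : UD σ ε B) (D' : UD σ ε B') {h : CU n K q} {k : GL (Fin n) F₀}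
    (e : h.1 = D.P * Matrix.GeneralLinearGroup.map ε k * D'.P⁻¹) :
    diagCU h * D'.aut hσ h2 hε * (diagCU h)⁻¹ = D.aut hσ h2 hε := by
  rw [UD.conj_eq, UD.aut]
  congr 2
  apply Subtype.ext
  rw [coe_mul, coe_mul, coe_inv, mapCU_coe, e, map_mul, map_mul, mapGL'_GLmap hε, map_inv]
  simp [mul_assoc]

omit h2 in
/-- The embedding of the similarity group of the form. -/
def UD.emb (D : UD σ ε B) : SimG B.1 →* CU n K q :=
  ((MulAut.conj D.P).toMonoidHom.comp ((Matrix.GeneralLinearGroup.map ε).comp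
    (SimG B.1).subtype)).codRestrict _ fun k => by
      obtain ⟨c, hc⟩ := mem_SimG.1 k.2
      exact D.emb_mem hσ hε D c.ne_zero hc

omit h2 in
theorem UD.emb_coe (D : UD σ ε B) (k : SimG B.1) :
    (D.emb hσ hε k).1 = D.P * Matrix.GeneralLinearGroup.map ε k.1 * D.P⁻¹ := rfl

variable [Fintype K] (hK : Fintype.card K = q ^ 2)
include hK

theorem UD.of_conj (hn : 3 ≤ n) (D : UD σ ε B) (D' : UD σ ε B') {h : CU n K q}
    (e : diagCU h * D'.aut hσ h2 hε * (diagCU h)⁻¹ = D.aut hσ h2 hε) :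
    ∃ (k : GL (Fin n) F₀) (x : K) (c : F₀), x ≠ 0 ∧ c ≠ 0 ∧ k.1ᵀ * B.1 * k.1 = c • B'.1 ∧
      x • h.1.1 = (D.P * Matrix.GeneralLinearGroup.map ε k * D'.P⁻¹).1 := by
  haveI : Nonempty (Fin n) := ⟨⟨0, by omega⟩⟩
  rw [UD.conj_eq, UD.aut, mul_left_inj, diagCU_eq_iff hK hn] at e
  obtain ⟨l, hl, e⟩ := e
  have e1 : h.1 * (D'.P * (mapGL' σ D'.P)⁻¹) * (mapGL' σ h.1)⁻¹ =
      smulGL l hl 1 * (D.P * (mapGL' σ D.P)⁻¹) := Units.ext (by
    rw [Units.val_mul (smulGL l hl 1), smulGL_coe, Matrix.smul_mul, Units.val_one, Matrix.one_mul]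
    exact e)
  have e2 : D.P⁻¹ * h.1 * D'.P = D.P⁻¹ * smulGL l hl 1 * D.P * mapGL' σ (D.P⁻¹ * h.1 * D'.P) := by
    rw [map_mul, map_mul, map_inv]
    calc _ = D.P⁻¹ * (h.1 * (D'.P * (mapGL' σ D'.P)⁻¹) * (mapGL' σ h.1)⁻¹) *
          (mapGL' σ h.1 * mapGL' σ D'.P) := by group
      _ = _ := by rw [e1]; group
  obtain ⟨k', hk'⟩ : ∃ k', k' = D.P⁻¹ * h.1 * D'.P := ⟨_, rfl⟩
  rw [← hk'] at e2
  have e3 : k'.1.map σ = l⁻¹ • k'.1 := by
    have := congrArg Units.val e2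
    rw [Units.val_mul, Units.val_mul, Units.val_mul, smulGL_coe, Units.val_one, Matrix.mul_smul,
      Matrix.mul_one, Matrix.smul_mul, Units.inv_mul, Matrix.smul_mul, Matrix.one_mul] at this
    rw [eq_inv_smul_iff₀ hl]
    exact this.symm
  obtain ⟨x, hx, k, hk⟩ := exists_GL_of_map_eq_smul hε k' e3
  have e5 : x • h.1.1 = (D.P * Matrix.GeneralLinearGroup.map ε k * D'.P⁻¹).1 := by
    rw [hk, Units.val_mul, Units.val_mul, smulGL_coe, Matrix.mul_smul, Matrix.smul_mul,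
      ← Units.val_mul, ← Units.val_mul, hk']
    congr 2; group
  obtain ⟨c, hc⟩ := (mem_CU_iff hσ).1 h.2
  have e6 : D.δ • (k.1ᵀ * B.1 * k.1).map ε = (x * σ x * c * D'.δ) • B'.1.map ε := by
    have e7 : (D.P * Matrix.GeneralLinearGroup.map ε k).1 = x • (h.1.1 * D'.P.1) := by
      rw [← Matrix.smul_mul, e5, ← Units.val_mul, inv_mul_cancel_right]
    rw [← D.herm_mul hε, e7, map_smul_mat, transpose_smul, Matrix.smul_mul, Matrix.mul_smul,
      transpose_mul, map_mul_mat, Matrix.mul_assoc, ← Matrix.mul_assoc h.1.1ᵀ, hc, Matrix.smul_mul,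
      Matrix.one_mul, Matrix.mul_smul, D'.eq]
    simp only [smul_smul, mul_assoc]
  obtain ⟨i, j, hij⟩ : ∃ i j, B'.1 i j ≠ 0 := by
    by_contra h0
    push Not at h0
    exact B'.isUnit.ne_zero (Matrix.ext h0)
  have e8 : k.1ᵀ * B.1 * k.1 = ((k.1ᵀ * B.1 * k.1) i j / B'.1 i j) • B'.1 := by
    ext a b
    apply ε.injective
    have h3 : D.δ * ε ((k.1ᵀ * B.1 * k.1) i j) = x * σ x * c * D'.δ * ε (B'.1 i j) :=
      congrFun (congrFun e6 i) j
    have h4 : D.δ * ε ((k.1ᵀ * B.1 * k.1) a b) = x * σ x * c * D'.δ * ε (B'.1 a b) :=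
      congrFun (congrFun e6 a) b
    rw [Matrix.smul_apply, smul_eq_mul]
    have h5 : ε (B'.1 i j) ≠ 0 := by simpa using hij
    apply mul_left_cancel₀ D.hδ
    rw [h4, map_mul, map_div₀, ← mul_assoc, ← mul_div_assoc, h3, mul_div_cancel_right₀ _ h5]
  refine ⟨k, x, _, hx, fun h0 => ?_, e8, e5⟩
  rw [h0, zero_smul] at e8
  exact ((((isUnit_transpose _).2 k.isUnit).mul B.isUnit).mul k.isUnit).ne_zero e8

theorem UD.centralizer (hn : 3 ≤ n) (D : UD σ ε B) :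
    inndiagPSU n K q ⊓ centralizer {D.aut hσ h2 hε} = (diagCU.comp (D.emb hσ hε)).range := by
  haveI : Nonempty (Fin n) := ⟨⟨0, by omega⟩⟩
  rw [inndiagPSU_eq, ← diagCU_range hK]
  ext y
  constructor
  · rintro ⟨⟨h, rfl⟩, hy⟩
    obtain ⟨k, x, c, hx, hc, e1, e2⟩ := D.of_conj hσ h2 hε hK hn D
      (mul_inv_eq_iff_eq_mul.2 (mem_centralizer_singleton_iff.1 hy))
    exact ⟨⟨k, mem_SimG.2 ⟨Units.mk0 c hc, e1⟩⟩, diagCU_eq_of_smul hx e2.symm⟩
  · rintro ⟨k, rfl⟩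
    exact ⟨⟨_, rfl⟩, mem_centralizer_singleton_iff.2
      (mul_inv_eq_iff_eq_mul.1 (D.conj_emb hσ h2 hε D (D.emb_coe hσ hε k)))⟩

omit h2 in
theorem UD.emb_eq_one_iff (hn : 3 ≤ n) (D : UD σ ε B) (k : SimG B.1) :
    diagCU.comp (D.emb hσ hε) k = 1 ↔ ∃ c : F₀, k.1.1 = c • 1 := by
  haveI : Nonempty (Fin n) := ⟨⟨0, by omega⟩⟩
  rw [MonoidHom.comp_apply, diagCU_eq_one_iff hK hn, ← GL_map_scalar_iff ε, ← GL_mem_center_iff,
    ← GL_mem_center_iff, UD.emb_coe]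
  exact ⟨fun h => by simpa [mul_assoc] using (inferInstance : (center (GL (Fin n) K)).Normal).conj_mem _ h D.P⁻¹,
    fun h => (inferInstance : (center (GL (Fin n) K)).Normal).conj_mem _ h D.P⟩

theorem UD.ne_one (hn : 3 ≤ n) (D : UD σ ε B) : D.aut hσ h2 hε ≠ 1 := fun h => by
  rw [(diag_field_eq_one_CU hK hn h).1, orderOf_one] at h2
  exact absurd h2 (by decide)

omit hK in
theorem exists_UD (hB : B.1ᵀ = B.1 ∨ B.1ᵀ = -B.1) : Nonempty (UD σ ε B) := by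
  obtain ⟨δ, hδ, h⟩ : ∃ δ : K, δ ≠ 0 ∧ ct σ (δ • B.1.map ε) = δ • B.1.map ε := by
    rcases hB with hB | hB
    · exact ⟨1, one_ne_zero, by rw [one_smul, ct_apply, map_map_fix hε, ← transpose_map, hB]⟩
    · obtain ⟨θ, hθ⟩ := exists_ne_of_orderOf h2
      refine ⟨_, hθ, ?_⟩
      rw [ct_smul, ct_apply, map_map_fix hε, ← transpose_map, hB, map_sub, invol_of_orderOf h2,
        Matrix.map_neg _ (map_neg ε), smul_neg, ← neg_smul, neg_sub]
  obtain ⟨Q, hQ, -, h3, -⟩ := herm_exists h2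
    (smulGL δ hδ (Matrix.GeneralLinearGroup.map ε B)).isUnit h
  exact ⟨⟨mapGL' σ hQ.unit, δ, hδ, by
    rw [mapGL'_coe, map_map_invol h2, IsUnit.unit_spec]; exact h3⟩⟩

theorem exists_UD_of_sq (hn : 3 ≤ n) (g : CU n K q) (h : (diagCU g * fieldPSU σ) ^ 2 = 1) :
    ∃ (B : GL (Fin n) F₀) (D : UD σ ε B), diagCU g * fieldPSU σ = D.aut hσ h2 hε ∧
      (B.1ᵀ = B.1 ∨ B.1ᵀ = -B.1) := by
  haveI : Nonempty (Fin n) := ⟨⟨0, by omega⟩⟩
  rw [sq, mul_assoc, ← mul_assoc (fieldPSU σ), fieldPSU_diagCU, mul_assoc, ← map_mul,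
    ← sq, ← h2, pow_orderOf_eq_one, map_one, mul_one, ← map_mul, diagCU_eq_one_iff hK hn] at h
  obtain ⟨c, hc⟩ := h
  obtain ⟨P, a, ha, e⟩ := hilbert90_PGL σ g.1 (GL_smul_one_ne_zero hc) (by
    rw [h2, ← hc]; simp [mnorm, mapCU_coe])
  obtain ⟨d, hd⟩ := (mem_CU_iff hσ).1 g.2
  let M : GL (Fin n) K := (invTGL P)⁻¹ * mapGL' σ P
  have hM : M.1 = P.1ᵀ * P.1.map σ := rfl
  have hT : M.1.map σ = M.1ᵀ := by
    rw [hM, map_mul_mat, map_map_invol h2, transpose_mul, transpose_transpose, transpose_map]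
  have e1 : M.1.map σ = (a * σ a / d) • M.1 := by
    have h3 : (g.1.1 * P.1.map σ)ᵀ * (g.1.1 * P.1.map σ).map σ = (d : K) • M.1.map σ := by
      rw [transpose_mul, map_mul_mat, Matrix.mul_assoc, ← Matrix.mul_assoc g.1.1ᵀ, hd,
        Matrix.smul_mul, Matrix.one_mul, Matrix.mul_smul, hM, map_mul_mat, transpose_map]
    rw [e, map_smul_mat, transpose_smul, Matrix.smul_mul, Matrix.mul_smul, smul_smul, ← hM] at h3
    rw [div_eq_inv_mul, mul_smul, h3, inv_smul_smul₀ d.ne_zero]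
  obtain ⟨x, hx, B, hB⟩ := exists_GL_of_map_eq_smul hε M e1
  have hB' : B.1.map ε = x • M.1 := congrArg Units.val hB
  refine ⟨B, ⟨P, x⁻¹, inv_ne_zero hx, by rw [hB', inv_smul_smul₀ hx, hM]⟩, ?_, ?_⟩
  · rw [UD.aut, mul_left_inj]
    refine diagCU_eq_of_smul ha ?_
    change _ = a • (P.1 * ((mapGL' σ P)⁻¹).1)
    rw [← Matrix.smul_mul, ← e, ← mapGL'_coe, Matrix.mul_assoc, Units.mul_inv, Matrix.mul_one]
  · have hinj := Matrix.map_injective (m := Fin n) (n := Fin n) ε.injective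
    rcases sym_or_skew M.isUnit (hT.symm.trans e1) with h | h
    · refine Or.inl (hinj ?_)
      change B.1ᵀ.map ε = B.1.map ε
      rw [transpose_map, hB', transpose_smul, h]
    · refine Or.inr (hinj ?_)
      change B.1ᵀ.map ε = (-B.1).map ε
      rw [transpose_map, Matrix.map_neg _ (map_neg ε), hB', transpose_smul, h, smul_neg]

def grFamPSU (hn : 3 ≤ n) :
    GrFam (inndiagPSU n K q) (fun γ => IsGraphAutClassPSU γ ∧ orderOf γ = 2) n F₀ :=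
  haveI : Nonempty (Fin n) := ⟨⟨0, by omega⟩⟩
  { rel := fun γ B => ∃ D : UD σ ε B, γ = D.aut hσ h2 hε
    ex1 := by
      rintro _ ⟨⟨-, δ, φ, τ, hτ, hδ, hφ, rfl⟩, h1⟩
      obtain ⟨g, rfl⟩ := isInnerDiagonalAutPSU_iff.1 hδ
      obtain rfl := isFieldAutPSUOf_iff.1 hφ
      have h3 : (diagPSU g * fieldPSU τ) ^ 2 = 1 := h1 ▸ pow_orderOf_eq_one _
      have h4 : τ ^ 2 = 1 := by
        rw [sq, mul_assoc, ← mul_assoc (fieldPSU τ), fieldPSU_diagPSU, mul_assoc, ← map_mul,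
          ← sq, ← mul_assoc, ← map_mul] at h3
        exact (diag_field_eq_one_SU hK hn h3).1
      have h5 : orderOf τ = 2 := orderOf_eq_prime h4 (by rintro rfl; simp at hτ)
      haveI := finite_ringAut (F := K)
      haveI := ringAut_isCyclic (F := K)
      obtain rfl : σ = τ := eq_of_orderOf_two h2 h5
      obtain ⟨B, D, e, hB⟩ := exists_UD_of_sq hσ h2 hε hK hn (inclusion GU_le_CU g) h3
      exact ⟨B, ⟨D, e⟩, hB⟩
    ex2 := fun B hB => by
      obtain ⟨D⟩ := exists_UD hσ h2 hε hB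
      refine ⟨D.aut hσ h2 hε, ⟨⟨hn, _, _, σ, by rw [h2]; exact even_two, ?_,
        isFieldAutPSUOf_iff.2 rfl, rfl⟩,
        orderOf_eq_prime (D.aut_sq hσ h2 hε) (D.ne_one hσ h2 hε hK hn)⟩, D, rfl⟩
      obtain ⟨g, hg⟩ := (diagCU_range hK).le ⟨⟨_, D.mem hσ h2 hε⟩, rfl⟩
      exact isInnerDiagonalAutPSU_iff.2 ⟨g, hg.symm⟩
    cent := by
      rintro _ B ⟨D, rfl⟩
      exact nonempty_equiv_quot _ _ (D.centralizer hσ h2 hε hK hn).symm _
        (scalars_subgroupOf_eq (D.emb_eq_one_iff hσ hε hK hn))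
    conj := by
      rintro _ B _ B' ⟨D, rfl⟩ ⟨D', rfl⟩
      rw [inndiagPSU_eq, ← diagCU_range hK, fcong_bf_iff_GL]
      constructor
      · intro h
        obtain ⟨_, ⟨h, rfl⟩, e⟩ := isConjUnder_symm h
        obtain ⟨k, x, c, -, hc, e1, -⟩ := D.of_conj hσ h2 hε hK hn D' e.symm
        exact ⟨k, c, hc, e1⟩
      · rintro ⟨k, c, hc, e⟩
        exact isConjUnder_symm ⟨_, ⟨⟨_, D.emb_mem hσ hε D' hc e⟩, rfl⟩,
          (D.conj_emb hσ h2 hε D' rfl).symm⟩ }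

theorem UD.split (hn : 3 ≤ n) (D : UD σ ε B) : ∃ S : Subgroup (NormOne K q),
    splitClassCount (inndiagPSU n K q) (Inn (PSU n K q)) (D.aut hσ h2 hε) =
      ((powMonoidHom n : NormOne K q →* NormOne K q).range ⊔ S).index ∧
    ∀ d, d ∈ S ↔ ∃ (x : K) (c d₀ : F₀), x ≠ 0 ∧ MD (bf B.1) c d₀ ∧ ε c = x * σ x ∧
      x ^ n * d.1 = ε d₀ := by
  haveI : Nonempty (Fin n) := ⟨⟨0, by omega⟩⟩
  refine ⟨((Subgroup.centralizer {D.aut hσ h2 hε}).comap diagPSU).map (detGU hK), ?_, fun d => ?_⟩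
  · rw [inndiagPSU_eq, split_abstract _ _ (detGU_surjective hK) _
      inn_le_diagPSU_range _ (fun g => diagPSU_mem_inn_iff hK hn) _ _ (map_comap_eq _ _).symm]
  have hdet : ∀ k : GL (Fin n) F₀,
      (D.P * Matrix.GeneralLinearGroup.map ε k * D.P⁻¹).1.det = ε k.1.det := fun k => by
    rw [Units.val_mul, Units.val_mul, det_units_conj, RingHom.map_det]; rfl
  constructor
  · rintro ⟨h, hh, rfl⟩
    obtain ⟨k, x, c, hx, hc, e1, e2⟩ := D.of_conj hσ h2 hε hK hn D (h := inclusion GU_le_CU h)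
      (mul_inv_eq_iff_eq_mul.2 (mem_centralizer_singleton_iff.1 hh))
    refine ⟨x, c, k.1.det, hx, ⟨k, (bf_sim_iff _ _ _).2 e1, rfl⟩, ?_, ?_⟩
    · have h3 := D.herm_emb hε D e1
      rw [← e2, map_smul_mat, transpose_smul, Matrix.smul_mul, Matrix.mul_smul, smul_smul,
        coe_inclusion, (mem_GU_iff'' hσ).1 h.2, mul_div_cancel_left₀ _ D.hδ] at h3
      exact (smul_inj_of_isUnit isUnit_one h3).symm
    · rw [← hdet, ← e2, det_smul, Fintype.card_fin]; rfl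
  · rintro ⟨x, c, _, hx, ⟨k, e1, rfl⟩, e2, e3⟩
    rw [bf_sim_iff] at e1
    have hσx : σ x ≠ 0 := by simpa using hx
    have hc : c ≠ 0 := by
      rintro rfl
      exact mul_ne_zero hx hσx (by rw [← e2, map_zero])
    refine ⟨⟨smulGL x⁻¹ (inv_ne_zero hx) (D.P * Matrix.GeneralLinearGroup.map ε k * D.P⁻¹),
      (mem_GU_iff'' hσ).2 ?_⟩, ?_, Subtype.ext (Units.ext ?_)⟩
    · rw [smulGL_coe, map_smul_mat, transpose_smul, Matrix.smul_mul, Matrix.mul_smul,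
        D.herm_emb hε D e1, mul_div_cancel_left₀ _ D.hδ, e2, smul_smul, smul_smul, map_inv₀,
        show x⁻¹ * (σ x)⁻¹ * (x * σ x) = 1 by field_simp, one_smul]
    · refine mem_centralizer_singleton_iff.2 (mul_inv_eq_iff_eq_mul.1 ?_)
      rw [← diagCU_inclusion, diagCU_eq_of_smul (h := ⟨_, D.emb_mem hσ hε D hc e1⟩)
        (inv_ne_zero hx) rfl]
      exact D.conj_emb hσ h2 hε D rfl
    · rw [detGU_coe, smulGL_coe, det_smul, hdet, ← e3, Fintype.card_fin, inv_pow,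
        inv_mul_cancel_left₀ (pow_ne_zero _ hx)]

end ud

theorem exists_ud_setup [Fintype K] (hK : Fintype.card K = q ^ 2) (F₀ : Type*) [Field F₀]
    [Fintype F₀] (hF₀ : Fintype.card F₀ = q) {σ : K ≃+* K} (h2 : orderOf σ = 2) :
    ∃ ε : F₀ →+* K, ∀ x, σ x = x ↔ ∃ y, ε y = x :=
  exists_emb_fixF σ F₀ (by rw [hF₀, card_fixF_eq σ (by rw [h2, hK])])

end CfsgH7
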