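import Cfsg.Agent.H7.Bal8
import Cfsg.Agent.H7.Graph4
import Cfsg.Agent.H7.AutAbs2
import Cfsg.Agent.H1.GU1
import Cfsg.Agent.H1.Burnside

set_option autoImplicit false

namespace CfsgH7

open Module Subgroup Matrix

section simg

variable {F : Type*} [Field F] {ι : Type} [Fintype ι] [DecidableEq ι]

def altSF {B : Matrix ι ι F} (hu : IsUnit B) (ha : CfsgH1.AltM B) : SF F (ι → F) where
  σ := 1
  σσ _ := rfl
  B := bf B
  add_left u v w := add_dotProduct _ _ _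
  smul_left k u v := smul_dotProduct _ _ _
  skew u v := by
    rw [bf_comm (ε := -1) (by rw [ha.transpose_eq, neg_one_smul]), neg_one_mul]; rfl
  nondeg u h := toBilin'_nondeg hu u fun y => (Matrix.toBilin'_apply' _ _ _).trans (h y)
  hc w := ⟨0, by rw [map_zero, add_zero, sub_zero]; exact ha w⟩

theorem exists_geo_SimG [Finite F] (r : ℕ) [Fact r.Prime] [CharP F r] (hr : r ≠ 2)
    (hn : 3 ≤ Fintype.card ι) (B : GL ι F) (hB : B.1ᵀ = B.1 ∨ B.1ᵀ = -B.1) (H : Type*) [Group H]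
    [Finite H] :
    ∃ X : RGeo F (ι → F), (∀ g, X.Sim (matρ (SimG B.1) g)) ∧
      (∀ a, X.pt a → ∀ t ∈ X.Rt a, ∀ u v, bf B.1 (t u) (t v) = bf B.1 u v) ∧
      (∃ k, X.N = r ^ k) ∧ X.Swap Set.univ ∧ X.Rich ∧ ∀ Λ : LG X (SimG B.1) H, Λ.Bot 2 := by
  have h2 : (2 : F) ≠ 0 := fun h => hr (char_two_of h)
  have hn' : 3 ≤ finrank F (ι → F) := by simpa
  rcases hB with hB | hB
  · have hQ := nd_qf h2 hB B.isUnit
    refine ⟨oGeo (qf B.1) r, fun g => ?_, fun a ha t ht u v => ?_, ⟨1, (pow_one r).symm⟩,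
      oGeo_swap hQ hn', oGeo_rich hQ hn' h2, o_Bot hQ hn' hr⟩
    · obtain ⟨c, hc⟩ := g.2
      exact ⟨c, c.ne_zero, fun v => by rw [qf_apply, qf_apply]; exact hc v v⟩
    · have := oGeo_polar ((oGeo (qf B.1) r).mem_L ha ht) u v
      rwa [polar_qf hB, polar_qf hB, mul_right_inj' h2] at this
  · let P := altSF B.isUnit (CfsgH1.altM_of_skew_two h2 hB)
    obtain ⟨e, he0, he⟩ := P.exists_iso (by omega)
    refine ⟨P.geo r, fun g => ?_, fun a ha t ht => P.geo_isom ((P.geo r).mem_L ha ht), ⟨2, rfl⟩,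
      P.geo_swap he0 he, P.geo_rich (by omega) (Or.inl rfl), sf_Bot (by omega) hr.symm⟩
    obtain ⟨c, hc⟩ := g.2
    exact ⟨c, c.ne_zero, rfl, hc⟩

end simg

section gu

variable {K : Type*} [Field K] [Finite K] {n q : ℕ}

theorem exists_geo_GU (r : ℕ) [Fact r.Prime] [CharP K r] {p : ℕ} [Fact p.Prime] (hpr : p ≠ r)
    {σ : K ≃+* K} (hσ : ∀ x, σ x = x ^ q) (h2 : orderOf σ = 2) (hn : 3 ≤ n) (H : Type*) [Group H]
    [Finite H] :
    ∃ X : RGeo K (Fin n → K), (∀ g, X.Sim (matρ (Cfsg.GU n K q) g)) ∧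
      (∀ a, X.pt a → ∀ t ∈ X.Rt a, ∀ u v,
        Cfsg.hermForm n K q (t u) (t v) = Cfsg.hermForm n K q u v) ∧
      (∃ k, X.N = r ^ k) ∧ X.Swap Set.univ ∧ X.Rich ∧ ∀ Λ : LG X (Cfsg.GU n K q) H, Λ.Bot p := by
  obtain ⟨P, -, ⟨θ, h3, -, h4⟩, -⟩ := exists_polarSU hσ h2 (n := n) (by omega)
  have hn' : 3 ≤ finrank K (Fin n → K) := by simpa
  refine ⟨P.toSF.geo r, fun g => ⟨1, one_ne_zero, map_one _, fun u v => ?_⟩,
    fun a ha t ht u v => ?_, ⟨2, rfl⟩, P.toSF.geo_swap P.e_ne P.he,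
    P.toSF.geo_rich (by omega) (Or.inr hn'), sf_Bot (by omega) hpr⟩
  · change P.B _ _ = 1 * P.B _ _
    rw [h4, h4, one_mul]
    exact congrArg _ (g.2 u v)
  · have : P.B _ _ = P.B _ _ := P.toSF.geo_isom ((P.toSF.geo r).mem_L ha ht) u v
    rwa [h4, h4, mul_right_inj' h3] at this

end gu

section psl

variable {F : Type*} [Field F] [Finite F] {n : ℕ}

local notation "SLn" => Matrix.SpecialLinearGroup (Fin n) F
local notation "PSLn" => Matrix.ProjectiveSpecialLinearGroup (Fin n) F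

theorem center_PSL (hn : 2 ≤ n) : center PSLn = ⊥ :=
  haveI : Nontrivial (Fin n) := Fin.nontrivial_iff_two_le.2 hn
  center_quot_eq_bot fun s hs => by
    rw [← diagPSL_toGL, diagPSL_eq_one_iff] at hs
    obtain ⟨c, hc⟩ := hs
    refine mem_center_iff.2 fun t => Subtype.ext ?_
    change t.1 * s.1 = s.1 * t.1
    rw [show s.1 = c • 1 from hc]
    simp

omit [Finite F] in
theorem hSL (τ : F ≃+* F) (g : GL (Fin n) F) :
    ∃ g', fieldPSL τ * diagPSL g = diagPSL g' * fieldPSL τ := ⟨_, fieldPSL_diagPSL τ g⟩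

theorem psl_or (hn : 2 ≤ n) (β : MulAut PSLn) :
    β ∈ dfSub _ _ hSL ∨ (3 ≤ n ∧ graphPSL * β ∈ dfSub _ _ hSL) := by
  obtain ⟨g, τ, h | ⟨h3, h⟩⟩ := aut_psl hn β
  · exact Or.inl ⟨g, τ, h⟩
  · refine Or.inr ⟨h3, invTGL g, τ, ?_⟩
    rw [h, ← mul_assoc, ← mul_assoc, graphPSL_diagPSL, mul_assoc (diagPSL _), graphPSL_fieldPSL,
      mul_assoc, mul_assoc, graphPSL_mul_self, mul_one]

theorem psl_of_odd (hn : 2 ≤ n) {y : MulAut PSLn} (h : Odd (orderOf y)) :
    ∃ g τ, y = diagPSL g * fieldPSL τ :=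
  mem_of_index_two (H := dfSub _ _ hSL) (fun β => (psl_or hn β).imp_right And.right) h
    (pow_orderOf_eq_one y)

theorem psl_of_fix (hn : 2 ≤ n) {y : MulAut PSLn}
    (h : ∀ (i j : Fin n) (hij : i ≠ j),
      y (QuotientGroup.mk (Matrix.SpecialLinearGroup.transvection hij 1)) =
        QuotientGroup.mk (Matrix.SpecialLinearGroup.transvection hij 1)) :
    ∃ g τ, y = diagPSL g * fieldPSL τ := by
  refine (psl_or hn y).resolve_right ?_
  rintro ⟨h3, g, σ, hy⟩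
  have key : ∀ (i j : Fin n) (hij : i ≠ j),
      vecMulVec ((g : Matrix _ _ F) *ᵥ Pi.single i 1)
        (Pi.single j 1 ᵥ* ((g⁻¹ : GL _ F) : Matrix _ _ F)) =
        vecMulVec (Pi.single j 1) (-Pi.single i 1) := by
    intro i j hij
    have h1 := MulEquiv.congr_fun hy.symm
      (QuotientGroup.mk (Matrix.SpecialLinearGroup.transvection hij 1))
    rw [MulAut.mul_apply, MulAut.mul_apply, h, fieldPSL_mk, mapSL_transvection, diagPSL_mk, map_one,
      graphPSL_mk] at h1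
    have e := invTSL_tv (y := Matrix.SpecialLinearGroup.transvection hij (1 : F)) (by simp [hij])
      (transvection_coe' hij 1)
    have h2 := congrArg Subtype.val (eq_of_mk_eq_isTv ((isTv_transvection _ _).conj g)
      ⟨_, _, by simp [hij.symm], e⟩ h1)
    rw [e, conjSL_coe, transvection_coe', mul_add, add_mul, mul_one, Units.mul_inv, add_right_inj,
      mul_vecMulVec, vecMulVec_mul] at h2
    exact h2
  let i : Fin n := ⟨0, by omega⟩
  obtain ⟨j, hj, -⟩ := fin_three_ex h3 i i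
  obtain ⟨k, hk1, hk2⟩ := fin_three_ex h3 i j
  have e1 := congrArg (fun M => M *ᵥ Pi.single i (-1 : F)) (key i j hj.symm)
  have e2 := congrArg (fun M => M *ᵥ Pi.single i (-1 : F)) (key i k hk1.symm)
  simp only [vecMulVec_mulVec'] at e1 e2
  simp only [neg_dotProduct, dotProduct_single, Pi.single_eq_same, mul_neg, mul_one, neg_neg,
    one_smul] at e1 e2
  have p1 := par_of_eq_smul (by simp) e1.symm
  have p2 := par_of_eq_smul (by simp) e2.symm
  obtain ⟨c, hc, hc'⟩ := p1.symm.trans p2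
  simpa [hk2] using congrFun hc' k

theorem balG_PSL (hn : 2 ≤ n) (r : ℕ) [Fact r.Prime] [CharP F r] {p : ℕ} [Fact p.Prime]
    {x : MulAut PSLn} (hord : orderOf x = p) {F₀ : Type*} [Field F₀] [CharP F₀ r] (ε : F₀ →+* F)
    (G : Subgroup (GL (Fin n) F₀)) {X : RGeo F₀ (Fin n → F₀)} (hsim : ∀ g, X.Sim (matρ G g))
    (hroot : ∀ a, X.pt a → ∀ t ∈ X.Rt a, ∀ g : GL (Fin n) F₀, (∀ v, g.1 *ᵥ v = t v) → g ∈ G)
    (hle : (diagPSL : GL (Fin n) F →* _).range ⊓ centralizer {x} =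
      (G.map (Matrix.GeneralLinearGroup.map ε)).map diagPSL)
    (hN : ∃ k, X.N = r ^ k) (hswap : X.Swap Set.univ) (hrich : X.Rich)
    (hbot : ∀ Λ : LG X G (MulAut PSLn), Λ.Bot p)
    (hy : ∀ y : MulAut PSLn, (∀ k, x k = k → y k = k) → (orderOf y).Coprime p →
      ∃ g τ, y = diagPSL g * fieldPSL τ)
    (hτ : ∀ τ : F ≃+* F, (∀ c, τ (ε c) = ε c) → τ ^ p = 1) : BalG p x ∧ 2 ∣ Nat.card PSLn := by
  haveI : Nontrivial (Fin n) := Fin.nontrivial_iff_two_le.2 hn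
  obtain ⟨k, hN⟩ := hN
  refine balG_mat (Cfsg.slToMat n F) (fun a b h => Subtype.ext h) SL_center_pow (center_PSL hn)
    (I := diagPSL.range) (fun k => inn_le_diagPSL_range ⟨k, rfl⟩) hord (matρ G)
    (diagPSL.comp ((Matrix.GeneralLinearGroup.map ε).comp G.subtype)) hsim (fun g => ?_)
    (by rw [hle, MonoidHom.range_comp, MonoidHom.range_comp, range_subtype]) ε (jM 1 _)
    (jM_smul 1 _) (jM_injective 1 _) (fun a ha t ht => ?_) hN hswap hrich hbot fun y _ h1 h2 => ?_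
  · rw [MonoidHom.comp_apply, diagPSL_eq_one_iff, ← matρ_scalar_iff]
    exact GL_map_scalar_iff _ g.1
  · obtain ⟨s, hs⟩ := exists_SL_of_pow r (hN ▸ X.Rt_pow ha ht)
    have h1 := hroot a ha t ht (Matrix.SpecialLinearGroup.toGL s) fun v => by
      change s.1 *ᵥ v = _
      rw [hs, LinearMap.toMatrix'_mulVec]
    refine ⟨⟨_, h1⟩, Matrix.SpecialLinearGroup.map ε s, matρ_toGL hs h1, ?_, ?_⟩
    · rw [← diagPSL_toGL]
      exact congrArg diagPSL (Units.ext rfl)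
    · rw [jM_apply, ← hs]
      simp only [Units.val_one, inv_one, Matrix.one_mul, Matrix.mul_one]
      rfl
  · obtain ⟨g, τ, rfl⟩ := hy y h1 h2
    exact ⟨conjSL g * mapSL τ, g, τ, (map_mul (autQuot _) _ _).symm, fun s => rfl,
      fun h => df_pow_mem _ _ hSL g (hτ τ h)⟩

theorem balG_PSL_field (hn : 2 ≤ n) (r : ℕ) [Fact r.Prime] [CharP F r] {p : ℕ} [Fact p.Prime]
    (hpr : p ≠ r) {σ : F ≃+* F} (ho : orderOf σ = p) : BalG p (fieldPSL σ : MulAut PSLn) := by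
  haveI : Nontrivial (Fin n) := Fin.nontrivial_iff_two_le.2 hn
  have hn' : 2 ≤ finrank (fixF σ) (Fin n → fixF σ) := by simpa
  exact (balG_PSL hn r ((orderOf_fieldPSL σ).trans ho) (fixF σ).subtype ⊤
    (X := glGeo _ _ r) (fun _ => trivial) (fun _ _ _ _ _ _ => trivial)
    (by rw [field_centralizer σ _ (fixF_spec σ), MonoidHom.range_eq_map]) ⟨2, rfl⟩
    (glGeo_swap hn') (glGeo_rich hn') (gl_Bot hn' hpr) (fun y h _ => psl_of_fix hn fun i j hij =>
      h _ (by rw [fieldPSL_mk, mapSL_transvection, map_one]))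
    fun τ h => ho ▸ pow_eq_one_of_fix h).1

omit [Finite F] in
theorem map_GL_id (G : Subgroup (GL (Fin n) F)) :
    G.map (Matrix.GeneralLinearGroup.map (RingHom.id F)) = G := by
  rw [show Matrix.GeneralLinearGroup.map (n := Fin n) (RingHom.id F) = MonoidHom.id _ from
    MonoidHom.ext fun g => Units.ext (Matrix.map_id _), Subgroup.map_id]

theorem balG_PSL_gf (hn : 3 ≤ n) (r : ℕ) [Fact r.Prime] [CharP F r] (hr : 2 ≠ r) {σ : F ≃+* F}
    (ho : orderOf σ = 2) (hx : orderOf (fieldPSL σ * graphPSL : MulAut PSLn) = 2) :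
    BalG 2 (fieldPSL σ * graphPSL : MulAut PSLn) ∧ 2 ∣ Nat.card PSLn := by
  haveI : Nontrivial (Fin n) := Fin.nontrivial_iff_two_le.2 (by omega)
  haveI := Fintype.ofFinite F
  have hq : Fintype.card F = Nat.card (fixF σ) ^ 2 := by
    rw [← ho, ← card_fixF, Nat.card_eq_fintype_card]
  obtain ⟨σ', hσ, h2⟩ := exists_qfrob hq
  obtain rfl : σ' = σ := by
    haveI := finite_ringAut (F := F)
    haveI := ringAut_isCyclic (F := F)
    exact eq_of_orderOf_two h2 ho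
  obtain ⟨X, h1, h3, h4, h5, h6, h7⟩ := exists_geo_GU r hr hσ h2 hn (MulAut PSLn)
  exact balG_PSL (by omega) r hx (RingHom.id F) _ h1 (fun a ha t ht g hg u v => by
      change Cfsg.hermForm _ _ _ (g.1 *ᵥ u) (g.1 *ᵥ v) = _
      rw [hg, hg, h3 a ha t ht])
    (by rw [gf_centralizer hσ h2, map_GL_id]) h4 h5 h6 h7
    (fun y _ h => psl_of_odd (by omega) (Nat.coprime_two_right.1 h))
    fun τ h => by rw [show τ = 1 from RingEquiv.ext h, one_pow]

theorem balG_PSL_graph (hn : 3 ≤ n) (r : ℕ) [Fact r.Prime] [CharP F r] (hr : 2 ≠ r)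
    {B : GL (Fin n) F} (hx : orderOf (grB B) = 2) : BalG 2 (grB B) ∧ 2 ∣ Nat.card PSLn := by
  haveI : Nontrivial (Fin n) := Fin.nontrivial_iff_two_le.2 (by omega)
  obtain ⟨c, hc⟩ := grB_sq_iff.1 (hx ▸ pow_orderOf_eq_one (grB B))
  obtain ⟨X, h1, h3, h4, h5, h6, h7⟩ := exists_geo_SimG r hr.symm (by simpa) B
    (sym_or_skew B.isUnit hc) (MulAut PSLn)
  exact balG_PSL (by omega) r hx (RingHom.id F) _ h1 (fun a ha t ht g hg => ⟨1, fun u v => by
      rw [hg, hg, h3 a ha t ht, Units.val_one, one_mul]⟩)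
    (by rw [grB_centralizer, map_GL_id]) h4 h5 h6 h7
    (fun y _ h => psl_of_odd (by omega) (Nat.coprime_two_right.1 h))
    fun τ h => by rw [show τ = 1 from RingEquiv.ext h, one_pow]

theorem balG_PSL_all (hn : 2 ≤ n) (r : ℕ) [Fact r.Prime] [CharP F r] {p : ℕ} [hp : Fact p.Prime]
    (hpr : p ≠ r) {x : MulAut PSLn} (ho : orderOf x = p) (hx : ∀ g, x ≠ diagPSL g) :
    BalG p x ∧ (¬ p ∣ Nat.card PSLn → ∃ g τ, x = diagPSL g * fieldPSL τ) := by
  haveI : Nontrivial (Fin n) := Fin.nontrivial_iff_two_le.2 hn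
  by_cases h : ∃ g τ, x = diagPSL g * fieldPSL τ
  · refine ⟨?_, fun _ => h⟩
    obtain ⟨g, τ, rfl⟩ := h
    have hτ : τ ≠ 1 := by
      rintro rfl
      exact hx g (by rw [map_one, mul_one])
    have h1 := df_orderOf _ _ hSL (fun g τ h => (diag_field_eq_one h).1) hτ ho
    exact (balG_PSL_field hn r hpr h1).of_isConjUnder
      (field_coset τ g (by rw [h1, ← ho, pow_orderOf_eq_one]))
  obtain rfl : p = 2 := by
    by_contra h2
    exact h (psl_of_odd hn (ho ▸ hp.out.odd_of_ne_two h2))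
  obtain ⟨g, τ, h1 | ⟨h3, rfl⟩⟩ := aut_psl hn x
  · exact absurd ⟨g, τ, h1⟩ h
  suffices BalG 2 (diagPSL g * fieldPSL τ * graphPSL) ∧ 2 ∣ Nat.card PSLn from
    ⟨this.1, fun h => absurd this.2 h⟩
  by_cases hτ : τ = 1
  · subst hτ
    have e : diagPSL g * fieldPSL 1 * graphPSL = grB g⁻¹ := by rw [grB, inv_inv, map_one, mul_one]
    rw [e] at ho ⊢
    exact balG_PSL_graph h3 r hpr ho
  · have h2 : (diagPSL g * (fieldPSL τ * graphPSL)) ^ 2 = 1 := by
      rw [← mul_assoc, ← ho, pow_orderOf_eq_one]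
    have h4 : orderOf τ = 2 := by
      refine orderOf_eq_prime ?_ hτ
      rw [sq, mul_assoc, ← mul_assoc (fieldPSL τ * graphPSL), gf_diagPSL, mul_assoc, ← sq, gf_pow,
        sq graphPSL, graphPSL_mul_self, mul_one, ← mul_assoc, ← map_mul] at h2
      exact (diag_field_eq_one h2).1
    have hc := gf_coset h4 g h2
    have h5 : orderOf (fieldPSL τ * graphPSL : MulAut PSLn) = 2 := by
      obtain ⟨α, -, e⟩ := hc
      rw [← ho, mul_assoc, e]
      exact ((MulAut.conj α).orderOf_eq _).symm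
    have := balG_PSL_gf h3 r hpr h4 h5
    exact ⟨mul_assoc (diagPSL g) _ _ ▸ this.1.of_isConjUnder hc, this.2⟩

end psl

end CfsgH7
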