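import Cfsg.Agent.H7.PSpApi
import Cfsg.Agent.H7.PSLField
import Cfsg.Agent.H1.Sp3
import Cfsg.Agent.H9.ExSp
import Cfsg.Agent.H8.MatAut2

/-! Similarity groups of bilinear forms given by matrices. -/

namespace CfsgH7
open Matrix Subgroup Cfsg CfsgH8 CfsgH1

variable {F : Type*} [Field F] {ι κ μ : Type} [Fintype ι] [DecidableEq ι] [Fintype κ]
  [DecidableEq κ] [Fintype μ] [DecidableEq μ]

def bf (B : Matrix ι ι F) (u v : ι → F) : F := u ⬝ᵥ B *ᵥ v

def SimG (B : Matrix ι ι F) : Subgroup (GL ι F) := Geo.similarityGroup (bf B)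

theorem bf_sim_iff (B h : Matrix ι ι F) (c : F) :
    (∀ u v, bf B (h *ᵥ u) (h *ᵥ v) = c * bf B u v) ↔ hᵀ * B * h = c • B := by
  rw [← form_eq_iff]
  simp only [bf, dot_mulVec_mulVec, smul_mulVec, dotProduct_smul, smul_eq_mul]

theorem mem_SimG {B : Matrix ι ι F} {h : GL ι F} :
    h ∈ SimG B ↔ ∃ c : Fˣ, h.1ᵀ * B * h.1 = (c : F) • B :=
  exists_congr fun c => bf_sim_iff B h.1 c

theorem SimG_J (m : ℕ) : SimG (J (Fin m) F) = GSp m F := rfl

def glTr {P : Matrix ι κ F} {Q : Matrix κ ι F} (h1 : P * Q = 1) (h2 : Q * P = 1) :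
    GL κ F ≃* GL ι F where
  toFun g := ⟨P * g.1 * Q, P * (g⁻¹).1 * Q, by
    simp only [Matrix.mul_assoc]
    rw [← Matrix.mul_assoc Q, h2, Matrix.one_mul, ← Matrix.mul_assoc g.1, Units.mul_inv,
      Matrix.one_mul, h1], by
    simp only [Matrix.mul_assoc]
    rw [← Matrix.mul_assoc Q, h2, Matrix.one_mul, ← Matrix.mul_assoc (g⁻¹).1, Units.inv_mul,
      Matrix.one_mul, h1]⟩
  invFun g := ⟨Q * g.1 * P, Q * (g⁻¹).1 * P, by
    simp only [Matrix.mul_assoc]
    rw [← Matrix.mul_assoc P, h1, Matrix.one_mul, ← Matrix.mul_assoc g.1, Units.mul_inv,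
      Matrix.one_mul, h2], by
    simp only [Matrix.mul_assoc]
    rw [← Matrix.mul_assoc P, h1, Matrix.one_mul, ← Matrix.mul_assoc (g⁻¹).1, Units.inv_mul,
      Matrix.one_mul, h2]⟩
  left_inv g := Units.ext (by
    simp only [← Matrix.mul_assoc, h2, Matrix.one_mul]
    rw [Matrix.mul_assoc, h2, Matrix.mul_one])
  right_inv g := Units.ext (by
    simp only [← Matrix.mul_assoc, h1, Matrix.one_mul]
    rw [Matrix.mul_assoc, h1, Matrix.mul_one])
  map_mul' g h := Units.ext (by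
    simp only [Units.val_mul, Matrix.mul_assoc]
    rw [← Matrix.mul_assoc Q, h2, Matrix.one_mul])

section tr
variable {P : Matrix ι κ F} {Q : Matrix κ ι F} (h1 : P * Q = 1) (h2 : Q * P = 1)

theorem glTr_coe (g : GL κ F) : (glTr h1 h2 g).1 = P * g.1 * Q := rfl

theorem glTr_mulVec (g : GL κ F) (v : κ → F) :
    (glTr h1 h2 g).1 *ᵥ (P *ᵥ v) = P *ᵥ (g.1 *ᵥ v) := by
  rw [glTr_coe, mulVec_mulVec, mulVec_mulVec, Matrix.mul_assoc, h2, Matrix.mul_one]

theorem det_glTr (g : GL κ F) : (glTr h1 h2 g).1.det = g.1.det :=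
  det_conj_of_mul_eq_one h1 h2

theorem glTr_scalars (g : GL κ F) : glTr h1 h2 g ∈ Geo.scalars ι F ↔ g ∈ Geo.scalars κ F := by
  rw [Geo.mem_scalars_iff, Geo.mem_scalars_iff]
  refine exists_congr fun c => ⟨fun h => ?_, fun h => ?_⟩
  · have : g.1 = Q * (glTr h1 h2 g).1 * P :=
      (congrArg Units.val ((glTr h1 h2).symm_apply_apply g)).symm
    rw [this, h, Matrix.mul_smul, Matrix.mul_one, Matrix.smul_mul, h2]
  · rw [glTr_coe, h, Matrix.mul_smul, Matrix.mul_one, Matrix.smul_mul, h1]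

theorem projQuot_congr {G : Subgroup (GL ι F)} {G' : Subgroup (GL κ F)}
    (h : ∀ g, glTr h1 h2 g ∈ G ↔ g ∈ G') : Nonempty (projQuot G ≃* projQuot G') := by
  have hm : G'.map (glTr h1 h2).toMonoidHom = G := by
    ext g
    obtain ⟨g, rfl⟩ := (glTr h1 h2).surjective g
    rw [h]
    exact Subgroup.mem_map_iff_mem (glTr h1 h2).injective
  let e : G' ≃* G := ((glTr h1 h2).subgroupMap G').trans (MulEquiv.subgroupCongr hm)
  refine ⟨(QuotientGroup.congr _ _ e ?_).symm⟩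
  ext g
  obtain ⟨g, rfl⟩ := e.surjective g
  refine (Subgroup.mem_map_iff_mem (f := (e : G' →* G)) e.injective).trans ?_
  rw [mem_subgroupOf, mem_subgroupOf]
  exact (glTr_scalars h1 h2 g.1).symm

end tr

/-- Similarity of two-argument forms. -/
def FCong (f : (ι → F) → (ι → F) → F) (f' : (κ → F) → (κ → F) → F) : Prop :=
  ∃ (P : Matrix ι κ F) (Q : Matrix κ ι F) (c : F), P * Q = 1 ∧ Q * P = 1 ∧ c ≠ 0 ∧
    ∀ u v, f (P *ᵥ u) (P *ᵥ v) = c * f' u v

theorem FCong.symm {f : (ι → F) → (ι → F) → F} {f' : (κ → F) → (κ → F) → F} (h : FCong f f') :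
    FCong f' f := by
  obtain ⟨P, Q, c, h1, h2, hc, h⟩ := h
  refine ⟨Q, P, c⁻¹, h2, h1, inv_ne_zero hc, fun u v => ?_⟩
  have := h (Q *ᵥ u) (Q *ᵥ v)
  rw [mulVec_mulVec, mulVec_mulVec, h1, one_mulVec, one_mulVec] at this
  rw [this, inv_mul_cancel_left₀ hc]

theorem FCong.trans {f : (ι → F) → (ι → F) → F} {f' : (κ → F) → (κ → F) → F}
    {f'' : (μ → F) → (μ → F) → F} (h : FCong f f') (h' : FCong f' f'') : FCong f f'' := by
  obtain ⟨P, Q, c, h1, h2, hc, h⟩ := h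
  obtain ⟨P', Q', c', h1', h2', hc', h'⟩ := h'
  refine ⟨P * P', Q' * Q, c * c', ?_, ?_, mul_ne_zero hc hc', fun u v => ?_⟩
  · rw [Matrix.mul_assoc, ← Matrix.mul_assoc P', h1', Matrix.one_mul, h1]
  · rw [Matrix.mul_assoc, ← Matrix.mul_assoc Q, h2, Matrix.one_mul, h2']
  · rw [← mulVec_mulVec, ← mulVec_mulVec, h, h', mul_assoc]

theorem fcong_of_smul {f f' : (ι → F) → (ι → F) → F} {c : F} (hc : c ≠ 0)
    (h : ∀ u v, f u v = c * f' u v) : FCong f f' :=
  ⟨1, 1, c, by simp, by simp, hc, by simpa using h⟩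

theorem fcong_of_equiv {f : (ι → F) → (ι → F) → F} {f' : (κ → F) → (κ → F) → F}
    (e : (κ → F) ≃ₗ[F] (ι → F)) {c : F} (hc : c ≠ 0) (h : ∀ u v, f (e u) (e v) = c * f' u v) :
    FCong f f' := by
  refine ⟨LinearMap.toMatrix' e.toLinearMap, LinearMap.toMatrix' e.symm.toLinearMap, c, ?_, ?_, hc,
    fun u v => ?_⟩
  · rw [← LinearMap.toMatrix'_comp]; simp
  · rw [← LinearMap.toMatrix'_comp]; simp
  · rw [LinearMap.toMatrix'_mulVec, LinearMap.toMatrix'_mulVec]; exact h u v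

theorem sim_glTr {f : (ι → F) → (ι → F) → F} {f' : (κ → F) → (κ → F) → F}
    {P : Matrix ι κ F} {Q : Matrix κ ι F} (h1 : P * Q = 1) (h2 : Q * P = 1) {c : F} (hc : c ≠ 0)
    (h : ∀ u v, f (P *ᵥ u) (P *ᵥ v) = c * f' u v) (g : GL κ F) (d : F) :
    (∀ u v, f ((glTr h1 h2 g).1 *ᵥ u) ((glTr h1 h2 g).1 *ᵥ v) = d * f u v) ↔
      ∀ u v, f' (g.1 *ᵥ u) (g.1 *ᵥ v) = d * f' u v := by
  constructor
  · intro H u v
    have := H (P *ᵥ u) (P *ᵥ v)
    rw [glTr_mulVec, glTr_mulVec, h, h, mul_left_comm] at this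
    exact mul_left_cancel₀ hc this
  · intro H u v
    have e : ∀ w : ι → F, w = P *ᵥ (Q *ᵥ w) := fun w => by rw [mulVec_mulVec, h1, one_mulVec]
    rw [e u, e v, glTr_mulVec, glTr_mulVec, h, h, H, mul_left_comm]

theorem FCong.projQuot {f : (ι → F) → (ι → F) → F} {f' : (κ → F) → (κ → F) → F} (h : FCong f f') :
    Nonempty (projQuot (Geo.similarityGroup f) ≃* projQuot (Geo.similarityGroup f')) := by
  obtain ⟨P, Q, c, h1, h2, hc, h⟩ := h
  exact projQuot_congr h1 h2 fun g => exists_congr fun d => sim_glTr h1 h2 hc h g d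

/-- Pairs (multiplier, determinant) of similarities. -/
def MD (f : (ι → F) → (ι → F) → F) (c d : F) : Prop :=
  ∃ g : GL ι F, (∀ u v, f (g.1 *ᵥ u) (g.1 *ᵥ v) = c * f u v) ∧ g.1.det = d

theorem FCong.md {f : (ι → F) → (ι → F) → F} {f' : (κ → F) → (κ → F) → F} (h : FCong f f')
    {c d : F} (H : MD f' c d) : MD f c d := by
  obtain ⟨P, Q, c, h1, h2, hc, h⟩ := h
  obtain ⟨g, hg, hd⟩ := H
  exact ⟨glTr h1 h2 g, (sim_glTr h1 h2 hc h g _).2 hg, (det_glTr h1 h2 g).trans hd⟩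

theorem fcong_bf_iff {B : Matrix ι ι F} {B' : Matrix κ κ F} : FCong (bf B) (bf B') ↔
    ∃ (P : Matrix ι κ F) (Q : Matrix κ ι F) (c : F), P * Q = 1 ∧ Q * P = 1 ∧ c ≠ 0 ∧
      Pᵀ * B * P = c • B' := by
  refine exists₃_congr fun P Q c => and_congr_right fun _ => and_congr_right fun _ =>
    and_congr_right fun _ => ?_
  rw [← form_eq_iff]
  simp only [bf, dot_mul_mul, smul_mulVec, dotProduct_smul, smul_eq_mul]

theorem fcong_bf_iff_GL {B B' : Matrix ι ι F} : FCong (bf B) (bf B') ↔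
    ∃ (P : GL ι F) (c : F), c ≠ 0 ∧ P.1ᵀ * B * P.1 = c • B' := by
  rw [fcong_bf_iff]
  exact ⟨fun ⟨P, Q, c, h1, h2, hc, h⟩ => ⟨⟨P, Q, h1, h2⟩, c, hc, h⟩,
    fun ⟨P, c, hc, h⟩ => ⟨P.1, (P⁻¹).1, c, P.mul_inv, P.inv_mul, hc, h⟩⟩

theorem FCong.transpose_eq {B : Matrix ι ι F} {B' : Matrix κ κ F} (h : FCong (bf B) (bf B'))
    {ε : F} (hB : Bᵀ = ε • B) : B'ᵀ = ε • B' := by
  obtain ⟨P, Q, c, -, -, hc, h⟩ := fcong_bf_iff.1 h
  have : B' = c⁻¹ • (Pᵀ * B * P) := by rw [h, inv_smul_smul₀ hc]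
  rw [this, transpose_smul, transpose_mul, transpose_mul, transpose_transpose, hB, smul_comm ε]
  simp only [Matrix.mul_assoc, Matrix.smul_mul, Matrix.mul_smul]

theorem FCong.altM {B : Matrix ι ι F} {B' : Matrix κ κ F} (h : FCong (bf B) (bf B'))
    (hB : AltM B) : AltM B' := by
  obtain ⟨P, Q, c, -, -, hc, h⟩ := h
  intro v
  have := h v v
  rw [show bf B (P *ᵥ v) (P *ᵥ v) = 0 from hB _] at this
  exact (mul_eq_zero.1 this.symm).resolve_left hc

theorem fcong_alt {B : Matrix ι ι F} (hB : IsUnit B) (ha : AltM B) {B' : Matrix κ κ F}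
    (hB' : IsUnit B') (ha' : AltM B') (hc : Fintype.card κ = Fintype.card ι) :
    FCong (bf B) (bf B') := by
  obtain ⟨P, Q, h1, h2, h⟩ := alt_congr hB ha hB' ha' hc
  exact fcong_bf_iff.2 ⟨P, Q, 1, h1, h2, one_ne_zero, by rw [h, one_smul]⟩

theorem fcong_J {B : Matrix ι ι F} (hB : IsUnit B) (ha : AltM B) {m : ℕ}
    (hc : Fintype.card ι = 2 * m) : FCong (bf B) (sympForm m F) :=
  fcong_alt hB ha isUnit_J (altM_J _) (by simp [hc, two_mul])

theorem md_sq {B : Matrix ι ι F} (hB : IsUnit B) {c d : F} (h : MD (bf B) c d) :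
    d ^ 2 = c ^ Fintype.card ι := by
  obtain ⟨g, hg, rfl⟩ := h
  have := congrArg det ((bf_sim_iff _ _ _).1 hg)
  rw [det_mul, det_mul, det_transpose, det_smul] at this
  have hd : B.det ≠ 0 := ((isUnit_iff_isUnit_det _).1 hB).ne_zero
  apply mul_right_cancel₀ hd
  rw [← this]; ring

theorem md_ne_zero {f : (ι → F) → (ι → F) → F} {c d : F} (h : MD f c d) : d ≠ 0 := by
  obtain ⟨g, -, rfl⟩ := h
  exact ((isUnit_iff_isUnit_det _).1 g.isUnit).ne_zero

theorem md_J_of (m : ℕ) {c : F} (hc : c ≠ 0) : MD (sympForm m F) c (c ^ m) := by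
  refine ⟨⟨fromBlocks (c • 1) 0 0 1, fromBlocks (c⁻¹ • 1) 0 0 1, ?_, ?_⟩, ?_, ?_⟩
  · simp [fromBlocks_multiply, smul_smul, hc]
  · simp [fromBlocks_multiply, smul_smul, hc]
  · refine (sympForm_sim_iff _ _).2 ?_
    simp [J, fromBlocks_multiply, fromBlocks_transpose, fromBlocks_smul]
  · simp

theorem md_J (m : ℕ) {c d : F} (hc : c ≠ 0) : MD (sympForm m F) c d ↔ d = c ^ m := by
  refine ⟨?_, fun h => h ▸ md_J_of m hc⟩
  rintro ⟨g, hg, rfl⟩
  obtain ⟨h, hh, hd⟩ := md_J_of m hc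
  have : (g * h⁻¹).1 ∈ symplecticGroup (Fin m) F := by
    rw [mem_Sp_iff_form]
    intro u v
    have := hh ((h⁻¹).1 *ᵥ u) ((h⁻¹).1 *ᵥ v)
    rw [mulVec_mulVec, mulVec_mulVec, Units.mul_inv, one_mulVec, one_mulVec] at this
    rw [Units.val_mul, ← mulVec_mulVec, ← mulVec_mulVec, hg, this]
  have h1 := SymplecticGroup.det_eq_one this
  have h2 : g = g * h⁻¹ * h := by simp
  rw [h2, Units.val_mul, det_mul, h1, hd, one_mul]

theorem md_alt {B : Matrix ι ι F} (hB : IsUnit B) (ha : AltM B) {m : ℕ}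
    (hm : Fintype.card ι = 2 * m) {c d : F} (hc : c ≠ 0) : MD (bf B) c d ↔ d = c ^ m :=
  ⟨fun h => (md_J m hc).1 ((fcong_J hB ha hm).symm.md h),
    fun h => (fcong_J hB ha hm).md ((md_J m hc).2 h)⟩

/-! ### Symmetric forms in odd characteristic -/

/-- The quadratic form of a matrix. -/
def qf (B : Matrix ι ι F) : QuadraticForm F (ι → F) := B.toQuadraticForm'

theorem qf_apply (B : Matrix ι ι F) (v : ι → F) : qf B v = bf B v v := by
  simp [qf, bf, toQuadraticForm', toLinearMap₂'_apply']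

theorem bf_comm {B : Matrix ι ι F} {ε : F} (hB : Bᵀ = ε • B) (u v : ι → F) :
    bf B v u = ε * bf B u v := by
  rw [bf, bf, dotProduct_mulVec, ← mulVec_transpose, hB, dotProduct_comm, smul_mulVec,
    dotProduct_smul, smul_eq_mul]

theorem polar_qf {B : Matrix ι ι F} (hB : Bᵀ = B) (u v : ι → F) :
    QuadraticMap.polar (qf B) u v = 2 * bf B u v := by
  have := bf_comm (ε := 1) (by rw [hB, one_smul]) u v
  rw [QuadraticMap.polar, qf_apply, qf_apply, qf_apply]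
  simp only [bf, mulVec_add, add_dotProduct, dotProduct_add] at this ⊢
  rw [this]; ring

theorem nd_qf (h2 : (2 : F) ≠ 0) {B : Matrix ι ι F} (hB : Bᵀ = B) (hu : IsUnit B) : ND (qf B) :=
  ND.of_forall fun x hx => toBilin'_nondeg hu x fun y => by
    have := hx y
    rw [polar_qf hB] at this
    rw [toBilin'_apply']
    exact (mul_eq_zero.1 this).resolve_left h2

theorem fcong_qf (h2 : (2 : F) ≠ 0) {B : Matrix ι ι F} (hB : Bᵀ = B) :
    FCong (QuadraticMap.polar (qf B)) (bf B) := fcong_of_smul h2 (polar_qf hB)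

theorem polar_sim {V W : Type*} [AddCommGroup V] [Module F V] [AddCommGroup W] [Module F W]
    {Q : QuadraticForm F V} {Q' : QuadraticForm F W} (e : W → V)
    (he : ∀ u v, e (u + v) = e u + e v) {c : F} (h : ∀ x, Q (e x) = c * Q' x) (u v : W) :
    QuadraticMap.polar Q (e u) (e v) = c * QuadraticMap.polar Q' u v := by
  rw [QuadraticMap.polar, QuadraticMap.polar, ← he, h, h, h]; ring

theorem sim_polar_iff (h2 : (2 : F) ≠ 0) {V W : Type*} [AddCommGroup V] [Module F V]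
    [AddCommGroup W] [Module F W] {Q : QuadraticForm F V} {Q' : QuadraticForm F W} (e : W → V)
    (he : ∀ u v, e (u + v) = e u + e v) {c : F} :
    (∀ u v, QuadraticMap.polar Q (e u) (e v) = c * QuadraticMap.polar Q' u v) ↔
      ∀ x, Q (e x) = c * Q' x := by
  refine ⟨fun h x => ?_, polar_sim e he⟩
  have := h x x
  rw [polar_self', polar_self', mul_left_comm] at this
  exact mul_left_cancel₀ h2 this

theorem quadSim_eq (h2 : (2 : F) ≠ 0) (Q : QuadraticForm F (ι → F)) :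
    Geo.quadSimilarityGroup (F := F) ⇑Q = Geo.similarityGroup (QuadraticMap.polar Q) := by
  ext g
  exact exists_congr fun c => (sim_polar_iff h2 (fun v => g.1 *ᵥ v) (mulVec_add _)).symm

theorem fcong_of_sim {Q : QuadraticForm F (ι → F)} {Q' : QuadraticForm F (κ → F)}
    (e : (κ → F) ≃ₗ[F] (ι → F)) {c : F} (hc : c ≠ 0) (h : ∀ x, Q (e x) = c * Q' x) :
    FCong (QuadraticMap.polar Q) (QuadraticMap.polar Q') :=
  fcong_of_equiv e hc (polar_sim e (map_add e) h)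

theorem fcong_of_iso {Q : QuadraticForm F (ι → F)} {Q' : QuadraticForm F (κ → F)}
    (h : CfsgH8.Iso Q' Q) : FCong (QuadraticMap.polar Q) (QuadraticMap.polar Q') := by
  obtain ⟨e, he⟩ := h
  exact fcong_of_sim e one_ne_zero (by simpa using he)

theorem pgo_of_fcong (h2 : (2 : F) ≠ 0) {B : Matrix ι ι F} {Q : QuadraticForm F (κ → F)}
    {q : (κ → F) → F} (hq : ⇑Q = q) (h : FCong (bf B) (QuadraticMap.polar Q)) :
    Nonempty (projQuot (SimG B) ≃* PGO F q) := by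
  subst hq
  have : ∀ G : Subgroup (GL κ F), G = Geo.similarityGroup (QuadraticMap.polar Q) →
      Nonempty (projQuot (SimG B) ≃* projQuot G) := by
    rintro _ rfl
    exact h.projQuot
  exact this _ (quadSim_eq h2 Q)

theorem discC_of_fcong [Finite F] (h2 : (2 : F) ≠ 0) {Q : QuadraticForm F (ι → F)}
    {Q' : QuadraticForm F (κ → F)} (hQ' : ND Q') (he : Even (Fintype.card κ))
    (h : FCong (QuadraticMap.polar Q) (QuadraticMap.polar Q')) : discC Q = discC Q' := by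
  obtain ⟨P, R, c, h1, h3, hc, h⟩ := h
  have := discC_sim hQ' (toLin'OfInv h3 h1) hc
    ((sim_polar_iff h2 (fun v => P *ᵥ v) (mulVec_add _)).1 h)
  obtain ⟨k, hk⟩ := he
  rw [this, Module.finrank_fintype_fun_eq_card, hk, pow_add, Int.units_mul_self, one_mul]

theorem fcong_QO [Finite F] (h2 : (2 : F) ≠ 0) {B : Matrix ι ι F} (hB : Bᵀ = B) (hu : IsUnit B)
    {m : ℕ} (hm : Fintype.card ι = 2 * m + 1) : FCong (bf B) (QuadraticMap.polar (QO m F)) := by
  obtain ⟨c, hc, h⟩ := (nd_qf h2 hB hu).classify_odd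
    (m := m) (by rw [Module.finrank_fintype_fun_eq_card, hm])
  refine (fcong_qf h2 hB).symm.trans ((fcong_of_iso h).trans ?_)
  let D : Unit ⊕ (Fin m ⊕ Fin m) → Fˣ :=
    Sum.elim (fun _ => 1) (Sum.elim (fun _ => Units.mk0 c hc) fun _ => 1)
  refine fcong_of_sim (LinearEquiv.piCongrRight fun i => LinearEquiv.smulOfUnit (D i)) hc
    fun x => ?_
  rw [QO, sumQ_apply, sumQ_apply, QU_apply, QU_apply, QH_apply, QH_apply, mul_add, Finset.mul_sum]
  congr 1
  · simp [D, LinearEquiv.smulOfUnit]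
  · refine Finset.sum_congr rfl fun i _ => ?_
    simp [D, LinearEquiv.smulOfUnit, Units.smul_def, mul_assoc]

theorem fcong_even [Finite F] (h2 : (2 : F) ≠ 0) {B : Matrix ι ι F} (hB : Bᵀ = B) (hu : IsUnit B)
    {m : ℕ} (hm : Fintype.card ι = 2 * m) {a b : F} (hab : Aniso a b) :
    FCong (bf B) (QuadraticMap.polar (QP m F)) ∨
      FCong (bf B) (QuadraticMap.polar (QM (m - 1) F a b)) := by
  rcases (nd_qf h2 hB hu).classify_even (m := m)
    (by rw [Module.finrank_fintype_fun_eq_card, hm]) hab with h | ⟨-, h⟩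
  · exact Or.inl ((fcong_qf h2 hB).symm.trans (fcong_of_iso h))
  · exact Or.inr ((fcong_qf h2 hB).symm.trans (fcong_of_iso h))

theorem not_fcong_QP_QM [Finite F] (h2 : (2 : F) ≠ 0) {m : ℕ} (hm : 1 ≤ m) {a b : F}
    (hab : Aniso a b) :
    ¬ FCong (QuadraticMap.polar (QP m F)) (QuadraticMap.polar (QM (m - 1) F a b)) := by
  intro h
  have := discC_of_fcong h2 (ND_QM hab) ⟨m - 1 + 1, by simp; ring⟩ h
  rw [discC_QH, discC_QM h2 hab, Fintype.card_fin, Nat.sub_add_cancel hm] at this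
  exact absurd this (by
    rcases Int.units_eq_one_or (chi (-1 : F) ^ m) with h | h <;> rw [h] <;> decide)

/-- A symmetric matrix on a prescribed index type realising a quadratic form. -/
theorem exists_sym_of_quad {Q : QuadraticForm F (κ → F)} (hQ : ND Q)
    (hc : Fintype.card ι = Fintype.card κ) :
    ∃ B : GL ι F, B.1ᵀ = B.1 ∧ FCong (bf B.1) (QuadraticMap.polar Q) := by
  let b : Module.Basis ι F (κ → F) := (Pi.basisFun F κ).reindex (Fintype.equivOfCardEq hc).symm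
  refine ⟨Matrix.GeneralLinearGroup.mkOfDetNeZero (gram Q b) (hQ.det_gram_ne b), ?_, ?_⟩
  · ext i j; exact pcomm _ _
  · refine (fcong_of_equiv b.equivFun.symm one_ne_zero fun u v => ?_).symm
    change _ = 1 * (u ⬝ᵥ gram Q b *ᵥ v)
    rw [gram_eq_toMatrix, one_mul, Module.Basis.equivFun_symm_apply,
      Module.Basis.equivFun_symm_apply]
    change QuadraticMap.polarBilin Q _ _ = _
    simp only [map_sum, map_smul, LinearMap.sum_apply, LinearMap.smul_apply, smul_eq_mul,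
      dotProduct, mulVec, LinearMap.BilinForm.toMatrix_apply, Finset.mul_sum]
    rw [Finset.sum_comm]
    exact Finset.sum_congr rfl fun i _ => Finset.sum_congr rfl fun j _ => by ring

theorem exists_alt_GL {m : ℕ} (hc : Fintype.card ι = 2 * m) : ∃ B : GL ι F, AltM B.1 := by
  let e : Fin m ⊕ Fin m ≃ ι := Fintype.equivOfCardEq (by simp [hc, two_mul])
  refine ⟨Matrix.GeneralLinearGroup.mkOfDetNeZero (reindex e e (J (Fin m) F)) ?_, ?_⟩
  · rw [det_reindex_self]; exact (isUnit_det_J _ _).ne_zero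
  · refine altM_of_skew ?_ fun i => ?_
    · change (reindex e e (J (Fin m) F))ᵀ = -(reindex e e (J (Fin m) F))
      rw [transpose_reindex, J_transpose]; rfl
    · exact (altM_J (Fin m)).diag _

theorem md_sym [Finite F] (h2 : (2 : F) ≠ 0) {B : Matrix ι ι F} (hB : Bᵀ = B) (hu : IsUnit B)
    {m : ℕ} (hm1 : 1 ≤ m) (hm : Fintype.card ι = 2 * m) {c d : F} (hc : c ≠ 0) :
    MD (bf B) c d ↔ d = c ^ m ∨ d = -c ^ m := by
  refine ⟨fun h => ?_, fun h => ?_⟩
  · have := md_sq hu h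
    rw [hm, mul_comm, pow_mul] at this
    exact sq_eq_sq_iff_eq_or_eq_neg.1 this
  have hQ := nd_qf h2 hB hu
  have key : ∀ γ : Gam (qf B), γ.σ = 1 → MD (bf B) γ.c (gdet γ) := by
    intro γ hγ
    obtain ⟨g, hg⟩ := exists_rep_lin hγ
    refine (fcong_qf h2 hB).symm.md ⟨g, fun u v => ?_, ?_⟩
    · rw [← hg.mulVec, ← hg.mulVec, γ.polar, hγ]; rfl
    · rw [gdet_eq hγ (g := toLin' g.1) hg.mulVec, LinearMap.det_toLin']
  obtain ⟨k, rfl⟩ : ∃ k, m = k + 1 := ⟨m - 1, by omega⟩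
  obtain ⟨γ, h1, h3, h4, -⟩ := exists_basic (Units.mk0 c hc) k hQ
    (by rw [Module.finrank_fintype_fun_eq_card, hm])
  rcases h with rfl | rfl
  · have := key γ h1
    rwa [h3, h4] at this
  · haveI : Nontrivial (ι → F) := Module.nontrivial_of_finrank_pos (R := F)
      (by rw [Module.finrank_fintype_fun_eq_card, hm]; omega)
    obtain ⟨v, hv⟩ := hQ.exists_nonsing
    have := key (γ * ofOG _ (refl _ v)) (by simp [h1])
    rw [gdet_mul h1 rfl, gdet_ofOG, det_refl hv, Gam.mul_c_of_lin h1, h3, h4] at this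
    simpa using this

end CfsgH7
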