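import Cfsg.Agent.H7.Graph1

/-! `PGSp` versus `PGO`, and the similarity groups in characteristic two. -/

namespace CfsgH7
open Matrix Subgroup Cfsg CfsgH1
open CfsgH8 hiding map_mul map_one

variable {F : Type*} [Field F] {ι κ : Type} [Fintype ι] [DecidableEq ι] [Fintype κ]
  [DecidableEq κ] {m : ℕ}

def spT (w : Fin m ⊕ Fin m → F) (c : F) : symplecticGroup (Fin m) F :=
  ⟨1 + c • vecMulVec w (J (Fin m) F *ᵥ w), CfsgH9.sp_tv_mem w c⟩

theorem spT_mulVec (w v : Fin m ⊕ Fin m → F) (c : F) :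
    (spT w c).1 *ᵥ v = v + (c * sympForm m F v w) • w := CfsgH9.sp_tv_mulVec w v c

theorem spT_add (w : Fin m ⊕ Fin m → F) (c d : F) : spT w (c + d) = spT w c * spT w d := by
  apply Subtype.ext
  refine matrix_eq_iff.2 fun v => ?_
  have h0 : w ⬝ᵥ J (Fin m) F *ᵥ w = 0 := sympForm_self w
  rw [Submonoid.coe_mul, ← mulVec_mulVec, spT_mulVec, spT_mulVec, spT_mulVec]
  simp only [sympForm, add_dotProduct, smul_dotProduct, h0, smul_eq_mul]
  module

theorem sp_ind (P : symplecticGroup (Fin m) F → Prop) (h1 : P 1)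
    (hs : ∀ w c s, w ≠ 0 → P s → P (spT w c * s)) (s : symplecticGroup (Fin m) F) : P s := by
  have := CfsgH9.sp_induction (B := Matrix.toBilin' (J (Fin m) F)) (altM_J _).isAlt
    (fun x hx => toBilin'_nondeg isUnit_J x fun y => by
      rw [← (altM_J (F := F) (Fin m)).isAlt.neg_eq, hx, neg_zero])
    (fun g => ∃ s : symplecticGroup (Fin m) F, toLin' s.1 = g ∧ P s) ⟨1, by simp; rfl, h1⟩
    (by
      rintro w c _ hw ⟨s, rfl, h⟩
      refine ⟨spT w c * s, ?_, hs w c s hw h⟩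
      refine LinearMap.ext fun v => ?_
      rw [Module.End.mul_apply, CfsgH9.tvL_apply, toLin'_apply, toLin'_apply, Submonoid.coe_mul,
        ← mulVec_mulVec, spT_mulVec, toBilin'_apply']
      rfl) (toLin' s.1) (fun x y => by
      rw [toBilin'_apply', toBilin'_apply', toLin'_apply, toLin'_apply]
      exact (mem_Sp_iff_form _).1 s.2 x y)
  obtain ⟨t, ht, h⟩ := this
  rwa [← Subtype.ext (toLin'.injective ht)]

def spHom (m : ℕ) (F : Type*) [Field F] : symplecticGroup (Fin m) F →* GSp m F :=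
  MonoidHom.mk' spToGSp fun _ _ => Subtype.ext (Units.ext rfl)

theorem exists_spHom [Nonempty (Fin m)] {g : GSp m F} (h : multSp g = 1) :
    ∃ s, spHom m F s = g := by
  have := multSp_spec g
  rw [h, Units.val_one, one_smul] at this
  exact ⟨⟨g.1.1, SymplecticGroup.mem_iff'.2 this⟩, Subtype.ext (Units.ext rfl)⟩

theorem gsp_two_homs [Finite F] [Nonempty (Fin m)] (h2 : (2 : F) ≠ 0) (φ ψ : GSp m F →* Fˣ)
    (hφ : ∀ g, φ g ^ 2 = 1) (hψ : ∀ g, ψ g ^ 2 = 1) (hne : ∃ g, φ g ≠ 1) (g : GSp m F)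
    (hg : φ g = 1) : ψ g = 1 := by
  have key : ∀ φ : GSp m F →* Fˣ, (∀ g, φ g ^ 2 = 1) → ∀ s, φ (spHom m F s) = 1 := by
    intro φ hφ
    refine sp_ind _ (by simp) fun w c s _ h => ?_
    rw [show c = c / 2 + c / 2 by field_simp; ring, spT_add, map_mul, map_mul, map_mul, map_mul,
      h, ← sq, hφ, mul_one]
  obtain ⟨ζ, hζ⟩ := IsCyclic.exists_generator (α := Fˣ)
  obtain ⟨g₀, hg₀⟩ := multSp_surjective (m := m) ζ
  have dec : ∀ g : GSp m F, ∃ (k : ℤ) (s : _), g = spHom m F s * g₀ ^ k := by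
    intro g
    obtain ⟨k, hk⟩ := hζ (multSp g)
    obtain ⟨s, hs⟩ := exists_spHom (g := g * (g₀ ^ k)⁻¹) (by
      rw [map_mul, map_inv, map_zpow, hg₀, ← hk]; exact mul_inv_cancel _)
    exact ⟨k, s, by rw [hs, inv_mul_cancel_right]⟩
  have h0 : φ g₀ ≠ 1 := fun h => by
    obtain ⟨g, hg⟩ := hne
    obtain ⟨k, s, rfl⟩ := dec g
    exact hg (by rw [map_mul, key φ hφ, map_zpow, h, _root_.one_zpow, one_mul])
  obtain ⟨k, s, rfl⟩ := dec g
  rw [map_mul, key _ hφ, map_zpow, one_mul] at hg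
  rw [map_mul, key _ hψ, map_zpow, one_mul]
  rcases Int.even_or_odd' k with ⟨j, rfl | rfl⟩
  · rw [_root_.zpow_mul, zpow_ofNat, hψ, _root_.one_zpow]
  · rw [_root_.zpow_add, _root_.zpow_mul, zpow_ofNat, hφ, _root_.one_zpow, one_mul,
      zpow_one] at hg
    exact absurd hg h0

theorem smul_inj_of_isUnit [Nonempty ι] {B : Matrix ι ι F} (hB : IsUnit B) {a b : F}
    (h : a • B = b • B) : a = b :=
  smul_left_injective F hB.ne_zero h

noncomputable def multG [Nonempty ι] {B : Matrix ι ι F} (hB : IsUnit B) : SimG B →* Fˣ :=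
  MonoidHom.mk' (fun g => (mem_SimG.1 g.2).choose) (fun g h => by
    apply Units.ext
    apply smul_inj_of_isUnit hB
    rw [← (mem_SimG.1 (g * h).2).choose_spec, coe_mul, Units.val_mul, transpose_mul,
      Units.val_mul, mul_smul, ← (mem_SimG.1 h.2).choose_spec, ← Matrix.smul_mul,
      ← Matrix.mul_smul, ← (mem_SimG.1 g.2).choose_spec]
    simp only [Matrix.mul_assoc])

theorem multG_spec [Nonempty ι] {B : Matrix ι ι F} (hB : IsUnit B) (g : SimG B) :
    g.1.1ᵀ * B * g.1.1 = (multG hB g : F) • B := (mem_SimG.1 g.2).choose_spec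

theorem multG_eq [Nonempty ι] {B : Matrix ι ι F} (hB : IsUnit B) {g : SimG B} {c : F}
    (h : g.1.1ᵀ * B * g.1.1 = c • B) : (multG hB g : F) = c :=
  smul_inj_of_isUnit hB ((multG_spec hB g).symm.trans h)

theorem md_multG [Nonempty ι] {B : Matrix ι ι F} (hB : IsUnit B) (g : SimG B) :
    MD (bf B) (multG hB g) g.1.1.det := ⟨g.1, (bf_sim_iff _ _ _).2 (multG_spec hB g), rfl⟩

theorem exists_of_md [Nonempty ι] {B : Matrix ι ι F} (hB : IsUnit B) {c d : F} (hc : c ≠ 0)
    (h : MD (bf B) c d) : ∃ g : SimG B, (multG hB g : F) = c ∧ g.1.1.det = d := by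
  obtain ⟨g, hg, hd⟩ := h
  rw [bf_sim_iff] at hg
  exact ⟨⟨g, mem_SimG.2 ⟨Units.mk0 c hc, hg⟩⟩, multG_eq hB hg, hd⟩

theorem not_pgo_equiv_pgsp [Finite F] (h2 : (2 : F) ≠ 0) {B : Matrix ι ι F} (hB : Bᵀ = B)
    (hu : IsUnit B) (hm1 : 1 ≤ m) (hm : Fintype.card ι = 2 * m) :
    ¬ Nonempty (projQuot (SimG B) ≃* PGSp m F) := by
  rintro ⟨e⟩
  haveI : Nonempty ι := Fintype.card_pos_iff.1 (by omega)
  haveI : Nonempty (Fin m) := ⟨⟨0, by omega⟩⟩
  have hsc : ∀ g : SimG B, g ∈ (Geo.scalars ι F).subgroupOf (SimG B) →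
      ∃ a : Fˣ, multG hu g = a ^ 2 ∧ g.1.1.det = (a : F) ^ (2 * m) := by
    intro g hg
    obtain ⟨a, ha⟩ := (Geo.mem_scalars_iff _).1 (mem_subgroupOf.1 hg)
    refine ⟨a, Units.ext (multG_eq hu ?_), by rw [ha, det_smul, det_one, mul_one, hm]⟩
    rw [ha]; simp [smul_smul, sq]
  let χ : ℤˣ →* Fˣ := Units.map (Int.castRingHom F : ℤ →* F)
  let φ₀ : SimG B →* Fˣ := χ.comp ((chiHom F).comp (multG hu))
  let ψ₀ : SimG B →* Fˣ := (Matrix.GeneralLinearGroup.det.comp (SimG B).subtype) /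
    (powMonoidHom m).comp (multG hu)
  have hψ₀ : ∀ g, (ψ₀ g : F) = g.1.1.det / (multG hu g : F) ^ m := fun g => by
    simp [ψ₀, Matrix.GeneralLinearGroup.val_det_apply]
  let φ := QuotientGroup.lift _ φ₀ (fun g hg => by
    obtain ⟨a, h1, -⟩ := hsc g hg
    change χ (chiHom F (multG hu g)) = 1
    rw [h1, map_pow, sq, Int.units_mul_self, map_one])
  let ψ := QuotientGroup.lift _ ψ₀ (fun g hg => by
    obtain ⟨a, h1, h3⟩ := hsc g hg
    apply Units.ext
    rw [hψ₀, h1, h3, Units.val_pow_eq_pow_val, ← pow_mul, div_self (by simp), Units.val_one])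
  let θ : GSp m F →* projQuot (SimG B) := e.symm.toMonoidHom.comp (QuotientGroup.mk' _)
  have hθ : Function.Surjective θ := e.symm.surjective.comp (QuotientGroup.mk'_surjective _)
  have hφ2 : ∀ x, φ x ^ 2 = 1 := fun x => by
    obtain ⟨g, rfl⟩ := QuotientGroup.mk_surjective x
    change χ _ ^ 2 = 1
    rw [← map_pow, sq, Int.units_mul_self, map_one]
  have hψ2 : ∀ x, ψ x ^ 2 = 1 := fun x => by
    obtain ⟨g, rfl⟩ := QuotientGroup.mk_surjective x
    apply Units.ext
    change (ψ₀ g : F) ^ 2 = 1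
    rw [hψ₀, div_pow, md_sq hu (md_multG hu g), hm, ← pow_mul, mul_comm, div_self (by simp)]
  have hneg : (-1 : F) ≠ 1 := fun h => h2 (by linear_combination -h)
  obtain ⟨g₁, h1, -⟩ : ∃ g : SimG B, ¬ IsSquare (multG hu g : F) ∧ True := by
    obtain ⟨a, ha⟩ := FiniteField.exists_nonsquare (F := F) (ringChar_ne_two h2)
    have ha0 : a ≠ 0 := by rintro rfl; exact ha IsSquare.zero
    obtain ⟨g, hg, -⟩ := exists_of_md hu ha0 ((md_sym h2 hB hu hm1 hm ha0).2 (Or.inl rfl))
    exact ⟨g, hg ▸ ha, trivial⟩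
  obtain ⟨g₂, h3, h4⟩ := exists_of_md hu one_ne_zero
    ((md_sym h2 hB hu hm1 hm one_ne_zero).2 (Or.inr rfl))
  obtain ⟨x₁, hx₁⟩ := hθ (QuotientGroup.mk g₁)
  obtain ⟨x₂, hx₂⟩ := hθ (QuotientGroup.mk g₂)
  have := gsp_two_homs h2 (φ.comp θ) (ψ.comp θ) (fun g => hφ2 _) (fun g => hψ2 _) ⟨x₁, by
    rw [MonoidHom.comp_apply, hx₁]
    change χ (chi _) ≠ 1
    rw [chi_eq_neg_one_iff.2 h1]
    intro h
    exact hneg (by simpa [χ] using congrArg Units.val h)⟩ x₂ (by
    rw [MonoidHom.comp_apply, hx₂]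
    change χ (chi _) = 1
    rw [h3, chi_one, map_one])
  rw [MonoidHom.comp_apply, hx₂] at this
  have h5 : (ψ₀ g₂ : F) = 1 := congrArg Units.val this
  rw [hψ₀, h3, h4] at h5
  exact hneg (by simpa using h5)

theorem sq_eq_one_iff_of_ne_zero_aux {a : F} (h : a ^ 2 = 1) : a = 1 ∨ a = -1 :=
  mul_self_eq_one_iff.1 (by rw [← sq, h])

theorem mem_IsomG_iff_bf {B : Matrix ι ι F} {g : GL ι F} :
    g ∈ IsomG B ↔ ∀ u v, bf B (g.1 *ᵥ u) (g.1 *ᵥ v) = bf B u v := by
  have := bf_sim_iff B g.1 1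
  simp only [one_mul, one_smul] at this
  exact this.symm

theorem rank_ne_zero {A : Matrix ι κ F} (h : A ≠ 0) : A.rank ≠ 0 := fun h0 => h (by
  rw [Matrix.rank, Submodule.finrank_eq_zero, LinearMap.range_eq_bot] at h0
  exact toLin'.injective (by rw [map_zero]; exact h0))

/-! ### Characteristic two -/

section two
variable [CharP F 2]

theorem projQuot_two [Finite F] (f : (ι → F) → (ι → F) → F)
    (hf : ∀ (a : F) u v, f (a • u) (a • v) = a ^ 2 * f u v) (hne : ∃ u v, f u v ≠ 0)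
    {S : Subgroup (GL ι F)}
    (hS : ∀ g, g ∈ S ↔ ∃ c : Fˣ, ∀ u v, f (g.1 *ᵥ u) (g.1 *ᵥ v) = c * f u v)
    {H : Subgroup (GL ι F)} (hH : ∀ g, g ∈ H ↔ ∀ u v, f (g.1 *ᵥ u) (g.1 *ᵥ v) = f u v) :
    Nonempty (projQuot S ≃* H) := by
  have hle : H ≤ S := fun g hg => (hS g).2 ⟨1, by simpa using (hH g).1 hg⟩
  refine ⟨(MulEquiv.ofBijective ((QuotientGroup.mk' _).comp (inclusion hle)) ⟨?_, ?_⟩).symm⟩
  · rw [injective_iff_map_eq_one]
    intro g hg
    obtain ⟨a, ha⟩ := (Geo.mem_scalars_iff _).1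
      (mem_subgroupOf.1 ((QuotientGroup.eq_one_iff _).1 hg))
    change g.1.1 = _ at ha
    obtain ⟨u, v, huv⟩ := hne
    have := (hH g).1 g.2 u v
    rw [ha, smul_mulVec, smul_mulVec, one_mulVec, one_mulVec, hf] at this
    have h1 : (a : F) ^ 2 = 1 := mul_right_cancel₀ huv (by rw [this, one_mul])
    have h3 : (a : F) = 1 := by
      rcases sq_eq_one_iff_of_ne_zero_aux h1 with h | h
      · exact h
      · rw [h, CharTwo.neg_eq]
    exact Subtype.ext (Units.ext (by rw [ha, h3, one_smul]; rfl))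
  · intro x
    obtain ⟨g, rfl⟩ := QuotientGroup.mk_surjective x
    obtain ⟨c, hc⟩ := (hS g).1 g.2
    obtain ⟨d, hd⟩ := isSquare_of_two_eq_zero (CharTwo.two_eq_zero (R := F)) (c : F)
    have hd0 : d ≠ 0 := by rintro rfl; simp at hd
    refine ⟨⟨smulGL d⁻¹ (inv_ne_zero hd0) g.1, (hH _).2 fun u v => ?_⟩, ?_⟩
    · rw [smulGL_coe, smul_mulVec, smul_mulVec, hf, hc, hd]; field_simp
    · refine QuotientGroup.eq.2 (mem_subgroupOf.2 ((Geo.mem_scalars_iff _).2
        ⟨Units.mk0 d hd0, ?_⟩))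
      change ((d⁻¹)⁻¹ • (g.1⁻¹).1) * g.1.1 = _
      rw [Matrix.smul_mul, Units.inv_mul, inv_inv]; rfl

theorem simG_two [Finite F] [Nonempty ι] {B : Matrix ι ι F} (hB : IsUnit B) :
    Nonempty (projQuot (SimG B) ≃* IsomG B) := by
  refine projQuot_two (bf B) (fun a u v => ?_) ?_ (fun _ => Iff.rfl) (fun g => ?_)
  · simp only [bf, mulVec_smul, smul_dotProduct, dotProduct_smul, smul_eq_mul]; ring
  · by_contra h
    push Not at h
    exact hB.ne_zero ((form_eq_iff B 0).1 fun u v => by simpa [bf] using h u v)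
  · exact mem_IsomG_iff_bf

omit [CharP F 2] in
theorem range_spToGL : (spToGL m F).range = IsomG (J (Fin m) F) := by
  ext g
  constructor
  · rintro ⟨s, rfl⟩
    exact SymplecticGroup.mem_iff'.1 s.2
  · intro h
    exact ⟨⟨g.1, SymplecticGroup.mem_iff'.2 h⟩, Units.ext rfl⟩

omit [CharP F 2] in
theorem isomG_J_equiv : Nonempty (IsomG (J (Fin m) F) ≃* symplecticGroup (Fin m) F) :=
  ⟨((MonoidHom.ofInjective spToGL_injective).trans (MulEquiv.subgroupCongr range_spToGL)).symm⟩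

/-- The non-alternating form attached to a vector. -/
def naM (w : Fin m ⊕ Fin m → F) : Matrix (Fin m ⊕ Fin m) (Fin m ⊕ Fin m) F :=
  J (Fin m) F + vecMulVec (J (Fin m) F *ᵥ w) (J (Fin m) F *ᵥ w)

omit [CharP F 2] in
theorem bf_naM (w u v : Fin m ⊕ Fin m → F) :
    bf (naM w) u v = sympForm m F u v + sympForm m F u w * sympForm m F v w := by
  simp only [bf, naM, add_mulVec, dotProduct_add, vecMulVec_mulVec', dotProduct_smul, smul_eq_mul,
    sympForm]
  rw [dotProduct_comm (J (Fin m) F *ᵥ w) v, mul_comm]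

theorem naM_transpose (w : Fin m ⊕ Fin m → F) : (naM w)ᵀ = naM w := by
  rw [naM, transpose_add, J_transpose, transpose_vecMulVec]
  congr 1
  ext i j
  exact CharTwo.neg_eq _

omit [CharP F 2] in
theorem symp_nondeg {x : Fin m ⊕ Fin m → F} (h : ∀ y, sympForm m F y x = 0) : x = 0 := by
  by_contra hx
  obtain ⟨y, hy⟩ := exists_dot_ne_zero (CfsgH9.J_mulVec_ne_zero hx)
  have := h y
  rw [sympForm, dotProduct_comm, hy] at this
  exact one_ne_zero this

omit [CharP F 2] in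
theorem isUnit_naM (w : Fin m ⊕ Fin m → F) : IsUnit (naM w) := by
  rw [← mulVec_injective_iff_isUnit]
  refine (injective_iff_map_eq_zero (toLin' (naM w))).2 fun x hx => ?_
  have h : ∀ y, sympForm m F y x + sympForm m F y w * sympForm m F x w = 0 := fun y => by
    rw [← bf_naM, bf, show naM w *ᵥ x = 0 from hx, dotProduct_zero]
  have h1 : sympForm m F x w = 0 := by
    have := h w
    rw [sympForm_self, zero_mul, add_zero] at this
    rw [sympForm_skew, this, neg_zero]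
  exact symp_nondeg fun y => by simpa [h1] using h y

omit [CharP F 2] in
theorem not_altM_naM {w : Fin m ⊕ Fin m → F} (hw : w ≠ 0) : ¬ AltM (naM w) := fun h =>
  hw (symp_nondeg fun y => by
    have : bf (naM w) y y = 0 := h y
    rw [bf_naM, sympForm_self, zero_add] at this
    exact mul_self_eq_zero.1 this)

omit [CharP F 2] in
theorem isTransvection_spT {w : Fin m ⊕ Fin m → F} (hw : w ≠ 0) :
    IsTransvection (spT w (1 : F)).1 := by
  have e : (spT w (1 : F)).1 - 1 = vecMulVec w (J (Fin m) F *ᵥ w) := by simp [spT]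
  rw [IsTransvection, e]
  refine ⟨le_antisymm (rank_vecMulVec_le _ _) ?_, ?_⟩
  · rw [Nat.one_le_iff_ne_zero]
    exact rank_ne_zero (vecMulVec_ne_zero hw (CfsgH9.J_mulVec_ne_zero hw))
  · rw [vecMulVec_mul_vecMulVec, CfsgH9.J_dot_self]; simp

theorem map_centralizer_spT (w : Fin m ⊕ Fin m → F) :
    (centralizer {spT w (1 : F)}).map (spToGL m F) = IsomG (naM w) := by
  have sq : ∀ {a b : F}, a * a = b * b → a = b := fun h => by
    rcases mul_self_eq_mul_self_iff.1 h with h | h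
    · exact h
    · rw [h, CharTwo.neg_eq]
  have key : ∀ s : symplecticGroup (Fin m) F, (∀ v, sympForm m F (s.1 *ᵥ v) w = sympForm m F v w) →
      s.1 *ᵥ w = w := fun s h => by
    rw [← sub_eq_zero]
    refine symp_nondeg fun y => ?_
    obtain ⟨v, rfl⟩ : ∃ v, y = s.1 *ᵥ v := ⟨(s⁻¹).1 *ᵥ y, by
      rw [mulVec_mulVec, ← Submonoid.coe_mul, mul_inv_cancel, Submonoid.coe_one, one_mulVec]⟩
    have h1 := (mem_Sp_iff_form _).1 s.2 v w
    have h3 := h v
    simp only [sympForm, mulVec_sub, dotProduct_sub] at h1 h3 ⊢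
    rw [h1, h3, sub_self]
  ext g
  rw [mem_IsomG_iff_bf]
  simp only [bf_naM]
  constructor
  · rintro ⟨s, hs, rfl⟩
    have hc : spT w 1 * s = s * spT w 1 := hs _ rfl
    have hw : s.1 *ᵥ w = w := by
      refine key s fun v => sq ?_
      have h1 := congrArg (fun t : symplecticGroup (Fin m) F =>
        sympForm m F (s.1 *ᵥ v) (t.1 *ᵥ v)) hc
      simp only [Submonoid.coe_mul, ← mulVec_mulVec] at h1
      rw [(mem_Sp_iff_form _).1 s.2, spT_mulVec, spT_mulVec] at h1
      have h3 := sympForm_self (s.1 *ᵥ v)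
      have h4 := sympForm_self v
      simp only [sympForm, mulVec_add, dotProduct_add, mulVec_smul, dotProduct_smul, one_mul,
        smul_eq_mul] at h1 h3 h4 ⊢
      rwa [h3, h4, zero_add, zero_add] at h1
    intro u v
    have h1 := fun x => (mem_Sp_iff_form _).1 s.2 x w
    rw [hw] at h1
    rw [spToGL_coe, (mem_Sp_iff_form _).1 s.2, h1, h1]
  · intro h
    have h1 : ∀ v, sympForm m F (g.1 *ᵥ v) w = sympForm m F v w := fun v => sq (by
      simpa [sympForm_self] using h v v)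
    have h3 : g.1 ∈ symplecticGroup (Fin m) F := (mem_Sp_iff_form _).2 fun u v => by
      simpa [h1] using h u v
    refine ⟨⟨g.1, h3⟩, ?_, Units.ext rfl⟩
    rintro _ rfl
    apply Subtype.ext
    refine matrix_eq_iff.2 fun v => ?_
    have h4 : g.1 *ᵥ w = w := key ⟨g.1, h3⟩ h1
    rw [Submonoid.coe_mul, Submonoid.coe_mul, ← mulVec_mulVec, ← mulVec_mulVec, spT_mulVec,
      spT_mulVec, h1, mulVec_add, mulVec_smul, h4]

theorem isomG_naM_equiv (w : Fin m ⊕ Fin m → F) :
    Nonempty (IsomG (naM w) ≃* centralizer {spT w (1 : F)}) :=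
  ⟨((Subgroup.equivMapOfInjective _ _ spToGL_injective).trans
    (MulEquiv.subgroupCongr (map_centralizer_spT w))).symm⟩

theorem fcong_nonalt [Finite F] {B : Matrix ι ι F} (hB : Bᵀ = B) (hu : IsUnit B) (ha : ¬ AltM B)
    {B' : Matrix κ κ F} (hB' : B'ᵀ = B') (hu' : IsUnit B') (ha' : ¬ AltM B')
    (hc : Fintype.card ι = Fintype.card κ) : FCong (bf B) (bf B') := by
  have key : ∀ {ι : Type} [Fintype ι] [DecidableEq ι] {B : Matrix ι ι F}, Bᵀ = B → IsUnit B →
      ¬ AltM B → ∀ {s : ℕ}, Fintype.card ι = s →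
      FCong (bf B) (bf (1 : Matrix (Fin s) (Fin s) F)) := by
    intro ι _ _ B hB hu ha s hs
    let e : ι ≃ Fin s := Fintype.equivFinOfCardEq hs
    have h1 : FCong (bf B) (bf (reindex e e B)) := by
      refine fcong_of_equiv (LinearEquiv.funCongrLeft F F e) one_ne_zero fun u v => ?_
      rw [one_mul, bf, bf, reindex_apply, submatrix_mulVec_equiv, dotProduct_comp_equiv_symm]
      rfl
    obtain ⟨P, hP⟩ := exists_congr_one (β := reindex e e B) (by rw [transpose_reindex, hB])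
      (by rw [isUnit_iff_isUnit_det, det_reindex_self]; exact (isUnit_iff_isUnit_det _).1 hu)
      (fun h => ha (h1.symm.altM h))
    exact h1.trans (fcong_bf_iff_GL.2 ⟨P, 1, one_ne_zero, by rw [hP, one_smul]⟩)
  exact (key hB hu ha hc).trans (key hB' hu' ha' rfl).symm

theorem sq_inj_two {a b : F} (h : a ^ 2 = b ^ 2) : a = b := by
  rcases sq_eq_sq_iff_eq_or_eq_neg.1 h with h | h
  · exact h
  · rw [h, CharTwo.neg_eq]

theorem polar_QP_two (u v : Fin m ⊕ Fin m → F) :
    QuadraticMap.polar (QP m F) u v = sympForm m F u v := by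
  rw [polar_QH]
  simp [sympForm, J, dotProduct, mulVec, Fintype.sum_sum_type, one_apply, CharTwo.neg_eq,
    Finset.sum_add_distrib]

omit [CharP F 2] in
theorem QO_apply' (v : Unit ⊕ (Fin m ⊕ Fin m) → F) :
    quadFormOdd m F v = v (.inl ()) ^ 2 + QP m F (v ∘ Sum.inr) := by
  rw [← QO_coe, QO, sumQ_apply, QU_apply, one_mul]; rfl

theorem polar_QO_two (u v : Unit ⊕ (Fin m ⊕ Fin m) → F) :
    QuadraticMap.polar (quadFormOdd m F) u v = sympForm m F (u ∘ Sum.inr) (v ∘ Sum.inr) := by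
  rw [← QO_coe, QO, polar_sumQ, polar_QU, polar_QP_two, CharTwo.two_eq_zero]; simp

omit [CharP F 2] in
theorem inr_mulVec {α β : Type} [Fintype α] [Fintype β] [DecidableEq α] [DecidableEq β]
    (g : Matrix (α ⊕ β) (α ⊕ β) F) (h : ∀ a, (g *ᵥ Pi.single (.inl a) 1) ∘ Sum.inr = 0)
    (v : α ⊕ β → F) : (g *ᵥ v) ∘ Sum.inr = g.toBlocks₂₂ *ᵥ (v ∘ Sum.inr) := by
  ext i
  have : ∀ a, g (.inr i) (.inl a) = 0 := fun a => by simpa using congrFun (h a) i
  simp [mulVec, dotProduct, Fintype.sum_sum_type, this, toBlocks₂₂]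

theorem odd_inr (g : isometryGroup F (quadFormOdd m F)) (v : Unit ⊕ (Fin m ⊕ Fin m) → F) :
    (g.1.1 *ᵥ v) ∘ Sum.inr = g.1.1.toBlocks₂₂ *ᵥ (v ∘ Sum.inr) := by
  refine inr_mulVec _ (fun a => symp_nondeg fun y => ?_) v
  have h1 := polar_sim (Q := QO m F) (Q' := QO m F) (fun v => g.1.1 *ᵥ v) (mulVec_add _) (c := 1)
    (fun x => by rw [one_mul, QO_coe]; exact mem_isometryGroup.1 g.2 x)
    ((g.1⁻¹).1 *ᵥ Sum.elim 0 y) (Pi.single (.inl a) 1)
  rw [mulVec_mulVec, Units.mul_inv, one_mulVec, QO_coe, polar_QO_two, polar_QO_two] at h1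
  have h3 : (Pi.single (.inl a) 1 : Unit ⊕ (Fin m ⊕ Fin m) → F) ∘ Sum.inr = 0 := by
    ext i; simp
  rw [h3] at h1
  simpa [sympForm] using h1

def oddToSp : isometryGroup F (quadFormOdd m F) →* symplecticGroup (Fin m) F :=
  MonoidHom.mk' (fun g => ⟨g.1.1.toBlocks₂₂, (mem_Sp_iff_form _).2 fun u v => by
    have h1 := polar_sim (Q := QO m F) (Q' := QO m F) (fun v => g.1.1 *ᵥ v) (mulVec_add _)
      (c := 1) (fun x => by rw [one_mul, QO_coe]; exact mem_isometryGroup.1 g.2 x)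
      (Sum.elim 0 u) (Sum.elim 0 v)
    rw [QO_coe, polar_QO_two, polar_QO_two, odd_inr, odd_inr] at h1
    simpa using h1⟩) fun g h => Subtype.ext (matrix_eq_iff.2 fun v => by
      have h1 := odd_inr (g * h) (Sum.elim 0 v)
      rw [Subgroup.coe_mul, Units.val_mul, ← mulVec_mulVec, odd_inr, odd_inr] at h1
      simpa using h1.symm)

theorem oddToSp_bijective [Finite F] : Function.Bijective (oddToSp (F := F) (m := m)) := by
  constructor
  · rw [injective_iff_map_eq_one]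
    intro g hg
    have h1 : g.1.1.toBlocks₂₂ = 1 := congrArg Subtype.val hg
    refine Subtype.ext (Units.ext (matrix_eq_iff.2 fun v => ?_))
    have h2 := odd_inr g v
    rw [h1, one_mulVec] at h2
    have h3 := mem_isometryGroup.1 g.2 v
    rw [QO_apply', QO_apply', h2, add_left_inj] at h3
    change _ = (1 : Matrix _ _ F) *ᵥ v
    rw [one_mulVec]
    ext (i | i)
    · exact sq_inj_two h3
    · exact congrFun h2 i
  · intro s
    have hsq : ∀ a : F, ∃ b : F, b ^ 2 = a := fun a => by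
      obtain ⟨b, hb⟩ := isSquare_of_two_eq_zero (CharTwo.two_eq_zero (R := F)) a
      exact ⟨b, by rw [hb, sq]⟩
    choose rt hrt using hsq
    let L : (Fin m ⊕ Fin m → F) →ₗ[F] F :=
      { toFun := fun w => rt (QP m F w + QP m F (s.1 *ᵥ w))
        map_add' := fun u v => sq_inj_two (by
          rw [CharTwo.add_sq, hrt, hrt, hrt, mulVec_add, Q_add, Q_add, polar_QP_two, polar_QP_two,
            (mem_Sp_iff_form _).1 s.2]
          linear_combination (sympForm m F u v) * CharTwo.two_eq_zero (R := F))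
        map_smul' := fun a v => sq_inj_two (by
          rw [RingHom.id_apply, smul_eq_mul, mul_pow, hrt, hrt, mulVec_smul, Q_smul, Q_smul]
          ring) }
    have hL : ∀ w, L w ^ 2 = QP m F w + QP m F (s.1 *ᵥ w) := fun w => hrt _
    let T : (Unit ⊕ (Fin m ⊕ Fin m) → F) →ₗ[F] (Unit ⊕ (Fin m ⊕ Fin m) → F) :=
      { toFun := fun v => Sum.elim (fun _ => v (.inl ()) + L (v ∘ Sum.inr)) (s.1 *ᵥ (v ∘ Sum.inr))
        map_add' := fun u v => by
          rw [show (u + v) ∘ Sum.inr = u ∘ Sum.inr + v ∘ Sum.inr from rfl, map_add, mulVec_add]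
          ext (i | i)
          · simp; ring
          · simp
        map_smul' := fun a v => by
          rw [show (a • v) ∘ Sum.inr = a • (v ∘ Sum.inr) from rfl, map_smul, mulVec_smul]
          ext (i | i)
          · simp; ring
          · simp }
    have hT1 : ∀ v, T v (.inl ()) = v (.inl ()) + L (v ∘ Sum.inr) := fun v => rfl
    have hT2 : ∀ v, T v ∘ Sum.inr = s.1 *ᵥ (v ∘ Sum.inr) := fun v => rfl
    have hM : ∀ v, LinearMap.toMatrix' T *ᵥ v = T v := LinearMap.toMatrix'_mulVec T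
    have hu : IsUnit (LinearMap.toMatrix' T) := by
      rw [← mulVec_injective_iff_isUnit]
      refine (injective_iff_map_eq_zero (toLin' (LinearMap.toMatrix' T))).2 fun x hx => ?_
      rw [toLin'_apply, hM] at hx
      have h1 : x ∘ Sum.inr = 0 := by
        have := congrArg (fun w => (s⁻¹).1 *ᵥ w) (hT2 x)
        simp only [hx] at this
        rw [mulVec_mulVec, ← Submonoid.coe_mul, inv_mul_cancel, Submonoid.coe_one,
          one_mulVec] at this
        rw [← this]; exact mulVec_zero _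
      have h2 := hT1 x
      rw [hx, h1, map_zero, add_zero] at h2
      ext (i | i)
      · exact h2.symm
      · exact congrFun h1 i
    have hg : hu.unit ∈ isometryGroup F (quadFormOdd m F) := mem_isometryGroup.2 fun v => by
      rw [IsUnit.unit_spec, hM, QO_apply', QO_apply', hT1, hT2, CharTwo.add_sq, hL]
      linear_combination (QP m F (s.1 *ᵥ (v ∘ Sum.inr))) * CharTwo.two_eq_zero (R := F)
    refine ⟨⟨_, hg⟩, Subtype.ext (matrix_eq_iff.2 fun v => ?_)⟩
    have := odd_inr ⟨_, hg⟩ (Sum.elim 0 v)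
    rw [IsUnit.unit_spec, hM, hT2] at this
    exact this.symm

def oddB (m : ℕ) (F : Type*) [Field F] :
    Matrix (Unit ⊕ (Fin m ⊕ Fin m)) (Unit ⊕ (Fin m ⊕ Fin m)) F := fromBlocks 1 0 0 (J (Fin m) F)

omit [CharP F 2] in
theorem bf_oddB (u v : Unit ⊕ (Fin m ⊕ Fin m) → F) : bf (oddB m F) u v =
    u (.inl ()) * v (.inl ()) + sympForm m F (u ∘ Sum.inr) (v ∘ Sum.inr) := by
  rw [bf, oddB, fromBlocks_mulVec, ← Sum.elim_comp_inl_inr u, sumElim_dotProduct_sumElim]
  simp [sympForm, dotProduct]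

def spToOdd : symplecticGroup (Fin m) F →* GL (Unit ⊕ (Fin m ⊕ Fin m)) F :=
  MonoidHom.toHomUnits
    { toFun := fun s => fromBlocks 1 0 0 s.1
      map_one' := by simp
      map_mul' := fun s t => by rw [fromBlocks_multiply]; simp }

theorem range_spToOdd : (spToOdd (F := F) (m := m)).range = IsomG (oddB m F) := by
  ext g
  constructor
  · rintro ⟨s, rfl⟩
    change (fromBlocks 1 0 0 s.1)ᵀ * oddB m F * fromBlocks 1 0 0 s.1 = oddB m F
    simp [oddB, fromBlocks_transpose, fromBlocks_multiply, SymplecticGroup.mem_iff'.1 s.2]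
  · intro h
    rw [mem_IsomG_iff_bf] at h
    simp only [bf_oddB] at h
    have h1 : ∀ v, (g.1 *ᵥ v) (.inl ()) = v (.inl ()) := fun v => sq_inj_two (by
      simpa [sympForm_self, sq] using h v v)
    simp only [h1, add_right_inj] at h
    have h2 := inr_mulVec g.1 (fun a => symp_nondeg fun y => by
      have h3 := h ((g⁻¹).1 *ᵥ Sum.elim 0 y) (Pi.single (.inl a) 1)
      have h4 : (Pi.single (.inl a) 1 : Unit ⊕ (Fin m ⊕ Fin m) → F) ∘ Sum.inr = 0 := by
        ext i; simp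
      rw [mulVec_mulVec, Units.mul_inv, one_mulVec, h4] at h3
      simpa [sympForm] using h3)
    refine ⟨⟨g.1.toBlocks₂₂, (mem_Sp_iff_form _).2 fun u v => ?_⟩,
      Units.ext (matrix_eq_iff.2 fun v => ?_)⟩
    · simpa [h2] using h (Sum.elim 0 u) (Sum.elim 0 v)
    · change fromBlocks 1 0 0 g.1.toBlocks₂₂ *ᵥ v = _
      rw [fromBlocks_mulVec, ← h2]
      ext (i | i)
      · simp [h1]
      · simp

theorem pgo_odd_two [Finite F] {B : Matrix ι ι F} (hB : Bᵀ = B) (hu : IsUnit B)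
    (hm : Fintype.card ι = 2 * m + 1) :
    Nonempty (projQuot (SimG B) ≃* PGO F (quadFormOdd m F)) := by
  have hu1 : IsUnit (oddB m F) := by
    rw [isUnit_iff_isUnit_det, oddB, det_fromBlocks_zero₂₁, det_one, one_mul]
    exact isUnit_det_J _ _
  have hc : Fintype.card (Unit ⊕ (Fin m ⊕ Fin m)) = 2 * m + 1 := by simp; ring
  have hodd : ¬ Even (2 * m + 1) := by simp
  obtain ⟨e1⟩ := (fcong_nonalt hB hu (fun h => hodd (hm ▸ even_card_of_altM hu h))
    (B' := oddB m F) (by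
      rw [oddB, fromBlocks_transpose, J_transpose]
      simp only [transpose_one, transpose_zero]
      congr 1
      ext i j
      exact CharTwo.neg_eq _) hu1 (fun h => hodd (hc ▸ even_card_of_altM hu1 h))
      (hm.trans hc.symm)).projQuot
  obtain ⟨e2⟩ := simG_two hu1
  have hinj : Function.Injective (spToOdd (F := F) (m := m)) := fun s t h =>
    Subtype.ext (fromBlocks_inj.1 (congrArg Units.val h)).2.2.2
  obtain ⟨e3⟩ := projQuot_two (fun u _ => quadFormOdd m F u)
    (fun a u _ => by rw [← QO_coe]; exact Q_smul a u)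
    ⟨Pi.single (.inl ()) 1, 0, by simp [quadFormOdd]⟩
    (S := Geo.quadSimilarityGroup (quadFormOdd m F))
    (fun g => exists_congr fun c => ⟨fun h u _ => h u, fun h u => h u u⟩)
    (H := isometryGroup F (quadFormOdd m F)) (fun g => Iff.rfl)
  exact ⟨e1.trans (e2.trans (((MonoidHom.ofInjective hinj).trans
    (MulEquiv.subgroupCongr range_spToOdd)).symm.trans
      ((MulEquiv.ofBijective _ oddToSp_bijective).symm.trans e3.symm)))⟩

end two

end CfsgH7
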