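import Cfsg.Agent.H7.Graph2

/-! Families of involutory graph automorphisms parametrised by bilinear forms; the linear case. -/

namespace CfsgH7
open Matrix Subgroup Cfsg CfsgH1
open CfsgH8 hiding map_mul map_one

structure GrFam {A : Type*} [Group A] (I : Subgroup A) (P : A → Prop) (n : ℕ) (F : Type*)
    [Field F] where
  rel : A → GL (Fin n) F → Prop
  ex1 : ∀ γ, P γ → ∃ B, rel γ B ∧ (B.1ᵀ = B.1 ∨ B.1ᵀ = -B.1)
  ex2 : ∀ B : GL (Fin n) F, (B.1ᵀ = B.1 ∨ B.1ᵀ = -B.1) → ∃ γ, P γ ∧ rel γ B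
  cent : ∀ γ B, rel γ B → Nonempty (↥(I ⊓ centralizer {γ}) ≃* projQuot (SimG B.1))
  conj : ∀ γ B γ' B', rel γ B → rel γ' B' → (IsConjUnder I γ γ' ↔ FCong (bf B.1) (bf B'.1))

variable {F : Type*} [Field F]

theorem sym_of_two {ι : Type*} (h2 : (2 : F) = 0) {B : Matrix ι ι F}
    (h : Bᵀ = B ∨ Bᵀ = -B) : Bᵀ = B := by
  haveI := CharTwo.of_one_ne_zero_of_two_eq_zero (R := F) one_ne_zero h2
  rcases h with h | h
  · exact h
  · rw [h]; ext i j; exact CharTwo.neg_eq _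

theorem sym_of_odd {ι : Type} [Fintype ι] [DecidableEq ι] {B : Matrix ι ι F} (hu : IsUnit B)
    (hn : Odd (Fintype.card ι)) (h : Bᵀ = B ∨ Bᵀ = -B) : Bᵀ = B := by
  by_cases h2 : (2 : F) = 0
  · exact sym_of_two h2 h
  · refine h.resolve_right fun h => ?_
    exact Nat.not_even_iff_odd.2 hn (even_card_of_altM hu (altM_of_skew_two h2 h))

theorem not_altM_of_sym {ι : Type} [Fintype ι] [DecidableEq ι] [Nonempty ι] (h2 : (2 : F) ≠ 0)
    {B : Matrix ι ι F} (hu : IsUnit B) (h : Bᵀ = B) : ¬ AltM B := fun ha => by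
  have h1 : (2 : F) • B = 0 := by
    rw [two_smul]; nth_rw 1 [← h]; rw [ha.transpose_eq, neg_add_cancel]
  exact hu.ne_zero ((smul_eq_zero.1 h1).resolve_left h2)

namespace GrFam
variable {A : Type*} [Group A] {I : Subgroup A} {P : A → Prop} {n : ℕ} [Finite F]
  (G : GrFam I P n F)
include G

theorem odd_case {m : ℕ} (hnm : n = 2 * m + 1) {γ γ' : A} (h : P γ) (h' : P γ') :
    Nonempty (↥(I ⊓ centralizer {γ}) ≃* PGO F (quadFormOdd m F)) ∧ IsConjUnder I γ γ' := by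
  obtain ⟨B, hr, hB⟩ := G.ex1 γ h
  obtain ⟨B', hr', hB'⟩ := G.ex1 γ' h'
  have hc : Fintype.card (Fin n) = 2 * m + 1 := by simp [hnm]
  have ho : Odd (Fintype.card (Fin n)) := ⟨m, hc⟩
  replace hB := sym_of_odd B.isUnit ho hB
  replace hB' := sym_of_odd B'.isUnit ho hB'
  obtain ⟨e⟩ := G.cent _ _ hr
  rw [G.conj _ _ _ _ hr hr']
  by_cases h2 : (2 : F) = 0
  · haveI := CharTwo.of_one_ne_zero_of_two_eq_zero (R := F) one_ne_zero h2
    obtain ⟨e'⟩ := pgo_odd_two hB B.isUnit hc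
    exact ⟨⟨e.trans e'⟩, fcong_nonalt hB B.isUnit
      (fun h => Nat.not_even_iff_odd.2 ho (even_card_of_altM B.isUnit h)) hB' B'.isUnit
      (fun h => Nat.not_even_iff_odd.2 ho (even_card_of_altM B'.isUnit h)) rfl⟩
  · obtain ⟨e'⟩ := pgo_of_fcong h2 (QO_coe m F) (fcong_QO h2 hB B.isUnit hc)
    exact ⟨⟨e.trans e'⟩, (fcong_QO h2 hB B.isUnit hc).trans (fcong_QO h2 hB' B'.isUnit hc).symm⟩

theorem three_classes (h2 : (2 : F) ≠ 0) {m : ℕ} (hm : 1 ≤ m) (hnm : n = 2 * m) :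
    ∃ (γ₁ γ₂ γ₃ : A) (a b : F), Aniso a b ∧ P γ₁ ∧ P γ₂ ∧ P γ₃ ∧ ¬ IsConjUnder I γ₁ γ₂ ∧
      ¬ IsConjUnder I γ₁ γ₃ ∧ ¬ IsConjUnder I γ₂ γ₃ ∧
      (∀ γ, P γ → IsConjUnder I γ₁ γ ∨ IsConjUnder I γ₂ γ ∨ IsConjUnder I γ₃ γ) ∧
      Nonempty (↥(I ⊓ centralizer {γ₁}) ≃* PGSp m F) ∧
      Nonempty (↥(I ⊓ centralizer {γ₂}) ≃* PGO F (quadFormPlus m F)) ∧
      Nonempty (↥(I ⊓ centralizer {γ₃}) ≃* PGO F (quadFormMinus (m - 1) F a b)) := by
  have hc : Fintype.card (Fin n) = 2 * m := by simp [hnm]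
  haveI : Nonempty (Fin n) := ⟨⟨0, by omega⟩⟩
  obtain ⟨b, hab⟩ := exists_aniso (F := F)
  obtain ⟨B₁, h1⟩ := exists_alt_GL (F := F) hc
  obtain ⟨B₂, h2s, h2f⟩ := exists_sym_of_quad (ι := Fin n) (Q := QP m F) ND_QH
    (by simp [hnm, two_mul])
  obtain ⟨B₃, h3s, h3f⟩ := exists_sym_of_quad (ι := Fin n) (ND_QM (m := m - 1) hab)
    (by simp [hnm]; omega)
  obtain ⟨γ₁, p1, r1⟩ := G.ex2 B₁ (Or.inr h1.transpose_eq)
  obtain ⟨γ₂, p2, r2⟩ := G.ex2 B₂ (Or.inl h2s)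
  obtain ⟨γ₃, p3, r3⟩ := G.ex2 B₃ (Or.inl h3s)
  refine ⟨γ₁, γ₂, γ₃, 1, b, hab, p1, p2, p3, ?_, ?_, ?_, ?_, ?_, ?_, ?_⟩
  · rw [G.conj _ _ _ _ r1 r2]
    exact fun h => not_altM_of_sym h2 B₂.isUnit h2s (h.altM h1)
  · rw [G.conj _ _ _ _ r1 r3]
    exact fun h => not_altM_of_sym h2 B₃.isUnit h3s (h.altM h1)
  · rw [G.conj _ _ _ _ r2 r3]
    exact fun h => not_fcong_QP_QM h2 hm hab (h2f.symm.trans (h.trans h3f))
  · intro γ hγ
    obtain ⟨B, r, hB⟩ := G.ex1 γ hγ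
    rw [G.conj _ _ _ _ r1 r, G.conj _ _ _ _ r2 r, G.conj _ _ _ _ r3 r]
    rcases hB with hB | hB
    · rcases fcong_even h2 hB B.isUnit hc hab with h | h
      · exact Or.inr (Or.inl (h2f.trans h.symm))
      · exact Or.inr (Or.inr (h3f.trans h.symm))
    · exact Or.inl (fcong_alt B₁.isUnit h1 B.isUnit (altM_of_skew_two h2 hB) rfl)
  · obtain ⟨e⟩ := G.cent _ _ r1
    obtain ⟨e'⟩ := (fcong_J B₁.isUnit h1 hc).projQuot
    exact ⟨e.trans e'⟩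
  · obtain ⟨e⟩ := G.cent _ _ r2
    obtain ⟨e'⟩ := pgo_of_fcong h2 (QP_coe m F) h2f
    exact ⟨e.trans e'⟩
  · obtain ⟨e⟩ := G.cent _ _ r3
    obtain ⟨e'⟩ := pgo_of_fcong h2 (QM_coe (m - 1) F 1 b) h3f
    exact ⟨e.trans e'⟩

theorem two_classes [CharP F 2] {m : ℕ} (hm : 1 ≤ m) (hnm : n = 2 * m) :
    ∃ (γ₁ γ₃ : A) (t : symplecticGroup (Fin m) F), IsTransvection t.1 ∧ P γ₁ ∧ P γ₃ ∧
      ¬ IsConjUnder I γ₁ γ₃ ∧ (∀ γ, P γ → IsConjUnder I γ₁ γ ∨ IsConjUnder I γ₃ γ) ∧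
      Nonempty (↥(I ⊓ centralizer {γ₁}) ≃* symplecticGroup (Fin m) F) ∧
      Nonempty (↥(I ⊓ centralizer {γ₃}) ≃* centralizer {t}) := by
  have hc : Fintype.card (Fin n) = 2 * m := by simp [hnm]
  haveI : Nonempty (Fin m) := ⟨⟨0, by omega⟩⟩
  obtain ⟨B₁, h1⟩ := exists_alt_GL (F := F) hc
  obtain ⟨w, hw⟩ := exists_ne (0 : Fin m ⊕ Fin m → F)
  haveI : Nonempty (Fin n) := ⟨⟨0, by omega⟩⟩
  have hna : ¬ AltM (1 : GL (Fin n) F).1 := fun h =>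
    one_ne_zero ((one_apply_eq (Classical.arbitrary _)).symm.trans (h.diag _))
  obtain ⟨γ₁, p1, r1⟩ := G.ex2 B₁ (Or.inr h1.transpose_eq)
  obtain ⟨γ₃, p3, r3⟩ := G.ex2 1 (Or.inl transpose_one)
  refine ⟨γ₁, γ₃, spT w 1, isTransvection_spT hw, p1, p3, ?_, ?_, ?_, ?_⟩
  · rw [G.conj _ _ _ _ r1 r3]
    exact fun h => hna (h.altM h1)
  · intro γ hγ
    obtain ⟨B, r, hB⟩ := G.ex1 γ hγ
    rw [G.conj _ _ _ _ r1 r, G.conj _ _ _ _ r3 r]
    by_cases ha : AltM B.1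
    · exact Or.inl (fcong_alt B₁.isUnit h1 B.isUnit ha rfl)
    · exact Or.inr (fcong_nonalt transpose_one isUnit_one hna
        (sym_of_two CharTwo.two_eq_zero hB) B.isUnit ha rfl)
  · obtain ⟨e⟩ := G.cent _ _ r1
    obtain ⟨e1⟩ := (fcong_J B₁.isUnit h1 hc).projQuot
    obtain ⟨e2⟩ := simG_two (isUnit_J (F := F) (m := m))
    obtain ⟨e3⟩ := isomG_J_equiv (F := F) (m := m)
    exact ⟨e.trans (e1.trans (e2.trans e3))⟩
  · obtain ⟨e⟩ := G.cent _ _ r3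
    obtain ⟨e1⟩ := (fcong_nonalt transpose_one isUnit_one hna (naM_transpose w) (isUnit_naM w)
      (not_altM_naM hw) (by simp [hnm, two_mul])).projQuot
    obtain ⟨e2⟩ := simG_two (isUnit_naM w)
    obtain ⟨e3⟩ := isomG_naM_equiv w
    exact ⟨e.trans (e1.trans (e2.trans e3))⟩

theorem alt_iff (h2 : (2 : F) ≠ 0) {m : ℕ} (hm : 1 ≤ m) (hnm : n = 2 * m) {γ : A}
    {B : GL (Fin n) F} (r : G.rel γ B) (hB : B.1ᵀ = B.1 ∨ B.1ᵀ = -B.1) :
    (Nonempty (↥(I ⊓ centralizer {γ}) ≃* PGSp m F) → AltM B.1) ∧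
      (¬ Nonempty (↥(I ⊓ centralizer {γ}) ≃* PGSp m F) → B.1ᵀ = B.1) := by
  have hc : Fintype.card (Fin n) = 2 * m := by simp [hnm]
  obtain ⟨e⟩ := G.cent _ _ r
  constructor
  · rintro ⟨e'⟩
    exact altM_of_skew_two h2 (hB.resolve_left fun h =>
      not_pgo_equiv_pgsp h2 h B.isUnit hm hc ⟨e.symm.trans e'⟩)
  · intro h
    refine hB.resolve_right fun h' => h ?_
    obtain ⟨e'⟩ := (fcong_J B.isUnit (altM_of_skew_two h2 h') hc).projQuot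
    exact ⟨e.trans e'⟩

theorem one_case (h2 : (2 : F) ≠ 0) {m : ℕ} (hm : 1 ≤ m) (hnm : n = 2 * m) {γ : A}
    (r : G.rel γ 1) :
    (chi (-1 : F) ^ m = 1 → Nonempty (↥(I ⊓ centralizer {γ}) ≃* PGO F (quadFormPlus m F))) ∧
    (chi (-1 : F) ^ m ≠ 1 → ∃ a b : F, Aniso a b ∧
      Nonempty (↥(I ⊓ centralizer {γ}) ≃* PGO F (quadFormMinus (m - 1) F a b))) := by
  have hc : Fintype.card (Fin n) = 2 * m := by simp [hnm]
  obtain ⟨e⟩ := G.cent _ _ r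
  obtain ⟨b, hab⟩ := exists_aniso (F := F)
  have hd : discC (qf (1 : Matrix (Fin n) (Fin n) F)) = 1 := by
    rw [← isSquare_gram_fun_iff]
    have : (Matrix.of fun i j : Fin n => QuadraticMap.polar (qf (1 : Matrix (Fin n) (Fin n) F))
        (Pi.single i 1) (Pi.single j 1)) = (2 : F) • 1 := by
      ext i j
      rw [of_apply, polar_qf transpose_one]
      simp [bf, one_apply, Pi.single_apply]
    rw [this, det_smul, det_one, mul_one, hc, two_mul, pow_add]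
    exact ⟨_, rfl⟩
  have hq := fcong_qf (ι := Fin n) h2 (transpose_one (α := F))
  rcases fcong_even (B := (1 : Matrix (Fin n) (Fin n) F)) h2 transpose_one isUnit_one hc hab
    with h | h
  · obtain ⟨e'⟩ := pgo_of_fcong h2 (QP_coe m F) h
    refine ⟨fun _ => ⟨e.trans e'⟩, fun h' => absurd ?_ h'⟩
    have := discC_of_fcong h2 ND_QH ⟨m, by simp⟩ (hq.trans h)
    rwa [hd, discC_QH, Fintype.card_fin, eq_comm] at this
  · obtain ⟨e'⟩ := pgo_of_fcong h2 (QM_coe (m - 1) F 1 b) h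
    refine ⟨fun h' => ?_, fun _ => ⟨1, b, hab, ⟨e.trans e'⟩⟩⟩
    have := discC_of_fcong h2 (ND_QM hab) ⟨m - 1 + 1, by simp; ring⟩ (hq.trans h)
    rw [hd, discC_QM h2 hab, Nat.sub_add_cancel hm, h'] at this
    exact absurd this (by decide)

end GrFam

/-! ### The linear groups -/

section psl
variable {ι : Type} [Fintype ι] [DecidableEq ι]

def grB (B : GL ι F) : MulAut (Matrix.ProjectiveSpecialLinearGroup ι F) := diagPSL B⁻¹ * graphPSL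

theorem grB_diag (B h : GL ι F) :
    grB B * diagPSL h = diagPSL (B⁻¹ * invTGL h * B) * grB B := by
  rw [grB, mul_assoc, graphPSL_diagPSL, ← mul_assoc, ← mul_assoc, ← map_mul, ← map_mul,
    mul_inv_cancel_right]

theorem diag_grB (B h : GL ι F) :
    diagPSL h * grB B * (diagPSL h)⁻¹ = grB (invTGL h * B * h⁻¹) := by
  rw [grB, grB, ← map_inv, mul_assoc, mul_assoc, graphPSL_diagPSL, ← mul_assoc, ← mul_assoc,
    ← map_mul, ← map_mul]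
  simp only [_root_.mul_inv_rev, inv_inv, map_inv, mul_assoc]

variable [Finite F] [Nontrivial ι]

theorem grB_eq_iff {B B' : GL ι F} : grB B = grB B' ↔ ∃ c : F, c ≠ 0 ∧ B.1 = c • B'.1 := by
  rw [grB, grB, mul_left_inj, map_inv, map_inv, _root_.inv_inj, diagPSL_eq_iff]
  exact ⟨fun ⟨c, h⟩ => ⟨c, GL_smul_ne_zero h, h⟩, fun ⟨c, _, h⟩ => ⟨c, h⟩⟩

theorem grB_conj_iff {B B' : GL ι F} :
    IsConjUnder (diagPSL : GL ι F →* _).range (grB B) (grB B') ↔ FCong (bf B.1) (bf B'.1) := by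
  rw [fcong_bf_iff_GL]
  constructor
  · rintro ⟨_, ⟨h, rfl⟩, e⟩
    rw [diag_grB, eq_comm, grB_eq_iff] at e
    obtain ⟨c, hc, e⟩ := e
    exact ⟨h⁻¹, c, hc, e⟩
  · rintro ⟨h, c, hc, e⟩
    refine ⟨_, ⟨h⁻¹, rfl⟩, ?_⟩
    rw [diag_grB, eq_comm, grB_eq_iff]
    exact ⟨c, hc, e⟩

theorem grB_centralizer (B : GL ι F) :
    (diagPSL : GL ι F →* _).range ⊓ centralizer {grB B} = (SimG B.1).map diagPSL := by
  have key : ∀ h : GL ι F, diagPSL h ∈ centralizer {grB B} ↔ h ∈ SimG B.1 := by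
    intro h
    rw [mem_centralizer_singleton_iff, ← mul_inv_eq_iff_eq_mul, diag_grB, grB_eq_iff,
      ← inv_mem_iff, mem_SimG]
    exact ⟨fun ⟨c, hc, e⟩ => ⟨Units.mk0 c hc, e⟩, fun ⟨c, e⟩ => ⟨c, c.ne_zero, e⟩⟩
  ext x
  constructor
  · rintro ⟨⟨h, rfl⟩, hx⟩
    exact ⟨h, (key h).1 hx, rfl⟩
  · rintro ⟨h, hh, rfl⟩
    exact ⟨⟨h, rfl⟩, (key h).2 hh⟩

theorem grB_sq_iff {B : GL ι F} : grB B ^ 2 = 1 ↔ ∃ c : F, B.1ᵀ = c • B.1 := by
  have h1 : grB B ^ 2 = diagPSL (B⁻¹ * invTGL B⁻¹) := by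
    have : (graphPSL : MulAut (Matrix.ProjectiveSpecialLinearGroup ι F)) * graphPSL = 1 :=
      mul_eq_one_iff_eq_inv.2 graphPSL_inv.symm
    rw [sq, grB, mul_assoc, ← mul_assoc graphPSL, graphPSL_diagPSL, mul_assoc, this, mul_one,
      map_mul]
  rw [h1, map_mul, map_inv, inv_mul_eq_one, eq_comm, diagPSL_eq_iff]
  rfl

omit [Finite F] [Nontrivial ι] in
theorem sym_or_skew [Nonempty ι] {B : Matrix ι ι F} (hu : IsUnit B) {c : F} (h : Bᵀ = c • B) :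
    Bᵀ = B ∨ Bᵀ = -B := by
  have h1 : (1 : F) • B = (c ^ 2) • B := by
    rw [sq, mul_smul, ← h, ← transpose_smul, ← h, transpose_transpose, one_smul]
  rcases sq_eq_one_iff_of_ne_zero_aux (smul_inj_of_isUnit hu h1).symm with rfl | rfl
  · exact Or.inl (by rw [h, one_smul])
  · exact Or.inr (by rw [h, neg_smul, one_smul])

theorem grB_ne_one (h3 : ∀ i j : ι, ∃ k, k ≠ i ∧ k ≠ j) (B : GL ι F) : grB B ≠ 1 := fun h =>
  diag_field_ne_graph h3 B 1 (by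
    rw [grB, map_inv, inv_mul_eq_one] at h
    rw [map_one, mul_one, h])

end psl

theorem scalars_subgroupOf_eq {ι : Type} [Fintype ι] [DecidableEq ι] [Nonempty ι]
    {A : Type*} [Group A] {G : Subgroup (GL ι F)} {f : G →* A}
    (h : ∀ g, f g = 1 ↔ ∃ c : F, g.1.1 = c • 1) : f.ker = (Geo.scalars ι F).subgroupOf G := by
  ext g
  rw [MonoidHom.mem_ker, h, mem_subgroupOf, Geo.mem_scalars_iff]
  exact ⟨fun ⟨c, hc⟩ => ⟨Units.mk0 c (GL_smul_one_ne_zero (g := g.1) hc), hc⟩,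
    fun ⟨c, hc⟩ => ⟨c, hc⟩⟩

variable {n : ℕ}

theorem isGraphAutClassPSL_iff {γ : MulAut (Matrix.ProjectiveSpecialLinearGroup (Fin n) F)} :
    IsGraphAutClassPSL γ ↔ 3 ≤ n ∧ ∃ B, γ = grB B := by
  refine and_congr_right fun _ => ⟨?_, ?_⟩
  · rintro ⟨δ, ι, hδ, hι, rfl⟩
    obtain ⟨g, rfl⟩ := isInnerDiagonalAutPSL_iff.1 hδ
    rw [isInverseTransposeAutPSL_iff.1 hι]
    exact ⟨g⁻¹, by rw [grB, inv_inv]⟩
  · rintro ⟨B, rfl⟩
    exact ⟨_, _, isInnerDiagonalAutPSL_iff.2 ⟨_, rfl⟩, isInverseTransposeAutPSL_iff.2 rfl, rfl⟩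

def grFamPSL [Finite F] (hn : 3 ≤ n) :
    GrFam (inndiagPSL n F) (fun γ => IsGraphAutClassPSL γ ∧ orderOf γ = 2) n F :=
  haveI : Nontrivial (Fin n) := Fin.nontrivial_iff_two_le.2 (by omega)
  { rel := fun γ B => γ = grB B
    ex1 := by
      rintro γ ⟨h1, h2⟩
      obtain ⟨-, B, rfl⟩ := isGraphAutClassPSL_iff.1 h1
      obtain ⟨c, hc⟩ := grB_sq_iff.1 (h2 ▸ pow_orderOf_eq_one (grB B))
      exact ⟨B, rfl, sym_or_skew B.isUnit hc⟩
    ex2 := fun B hB => ⟨grB B, ⟨isGraphAutClassPSL_iff.2 ⟨hn, B, rfl⟩,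
      orderOf_eq_prime (grB_sq_iff.2 (hB.elim (fun h => ⟨1, by rw [h, one_smul]⟩)
        fun h => ⟨-1, by rw [h, neg_smul, one_smul]⟩)) (grB_ne_one (fin_three_ex hn) B)⟩, rfl⟩
    cent := by
      rintro _ B rfl
      exact nonempty_equiv_quot (diagPSL.comp (SimG B.1).subtype) _
        (by rw [inndiagPSL_eq, grB_centralizer, MonoidHom.range_comp, range_subtype]) _
        (scalars_subgroupOf_eq fun g => diagPSL_eq_one_iff)
    conj := by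
      rintro _ B _ B' rfl rfl
      rw [inndiagPSL_eq, grB_conj_iff] }

theorem split_grB [Finite F] (hn : 2 ≤ n) (B : GL (Fin n) F) :
    splitClassCount (inndiagPSL n F) (Inn (Matrix.ProjectiveSpecialLinearGroup (Fin n) F))
      (grB B) = ((powMonoidHom n : Fˣ →* Fˣ).range ⊔
        (SimG B.1).map Matrix.GeneralLinearGroup.det).index := by
  haveI : Nontrivial (Fin n) := Fin.nontrivial_iff_two_le.2 hn
  rw [inndiagPSL_eq, split_abstract _ _ Matrix.GeneralLinearGroup.det_surjective _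
    inn_le_diagPSL_range _ (fun g => diagPSL_mem_inn_iff) _ _ (grB_centralizer B),
    Fintype.card_fin]

theorem mem_map_det_SimG {ι : Type} [Fintype ι] [DecidableEq ι] {B : Matrix ι ι F} {d : Fˣ} :
    d ∈ (SimG B).map Matrix.GeneralLinearGroup.det ↔ ∃ c, c ≠ 0 ∧ MD (bf B) c d := by
  constructor
  · rintro ⟨g, ⟨c, hc⟩, rfl⟩
    exact ⟨c, c.ne_zero, g, hc, rfl⟩
  · rintro ⟨c, hc, g, hg, hd⟩
    exact ⟨g, ⟨Units.mk0 c hc, hg⟩, Units.ext hd⟩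

theorem exists_root_of_sq [Finite F] {c d : F} (hc : c ≠ 0) (h : d ^ 2 = c ^ n)
    (hn : Odd n ∨ (2 : F) = 0) : ∃ x : F, c = x ^ 2 ∧ d = x ^ n := by
  rcases hn with ⟨k, rfl⟩ | h2
  · have h1 : c = (d / c ^ k) ^ 2 := by rw [div_pow, h]; field_simp; ring
    refine ⟨d / c ^ k, h1, ?_⟩
    rw [pow_succ, pow_mul, ← h1]; field_simp
  · haveI := CharTwo.of_one_ne_zero_of_two_eq_zero (R := F) one_ne_zero h2
    obtain ⟨x, rfl⟩ := isSquare_of_two_eq_zero h2 c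
    exact ⟨x, (sq x).symm, sq_inj_two (by rw [h]; ring)⟩

section cyc
variable {G : Type*} [CommGroup G] [Finite G] [IsCyclic G]

theorem cyc_index_pow (a : ℕ) : (powMonoidHom a : G →* G).range.index = Nat.gcd a (Nat.card G) := by
  have := cyc_index_sup (G := G) a a
  rwa [sup_idem, Nat.gcd_self, Nat.gcd_comm] at this

theorem cyc_split_le {n : ℕ} {S : Subgroup G} (h : S ≤ (powMonoidHom n : G →* G).range) :
    ((powMonoidHom n : G →* G).range ⊔ S).index = Nat.gcd n (Nat.card G) := by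
  rw [sup_eq_left.2 h, cyc_index_pow]

theorem cyc_split_alt {m : ℕ} {S : Subgroup G} (h : ∀ d, d ∈ S ↔ ∃ c, d = c ^ m) :
    ((powMonoidHom (2 * m) : G →* G).range ⊔ S).index = Nat.gcd m (Nat.card G) := by
  have : S = (powMonoidHom m : G →* G).range := by
    ext d; rw [h]; exact exists_congr fun c => eq_comm
  rw [this, cyc_index_sup, Nat.gcd_eq_right (dvd_mul_left m 2), Nat.gcd_comm]

theorem cyc_split_sym {m : ℕ} {z : G} (hz : orderOf z = 2) {S : Subgroup G}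
    (h : ∀ d, d ∈ S ↔ ∃ c, d = c ^ m ∨ d = z * c ^ m) :
    ((powMonoidHom (2 * m) : G →* G).range ⊔ S).index = Nat.gcd (2 * m) (Nat.card G) / 2 := by
  have hz2 : z * z = 1 := by rw [← sq, ← hz, pow_orderOf_eq_one]
  have h1 : (powMonoidHom (2 * m) : G →* G).range ⊔ S =
      (powMonoidHom m : G →* G).range ⊔ zpowers z := by
    apply le_antisymm
    · refine sup_le ?_ fun d hd => ?_
      · rintro _ ⟨c, rfl⟩
        exact mem_sup_left ⟨c ^ 2, (pow_mul c 2 m).symm⟩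
      · obtain ⟨c, rfl | rfl⟩ := (h d).1 hd
        · exact mem_sup_left ⟨c, rfl⟩
        · exact mul_mem (mem_sup_right (mem_zpowers z)) (mem_sup_left ⟨c, rfl⟩)
    · refine sup_le ?_ ?_
      · rintro _ ⟨c, rfl⟩
        exact mem_sup_right ((h _).2 ⟨c, Or.inl rfl⟩)
      · rw [zpowers_le]
        exact mem_sup_right ((h _).2 ⟨1, Or.inr (by simp)⟩)
  rw [h1, cyc_index_sup' _ rfl (by rw [Nat.card_zpowers, hz])]
  obtain ⟨k, hk⟩ : 2 ∣ Nat.card G := hz ▸ orderOf_dvd_natCard z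
  rw [hk, Nat.gcd_mul_left, Nat.mul_div_cancel_left _ two_pos, Nat.mul_div_cancel_left _ two_pos]

end cyc

theorem two_ne_zero_iff_odd {F : Type*} [Field F] [Fintype F] {p f : ℕ} [Fact p.Prime]
    (hF : Fintype.card F = p ^ f) (hf : 1 ≤ f) : (2 : F) ≠ 0 ↔ Odd p :=
  ⟨fun h => (Nat.odd_pow_iff (by omega)).1 (hF ▸ odd_of_two_ne_zero h),
    fun h => two_ne_zero_of_odd (hF ▸ h.pow)⟩

end CfsgH7
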