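import Cfsg.Agent.H7.OProp
import Cfsg.Agent.H8.BaseChange

set_option autoImplicit false

namespace CfsgH7

open CfsgH8 hiding map_mul map_one
open QuadraticMap hiding map_add map_sub map_smul map_zero map_neg sq
open Module Subgroup

variable {F₀ V₀ V₀' F V : Type*} [Field F₀] [AddCommGroup V₀] [Module F₀ V₀] [AddCommGroup V₀']
  [Module F₀ V₀'] [Field F] [AddCommGroup V] [Module F V]

/-- `Q` is (a multiple of) the extension of scalars of `Q₀` -/
structure BC (ε : F₀ →+* F) (Q₀ : QuadraticForm F₀ V₀) (Q : QuadraticForm F V) where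
  j : V₀ →+ V
  y : Fˣ
  smul : ∀ a v, j (a • v) = ε a • j v
  hQ : ∀ v, ε (Q₀ v) = y * Q (j v)
  span : Submodule.span F (Set.range j) = ⊤
  fin : FiniteDimensional F₀ V₀
  rank : finrank F V = finrank F₀ V₀

namespace BC

variable {ε : F₀ →+* F} {Q₀ : QuadraticForm F₀ V₀} {Q₀' : QuadraticForm F₀ V₀'}
  {Q : QuadraticForm F V} (B : BC ε Q₀ Q)

theorem induction {P : V → Prop} (h1 : ∀ v, P (B.j v)) (h2 : ∀ x y, P x → P y → P (x + y))
    (h3 : ∀ (a : F) x, P x → P (a • x)) (x : V) : P x := by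
  have hx : x ∈ Submodule.span F (Set.range B.j) := by rw [B.span]; trivial
  induction hx using Submodule.span_induction with
  | mem y hy => obtain ⟨v, rfl⟩ := hy; exact h1 v
  | zero => simpa using h1 0
  | add y z _ _ hy hz => exact h2 y z hy hz
  | smul c y _ hy => exact h3 c y hy

theorem j_sum {ι : Type*} [Fintype ι] (b₀ : Basis ι F₀ V₀) (v : V₀) :
    B.j v = ∑ i, ε (b₀.repr v i) • B.j (b₀ i) := by
  conv_lhs => rw [← b₀.sum_repr v, map_sum]
  simp only [B.smul]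

/-- the basis obtained by extension of scalars -/
noncomputable def basis {ι : Type*} [Fintype ι] (b₀ : Basis ι F₀ V₀) : Basis ι F V :=
  basisOfTopLeSpanOfCardEqFinrank (fun i => B.j (b₀ i)) (by
    rw [← B.span, Submodule.span_le]
    rintro _ ⟨v, rfl⟩
    rw [B.j_sum b₀]
    exact Submodule.sum_mem _ fun i _ => Submodule.smul_mem _ _ (Submodule.subset_span ⟨i, rfl⟩))
    (by rw [B.rank, finrank_eq_card_basis b₀])

theorem basis_apply {ι : Type*} [Fintype ι] (b₀ : Basis ι F₀ V₀) (i : ι) :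
    B.basis b₀ i = B.j (b₀ i) := by
  rw [basis, coe_basisOfTopLeSpanOfCardEqFinrank]

theorem repr_j {ι : Type*} [Fintype ι] (b₀ : Basis ι F₀ V₀) (v : V₀) (i : ι) :
    (B.basis b₀).repr (B.j v) i = ε (b₀.repr v i) := by
  rw [B.j_sum b₀]
  simp only [← B.basis_apply]
  exact congrFun ((B.basis b₀).repr_sum_self _) i

include B in
theorem finV : FiniteDimensional F V :=
  haveI := B.fin
  Module.Finite.of_basis (B.basis (finBasis F₀ V₀))

theorem inj : Function.Injective B.j := fun u v h => by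
  haveI := B.fin
  refine (finBasis F₀ V₀).ext_elem fun i => ε.injective ?_
  rw [← B.repr_j, ← B.repr_j, h]

theorem polar_j (u v : V₀) : ε (polar Q₀ u v) = B.y * polar Q (B.j u) (B.j v) := by
  simp only [polar, map_sub, B.hQ, map_add]; ring

include B in
theorem nd (hQ : ND Q) : ND Q₀ := ND.of_forall fun u hu => B.inj (by
  rw [map_zero]
  refine hQ.eq_zero (B.induction (fun v => ?_) (fun x y hx hy => by rw [polar_add_right, hx, hy, add_zero])
    fun a x hx => by rw [polar_sr, hx, mul_zero])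
  simpa [hu] using B.polar_j u v)

include B in
theorem big [h : Big Q] : Big Q₀ := ⟨B.nd h.nd, B.rank ▸ h.five⟩

theorem Q_ne {v : V₀} (hv : Q₀ v ≠ 0) : Q (B.j v) ≠ 0 := fun h => hv (by simpa [h] using B.hQ v)

theorem gam_ext (hQ : ND Q) [Nontrivial V] {γ δ : Gam Q} (h : γ.σ = δ.σ)
    (h' : ∀ v, γ.T (B.j v) = δ.T (B.j v)) : γ = δ :=
  Gam.ext hQ (B.induction h' (fun x y hx hy => by rw [map_add, map_add, hx, hy])
    fun a x hx => by rw [γ.smul, δ.smul, hx, h])

theorem exists_ext (B' : BC ε Q₀' Q) (e : V₀ ≃ₗ[F₀] V₀') {c : F₀} (hc : c ≠ 0)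
    (he : ∀ v, Q₀' (e v) = c * Q₀ v) :
    ∃ g : Gam Q, g.σ = 1 ∧ (g.c : F) = ε c * B.y / B'.y ∧ ∀ v, g.T (B.j v) = B'.j (e v) := by
  haveI := B.fin
  let b₀ := finBasis F₀ V₀
  let L := (B.basis b₀).equiv (B'.basis (b₀.map e)) (Equiv.refl _)
  have hL : ∀ v, L (B.j v) = B'.j (e v) := fun v => by
    rw [B.j_sum b₀, B'.j_sum (b₀.map e), map_sum]
    refine Finset.sum_congr rfl fun i _ => ?_
    rw [map_smul, ← B.basis_apply, Basis.equiv_apply, B'.basis_apply]
    simp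
  have h1 : ∀ v, Q (B'.j (e v)) = ε c * B.y / B'.y * Q (B.j v) := fun v => by
    have h2 := B'.hQ (e v)
    rw [he, map_mul, B.hQ] at h2
    field_simp
    linear_combination -h2
  refine ⟨SIso.ofSim L (c := ε c * B.y / B'.y) (by simp [hc]) fun x => ?_, rfl, rfl, hL⟩
  refine quad_ext_span (Q := Q.comp L.toLinearMap) (Q' := (ε c * B.y / B'.y) • Q)
    (s := Set.range B.j) ?_ ?_ (by rw [B.span]; trivial)
  · rintro _ ⟨v, rfl⟩
    simpa [hL] using h1 v
  · rintro _ ⟨u, rfl⟩ _ ⟨v, rfl⟩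
    simp only [polar, ← map_add, QuadraticMap.comp_apply, LinearEquiv.coe_coe, hL, h1,
      _root_.smul_apply, smul_eq_mul]

/-- `g` is the extension of scalars of `g₀` -/
structure Rel (g₀ : Gam Q₀) (g : Gam Q) : Prop where
  σ₀ : g₀.σ = 1
  σ : g.σ = 1
  c : (g.c : F) = ε g₀.c
  T : ∀ v, g.T (B.j v) = B.j (g₀.T v)

theorem exists_rel {g₀ : Gam Q₀} (h : g₀.σ = 1) : ∃ g, B.Rel g₀ g := by
  obtain ⟨g, h1, h2, h3⟩ := B.exists_ext B (g₀.lin h) g₀.c.ne_zero (Gam.mapQ_of_lin h)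
  exact ⟨g, h, h1, by simpa using h2, h3⟩

variable {B}

theorem Rel.mul {g₀ h₀ : Gam Q₀} {g h : Gam Q} (H : B.Rel g₀ g) (H' : B.Rel h₀ h) :
    B.Rel (g₀ * h₀) (g * h) :=
  ⟨by simp [H.σ₀, H'.σ₀], by simp [H.σ, H'.σ], by simp [Gam.mul_c, H.σ₀, H.σ, H.c, H'.c],
    fun v => by simp [H.T, H'.T]⟩

theorem Rel.inv {g₀ : Gam Q₀} {g : Gam Q} (H : B.Rel g₀ g) : B.Rel g₀⁻¹ g⁻¹ :=
  ⟨by simp [H.σ₀], by simp [H.σ], by simp [Gam.inv_c, H.σ₀, H.σ, H.c], fun v => by
    apply g.T.injective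
    rw [H.T]; simp⟩

theorem Rel.unique {g₀ : Gam Q₀} {g g' : Gam Q} (H : B.Rel g₀ g) (H' : B.Rel g₀ g') : g = g' :=
  SIso.ext' (B.induction (fun v => by rw [H.T, H'.T])
    (fun x y hx hy => by rw [map_add, map_add, hx, hy])
    fun a x hx => by rw [g.smul, g'.smul, hx, H.σ, H'.σ]) (H.σ.trans H'.σ.symm)
    (Units.ext (H.c.trans H'.c.symm))

theorem Rel.unique₀ {g₀ g₀' : Gam Q₀} {g : Gam Q} (H : B.Rel g₀ g) (H' : B.Rel g₀' g) : g₀ = g₀' :=
  SIso.ext' (fun v => B.inj (by rw [← H.T, ← H'.T])) (H.σ₀.trans H'.σ₀.symm)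
    (Units.ext (ε.injective (H.c.symm.trans H'.c)))

variable (B)

theorem rel_scal (a : F₀ˣ) : B.Rel (scal Q₀ a) (scal Q (Units.map (ε : F₀ →* F) a)) :=
  ⟨rfl, rfl, by simp, fun v => by simp [B.smul]⟩

theorem rel_refl (v : V₀) : B.Rel (ofOG Q₀ (refl Q₀ v)) (ofOG Q (refl Q (B.j v))) :=
  ⟨rfl, rfl, by simp, fun x => by
    rw [ofOG_T, ofOG_T, refl_apply, refl_apply, map_sub, B.smul, map_mul, map_inv₀, B.hQ, B.polar_j]
    congr 2
    rw [mul_inv, mul_mul_mul_comm, inv_mul_cancel₀ B.y.ne_zero, one_mul]⟩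

theorem rel_one : B.Rel 1 1 := ⟨rfl, rfl, by simp, fun _ => rfl⟩

theorem rel_list (vs : List V₀) :
    B.Rel (ofOG Q₀ (vs.map (refl Q₀)).prod) (ofOG Q ((vs.map B.j).map (refl Q)).prod) := by
  induction vs with
  | nil => simpa using B.rel_one
  | cons v vs ih => simpa using (B.rel_refl v).mul ih

theorem list_prod (vs : List V₀) :
    ε (vs.map Q₀).prod = B.y ^ vs.length * ((vs.map B.j).map Q).prod := by
  induction vs with
  | nil => simp
  | cons v vs ih =>
    simp only [List.map_cons, List.prod_cons, map_mul, ih, B.hQ, List.length_cons]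
    ring

theorem exists_rel_ofOG [Finite F] [hB : Big Q] (h₀ : OG Q₀) :
    ∃ h : OG Q, B.Rel (ofOG Q₀ h₀) (ofOG Q h) ∧ dickF h = dickF h₀ ∧
      (dickF h₀ = 1 → (∀ a, IsSquare (ε a)) → spinF h = 1) := by
  haveI := B.big
  haveI := B.fin
  haveI := B.finV
  obtain ⟨vs, hvs, rfl⟩ := exists_list (B.nd hB.nd) Big.good h₀
  have hvs' : ∀ v ∈ vs.map B.j, Q v ≠ 0 := by
    intro v hv
    obtain ⟨w, hw, rfl⟩ := List.mem_map.1 hv
    exact B.Q_ne (hvs w hw)
  refine ⟨_, B.rel_list vs, ?_, fun h1 h2 => ?_⟩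
  · rw [dickF_list hB.nd _ hvs', dickF_list (B.nd hB.nd) _ hvs, List.length_map]
  · rw [dickF_eq_one_iff, even_movS_list (B.nd hB.nd) _ hvs] at h1
    obtain ⟨k, hk⟩ := h1
    rw [spinF_list hB.nd _ hvs', ← chi_sq_mul (pow_ne_zero k B.y.ne_zero), ← pow_mul, mul_two, ← hk,
      ← B.list_prod, chi_eq_one_iff]
    exact h2 _

variable {B}

theorem Rel.detG {g₀ : Gam Q₀} {g : Gam Q} (H : B.Rel g₀ g) : detG g = ε (detG g₀) := by
  haveI := B.fin
  let b₀ := finBasis F₀ V₀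
  rw [detG_eq H.σ (g.lin H.σ).toLinearMap fun _ => rfl,
    detG_eq H.σ₀ (g₀.lin H.σ₀).toLinearMap fun _ => rfl, ← LinearMap.det_toMatrix (B.basis b₀),
    ← LinearMap.det_toMatrix b₀, RingHom.map_det]
  congr 1
  ext i k
  simp [LinearMap.toMatrix_apply, B.basis_apply, H.T, B.repr_j]

theorem Rel.mem_Dg_iff [Finite F₀] [Finite F] [hB : Big Q] [Big Q₀] {g₀ : Gam Q₀} {g : Gam Q}
    (H : B.Rel g₀ g) : g ∈ Dg Q ↔ g₀ ∈ Dg Q₀ := by
  rcases Nat.even_or_odd (finrank F V) with hn | hn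
  swap
  · rw [mem_Dg_odd hn, mem_Dg_odd (B.rank ▸ hn)]
    simp [H.σ, H.σ₀]
  have e2 : (2 : F) = 0 ↔ (2 : F₀) = 0 := by rw [← map_ofNat ε 2, map_eq_zero]
  by_cases h2 : (2 : F₀) = 0
  · obtain ⟨a, k, rfl⟩ := exists_scal_mul_ofOG H.σ₀ (isSquare_of_two_eq_zero h2 _)
    obtain ⟨h, h1, h3, -⟩ := B.exists_rel_ofOG k
    rw [H.unique ((B.rel_scal a).mul h1), scal_mul_mem_Dg_iff hn, scal_mul_mem_Dg_iff (B.rank ▸ hn),
      h3]
  · rw [mem_Dg, mem_Dg, H.detG, H.c, ← map_pow, ε.injective.eq_iff, ← B.rank]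
    simp [H.σ, H.σ₀, h2, e2]

variable (B)

/-- extension of scalars as a homomorphism -/
noncomputable def emb (K : Subgroup (Gam Q₀)) (hK : ∀ g ∈ K, SIso.σ g = 1) : K →* Gam Q :=
  MonoidHom.mk' (fun g => (B.exists_rel (hK g.1 g.2)).choose) fun g h =>
    (B.exists_rel (hK _ (g * h).2)).choose_spec.unique
      ((B.exists_rel (hK _ g.2)).choose_spec.mul (B.exists_rel (hK _ h.2)).choose_spec)

theorem rel_emb (K : Subgroup (Gam Q₀)) (hK : ∀ g ∈ K, SIso.σ g = 1) (g : K) :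
    B.Rel g.1 (B.emb K hK g) := (B.exists_rel (hK g.1 g.2)).choose_spec

/-- extension of scalars of a subspace -/
def up (U : Submodule F₀ V₀) : Submodule F V := Submodule.span F (B.j '' U)

theorem mem_up {U : Submodule F₀ V₀} {v : V₀} (h : v ∈ U) : B.j v ∈ B.up U :=
  Submodule.subset_span ⟨v, h, rfl⟩

theorem finrank_up_le (U : Submodule F₀ V₀) : finrank F (B.up U) ≤ finrank F₀ U := by
  haveI := B.fin
  haveI := B.finV
  let b := finBasis F₀ U
  refine (Submodule.finrank_mono (t := Submodule.span F (Set.range fun i => B.j (b i))) ?_).trans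
    ((finrank_range_le_card _).trans (by simp))
  rw [up, Submodule.span_le]
  rintro _ ⟨v, hv, rfl⟩
  have : v = ∑ i, b.repr ⟨v, hv⟩ i • (b i : V₀) := by
    have := congrArg Subtype.val (b.sum_repr ⟨v, hv⟩)
    rw [Submodule.coe_sum] at this
    exact this.symm
  rw [this, map_sum]
  refine Submodule.sum_mem _ fun i _ => ?_
  rw [B.smul]
  exact Submodule.smul_mem _ _ (Submodule.subset_span ⟨i, rfl⟩)

theorem finrank_up (U : Submodule F₀ V₀) : finrank F (B.up U) = finrank F₀ U := by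
  haveI := B.fin
  haveI := B.finV
  obtain ⟨W, hW⟩ := U.exists_isCompl
  have h1 : B.up U ⊔ B.up W = ⊤ := by
    rw [eq_top_iff, ← B.span, Submodule.span_le]
    rintro _ ⟨v, rfl⟩
    obtain ⟨a, ha, b, hb, rfl⟩ := Submodule.mem_sup.1 (hW.sup_eq_top ▸ Submodule.mem_top (x := v))
    rw [map_add]
    exact Submodule.add_mem_sup (B.mem_up ha) (B.mem_up hb)
  have h2 := Submodule.finrank_sup_add_finrank_inf_eq (B.up U) (B.up W)
  rw [h1, finrank_top, B.rank] at h2
  have h3 := Submodule.finrank_add_eq_of_isCompl hW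
  have h4 := B.finrank_up_le U
  have h5 := B.finrank_up_le W
  omega

theorem TS_up {U : Submodule F₀ V₀} (hU : TS Q₀ U) : TS Q (B.up U) := by
  refine TS.span ?_ ?_
  · rintro _ ⟨v, hv, rfl⟩
    simpa [hU v hv] using B.hQ v
  · rintro _ ⟨u, hu, rfl⟩ _ ⟨v, hv, rfl⟩
    simpa [hU.polar hu hv] using B.polar_j u v

theorem MTS_up {U : Submodule F₀ V₀} (hU : MTS Q₀ U) : MTS Q (B.up U) :=
  ⟨B.TS_up hU.1, by rw [B.finrank_up, B.rank, hU.2]⟩

/-- change of the small form along a similarity -/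
def comp (e : V₀' ≃ₗ[F₀] V₀) {c : F₀} (hc : c ≠ 0) (he : ∀ v, Q₀' v = c * Q₀ (e v)) :
    BC ε Q₀' Q where
  j := B.j.comp e.toAddMonoidHom
  y := Units.mk0 (ε c) (by simpa) * B.y
  smul a v := by simp [B.smul]
  hQ v := by simp [he, B.hQ, mul_assoc]
  span := by
    rw [← B.span]
    congr 1
    exact e.surjective.range_comp _
  fin := haveI := B.fin; Module.Finite.equiv e.symm
  rank := B.rank.trans e.finrank_eq.symm

end BC

/-- the standard extension of scalars in coordinates -/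
def stdBC {ι : Type} [Fintype ι] [DecidableEq ι] (ε : F₀ →+* F) {Q₀ : QuadraticForm F₀ (ι → F₀)}
    {Q : QuadraticForm F (ι → F)} (h : ∀ v, Q (ε ∘ v) = ε (Q₀ v)) : BC ε Q₀ Q where
  j := AddMonoidHom.mk' (fun v => ε ∘ v) fun u v => by ext; simp
  y := 1
  smul a v := by ext; simp
  hQ v := by simp [h]
  span := span_range_comp ε
  fin := inferInstance
  rank := by simp

/-- a descent datum -/
structure Desc (ε : F₀ →+* F) (Q₀ : QuadraticForm F₀ V₀) {Q : QuadraticForm F V} (φ : Gam Q)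
    extends BC ε Q₀ Q where
  fix : ∀ v, φ.T (j v) = j v
  hε : ∀ x, φ.σ x = x ↔ ∃ y, ε y = x

namespace Desc

variable {ε : F₀ →+* F} {Q₀ : QuadraticForm F₀ V₀} {Q₀' : QuadraticForm F₀ V₀'}
  {Q : QuadraticForm F V} {φ : Gam Q} (D : Desc ε Q₀ φ)

theorem exists_j {x : V} (hx : φ.T x = x) : ∃ v, D.j v = x := by
  haveI := D.fin
  let b₀ := finBasis F₀ V₀
  have h1 : ∀ i, φ.σ ((D.basis b₀).repr x i) = (D.basis b₀).repr x i := fun i => by
    conv_rhs => rw [← hx, ← (D.basis b₀).sum_repr x, map_sum]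
    simp only [φ.smul, D.basis_apply, D.fix]
    simp only [← D.basis_apply]
    exact (congrFun ((D.basis b₀).repr_sum_self fun i => φ.σ ((D.basis b₀).repr x i)) i).symm
  choose a ha using fun i => (D.hε _).1 (h1 i)
  refine ⟨∑ i, a i • b₀ i, ?_⟩
  conv_rhs => rw [← (D.basis b₀).sum_repr x]
  simp [map_sum, D.smul, ha, D.basis_apply]

theorem commute_of_rel (hQ : ND Q) [Nontrivial V] {g₀ : Gam Q₀} {g : Gam Q} (H : D.Rel g₀ g) :
    g * φ = φ * g :=
  D.gam_ext hQ (by simp [H.σ]) fun v => by simp [D.fix, H.T]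

theorem rel_of_commute {g : Gam Q} (h : g.σ = 1) (hc : g * φ = φ * g) : ∃ g₀, D.Rel g₀ g := by
  haveI := D.fin
  have h1 : ∀ v, ∃ w, D.j w = g.T (D.j v) := fun v => D.exists_j (by
    rw [← Gam.mul_T, ← hc, Gam.mul_T, D.fix])
  choose f hf using h1
  let L : V₀ →ₗ[F₀] V₀ :=
    { toFun := f
      map_add' := fun u v => D.inj (by simp [hf])
      map_smul' := fun a v => D.inj (by simp [hf, D.smul, Gam.smul_of_lin h]) }
  have hL : Function.Injective L := fun u v e => D.inj (g.T.injective (by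
    rw [← hf, ← hf]; exact congrArg D.j e))
  obtain ⟨c, hc'⟩ := (D.hε g.c).1 (by
    have := congrArg (fun γ : Gam Q => (γ.c : F)) hc
    simp only [Gam.mul_c, h, RingAut.one_apply] at this
    rw [mul_comm] at this
    exact (mul_left_cancel₀ φ.c.ne_zero this).symm)
  have hc0 : c ≠ 0 := by
    rintro rfl
    exact g.c.ne_zero (by simpa using hc'.symm)
  refine ⟨SIso.ofSim (LinearEquiv.ofInjectiveEndo L hL) hc0 fun v => ε.injective ?_, rfl, h,
    hc'.symm, fun v => (hf v).symm⟩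
  change ε (Q₀ (f v)) = _
  rw [D.hQ, hf, Gam.mapQ_of_lin h, map_mul, D.hQ, hc']
  ring

/-- change of the small form along a similarity -/
def comp (e : V₀' ≃ₗ[F₀] V₀) {c : F₀} (hc : c ≠ 0) (he : ∀ v, Q₀' v = c * Q₀ (e v)) :
    Desc ε Q₀' φ where
  toBC := D.toBC.comp e hc he
  fix v := D.fix (e v)
  hε := D.hε

include D in
theorem nonempty_of_iso (h : Iso Q₀' Q₀) : Nonempty (Desc ε Q₀' φ) := by
  obtain ⟨e, he⟩ := h
  exact ⟨D.comp e one_ne_zero fun v => by rw [he, one_mul]⟩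

include D in
theorem exists_conj [Finite F] [hB : Big Q] {φ' : Gam Q} (D' : Desc ε Q₀ φ') (hσ : φ.σ = φ'.σ) :
    ∃ g ∈ Dg Q, g * φ * g⁻¹ = φ' := by
  haveI := D.big
  haveI := Big.nontrivial Q
  haveI := Big.nontrivial Q₀
  obtain ⟨g, h1, -, h3⟩ := D.exists_ext D'.toBC (LinearEquiv.refl _ _) one_ne_zero fun v => by simp
  have h4 : g * φ = φ' * g := D.gam_ext hB.nd (by simp [h1, hσ]) fun v => by
    simp [D.fix, h3, D'.fix]
  obtain ⟨v, hv⟩ := (D.nd hB.nd).exists_nonsing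
  rcases mem_Dg_or h1 (D.Q_ne hv) with h | h
  · exact ⟨g, h, by rw [h4, mul_inv_cancel_right]⟩
  · refine ⟨_, h, ?_⟩
    rw [mul_assoc g, D.commute_of_rel hB.nd (D.rel_refl v), ← mul_assoc, h4]
    group

include D in
theorem cls_eq_one [Big Q] {E : Submodule F V} (hE : MTS Q E) {U : Submodule F₀ V₀}
    (hU : MTS Q₀ U) : cls hE φ = 1 := by
  refine cls_of_fix hE (D.MTS_up hU) fun x hx => ?_
  induction hx using Submodule.span_induction with
  | mem y hy =>
    obtain ⟨v, hv, rfl⟩ := hy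
    rw [D.fix]; exact D.mem_up hv
  | zero => simp
  | add y z _ _ hy hz => rw [map_add]; exact add_mem hy hz
  | smul c y _ hy => rw [φ.smul]; exact Submodule.smul_mem _ _ hy

include D in
theorem exists_TS_succ [Finite F] [hB : Big Q] {E : Submodule F V} (hE : MTS Q E)
    (hφ : φ ^ orderOf φ.σ = 1) (h : cls hE φ = 1) {U : Submodule F₀ V₀} (hU : TS Q₀ U)
    (hr : 2 * finrank F₀ U + 2 = finrank F₀ V₀) : ∃ W, MTS Q₀ W := by
  haveI := D.fin
  haveI := D.finV
  have hst : ∀ x ∈ D.up U, φ.T x ∈ D.up U := fun x hx => by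
    induction hx using Submodule.span_induction with
    | mem y hy =>
      obtain ⟨v, hv, rfl⟩ := hy
      rw [D.fix]; exact D.mem_up hv
    | zero => simp
    | add y z _ _ hy hz => rw [map_add]; exact add_mem hy hz
    | smul c y _ hy => rw [φ.smul]; exact Submodule.smul_mem _ _ hy
  obtain ⟨X, h1, h2, h3⟩ := exists_max_TS_ge (D.TS_up hU)
  have h4 := hE.1.finrank_le_of_max hB.nd h2 h3
  have h5 := two_mul_finrank_le hB.nd h2.le_perp
  have h6 := hE.2
  have hX : MTS Q X := ⟨h2, by omega⟩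
  have h7 := D.finrank_up U
  have h8 := D.rank
  rw [cls_eq hE hX, par_eq_one_iff] at h
  have h9 : D.up U ≤ X ⊓ φ.mapS X := le_inf h1 (by
    rw [← mapS_eq_self hst]
    exact fun x hx => h1 hx)
  have h10 := Submodule.finrank_mono h9
  have h11 : finrank F ↥(X ⊓ φ.mapS X) ≤ finrank F X := Submodule.finrank_mono inf_le_left
  have h12 : X ⊓ φ.mapS X = φ.mapS X := Submodule.eq_of_le_of_finrank_eq inf_le_right (by
    rw [φ.finrank_mapS]
    obtain ⟨k, hk⟩ := h
    omega)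
  have hXst : ∀ x ∈ X, φ.T x ∈ X := fun x hx =>
    (h12.ge (φ.T_mem_mapS.2 hx)).1
  have h13 := span_fixed_eq_top φ.σ (V := X)
    (AddMonoidHom.mk' (fun x => ⟨φ.T x, hXst x x.2⟩) fun x y => Subtype.ext (by simp))
    (fun a x => Subtype.ext (φ.smul a x)) fun x => Subtype.ext (by
      have : ∀ k, (((AddMonoidHom.mk' (fun x : X => (⟨φ.T x, hXst x x.2⟩ : X))
          fun x y => Subtype.ext (by simp))^[k] x : X) : V) = φ.T^[k] x := fun k => by
        induction k with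
        | zero => rfl
        | succ k ih => rw [Function.iterate_succ_apply', Function.iterate_succ_apply', ← ih]; rfl
      rw [this, ← Gam.pow_T, hφ, Gam.one_T])
  obtain ⟨x, hx, hxU⟩ : ∃ x : X, φ.T x = x ∧ (x : V) ∉ D.up U := by
    by_contra hc
    push Not at hc
    have : X ≤ D.up U := fun x hx => by
      have hm : (⟨x, hx⟩ : X) ∈ (D.up U).comap X.subtype :=
        (Submodule.span_le.2 fun y hy => hc y (congrArg Subtype.val hy)) (h13 ▸ Submodule.mem_top)
      exact hm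
    have := Submodule.finrank_mono this
    omega
  obtain ⟨v, hv⟩ := D.exists_j hx
  have hvU : v ∉ U := fun h => hxU (hv ▸ D.mem_up h)
  have hTS : TS Q₀ (U ⊔ F₀ ∙ v) := by
    refine hU.sup (TS.span_singleton (ε.injective (by rw [D.hQ, hv, h2 _ x.2]; simp))) fun u hu => ?_
    rw [mem_perp_span_singleton]
    apply ε.injective
    rw [D.polar_j, hv, h2.polar x.2 (h1 (D.mem_up hu))]
    simp
  refine ⟨_, hTS, ?_⟩
  rw [Submodule.finrank_sup_span_singleton hvU]
  omega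

end Desc

theorem exists_desc [Finite F] [FiniteDimensional F V] {Q : QuadraticForm F V} {φ : Gam Q}
    (hφ : φ ^ orderOf φ.σ = 1) (ε : F₀ →+* F) (hε : ∀ x, φ.σ x = x ↔ ∃ y, ε y = x) :
    ∃ Q₀ : QuadraticForm F₀ (Fin (finrank F V) → F₀), Nonempty (Desc ε Q₀ φ) := by
  have h1 := span_fixed_eq_top φ.σ (φ.T : V →+ V) φ.smul fun x => by
    change φ.T^[_] x = x
    rw [← Gam.pow_T, hφ, Gam.one_T]
  obtain ⟨s, hs, hspan, hli⟩ := exists_linearIndependent F {v | (φ.T : V →+ V) v = v}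
  let b' : Basis s F V := Basis.mk hli (by
    rw [Subtype.range_coe_subtype]
    exact (hspan.trans h1).ge)
  haveI : Fintype s := FiniteDimensional.fintypeBasisIndex b'
  let b := b'.reindex (Fintype.equivFinOfCardEq (finrank_eq_card_basis b').symm)
  have hb : ∀ i, φ.T (b i) = b i := fun i => by
    simp only [b, Basis.reindex_apply, b', Basis.mk_apply]
    exact hs (Subtype.prop _)
  obtain ⟨x, hx0, hx⟩ := hilbert90_field φ.σ (c := φ.c) (by rw [← Gam.pow_c, hφ]; simp)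
  let j : (Fin (finrank F V) → F₀) →+ V := AddMonoidHom.mk' (fun v => ∑ i, ε (v i) • b i)
    fun u v => by simp [add_smul, Finset.sum_add_distrib]
  have hj : ∀ v, j v = ∑ i, ε (v i) • b i := fun _ => rfl
  have hsm : ∀ (a : F₀) v, j (a • v) = ε a • j v := fun a v => by
    simp [hj, Finset.smul_sum, mul_smul]
  have hfix : ∀ v, φ.T (j v) = j v := fun v => by
    simp [hj, map_sum, φ.smul, hb, (hε _).2 ⟨_, rfl⟩]
  choose q hq using fun v => (hε (x⁻¹ * Q (j v))).1 (by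
    have := φ.mapQ (j v)
    rw [hfix] at this
    have h0 : φ.σ x ≠ 0 := by simpa using hx0
    rw [map_mul, map_inv₀]
    conv_rhs => rw [this, ← hx]
    field_simp)
  have hp : ∀ u v, ε (polar q u v) = x⁻¹ * polar Q (j u) (j v) := fun u v => by
    simp only [polar, map_sub, hq, map_add]; ring
  refine ⟨QuadraticMap.ofPolar q (fun a v => ε.injective ?_) (fun u v w => ε.injective ?_)
    (fun a u v => ε.injective ?_), ⟨⟨⟨j, Units.mk0 x⁻¹ (inv_ne_zero hx0), hsm, hq, ?_,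
      inferInstance, by simp⟩, hfix, hε⟩⟩⟩
  · rw [hq, hsm, Q_smul, smul_eq_mul, map_mul, map_mul, hq]; ring
  · rw [map_add, hp, hp, hp, map_add, polar_add_left, mul_add]
  · rw [smul_eq_mul, map_mul, hp, hp, hsm, polar_sl]; ring
  · rw [eq_top_iff, ← b.span_eq, Submodule.span_le]
    rintro _ ⟨i, rfl⟩
    exact Submodule.subset_span ⟨Pi.single i 1, by simp [hj, Pi.single_apply, apply_ite]⟩

end CfsgH7
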