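import Cfsg.Agent.H7.ODesc

set_option autoImplicit false

namespace CfsgH7

open CfsgH8 hiding map_mul map_one
open QuadraticMap hiding map_add map_sub map_smul map_zero map_neg sq
open Module Subgroup

section fields

variable {F₀ F : Type*} [Field F₀] [Field F] [Finite F] {σ : F ≃+* F} {ε : F₀ →+* F}

theorem norm_fixed (σ : F ≃+* F) (t : F) :
    σ (∏ i ∈ Finset.range (orderOf σ), (σ ^ i) t) = ∏ i ∈ Finset.range (orderOf σ), (σ ^ i) t := by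
  have h1 := Finset.prod_range_succ' (fun i => (σ ^ i) t) (orderOf σ)
  rw [Finset.prod_range_succ, pow_orderOf_eq_one, pow_zero] at h1
  by_cases ht : t = 0
  · rw [Finset.prod_eq_zero (Finset.mem_range.2 (ringAut_orderOf_pos σ)) (by simp [ht]), map_zero]
  rw [map_prod, mul_right_cancel₀ ht h1]
  exact Finset.prod_congr rfl fun i _ => by rw [pow_succ']; rfl

theorem nonsq_of_odd (hε : ∀ x, σ x = x ↔ ∃ y, ε y = x) (hr : Odd (orderOf σ)) {ν : F₀}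
    (hν : ¬ IsSquare ν) : ¬ IsSquare (ε ν) := by
  rintro ⟨t, ht⟩
  obtain ⟨b, hb⟩ := (hε _).1 (norm_fixed σ t)
  obtain ⟨k, hk⟩ := hr
  have h1 : b * b = ν ^ orderOf σ := ε.injective (by
    rw [map_mul, hb, ← Finset.prod_mul_distrib, map_pow, ← Finset.card_range (orderOf σ),
      ← Finset.prod_const, Finset.card_range]
    exact Finset.prod_congr rfl fun i _ => by
      rw [← map_mul, ← ht, ringAut_pow_fixed ((hε _).2 ⟨_, rfl⟩)])
  have h0 : ν ≠ 0 := by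
    rintro rfl
    exact hν IsSquare.zero
  refine hν ⟨b / ν ^ k, ?_⟩
  rw [hk] at h1
  field_simp
  linear_combination -h1

theorem prod_range_two (h2 : orderOf σ = 2) (t : F) :
    ∏ i ∈ Finset.range (orderOf σ), (σ ^ i) t = t * σ t := by
  simp [h2, Finset.prod_range_succ]

theorem exists_skew (hε : ∀ x, σ x = x ↔ ∃ y, ε y = x) (h2 : orderOf σ = 2) (hF : (2 : F) ≠ 0) :
    ∃ (s : Fˣ) (ν : F₀), σ s = -s ∧ ε ν = s ^ 2 ∧ ¬ IsSquare ν := by
  obtain ⟨s, hs0, hs⟩ := hilbert90_field σ (c := -1) (by rw [prod_range_two h2]; simp)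
  have hs' : σ s = -s := by linear_combination -hs
  obtain ⟨ν, hν⟩ := (hε (s ^ 2)).1 (by rw [map_pow, hs']; ring)
  refine ⟨Units.mk0 s hs0, ν, hs', hν, ?_⟩
  rintro ⟨b, rfl⟩
  have h3 := (hε (ε b)).2 ⟨b, rfl⟩
  rw [map_mul, ← sq, sq_eq_sq_iff_eq_or_eq_neg] at hν
  refine mul_ne_zero hF hs0 ?_
  rcases hν with h | h
  · rw [h] at h3; linear_combination hs' - h3
  · rw [h, map_neg] at h3; linear_combination hs' + h3

theorem isSquare_of_two [Finite F₀] (hε : ∀ x, σ x = x ↔ ∃ y, ε y = x) (h2 : orderOf σ = 2)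
    (a : F₀) : IsSquare (ε a) := by
  by_cases hF : (2 : F) = 0
  · exact isSquare_of_two_eq_zero hF _
  obtain ⟨s, ν, -, h3, h4⟩ := exists_skew hε h2 hF
  by_cases ha : IsSquare a
  · exact ha.map ε
  have h0 : ∀ x : F₀, ¬ IsSquare x → x ≠ 0 := by
    rintro x hx rfl
    exact hx IsSquare.zero
  obtain ⟨c, -, rfl⟩ := exists_sq_mul_of_chi (h0 ν h4) (h0 a ha)
    (by rw [chi_eq_neg_one_iff.2 h4, chi_eq_neg_one_iff.2 ha])
  exact ⟨ε c * s, by rw [map_mul, h3, map_pow]; ring⟩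

theorem chi_eq_of_norm [Finite F₀] (hε : ∀ x, σ x = x ↔ ∃ y, ε y = x) (h2 : orderOf σ = 2)
    {t : F} (ht : t ≠ 0) {a : F₀} (ha : ε a = t * σ t) : chi t = chi a := by
  have hσ : ∀ x, σ (σ x) = x := fun x => by
    have := pow_orderOf_eq_one σ
    rw [h2, sq] at this
    exact RingEquiv.congr_fun this x
  suffices h : IsSquare t ↔ IsSquare a by
    by_cases h1 : IsSquare t
    · rw [chi_eq_one_iff.2 h1, chi_eq_one_iff.2 (h.1 h1)]
    · rw [chi_eq_neg_one_iff.2 h1, chi_eq_neg_one_iff.2 (mt h.2 h1)]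
  constructor
  · rintro ⟨u, rfl⟩
    obtain ⟨b, hb⟩ := (hε (u * σ u)).1 (by rw [map_mul, hσ, mul_comm])
    exact ⟨b, ε.injective (by rw [ha, map_mul, map_mul, hb]; ring)⟩
  · rintro ⟨b, rfl⟩
    obtain ⟨w, hw⟩ := exists_norm_eq σ ((hε _).2 ⟨b, rfl⟩)
    rw [prod_range_two h2] at hw
    have h0 : w * σ w ≠ 0 := by
      rw [hw]
      intro h
      rw [map_mul, h, zero_mul] at ha
      exact mul_ne_zero ht (by simpa using ht) ha.symm
    obtain ⟨hw0, hw1⟩ := mul_ne_zero_iff.1 h0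
    obtain ⟨x, hx0, hx⟩ := hilbert90_field σ (c := t / w ^ 2) (by
      rw [prod_range_two h2, map_div₀, map_pow]
      rw [map_mul, ← hw] at ha
      field_simp
      linear_combination -ha)
    obtain ⟨d, hd⟩ := (hε (x * σ x)).1 (by rw [map_mul, hσ, mul_comm])
    obtain ⟨e, he⟩ := isSquare_of_two hε h2 d
    have hx1 : σ x ≠ 0 := by simpa using hx0
    have he0 : e ≠ 0 := by
      rintro rfl
      exact mul_ne_zero hx0 hx1 (by rw [← hd, he, mul_zero])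
    refine ⟨w * x / e, ?_⟩
    field_simp at hx ⊢
    rw [sq e, ← he, hd]
    linear_combination x * hx

end fields

variable {F₀ V₀ F V : Type*} [Field F₀] [AddCommGroup V₀] [Module F₀ V₀] [Field F] [AddCommGroup V]
  [Module F V] {Q : QuadraticForm F V}

/-- semisimilarities of field type -/
def FT (φ : Gam Q) : Prop := φ ^ orderOf φ.σ = 1

theorem FT.conj [Finite F] {φ : Gam Q} (h : FT φ) (γ : Gam Q) : FT (γ * φ * γ⁻¹) := by
  have : (γ * φ * γ⁻¹).σ = φ.σ := by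
    rw [Gam.mul_σ, Gam.mul_σ, ringAut_comm γ.σ, Gam.inv_σ, mul_inv_cancel_right]
  rw [FT, this, conj_pow, h, mul_one, mul_inv_cancel]

theorem scal_injective [Nontrivial V] : Function.Injective (scal Q) := fun a b h => by
  obtain ⟨v, hv⟩ := exists_ne (0 : V)
  exact Units.ext (smul_left_injective F hv (congrArg (fun γ : Gam Q => γ.T v) h))

theorem scal_mul_pow_T (b : Fˣ) (γ : Gam Q) (k : ℕ) (x : V) :
    ((scal Q b * γ) ^ k).T x = (∏ i ∈ Finset.range k, (γ.σ ^ i) b) • (γ ^ k).T x := by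
  induction k generalizing x with
  | zero => simp
  | succ k ih =>
    rw [pow_succ, Gam.mul_T, ih, Gam.mul_T, scal_T, SIso.smul, Gam.pow_σ, smul_smul,
      Finset.prod_range_succ, pow_succ, Gam.mul_T]

theorem exists_FT [Finite F] [hB : Big Q] {γ : Gam Q} {a : Fˣ} (h : γ ^ orderOf γ.σ = scal Q a) :
    ∃ b, FT (scal Q b * γ) := by
  haveI := Big.nontrivial Q
  have h1 : γ.σ a = a := by
    have := conj_scal γ a
    rw [← h, ← (Commute.self_pow γ _).eq.symm, mul_inv_cancel_right, h] at this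
    exact (congrArg Units.val (scal_injective this)).symm
  obtain ⟨x, hx⟩ := exists_norm_eq γ.σ h1
  have hx0 : x ≠ 0 := by
    rintro rfl
    exact a.ne_zero (by
      rw [← hx]
      exact Finset.prod_eq_zero (Finset.mem_range.2 (ringAut_orderOf_pos _)) (by simp))
  refine ⟨(Units.mk0 x hx0)⁻¹, Gam.ext hB.nd fun v => ?_⟩
  rw [Gam.mul_σ, scal_σ, one_mul, scal_mul_pow_T, h, scal_T, smul_smul, ← hx,
    ← Finset.prod_mul_distrib, Finset.prod_eq_one, one_smul, Gam.one_T]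
  intro i _
  rw [← map_mul]
  simp [hx0]

theorem exists_scal_commute [Finite F] [hB : Big Q] {φ g : Gam Q} (hφ : FT φ) (hg : g.σ = 1)
    {a : Fˣ} (h : g * φ * g⁻¹ * φ⁻¹ = scal Q a) : ∃ b, scal Q b * g * φ = φ * (scal Q b * g) := by
  haveI := Big.nontrivial Q
  rw [mul_inv_eq_iff_eq_mul] at h
  obtain ⟨v, hv⟩ := exists_ne (0 : V)
  have h1 := scal_mul_pow_T a φ (orderOf φ.σ) v
  rw [← h, conj_pow, hφ, mul_one, mul_inv_cancel, Gam.one_T] at h1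
  obtain ⟨x, hx0, hx⟩ := hilbert90_field φ.σ (c := a)
    (smul_left_injective F hv (by simp only; rw [← h1, one_smul]))
  refine ⟨(Units.mk0 x hx0)⁻¹, ?_⟩
  rw [mul_inv_eq_iff_eq_mul] at h
  rw [mul_assoc, h, ← mul_assoc, ← mul_assoc, ← mul_assoc, mul_scal φ, ← map_mul]
  refine congrArg (fun t => scal Q t * φ * g) (Units.ext ?_)
  have : φ.σ x ≠ 0 := by simpa using hx0
  simp only [Units.val_mul, Units.val_inv_eq_inv_val, Units.val_mk0, Units.coe_map, map_inv]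
  change x⁻¹ * a = (φ.σ x)⁻¹
  field_simp
  exact hx

theorem BC.Rel.scal_iff {ε : F₀ →+* F} {Q₀ : QuadraticForm F₀ V₀} {B : BC ε Q₀ Q} [Nontrivial V₀]
    {g₀ : Gam Q₀} {g : Gam Q} (H : B.Rel g₀ g) : (∃ a, g = scal Q a) ↔ ∃ a, g₀ = scal Q₀ a := by
  constructor
  · rintro ⟨a, rfl⟩
    haveI := B.fin
    let b := finBasis F₀ V₀
    let i : Fin (finrank F₀ V₀) := ⟨0, finrank_pos⟩
    have h1 := congrArg (fun x => (B.basis b).repr x i) (H.T (b i))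
    simp only [scal_T, map_smul, Finsupp.smul_apply, B.repr_j, b.repr_self, Finsupp.single_eq_same,
      map_one, smul_eq_mul, mul_one] at h1
    have h0 : b.repr (g₀.T (b i)) i ≠ 0 := fun h => a.ne_zero (by rw [h1, h, map_zero])
    refine ⟨Units.mk0 _ h0, H.unique₀ ?_⟩
    convert B.rel_scal (Units.mk0 _ h0)
    exact Units.ext h1
  · rintro ⟨a, rfl⟩
    exact ⟨_, H.unique (B.rel_scal a)⟩

section abstract

variable {A : Type*} [Group A] (Φ : Gam Q →* A) (hker : ∀ γ, Φ γ = 1 ↔ ∃ a, γ = scal Q a)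
  [Finite F] [hB : Big Q]

include hker

omit [Finite F] hB in
theorem orderOf_Phi {φ : Gam Q} (hφ : FT φ) : orderOf (Φ φ) = orderOf φ.σ := by
  apply Nat.dvd_antisymm
  · rw [orderOf_dvd_iff_pow_eq_one, ← map_pow, hφ, map_one]
  · rw [orderOf_dvd_iff_pow_eq_one, ← Gam.pow_σ]
    obtain ⟨a, ha⟩ := (hker (φ ^ orderOf (Φ φ))).1 (by rw [map_pow, pow_orderOf_eq_one])
    rw [ha, scal_σ]

theorem coset_std {φ : Gam Q} (hφ : FT φ)
    (h : ∀ g ∈ Dg Q, FT (g * φ) → ∃ k ∈ Dg Q, k * φ * k⁻¹ = g * φ) :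
    ∀ δ ∈ (Dg Q).map Φ, (δ * Φ φ) ^ orderOf (Φ φ) = 1 →
      Cfsg.IsConjUnder ((Dg Q).map Φ) (Φ φ) (δ * Φ φ) := by
  rintro _ ⟨g, hg, rfl⟩ h1
  rw [orderOf_Phi Φ hker hφ, ← map_mul, ← map_pow, hker] at h1
  obtain ⟨a, ha⟩ := h1
  obtain ⟨b, hb⟩ := exists_FT (γ := g * φ) (a := a) (by simpa [hg.1] using ha)
  rw [← mul_assoc] at hb
  obtain ⟨k, hk, e⟩ := h _ (mul_mem (scal_mem_Dg b) hg) hb
  refine ⟨Φ k, ⟨k, hk, rfl⟩, ?_⟩
  rw [← map_inv, ← map_mul Φ k, ← map_mul Φ (k * φ), e, map_mul, map_mul, (hker _).2 ⟨b, rfl⟩,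
    one_mul]

theorem map_inf_centralizer {φ : Gam Q} (hφ : FT φ) :
    (Dg Q).map Φ ⊓ centralizer {Φ φ} = (Dg Q ⊓ centralizer {φ}).map Φ := by
  apply le_antisymm
  · rintro _ ⟨⟨g, hg, rfl⟩, hc⟩
    replace hc := mem_centralizer_singleton_iff.1 hc
    obtain ⟨a, ha⟩ := (hker (g * φ * g⁻¹ * φ⁻¹)).1 (by simp [hc])
    obtain ⟨b, hb⟩ := exists_scal_commute hφ hg.1 ha
    exact ⟨scal Q b * g, ⟨mul_mem (scal_mem_Dg b) hg, mem_centralizer_singleton_iff.2 hb⟩, by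
      rw [map_mul, (hker _).2 ⟨b, rfl⟩, one_mul]⟩
  · rintro _ ⟨g, ⟨hg, hc⟩, rfl⟩
    refine ⟨⟨g, hg, rfl⟩, mem_centralizer_singleton_iff.2 ?_⟩
    rw [← map_mul, mem_centralizer_singleton_iff.1 hc, map_mul]

theorem centralizer_equiv {φ : Gam Q} (hφ : FT φ) {ε : F₀ →+* F} {Q₀ : QuadraticForm F₀ V₀}
    [Finite F₀] [Big Q₀] (D : Desc ε Q₀ φ) {A₀ : Type*} [Group A₀] (Φ₀ : Gam Q₀ →* A₀)
    (hker₀ : ∀ γ, Φ₀ γ = 1 ↔ ∃ a, γ = scal Q₀ a) :
    Nonempty (↥((Dg Q).map Φ ⊓ centralizer {Φ φ}) ≃* (Dg Q₀).map Φ₀) := by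
  haveI := Big.nontrivial Q
  haveI := Big.nontrivial Q₀
  let e := D.emb (Dg Q₀) fun g hg => hg.1
  have he : ∀ g, D.Rel g.1 (e g) := D.rel_emb _ _
  have h1 : (Φ.comp e).range = (Dg Q).map Φ ⊓ centralizer {Φ φ} := by
    rw [map_inf_centralizer Φ hker hφ, MonoidHom.range_comp]
    congr 1
    ext g
    constructor
    · rintro ⟨g₀, rfl⟩
      exact ⟨(he g₀).mem_Dg_iff.2 g₀.2,
        mem_centralizer_singleton_iff.2 (D.commute_of_rel hB.nd (he g₀))⟩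
    · rintro ⟨hg, hc⟩
      obtain ⟨g₀, h⟩ := D.rel_of_commute hg.1 (mem_centralizer_singleton_iff.1 hc)
      exact ⟨⟨g₀, h.mem_Dg_iff.1 hg⟩, (he _).unique h⟩
  have h2 : (Φ₀.comp (Dg Q₀).subtype).range = (Dg Q₀).map Φ₀ := by
    rw [MonoidHom.range_comp, range_subtype]
  have h3 : (Φ.comp e).ker = (Φ₀.comp (Dg Q₀).subtype).ker := by
    ext g
    rw [MonoidHom.mem_ker, MonoidHom.mem_ker, MonoidHom.comp_apply, MonoidHom.comp_apply, hker,
      hker₀, (he g).scal_iff]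
    rfl
  obtain ⟨e1⟩ := nonempty_equiv_quot _ _ h1 _ h3
  obtain ⟨e2⟩ := nonempty_equiv_quot _ _ h2 _ rfl
  exact ⟨e1.trans e2.symm⟩

theorem split_eq {φ : Gam Q} (hφ : FT φ) :
    haveI : ((sc (Om Q)).map Φ).Normal → True := fun _ => trivial
    ∀ (I : Subgroup A) [I.Normal], I = (sc (Om Q)).map Φ →
    Cfsg.splitClassCount ((Dg Q).map Φ) I (Φ φ) =
      (sc (Om Q) ⊔ (Dg Q ⊓ centralizer {φ})).relIndex (Dg Q) := by
  intro I _ hI
  rw [splitClassCount_eq_relIndex _ _ (hI ▸ map_mono sc_Om_le_Dg), map_inf_centralizer Φ hker hφ,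
    hI, ← Subgroup.map_sup, ← relIndex_comap, comap_map_eq, sup_eq_left.2]
  intro γ hγ
  obtain ⟨a, rfl⟩ := (hker γ).1 hγ
  exact mem_sup_left (scal_mem_sc _ a)

end abstract

section index

variable [Finite F] [hB : Big Q]

theorem Dg_le_sc_SOg_of_odd (hn : Odd (finrank F V)) : Dg Q ≤ sc (SOg Q) := by
  haveI := Big.fd Q
  intro γ hγ
  have h1 := discC_sim (Q₂ := Q) hB.nd (γ.lin hγ.1) γ.c.ne_zero (Gam.mapQ_of_lin hγ.1)
  have h2 : chi (γ.c : F) = 1 := by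
    rcases Int.units_eq_one_or (chi (γ.c : F)) with h | h
    · exact h
    · rw [h, hn.neg_one_pow] at h1
      rcases Int.units_eq_one_or (discC Q) with h | h <;> simp [h] at h1
  obtain ⟨a, g, rfl⟩ := exists_scal_mul_ofOG hγ.1 (chi_eq_one_iff.1 h2)
  rcases Int.units_eq_one_or (dickF g) with h | h
  · exact ⟨a, g, h, rfl⟩
  · have h3 : (2 : F) ≠ 0 := fun h2 => by
      obtain ⟨m, hm⟩ := hn
      obtain ⟨c, -, hc⟩ := hB.nd.classify_odd hm
      have := hc.symm.nd hB.nd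
      have h4 := this.eq_zero (x := Pi.single (.inl ()) 1) fun y => by
        simp [polar_sumQ, polar_QU, h2, polar_QH]
      simpa using congrFun h4 (.inl ())
    refine ⟨-a, negOne Q * g, by rw [mem_SOg, dick_mul, h, dickF_negOne h3, hn.neg_one_pow]; simp, ?_⟩
    rw [map_mul, ← scal_neg_one, ← mul_assoc, ← map_mul]
    simp

theorem scal_mul_mem_sc_Om_iff (hn : negOne Q ∈ Om Q ∨ Odd (finrank F V) ∧ (2 : F) ≠ 0) {a : Fˣ}
    {h : OG Q} (hd : dickF h = 1) : scal Q a * ofOG Q h ∈ sc (Om Q) ↔ spinF h = 1 := by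
  haveI := Big.fd Q
  refine ⟨?_, fun hs => ⟨a, h, mem_Om_iff.2 ⟨hd, hs⟩, rfl⟩⟩
  rcases hn with hn | hn
  · rw [scal_mul_mem_sc_iff hn]
    exact fun h => (mem_Om_iff.1 h).2
  · rintro ⟨a', h', hh', e⟩
    rcases scal_mul_eq e with rfl | rfl
    · exact (mem_Om_iff.1 hh').2
    · have := (mem_Om_iff.1 hh').1
      rw [dick_mul, hd, dickF_negOne hn.2, hn.1.neg_one_pow] at this
      simp at this

theorem exists_spin_neg (h2 : (2 : F) ≠ 0) : ∃ s : OG Q, dickF s = 1 ∧ spinF s = -1 := by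
  haveI := Big.fd Q
  obtain ⟨ν, h0, hν⟩ := exists_nonsq h2
  obtain ⟨v, hv⟩ := hB.nd.represents (by have := hB.five; omega) 1
  obtain ⟨w, hw⟩ := hB.nd.represents (by have := hB.five; omega) ν
  refine ⟨refl Q v * refl Q w, ?_, ?_⟩
  · rw [dick_mul, dick_refl (by simp [hv]), dick_refl (by simp [hw, h0])]; simp
  · rw [spin_mul, spin_refl (by simp [hv]), spin_refl (by simp [hw, h0]), hv, hw, hν]; simp

theorem relIndex_Om_SO (hn : negOne Q ∈ Om Q ∨ Odd (finrank F V)) (h2 : (2 : F) ≠ 0) :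
    (sc (Om Q)).relIndex (sc (SOg Q)) = 2 := by
  obtain ⟨s, h3, h4⟩ := exists_spin_neg (Q := Q) h2
  have hn' : negOne Q ∈ Om Q ∨ Odd (finrank F V) ∧ (2 : F) ≠ 0 := hn.imp id fun h => ⟨h, h2⟩
  refine relIndex_eq_two_iff.2 ⟨ofOG Q s, ofOG_mem_sc h3, ?_⟩
  rintro _ ⟨a, h, hh, rfl⟩
  rw [mul_assoc, ← map_mul, scal_mul_mem_sc_Om_iff hn' hh,
    scal_mul_mem_sc_Om_iff hn' (by rw [dick_mul, mem_SOg.1 hh, h3, one_mul]), spin_mul, h4]
  rcases Int.units_eq_one_or (spinF h) with h5 | h5 <;> simp [h5]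

theorem exists_Dg_c (hn : Even (finrank F V)) {c : F} (hc : c ≠ 0) :
    ∃ g ∈ Dg Q, (SIso.c g : F) = c := by
  haveI := Big.fd Q
  haveI := Big.nontrivial Q
  have : ∃ e : V ≃ₗ[F] V, ∀ v, Q (e v) = c * Q v := by
    by_cases h2 : (2 : F) = 0
    · obtain ⟨t, ht⟩ := isSquare_of_two_eq_zero h2 c
      have ht0 : t ≠ 0 := by rintro rfl; simp_all
      refine ⟨LinearEquiv.smulOfNeZero F _ t ht0, fun v => ?_⟩
      rw [LinearEquiv.smulOfNeZero_apply, Q_smul, ht, pow_two]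
    · have h1 : ND (c • Q) := ND.congr (Q₁ := Q) (LinearEquiv.refl _ _) hc (fun _ => rfl) hB.nd
      have h3 := discC_sim (Q₂ := c • Q) hB.nd (LinearEquiv.refl _ _) hc (fun _ => rfl)
      obtain ⟨k, hk⟩ := hn
      exact iso_of_discC h2 h1 hB.nd rfl (by rw [h3]; simp [hk, pow_add])
  obtain ⟨e, he⟩ := this
  obtain ⟨v, hv⟩ := hB.nd.exists_nonsing
  rcases mem_Dg_or (γ := SIso.ofSim e hc he) rfl hv with h | h
  · exact ⟨_, h, rfl⟩
  · exact ⟨_, h, by rw [Gam.mul_c]; simp; rfl⟩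

theorem mul_mem_sc_SOg_or (hn : Even (finrank F V)) {d : Gam Q} (hd : d ∈ Dg Q)
    (hc : ¬ IsSquare (d.c : F)) {g : Gam Q} (hg : g ∈ Dg Q) :
    Xor (g * d ∈ sc (SOg Q)) (g ∈ sc (SOg Q)) := by
  rw [mem_sc_SOg_iff hn, mem_sc_SOg_iff hn, Gam.mul_c, hg.1, RingAut.one_apply,
    isSquare_mul_iff g.c.ne_zero d.c.ne_zero, chi_eq_neg_one_iff.2 hc, ← chi_eq_one_iff]
  rcases Int.units_eq_one_or (chi (g.c : F)) with h | h <;> simp [h, hg, mul_mem hg hd]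

theorem relIndex_SO_Dg (hn : Even (finrank F V)) (h2 : (2 : F) ≠ 0) :
    (sc (SOg Q)).relIndex (Dg Q) = 2 := by
  obtain ⟨ν, h0, hν⟩ := exists_nonsq h2
  obtain ⟨d, hd, hc⟩ := exists_Dg_c (Q := Q) hn h0
  exact relIndex_eq_two_iff.2 ⟨d, hd, fun g hg =>
    mul_mem_sc_SOg_or hn hd (hc ▸ chi_eq_neg_one_iff.1 hν) hg⟩

variable {φ : Gam Q} {ε : F₀ →+* F} {Q₀ : QuadraticForm F₀ V₀} [Finite F₀] (D : Desc ε Q₀ φ)

include D

theorem Desc.relIndex_eq_one (h : Odd (orderOf φ.σ) ∨ (2 : F) = 0) :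
    (sc (Om Q) ⊔ (Dg Q ⊓ centralizer {φ})).relIndex (Dg Q) = 1 := by
  haveI := D.big
  haveI := D.fin
  haveI := D.finV
  haveI := Big.nontrivial Q
  rw [Subgroup.relIndex_eq_one]
  have hrel : ∀ g₀ ∈ Dg Q₀, ∀ g, D.Rel g₀ g → g ∈ sc (Om Q) ⊔ (Dg Q ⊓ centralizer {φ}) :=
    fun g₀ h₀ g H => mem_sup_right ⟨H.mem_Dg_iff.2 h₀,
      mem_centralizer_singleton_iff.2 (D.commute_of_rel hB.nd H)⟩
  by_cases h2 : (2 : F) = 0
  · have : Dg Q ≤ sc (SOg Q) := by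
      rcases Nat.even_or_odd (finrank F V) with hn | hn
      · exact fun g hg => (hg.2 hn).2 h2
      · exact Dg_le_sc_SOg_of_odd hn
    refine this.trans (le_trans (sc_mono fun g hg => ?_) le_sup_left)
    exact (mem_commutator_iff_two hB.nd Big.good h2 g).2 hg
  replace h := h.resolve_right h2
  have h2' : (2 : F₀) ≠ 0 := fun h => h2 (by rw [← map_ofNat ε 2, h, map_zero])
  obtain ⟨ν, h0, hν⟩ := exists_nonsq h2'
  have hν' := nonsq_of_odd D.hε h (chi_eq_neg_one_iff.1 hν)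
  have h3 : sc (SOg Q) ≤ sc (Om Q) ⊔ (Dg Q ⊓ centralizer {φ}) := by
    have h5 : 2 ≤ finrank F₀ V₀ := by have := (D.big).five; omega
    obtain ⟨v, hv⟩ := (D.nd hB.nd).represents h5 1
    obtain ⟨w, hw⟩ := (D.nd hB.nd).represents h5 ν
    have hv0 : Q₀ v ≠ 0 := by simp [hv]
    have hw0 : Q₀ w ≠ 0 := by simp [hw, h0]
    have h6 := hrel _ (by
      rw [← map_mul]
      exact sc_SOg_le_Dg (ofOG_mem_sc (by rw [mem_SOg, dick_mul, dick_refl hv0, dick_refl hw0]; simp)))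
      _ ((D.rel_refl v).mul (D.rel_refl w))
    rw [← map_mul] at h6
    have h7 : dickF (refl Q (D.j v) * refl Q (D.j w)) = 1 := by
      rw [dick_mul, dick_refl (D.Q_ne hv0), dick_refl (D.Q_ne hw0)]; simp
    have h8 : spinF (refl Q (D.j v) * refl Q (D.j w)) = -1 := by
      rw [spin_mul, spin_refl (D.Q_ne hv0), spin_refl (D.Q_ne hw0),
        ← chi_mul (D.Q_ne hv0) (D.Q_ne hw0), ← chi_sq_mul D.y.ne_zero,
        ← chi_eq_neg_one_iff.2 hν']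
      congr 1
      have e1 := D.hQ v
      have e2 := D.hQ w
      rw [hv, map_one] at e1
      rw [hw] at e2
      linear_combination (-(D.y : F) * Q (D.j w)) * e1 - e2
    rintro _ ⟨a, g, hg, rfl⟩
    rcases Int.units_eq_one_or (spinF g) with h9 | h9
    · exact mem_sup_left ⟨a, g, mem_Om_iff.2 ⟨hg, h9⟩, rfl⟩
    · rw [← mul_mem_cancel_right h6, mul_assoc, ← map_mul]
      exact mem_sup_left ⟨a, _, mem_Om_iff.2 ⟨by rw [dick_mul, mem_SOg.1 hg, h7, one_mul],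
        by rw [spin_mul, h9, h8]; simp⟩, rfl⟩
  rcases Nat.even_or_odd (finrank F V) with hn | hn
  · obtain ⟨d₀, hd₀, hc⟩ := exists_Dg_c (Q := Q₀) (D.rank ▸ hn) h0
    obtain ⟨d, H⟩ := D.exists_rel hd₀.1
    intro g hg
    rcases mul_mem_sc_SOg_or hn (H.mem_Dg_iff.2 hd₀) (by rwa [H.c, hc]) hg with h4 | h4
    · exact (mul_mem_cancel_right (hrel d₀ hd₀ d H)).1 (h3 h4.1)
    · exact h3 h4.1
  · exact (Dg_le_sc_SOg_of_odd hn).trans h3

theorem Desc.mem_sc_Om (h2 : orderOf φ.σ = 2) {g₀ : Gam Q₀} {g : Gam Q} (H : D.Rel g₀ g)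
    [Big Q₀] (h : g₀ ∈ sc (SOg Q₀)) : g ∈ sc (Om Q) := by
  obtain ⟨a, k, hk, rfl⟩ := h
  obtain ⟨h, h1, h3, h4⟩ := D.exists_rel_ofOG k
  exact ⟨_, h, mem_Om_iff.2 ⟨h3.trans hk, h4 hk (isSquare_of_two D.hε h2)⟩,
    H.unique ((D.rel_scal a).mul h1)⟩

theorem Desc.relIndex_odd (h2 : orderOf φ.σ = 2) (hn : Odd (finrank F V)) (hF : (2 : F) ≠ 0) :
    (sc (Om Q) ⊔ (Dg Q ⊓ centralizer {φ})).relIndex (Dg Q) = 2 := by
  haveI := D.big
  rw [sup_eq_left.2, le_antisymm (Dg_le_sc_SOg_of_odd hn) sc_SOg_le_Dg,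
    relIndex_Om_SO (Or.inr hn) hF]
  rintro g ⟨hg, hc⟩
  obtain ⟨g₀, H⟩ := D.rel_of_commute hg.1 (mem_centralizer_singleton_iff.1 hc)
  exact D.mem_sc_Om h2 H (Dg_le_sc_SOg_of_odd (D.rank ▸ hn) (H.mem_Dg_iff.1 hg))

theorem Desc.relIndex_even (h2 : orderOf φ.σ = 2) (hn : Even (finrank F V)) (hF : (2 : F) ≠ 0)
    (hneg : negOne Q ∈ Om Q) {d : Gam Q} (hd : d ∈ Dg Q) (hc : d * φ = φ * d) {ν : F₀}
    (hν : ¬ IsSquare ν) (hdν : (d.c : F) = ε ν) :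
    (d ∈ sc (Om Q) → (sc (Om Q) ⊔ (Dg Q ⊓ centralizer {φ})).relIndex (Dg Q) = 4) ∧
    (d ∉ sc (Om Q) → (sc (Om Q) ⊔ (Dg Q ⊓ centralizer {φ})).relIndex (Dg Q) = 2) := by
  haveI := D.big
  obtain ⟨d₀, H₀⟩ := D.rel_of_commute hd.1 hc
  have h1 := relIndex_Om_SO (Or.inl hneg) hF
  have h3 := relIndex_SO_Dg (Q := Q) hn hF
  have hd₀ : ¬ IsSquare (d₀.c : F₀) := by rwa [ε.injective (H₀.c.symm.trans hdν)]
  constructor
  · intro h
    rw [sup_eq_left.2, ← relIndex_mul_relIndex _ _ _ (sc_mono Om_le_SOg) sc_SOg_le_Dg, h1, h3]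
    rintro g ⟨hg, hc⟩
    obtain ⟨g₀, H⟩ := D.rel_of_commute hg.1 (mem_centralizer_singleton_iff.1 hc)
    rcases mul_mem_sc_SOg_or (D.rank ▸ hn) (H₀.mem_Dg_iff.1 hd) hd₀ (H.mem_Dg_iff.1 hg) with h4 | h4
    · exact (mul_mem_cancel_right h).1 (D.mem_sc_Om h2 (H.mul H₀) h4.1)
    · exact D.mem_sc_Om h2 H h4.1
  · intro h
    have h4 : ∀ g ∈ Dg Q ⊓ centralizer {φ}, g ∈ sc (SOg Q) := by
      rintro g ⟨hg, hc⟩
      obtain ⟨g₀, H⟩ := D.rel_of_commute hg.1 (mem_centralizer_singleton_iff.1 hc)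
      exact (mem_sc_SOg_iff hn).2 ⟨hg, H.c ▸ isSquare_of_two D.hε h2 _⟩
    have h5 : d ∈ Dg Q ⊓ centralizer {φ} := ⟨hd, mem_centralizer_singleton_iff.2 hc⟩
    rw [← h3]
    congr 1
    refine le_antisymm (sup_le (sc_mono Om_le_SOg) h4) fun g hg => ?_
    obtain ⟨s, hs, h6⟩ := relIndex_eq_two_iff.1 h1
    rcases h6 g hg with h7 | h7
    · have h8 := (h6 d⁻¹ (inv_mem (h4 d h5))).resolve_right fun h' => h (inv_mem_iff.1 h'.1)
      have : g = (g * s) * (d⁻¹ * s)⁻¹ * d⁻¹ := by group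
      rw [this]
      exact mul_mem (mem_sup_left (mul_mem h7.1 (inv_mem h8.1))) (mem_sup_right (inv_mem h5))
    · exact mem_sup_left h7.1

end index

end CfsgH7
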