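import Cfsg.Agent.H8.MatAut
import Cfsg.Agent.H7.AutAbs2
import Cfsg.Agent.H7.FldAut

set_option autoImplicit false

namespace CfsgH7

open CfsgH8 hiding map_mul map_one
open QuadraticMap hiding map_add map_sub map_smul map_zero map_neg sq
open Module Subgroup

section gconj

variable {F₁ V₁ F₂ V₂ : Type*} [Field F₁] [AddCommGroup V₁] [Module F₁ V₁] [Field F₂]
  [AddCommGroup V₂] [Module F₂ V₂] {Q₁ : QuadraticForm F₁ V₁} {Q₂ : QuadraticForm F₂ V₂}

theorem det_conjL [FiniteDimensional F₁ V₁] (θ : SIso Q₁ Q₂) (L : V₁ →ₗ[F₁] V₁) :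
    LinearMap.det (θ.conjL L) = θ.σ (LinearMap.det L) := by
  classical
  let b := Module.finBasis F₁ V₁
  let e : V₂ ≃ₗ[F₂] (Fin (finrank F₁ V₁) → F₂) :=
    { toFun := fun y i => θ.σ (b.repr (θ.symm.T y) i)
      invFun := fun v => θ.T (b.equivFun.symm fun i => θ.σ.symm (v i))
      left_inv := fun y => by
        simp only [RingEquiv.symm_apply_apply]
        rw [show (fun i => b.repr (θ.symm.T y) i) = b.equivFun (θ.symm.T y) from rfl]
        simp
      right_inv := fun v => by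
        ext i
        simp only [SIso.symm_T_T]
        rw [← Basis.equivFun_apply, LinearEquiv.apply_symm_apply, RingEquiv.apply_symm_apply]
      map_add' := fun x y => by ext; simp
      map_smul' := fun a x => by ext; simp [θ.symm.smul] }
  let b' := Basis.ofEquivFun e
  have hb : ∀ i, b' i = θ.T (b i) := fun i => by
    have : e (θ.T (b i)) = Pi.single i 1 := by
      ext k
      change θ.σ (b.repr (θ.symm.T (θ.T (b i))) k) = _
      rw [SIso.symm_T_T, b.repr_self, Finsupp.single_apply, Pi.single_apply]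
      by_cases h : i = k <;> simp [h, eq_comm]
    rw [Basis.coe_ofEquivFun, ← e.symm_apply_apply (θ.T (b i)), this]
  rw [← LinearMap.det_toMatrix b', ← LinearMap.det_toMatrix b, RingEquiv.map_det]
  congr 1
  ext i j
  rw [LinearMap.toMatrix_apply, hb]
  simp [LinearMap.toMatrix_apply, b', e]

/-- conjugation of semisimilarities -/
def gconj (θ : SIso Q₁ Q₂) : Gam Q₁ →* Gam Q₂ where
  toFun γ := θ.symm.trans (γ.trans θ)
  map_one' := SIso.ext' (fun x => by simp) (RingEquiv.ext fun x => by simp) (Units.ext (by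
    simp [SIso.trans_c, SIso.symm_c]))
  map_mul' γ δ := SIso.ext' (fun x => by simp) (RingEquiv.ext fun x => by simp) (Units.ext (by
    simp only [SIso.trans_c, SIso.symm_c, Gam.mul_c, SIso.trans_σ, SIso.symm_σ, Gam.mul_σ,
      RingEquiv.coe_trans, Function.comp, map_mul, RingEquiv.symm_apply_apply, map_inv₀,
      RingAut.mul_apply]
    have : θ.σ (γ.σ (θ.σ.symm θ.c)) ≠ 0 := by simp
    field_simp))

theorem gconj_T (θ : SIso Q₁ Q₂) (γ : Gam Q₁) (x : V₂) :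
    (gconj θ γ).T x = θ.T (γ.T (θ.symm.T x)) := rfl

theorem gconj_σ (θ : SIso Q₁ Q₂) (γ : Gam Q₁) (x : F₂) :
    (gconj θ γ).σ x = θ.σ (γ.σ (θ.σ.symm x)) := rfl

theorem Phi_gconj (θ : SIso Q₁ Q₂) (γ : Gam Q₁) (x : POm Q₂) :
    Phi Q₂ (gconj θ γ) x = θ.pom (Phi Q₁ γ (θ.pom.symm x)) := by
  obtain ⟨x, rfl⟩ := QuotientGroup.mk_surjective x
  rfl

end gconj

variable {F V : Type*} [Field F] [AddCommGroup V] [Module F V] {Q : QuadraticForm F V}

open Classical in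
/-- the determinant of a similarity -/
noncomputable def detG (γ : Gam Q) : F :=
  if h : γ.σ = 1 then LinearMap.det (γ.lin h).toLinearMap else 0

theorem detG_eq {γ : Gam Q} (h : γ.σ = 1) (L : V →ₗ[F] V) (hL : ∀ x, L x = γ.T x) :
    detG γ = LinearMap.det L := by
  rw [detG, dif_pos h]
  congr 1
  exact LinearMap.ext fun x => (hL x).symm

theorem detG_mul {γ δ : Gam Q} (h : γ.σ = 1) (h' : δ.σ = 1) : detG (γ * δ) = detG γ * detG δ := by
  rw [detG_eq h (γ.lin h).toLinearMap fun _ => rfl, detG_eq h' (δ.lin h').toLinearMap fun _ => rfl,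
    ← map_mul]
  exact detG_eq (by simp [h, h']) _ fun _ => rfl

theorem detG_one : detG (1 : Gam Q) = 1 := by
  rw [detG_eq rfl 1 fun _ => rfl, map_one]

theorem detG_scal [FiniteDimensional F V] (a : Fˣ) : detG (scal Q a) = a ^ finrank F V := by
  rw [detG_eq rfl ((a : F) • LinearMap.id) fun _ => rfl, LinearMap.det_smul, LinearMap.det_id,
    mul_one]

theorem detG_conj [FiniteDimensional F V] (θ : Gam Q) {γ : Gam Q} (h : γ.σ = 1) :
    detG (θ * γ * θ⁻¹) = θ.σ (detG γ) := by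
  rw [detG_eq h (γ.lin h).toLinearMap fun _ => rfl, ← det_conjL θ]
  exact detG_eq (by simp [h]) _ fun _ => rfl

theorem detG_sq [FiniteDimensional F V] (hQ : ND Q) {γ : Gam Q} (h : γ.σ = 1) :
    detG γ ^ 2 = γ.c ^ finrank F V := by
  let b := Module.finBasis F V
  have h1 : gram Q (b.map (γ.lin h)) = (γ.c : F) • gram Q b := by
    ext i j
    simpa [gram] using polar_congr (γ.lin h).toLinearMap (Gam.mapQ_of_lin h) _ _
  have h2 := LinearMap.BilinForm.toMatrix_mul_basis_toMatrix b (b.map (γ.lin h)) (polarBilin Q)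
  rw [← gram_eq_toMatrix, ← gram_eq_toMatrix, h1] at h2
  have h3 := congrArg Matrix.det h2
  rw [Matrix.det_mul, Matrix.det_mul, Matrix.det_transpose, Matrix.det_smul, Fintype.card_fin] at h3
  have h4 : (b.toMatrix (b.map (γ.lin h))).det = detG γ := by
    rw [detG_eq h (γ.lin h).toLinearMap fun _ => rfl, ← LinearMap.det_toMatrix b]
    congr 1
    ext i j
    simp [Basis.toMatrix_apply, LinearMap.toMatrix_apply]
  rw [h4] at h3
  apply mul_right_cancel₀ (hQ.det_gram_ne b)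
  linear_combination h3

theorem scal_comm (a : Fˣ) {γ : Gam Q} (h : γ.σ = 1) : γ * scal Q a = scal Q a * γ := by
  rw [mul_scal, h]
  rfl

/-- scalar multiples of a group of isometries -/
def sc (K : Subgroup (OG Q)) : Subgroup (Gam Q) where
  carrier := {γ | ∃ a, ∃ h ∈ K, γ = scal Q a * ofOG Q h}
  mul_mem' := by
    rintro _ _ ⟨a, h, hh, rfl⟩ ⟨b, k, hk, rfl⟩
    refine ⟨a * b, h * k, K.mul_mem hh hk, ?_⟩
    rw [map_mul, map_mul, mul_assoc, mul_assoc, ← mul_assoc (ofOG Q h), scal_comm b rfl, mul_assoc]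
  one_mem' := ⟨1, 1, K.one_mem, by simp⟩
  inv_mem' := by
    rintro _ ⟨a, h, hh, rfl⟩
    refine ⟨a⁻¹, h⁻¹, K.inv_mem hh, ?_⟩
    rw [mul_inv_rev, ← map_inv, ← map_inv, scal_comm _ rfl]

theorem mem_sc {K : Subgroup (OG Q)} {γ : Gam Q} :
    γ ∈ sc K ↔ ∃ a, ∃ h ∈ K, γ = scal Q a * ofOG Q h := Iff.rfl

theorem scal_mem_sc (K : Subgroup (OG Q)) (a : Fˣ) : scal Q a ∈ sc K :=
  ⟨a, 1, K.one_mem, by simp⟩

theorem ofOG_mem_sc {K : Subgroup (OG Q)} {h : OG Q} (hh : h ∈ K) : ofOG Q h ∈ sc K :=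
  ⟨1, h, hh, by simp⟩

theorem sc_mono {K K' : Subgroup (OG Q)} (h : K ≤ K') : sc K ≤ sc K' :=
  fun _ ⟨a, k, hk, e⟩ => ⟨a, k, h hk, e⟩

theorem sc_σ {K : Subgroup (OG Q)} {γ : Gam Q} (h : γ ∈ sc K) : γ.σ = 1 := by
  obtain ⟨a, k, -, rfl⟩ := h
  simp

theorem sc_c {K : Subgroup (OG Q)} {γ : Gam Q} (h : γ ∈ sc K) : IsSquare (γ.c : F) := by
  obtain ⟨a, k, -, rfl⟩ := h
  exact ⟨a, by simp [Gam.mul_c, sq]⟩

theorem sc_normal {K : Subgroup (OG Q)} (h : ∀ (θ : Gam Q), ∀ k ∈ K, θ.og k ∈ K) :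
    (sc K).Normal := ⟨by
  rintro _ ⟨a, k, hk, rfl⟩ θ
  refine ⟨Units.map θ.σ.toMonoidHom a, _, h θ k hk, ?_⟩
  rw [← conj_scal, ← conj_ofOG]
  group⟩

theorem scal_mul_eq {a a' : Fˣ} {h h' : OG Q} (e : scal Q a * ofOG Q h = scal Q a' * ofOG Q h') :
    h' = h ∨ h' = negOne Q * h := by
  have h1 : (a : F) ^ 2 = a' ^ 2 := by simpa [Gam.mul_c] using congrArg (fun γ : Gam Q => (γ.c : F)) e
  have h2 : ∀ x, (a : F) • h.1 x = (a' : F) • h'.1 x := fun x =>
    congrArg (fun γ : Gam Q => γ.T x) e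
  rcases sq_eq_sq_iff_eq_or_eq_neg.1 h1 with h3 | h3
  · exact Or.inl (OG.ext' fun x => smul_right_injective V a'.ne_zero (by
      simp only; rw [← h2, h3]))
  · exact Or.inr (OG.ext' fun x => smul_right_injective V a'.ne_zero (by
      simp only; rw [← h2, h3]; simp))

theorem negOne_eq_one (h2 : (2 : F) = 0) : negOne Q = 1 := OG.ext' fun x => by
  rw [negOne_apply, OG.one_apply, neg_eq_iff_add_eq_zero, ← two_smul F, h2, zero_smul]

theorem scal_neg_one : scal Q (-1) = ofOG Q (negOne Q) :=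
  SIso.ext' (fun x => by simp) rfl (by simp)

theorem scal_mul_mem_sc_iff {K : Subgroup (OG Q)} (hK : negOne Q ∈ K) {a : Fˣ} {h : OG Q} :
    scal Q a * ofOG Q h ∈ sc K ↔ h ∈ K := by
  refine ⟨?_, fun hh => ⟨a, h, hh, rfl⟩⟩
  rintro ⟨a', h', hh', e⟩
  rcases scal_mul_eq e.symm with rfl | rfl
  · exact hh'
  · exact K.mul_mem hK hh'

section big

variable [hB : Big Q]

variable (Q) in
/-- the special orthogonal group -/
noncomputable def SOg : Subgroup (OG Q) :=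
  haveI := Big.fd Q
  (dick hB.nd Big.good).ker

theorem mem_SOg {h : OG Q} : h ∈ SOg Q ↔ dickF h = 1 := Iff.rfl

theorem dick_mul (g h : OG Q) : dickF (g * h) = dickF g * dickF h :=
  haveI := Big.fd Q
  dickF_mul hB.nd Big.good g h

theorem spin_mul [Finite F] (g h : OG Q) : spinF (g * h) = spinF g * spinF h :=
  haveI := Big.fd Q
  spinF_mul hB.nd Big.good g h

theorem dick_refl {v : V} (hv : Q v ≠ 0) : dickF (refl Q v) = -1 :=
  haveI := Big.fd Q
  dickF_refl hB.nd hv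

theorem spin_refl [Finite F] {v : V} (hv : Q v ≠ 0) : spinF (refl Q v) = chi (Q v) :=
  haveI := Big.fd Q
  spinF_refl hB.nd hv

theorem mem_Om_iff [Finite F] {g : OG Q} : g ∈ Om Q ↔ dickF g = 1 ∧ spinF g = 1 :=
  haveI := Big.fd Q
  mem_commutator_iff hB.nd Big.good g

theorem Om_le_SOg [Finite F] : Om Q ≤ SOg Q := fun _ h => (mem_Om_iff.1 h).1

theorem detG_ofOG (g : OG Q) : detG (ofOG Q g) = ((dickF g : ℤˣ) : ℤ) := by
  haveI := Big.fd Q
  rw [detG_eq rfl g.1.toLinearMap fun _ => rfl, det_eq_dickF hB.nd Big.good]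

theorem negOne_mem_SOg (hn : Even (finrank F V)) : negOne Q ∈ SOg Q := by
  haveI := Big.fd Q
  by_cases h2 : (2 : F) = 0
  · rw [negOne_eq_one h2]; exact one_mem _
  · rw [mem_SOg, dickF_negOne h2, hn.neg_one_pow]

instance sc_SOg_normal : (sc (SOg Q)).Normal :=
  sc_normal fun θ k hk => by rwa [mem_SOg, SIso.dickF_og]

instance sc_Om_normal : (sc (Om Q)).Normal :=
  sc_normal fun θ k hk => (mem_commutator_map _ _).2 hk

variable (Q) in
/-- the group of proper similarities -/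
noncomputable def Dg : Subgroup (Gam Q) where
  carrier := {γ | γ.σ = 1 ∧ (Even (finrank F V) →
    ((2 : F) ≠ 0 → detG γ = γ.c ^ (finrank F V / 2)) ∧ ((2 : F) = 0 → γ ∈ sc (SOg Q)))}
  mul_mem' := fun {γ δ} ⟨h1, h2⟩ ⟨h3, h4⟩ => ⟨by simp [h1, h3], fun hn =>
    ⟨fun h => by rw [detG_mul h1 h3, (h2 hn).1 h, (h4 hn).1 h, Gam.mul_c, h1, mul_pow]; rfl,
      fun h => mul_mem ((h2 hn).2 h) ((h4 hn).2 h)⟩⟩
  one_mem' := ⟨rfl, fun _ => ⟨fun _ => by simp [detG_one], fun _ => one_mem _⟩⟩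
  inv_mem' := fun {γ} ⟨h1, h2⟩ => ⟨by simp [h1], fun hn => ⟨fun h => by
      have := detG_mul (γ := γ⁻¹) (δ := γ) (by simp [h1]) h1
      rw [inv_mul_cancel, detG_one, (h2 hn).1 h] at this
      rw [Gam.inv_c, h1, inv_one, RingAut.one_apply, inv_pow]
      exact eq_inv_of_mul_eq_one_left this.symm,
    fun h => inv_mem ((h2 hn).2 h)⟩⟩

theorem mem_Dg {γ : Gam Q} : γ ∈ Dg Q ↔ γ.σ = 1 ∧ (Even (finrank F V) →
    ((2 : F) ≠ 0 → detG γ = γ.c ^ (finrank F V / 2)) ∧ ((2 : F) = 0 → γ ∈ sc (SOg Q))) := Iff.rfl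

theorem mem_Dg_odd (hn : Odd (finrank F V)) {γ : Gam Q} : γ ∈ Dg Q ↔ γ.σ = 1 :=
  ⟨fun h => h.1, fun h => ⟨h, fun h' => absurd h' (Nat.not_even_iff_odd.2 hn)⟩⟩

instance Dg_normal : (Dg Q).Normal := ⟨fun γ ⟨h1, h2⟩ θ => by
  haveI := Big.fd Q
  refine ⟨by simp [h1], fun hn => ⟨fun h => ?_, fun h => sc_SOg_normal.conj_mem _ ((h2 hn).2 h) θ⟩⟩
  rw [detG_conj θ h1, (h2 hn).1 h, map_pow]
  congr 1
  rw [Gam.mul_c, Gam.mul_c, Gam.inv_c]
  simp [h1, mul_comm (θ.c : F)]⟩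

theorem scal_mul_mem_Dg_iff (hn : Even (finrank F V)) {a : Fˣ} {h : OG Q} :
    scal Q a * ofOG Q h ∈ Dg Q ↔ dickF h = 1 := by
  haveI := Big.fd Q
  have e : ((scal Q a * ofOG Q h).c : F) ^ (finrank F V / 2) = a ^ finrank F V := by
    simp only [Gam.mul_c, scal_c, ofOG_c, Units.val_one, map_one, mul_one, Units.val_pow_eq_pow_val]
    rw [← pow_mul, Nat.two_mul_div_two_of_even hn]
  rw [mem_Dg, detG_mul rfl rfl, detG_scal, detG_ofOG, e,
    scal_mul_mem_sc_iff (negOne_mem_SOg hn), mem_SOg]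
  simp only [Gam.mul_σ, scal_σ, ofOG_σ, mul_one, true_and, hn, forall_const]
  by_cases h2 : (2 : F) = 0
  · simp [h2]
  · rcases Int.units_eq_one_or (dickF h) with h3 | h3
    · simp [h3]
    · have : ¬ (-(a : F) ^ finrank F V = a ^ finrank F V) := fun h =>
        mul_ne_zero h2 (pow_ne_zero (finrank F V) a.ne_zero) (by linear_combination -h)
      simp [h3, h2, this]

theorem sc_SOg_le_Dg : sc (SOg Q) ≤ Dg Q := by
  rintro _ ⟨a, h, hh, rfl⟩
  rcases Nat.even_or_odd (finrank F V) with hn | hn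
  · exact (scal_mul_mem_Dg_iff hn).2 hh
  · exact (mem_Dg_odd hn).2 (by simp)

theorem scal_mem_Dg (a : Fˣ) : scal Q a ∈ Dg Q := sc_SOg_le_Dg (scal_mem_sc _ a)

variable [Finite F]

theorem sc_Om_le_Dg : sc (Om Q) ≤ Dg Q := (sc_mono Om_le_SOg).trans sc_SOg_le_Dg

theorem mem_Dg_or {γ : Gam Q} (h : γ.σ = 1) {v : V} (hv : Q v ≠ 0) :
    γ ∈ Dg Q ∨ γ * ofOG Q (refl Q v) ∈ Dg Q := by
  haveI := Big.fd Q
  rcases Nat.even_or_odd (finrank F V) with hn | hn
  swap
  · exact Or.inl ((mem_Dg_odd hn).2 h)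
  by_cases h2 : (2 : F) = 0
  · obtain ⟨a, g, rfl⟩ := exists_scal_mul_ofOG h (isSquare_of_two_eq_zero h2 _)
    rw [mul_assoc, ← map_mul, scal_mul_mem_Dg_iff hn, scal_mul_mem_Dg_iff hn, dick_mul, dick_refl hv]
    rcases Int.units_eq_one_or (dickF g) with h3 | h3 <;> simp [h3]
  · have h3 := detG_sq hB.nd h
    rw [← Nat.two_mul_div_two_of_even hn, mul_comm, pow_mul] at h3
    rcases sq_eq_sq_iff_eq_or_eq_neg.1 h3 with h4 | h4
    · exact Or.inl ⟨h, fun _ => ⟨fun _ => h4, fun h => absurd h h2⟩⟩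
    · refine Or.inr ⟨by simp [h], fun _ => ⟨fun _ => ?_, fun h => absurd h h2⟩⟩
      rw [detG_mul h rfl, detG_ofOG, dick_refl hv, h4]
      simp [Gam.mul_c]

theorem mem_sc_SOg_iff (hn : Even (finrank F V)) {γ : Gam Q} :
    γ ∈ sc (SOg Q) ↔ γ ∈ Dg Q ∧ IsSquare (γ.c : F) := by
  refine ⟨fun h => ⟨sc_SOg_le_Dg h, sc_c h⟩, fun ⟨h1, h2⟩ => ?_⟩
  obtain ⟨a, g, rfl⟩ := exists_scal_mul_ofOG h1.1 h2
  exact ⟨a, g, (scal_mul_mem_Dg_iff hn).1 h1, rfl⟩

end big

/-! ### the two classes of maximal totally singular subspaces -/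

/-- the parity of the codimension of an intersection -/
noncomputable def par (U W : Submodule F V) : ℤˣ := (-1) ^ finrank F U * (-1) ^ finrank F ↥(U ⊓ W)

theorem par_self (U : Submodule F V) : par U U = 1 := by
  rw [par, inf_idem, Int.units_mul_self]

theorem par_mapS (γ : Gam Q) (U W : Submodule F V) : par (γ.mapS U) (γ.mapS W) = par U W := by
  rw [par, par, ← SIso.mapS_inf, SIso.finrank_mapS, SIso.finrank_mapS]

theorem par_eq_one_iff [FiniteDimensional F V] (U W : Submodule F V) :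
    par U W = 1 ↔ Even (finrank F U - finrank F ↥(U ⊓ W)) := by
  rw [even_sub_iff (Submodule.finrank_mono inf_le_left), par, mul_eq_one_iff_eq_inv,
    Int.units_inv_eq_self, eq_comm]

theorem mapS_ofOG (g : OG Q) (U : Submodule F V) :
    (ofOG Q g).mapS U = U.map g.1.toLinearMap := by
  ext y
  obtain ⟨x, rfl⟩ := g.1.surjective y
  rw [← ofOG_T, SIso.T_mem_mapS]
  simp

theorem mapS_mul (γ δ : Gam Q) (U : Submodule F V) : (γ * δ).mapS U = γ.mapS (δ.mapS U) := rfl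

theorem mapS_eq_self [FiniteDimensional F V] {γ : Gam Q} {U : Submodule F V}
    (h : ∀ x ∈ U, γ.T x ∈ U) : γ.mapS U = U := by
  refine Submodule.eq_of_le_of_finrank_eq (fun y hy => ?_) (γ.finrank_mapS U)
  obtain ⟨x, rfl⟩ := γ.T.surjective y
  exact h x (γ.T_mem_mapS.1 hy)

section cls

variable [hB : Big Q]

theorem par_ofOG {U : Submodule F V} (hU : MTS Q U) (g : OG Q) :
    par U ((ofOG Q g).mapS U) = dickF g := by
  haveI := Big.fd Q
  rw [par, mapS_ofOG, hU.parity_map hB.nd Big.good hU, inf_idem, mul_left_comm, Int.units_mul_self,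
    mul_one]

theorem par_trans {U W X : Submodule F V} (hU : MTS Q U) (hW : MTS Q W) (hX : MTS Q X) :
    par U X = par U W * par W X := by
  haveI := Big.fd Q
  obtain ⟨g, rfl⟩ := hW.1.exists_map_eq hB.nd hX.1 (by have := hW.2; have := hX.2; omega)
  rw [← mapS_ofOG, par_ofOG hW, mapS_ofOG, par, hU.parity_map hB.nd Big.good hW, par]
  simp only [mul_comm, mul_left_comm]

/-- the action of semisimilarities on the two classes -/
noncomputable def cls {E : Submodule F V} (hE : MTS Q E) : Gam Q →* ℤˣ :=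
  MonoidHom.mk' (fun γ => par E (γ.mapS E)) fun γ δ => by
    rw [mapS_mul, par_trans hE (γ.mapS_MTS hE) (γ.mapS_MTS (δ.mapS_MTS hE)), par_mapS]

theorem cls_eq {E U : Submodule F V} (hE : MTS Q E) (hU : MTS Q U) (γ : Gam Q) :
    cls hE γ = par U (γ.mapS U) := by
  rw [par_trans hU hE (γ.mapS_MTS hU), par_trans hE (γ.mapS_MTS hE) (γ.mapS_MTS hU), par_mapS,
    mul_comm (par E _), ← mul_assoc, ← par_trans hU hE hU, par_self, one_mul]
  rfl

theorem cls_of_fix {E U : Submodule F V} (hE : MTS Q E) (hU : MTS Q U) {γ : Gam Q}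
    (h : ∀ x ∈ U, γ.T x ∈ U) : cls hE γ = 1 := by
  haveI := Big.fd Q
  rw [cls_eq hE hU, mapS_eq_self h, par_self]

theorem cls_ofOG {E : Submodule F V} (hE : MTS Q E) (g : OG Q) : cls hE (ofOG Q g) = dickF g :=
  par_ofOG hE g

theorem cls_scal {E : Submodule F V} (hE : MTS Q E) (a : Fˣ) : cls hE (scal Q a) = 1 :=
  cls_of_fix hE hE fun _ hx => E.smul_mem _ hx

omit hB in
theorem MTS_even {E : Submodule F V} (hE : MTS Q E) : Even (finrank F V) :=
  ⟨finrank F E, by have := hE.2; omega⟩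

theorem mem_Dg_iff_cls {E : Submodule F V} (hE : MTS Q E) {γ : Gam Q} (h : γ.σ = 1)
    (hc : IsSquare (γ.c : F)) : γ ∈ Dg Q ↔ cls hE γ = 1 := by
  obtain ⟨a, g, rfl⟩ := exists_scal_mul_ofOG h hc
  rw [scal_mul_mem_Dg_iff (MTS_even hE), map_mul, cls_scal, cls_ofOG, one_mul]

end cls

/-! ### diagonal similarities of the hyperbolic form -/

section diag

variable {κ : Type} [Fintype κ] [DecidableEq κ]

/-- diagonal similarities -/
noncomputable def dg (D : κ ⊕ κ → Fˣ) (c : Fˣ) (h : ∀ i, D (.inl i) * D (.inr i) = c) :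
    Gam (QH κ F) :=
  SIso.ofSim (LinearEquiv.piCongrRight fun k => LinearEquiv.smulOfUnit (D k)) c.ne_zero fun x => by
    simp only [QH_apply, Finset.mul_sum]
    refine Finset.sum_congr rfl fun i _ => ?_
    change (D (.inl i) : F) * _ * ((D (.inr i) : F) * _) = _
    rw [← h i, Units.val_mul]
    ring

theorem dg_T (D : κ ⊕ κ → Fˣ) (c : Fˣ) (h : ∀ i, D (.inl i) * D (.inr i) = c) (x : κ ⊕ κ → F)
    (k : κ ⊕ κ) : (dg D c h).T x k = D k * x k := rfl

theorem dg_σ (D : κ ⊕ κ → Fˣ) (c : Fˣ) (h : ∀ i, D (.inl i) * D (.inr i) = c) :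
    (dg D c h).σ = 1 := rfl

theorem dg_c (D : κ ⊕ κ → Fˣ) (c : Fˣ) (h : ∀ i, D (.inl i) * D (.inr i) = c) :
    (dg D c h).c = c := Units.ext rfl

variable [hB : Big (QH κ F)]

theorem cls_dg (D : κ ⊕ κ → Fˣ) (c : Fˣ) (h : ∀ i, D (.inl i) * D (.inr i) = c) :
    cls MTS_stdE (dg D c h) = 1 :=
  cls_of_fix _ MTS_stdE fun x hx => mem_stdE.2 fun i => by rw [dg_T, mem_stdE.1 hx, mul_zero]

theorem dg_mem_Dg [Finite F] (D : κ ⊕ κ → Fˣ) (c : Fˣ) (h : ∀ i, D (.inl i) * D (.inr i) = c) :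
    dg D c h ∈ Dg (QH κ F) := by
  by_cases h2 : (2 : F) = 0
  · exact (mem_Dg_iff_cls MTS_stdE rfl (isSquare_of_two_eq_zero h2 _)).2 (cls_dg D c h)
  refine ⟨rfl, fun _ => ⟨fun _ => ?_, fun h => absurd h h2⟩⟩
  rw [detG_eq rfl (Matrix.toLin' (Matrix.diagonal fun k => (D k : F))) fun x => by
    ext k; rw [dg_T, Matrix.toLin'_apply, Matrix.mulVec_diagonal], LinearMap.det_toLin',
    Matrix.det_diagonal, Fintype.prod_sum_type, ← Finset.prod_mul_distrib, dg_c]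
  simp only [← Units.val_mul, h]
  simp [← two_mul]

theorem mem_Dg_QH [Finite F] {γ : Gam (QH κ F)} (h : γ.σ = 1) :
    γ ∈ Dg (QH κ F) ↔ cls MTS_stdE γ = 1 := by
  have hD : ∀ i : κ, (Sum.elim (fun _ => γ.c⁻¹) fun _ => 1 : κ ⊕ κ → Fˣ) (.inl i) *
      (Sum.elim (fun _ => γ.c⁻¹) fun _ => 1 : κ ⊕ κ → Fˣ) (.inr i) = γ.c⁻¹ := fun _ => by simp
  rw [← mul_mem_cancel_left (dg_mem_Dg _ _ hD), mem_Dg_iff_cls MTS_stdE (by simp [dg_σ, h]),
    map_mul, cls_dg, one_mul]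
  simp [Gam.mul_c, dg_c, dg_σ]

theorem dg_mem_sc_Om_iff [Finite F] (hneg : negOne (QH κ F) ∈ Om (QH κ F)) (D : κ ⊕ κ → Fˣ)
    (s : Fˣ) (h : ∀ i, D (.inl i) * D (.inr i) = s ^ 2) :
    dg D (s ^ 2) h ∈ sc (Om (QH κ F)) ↔ chi (∏ i, ((D (.inl i) : F) / s)) = 1 := by
  obtain ⟨g, h1, h2, h3⟩ := exists_diag (κ := κ) Big.good (fun i => (D (.inl i) : F) / s)
    fun i => by simp
  have : dg D (s ^ 2) h = scal _ s * ofOG _ g := by
    refine SIso.ext' (fun x => ?_) rfl (by simp [dg_c, Units.ext_iff, Gam.mul_c])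
    ext k
    rw [dg_T, Gam.mul_T, scal_T, ofOG_T, Pi.smul_apply, h1, smul_eq_mul]
    have := congrArg Units.val (h (Sum.elim id id k))
    rcases k with k | k
    · simp only [Sum.elim_inl]
      field_simp
    · simp only [Sum.elim_inr, id, Units.val_mul, Units.val_pow_eq_pow_val] at this ⊢
      field_simp
      linear_combination (x (.inr k)) * this
  rw [this, scal_mul_mem_sc_iff hneg, mem_Om_iff, h2, h3]
  simp

end diag

end CfsgH7
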