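import Cfsg.Agent.H8.Mat

set_option autoImplicit false
set_option linter.unusedSimpArgs false

namespace CfsgH7

open CfsgH8 QuadraticMap

variable {F : Type*} [Field F]

/-- the underlying space of the split octonions -/
abbrev V8 (F : Type*) := Fin 4 ⊕ Fin 4 → F

/-- the product of the split octonions -/
def om (x y : V8 F) : V8 F :=
  Sum.elim
    ![x (.inl 0) * y (.inl 0) - (x (.inl 1) * y (.inr 1) + x (.inl 2) * y (.inr 2) +
        x (.inl 3) * y (.inr 3)),
      x (.inl 0) * y (.inl 1) + y (.inr 0) * x (.inl 1) -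
        (x (.inr 2) * y (.inr 3) - x (.inr 3) * y (.inr 2)),
      x (.inl 0) * y (.inl 2) + y (.inr 0) * x (.inl 2) -
        (x (.inr 3) * y (.inr 1) - x (.inr 1) * y (.inr 3)),
      x (.inl 0) * y (.inl 3) + y (.inr 0) * x (.inl 3) -
        (x (.inr 1) * y (.inr 2) - x (.inr 2) * y (.inr 1))]
    ![x (.inr 0) * y (.inr 0) - (x (.inr 1) * y (.inl 1) + x (.inr 2) * y (.inl 2) +
        x (.inr 3) * y (.inl 3)),
      y (.inl 0) * x (.inr 1) + x (.inr 0) * y (.inr 1) -
        (x (.inl 2) * y (.inl 3) - x (.inl 3) * y (.inl 2)),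
      y (.inl 0) * x (.inr 2) + x (.inr 0) * y (.inr 2) -
        (x (.inl 3) * y (.inl 1) - x (.inl 1) * y (.inl 3)),
      y (.inl 0) * x (.inr 3) + x (.inr 0) * y (.inr 3) -
        (x (.inl 1) * y (.inl 2) - x (.inl 2) * y (.inl 1))]

/-- the unit -/
def oe : V8 F := Sum.elim ![1, 0, 0, 0] ![1, 0, 0, 0]

/-- the trace -/
def otr (x : V8 F) : F := x (.inl 0) + x (.inr 0)

/-- the conjugation -/
def ob (x : V8 F) : V8 F := otr x • oe - x

theorem ext8 {x y : V8 F} (h0 : x (.inl 0) = y (.inl 0)) (h1 : x (.inl 1) = y (.inl 1))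
    (h2 : x (.inl 2) = y (.inl 2)) (h3 : x (.inl 3) = y (.inl 3)) (k0 : x (.inr 0) = y (.inr 0))
    (k1 : x (.inr 1) = y (.inr 1)) (k2 : x (.inr 2) = y (.inr 2)) (k3 : x (.inr 3) = y (.inr 3)) :
    x = y := by
  ext (i | i) <;> fin_cases i <;> assumption

theorem Q8 (x : V8 F) : QP 4 F x = x (.inl 0) * x (.inr 0) + x (.inl 1) * x (.inr 1) +
    x (.inl 2) * x (.inr 2) + x (.inl 3) * x (.inr 3) := by
  rw [QH_apply, Fin.sum_univ_four]

theorem polar8 (x y : V8 F) : polar (QP 4 F) x y =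
    x (.inl 0) * y (.inr 0) + x (.inl 1) * y (.inr 1) + x (.inl 2) * y (.inr 2) +
      x (.inl 3) * y (.inr 3) + (y (.inl 0) * x (.inr 0) + y (.inl 1) * x (.inr 1) +
      y (.inl 2) * x (.inr 2) + y (.inl 3) * x (.inr 3)) := by
  simp only [polar, Q8, Pi.add_apply]; ring

theorem Q_om (x y : V8 F) : QP 4 F (om x y) = QP 4 F x * QP 4 F y := by
  simp only [om, oe, otr, ob, Q8, polar8, Sum.elim_inl, Sum.elim_inr,
    Matrix.cons_val, Pi.add_apply, Pi.sub_apply, Pi.smul_apply, Pi.neg_apply, Pi.zero_apply,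
    smul_eq_mul]; ring

theorem Q_oe : QP 4 F (oe : V8 F) = 1 := by
  simp only [om, oe, otr, ob, Q8, polar8, Sum.elim_inl, Sum.elim_inr,
    Matrix.cons_val, Pi.add_apply, Pi.sub_apply, Pi.smul_apply, Pi.neg_apply, Pi.zero_apply,
    smul_eq_mul]; ring

theorem oe_om (x : V8 F) : om oe x = x := by
  apply ext8 <;> simp only [om, oe, otr, ob, Q8, polar8, Sum.elim_inl, Sum.elim_inr,
    Matrix.cons_val, Pi.add_apply, Pi.sub_apply, Pi.smul_apply, Pi.neg_apply, Pi.zero_apply,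
    smul_eq_mul] <;> ring

theorem om_oe (x : V8 F) : om x oe = x := by
  apply ext8 <;> simp only [om, oe, otr, ob, Q8, polar8, Sum.elim_inl, Sum.elim_inr,
    Matrix.cons_val, Pi.add_apply, Pi.sub_apply, Pi.smul_apply, Pi.neg_apply, Pi.zero_apply,
    smul_eq_mul] <;> ring

theorem om_add (x y z : V8 F) : om x (y + z) = om x y + om x z := by
  apply ext8 <;> simp only [om, oe, otr, ob, Q8, polar8, Sum.elim_inl, Sum.elim_inr,
    Matrix.cons_val, Pi.add_apply, Pi.sub_apply, Pi.smul_apply, Pi.neg_apply, Pi.zero_apply,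
    smul_eq_mul] <;> ring

theorem add_om (x y z : V8 F) : om (x + y) z = om x z + om y z := by
  apply ext8 <;> simp only [om, oe, otr, ob, Q8, polar8, Sum.elim_inl, Sum.elim_inr,
    Matrix.cons_val, Pi.add_apply, Pi.sub_apply, Pi.smul_apply, Pi.neg_apply, Pi.zero_apply,
    smul_eq_mul] <;> ring

theorem om_smul (a : F) (x y : V8 F) : om x (a • y) = a • om x y := by
  apply ext8 <;> simp only [om, oe, otr, ob, Q8, polar8, Sum.elim_inl, Sum.elim_inr,
    Matrix.cons_val, Pi.add_apply, Pi.sub_apply, Pi.smul_apply, Pi.neg_apply, Pi.zero_apply,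
    smul_eq_mul] <;> ring

theorem smul_om (a : F) (x y : V8 F) : om (a • x) y = a • om x y := by
  apply ext8 <;> simp only [om, oe, otr, ob, Q8, polar8, Sum.elim_inl, Sum.elim_inr,
    Matrix.cons_val, Pi.add_apply, Pi.sub_apply, Pi.smul_apply, Pi.neg_apply, Pi.zero_apply,
    smul_eq_mul] <;> ring

theorem om_zero (x : V8 F) : om x 0 = 0 := by
  apply ext8 <;> simp only [om, oe, otr, ob, Q8, polar8, Sum.elim_inl, Sum.elim_inr,
    Matrix.cons_val, Pi.add_apply, Pi.sub_apply, Pi.smul_apply, Pi.neg_apply, Pi.zero_apply,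
    smul_eq_mul] <;> ring

theorem map_om {K : Type*} [Field K] (σ : F →+* K) (x y : V8 F) :
    σ ∘ om x y = om (σ ∘ x) (σ ∘ y) := by
  apply ext8 <;> simp [om]

theorem moufang_mid (a x y : V8 F) : om (om a x) (om y a) = om a (om (om x y) a) := by
  apply ext8 <;> simp only [om, oe, otr, ob, Q8, polar8, Sum.elim_inl, Sum.elim_inr,
    Matrix.cons_val, Pi.add_apply, Pi.sub_apply, Pi.smul_apply, Pi.neg_apply, Pi.zero_apply,
    smul_eq_mul] <;> ring

theorem moufang_left (a x y : V8 F) : om (om a (om x a)) y = om a (om x (om a y)) := by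
  apply ext8 <;> simp only [om, oe, otr, ob, Q8, polar8, Sum.elim_inl, Sum.elim_inr,
    Matrix.cons_val, Pi.add_apply, Pi.sub_apply, Pi.smul_apply, Pi.neg_apply, Pi.zero_apply,
    smul_eq_mul] <;> ring

theorem moufang_right (a x y : V8 F) : om x (om a (om y a)) = om (om (om x a) y) a := by
  apply ext8 <;> simp only [om, oe, otr, ob, Q8, polar8, Sum.elim_inl, Sum.elim_inr,
    Matrix.cons_val, Pi.add_apply, Pi.sub_apply, Pi.smul_apply, Pi.neg_apply, Pi.zero_apply,
    smul_eq_mul] <;> ring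

theorem om_om_eq (a z : V8 F) :
    om a (om z a) = polar (QP 4 F) a (ob z) • a - QP 4 F a • ob z := by
  apply ext8 <;> simp only [om, oe, otr, ob, Q8, polar8, Sum.elim_inl, Sum.elim_inr,
    Matrix.cons_val, Pi.add_apply, Pi.sub_apply, Pi.smul_apply, Pi.neg_apply, Pi.zero_apply,
    smul_eq_mul] <;> ring

theorem om_sq_left (a x : V8 F) : om a (om a x) = otr a • om a x - QP 4 F a • x := by
  apply ext8 <;> simp only [om, oe, otr, ob, Q8, polar8, Sum.elim_inl, Sum.elim_inr,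
    Matrix.cons_val, Pi.add_apply, Pi.sub_apply, Pi.smul_apply, Pi.neg_apply, Pi.zero_apply,
    smul_eq_mul] <;> ring

theorem polar_om_left (a x : V8 F) : polar (QP 4 F) x (om a x) = otr a * QP 4 F x := by
  simp only [om, oe, otr, ob, Q8, polar8, Sum.elim_inl, Sum.elim_inr,
    Matrix.cons_val, Pi.add_apply, Pi.sub_apply, Pi.smul_apply, Pi.neg_apply, Pi.zero_apply,
    smul_eq_mul]; ring

theorem om_om_ob (a x : V8 F) : om (om a x) (ob x) = QP 4 F x • a := by
  apply ext8 <;> simp only [om, oe, otr, ob, Q8, polar8, Sum.elim_inl, Sum.elim_inr,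
    Matrix.cons_val, Pi.add_apply, Pi.sub_apply, Pi.smul_apply, Pi.neg_apply, Pi.zero_apply,
    smul_eq_mul] <;> ring

theorem ob_om_om (a x : V8 F) : om (ob a) (om a x) = QP 4 F a • x := by
  apply ext8 <;> simp only [om, oe, otr, ob, Q8, polar8, Sum.elim_inl, Sum.elim_inr,
    Matrix.cons_val, Pi.add_apply, Pi.sub_apply, Pi.smul_apply, Pi.neg_apply, Pi.zero_apply,
    smul_eq_mul] <;> ring

theorem ob_om (x y : V8 F) : ob (om x y) = om (ob y) (ob x) := by
  apply ext8 <;> simp only [om, oe, otr, ob, Q8, polar8, Sum.elim_inl, Sum.elim_inr,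
    Matrix.cons_val, Pi.add_apply, Pi.sub_apply, Pi.smul_apply, Pi.neg_apply, Pi.zero_apply,
    smul_eq_mul] <;> ring

theorem ob_ob (x : V8 F) : ob (ob x) = x := by
  apply ext8 <;> simp only [om, oe, otr, ob, Q8, polar8, Sum.elim_inl, Sum.elim_inr,
    Matrix.cons_val, Pi.add_apply, Pi.sub_apply, Pi.smul_apply, Pi.neg_apply, Pi.zero_apply,
    smul_eq_mul] <;> ring

theorem ob_neg (x : V8 F) : ob (-x) = -ob x := by
  apply ext8 <;> simp only [om, oe, otr, ob, Q8, polar8, Sum.elim_inl, Sum.elim_inr,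
    Matrix.cons_val, Pi.add_apply, Pi.sub_apply, Pi.smul_apply, Pi.neg_apply, Pi.zero_apply,
    smul_eq_mul] <;> ring

theorem om_neg (x y : V8 F) : om x (-y) = -om x y := by
  apply ext8 <;> simp only [om, oe, otr, ob, Q8, polar8, Sum.elim_inl, Sum.elim_inr,
    Matrix.cons_val, Pi.add_apply, Pi.sub_apply, Pi.smul_apply, Pi.neg_apply, Pi.zero_apply,
    smul_eq_mul] <;> ring

theorem Q_ob (x : V8 F) : QP 4 F (ob x) = QP 4 F x := by
  simp only [om, oe, otr, ob, Q8, polar8, Sum.elim_inl, Sum.elim_inr,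
    Matrix.cons_val, Pi.add_apply, Pi.sub_apply, Pi.smul_apply, Pi.neg_apply, Pi.zero_apply,
    smul_eq_mul]; ring

theorem refl_oe (x : V8 F) : (refl (QP 4 F) oe).1 x = -ob x := by
  rw [refl_apply, Q_oe, inv_one]
  apply ext8 <;> simp only [om, oe, otr, ob, Q8, polar8, Sum.elim_inl, Sum.elim_inr,
    Matrix.cons_val, Pi.add_apply, Pi.sub_apply, Pi.smul_apply, Pi.neg_apply, Pi.zero_apply,
    smul_eq_mul] <;> ring

theorem eq_smul_of_assoc {d : V8 F} (h : ∀ x y, om (om x y) d = om x (om y d)) :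
    d = d (.inl 0) • oe := by
  have h1 := h (Pi.single (.inl 1) 1) (Pi.single (.inl 2) 1)
  have h2 := h (Pi.single (.inl 2) 1) (Pi.single (.inl 3) 1)
  have h3 := h (Pi.single (.inr 1) 1) (Pi.single (.inr 2) 1)
  simp [funext_iff, Fin.forall_fin_succ, om, Pi.single_apply] at h1 h2 h3
  obtain ⟨⟨-, a1, a2⟩, a3, a4⟩ := h1
  obtain ⟨⟨-, a5, -⟩, a6, -⟩ := h2
  obtain ⟨-, -, a7, -⟩ := h3
  apply ext8 <;> simp [oe, a1, a2, a3, a4, a5, a6, a7]

end CfsgH7
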