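import Cfsg.Agent.H7.Polar5

set_option autoImplicit false

namespace CfsgH7

open Subgroup

namespace Polar

variable {K V G : Type*} [Field K] [AddCommGroup V] [Module K V] [Group G] {P : Polar K V G}
variable {β : MulAut (G ⧸ center G)}

variable (P) in
/-- `β` and its inverse permute the transvection groups -/
def Good (β : MulAut (G ⧸ center G)) : Prop := (∃ y, P.Rel β P.e y) ∧ ∃ y, P.Rel β⁻¹ P.e y

theorem exists_rel_of {y : V} (hy : P.Rel β P.e y) {x : V} (hx : P.Iso x) :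
    ∃ y, P.Rel β x y := by
  obtain ⟨g, hg⟩ := exists_map_e hx
  obtain ⟨g', hg'⟩ := exists_lift β g
  exact ⟨_, (hy.conj hg').pa_left hg⟩

theorem good_of [Finite V] {y : V} (hy : P.Rel β P.e y) : P.Good β := by
  haveI := P.finite_G
  haveI : Finite (MulAut (G ⧸ center G)) :=
    Finite.of_injective (fun g => (g : _ → _)) DFunLike.coe_injective
  refine ⟨⟨y, hy⟩, ?_⟩
  have h : ∀ n : ℕ, ∃ z, P.Rel (β ^ n) P.e z := by
    intro n
    induction n with
    | zero => exact ⟨_, by rw [pow_zero]; exact rel_one iso_e⟩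
    | succ n ih =>
      obtain ⟨z, hz⟩ := ih
      obtain ⟨u, hu⟩ := exists_rel_of hy hz.2.1
      exact ⟨u, by rw [pow_succ']; exact hz.comp hu⟩
  have e : β⁻¹ = β ^ (orderOf β - 1) := by
    rw [inv_eq_iff_mul_eq_one, ← pow_succ', Nat.sub_add_cancel (orderOf_pos β), pow_orderOf_eq_one]
  rw [e]
  exact h _

theorem Good.exists_rel (hU : P.Good β) {x : V} (hx : P.Iso x) : ∃ y, P.Rel β x y :=
  let ⟨_, hy⟩ := hU.1; exists_rel_of hy hx

theorem Rel.symm' [Finite K] (hU : P.Good β) {x y : V} (h : P.Rel β x y) : P.Rel β⁻¹ y x := by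
  obtain ⟨z₀, hz₀⟩ := hU.2
  obtain ⟨z, hz⟩ := exists_rel_of hz₀ h.2.1
  have := h.comp hz
  rw [inv_mul_cancel] at this
  exact hz.pa_right (this.unique (rel_one h.1))

theorem exists_tau' [Finite K] [Finite V] (hU : P.Good β) (he : P.Rel β P.e P.e) :
    ∃ (τ : P.W ≃ P.W) (γ : P.W → K → K),
      ∀ w c, P.Adm w c → P.Rel β (P.pt w c) (P.pt (τ w) (γ w c)) := by
  have h1 : ∀ w : P.W, ∃ w', ∀ c, P.Adm w c → ∃ c', P.Rel β (P.pt w c) (P.pt w' c') := by
    intro w
    obtain ⟨c, hc⟩ := P.hc w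
    obtain ⟨y, hy⟩ := hU.exists_rel (Adm.iso (show P.Adm w c from hc))
    obtain ⟨w', c', -, h⟩ := exists_pt hy.2.1 (fun h0 => by
      simpa using (hy.symm' hU).perp (he.symm' hU) h0)
    exact ⟨w', fun d hd => rel_fiber he (hy.pa_right h) hd⟩
  choose τ hτ using h1
  have h2 : ∀ w c, ∃ c', P.Adm w c → P.Rel β (P.pt w c) (P.pt (τ w) c') := by
    intro w c
    by_cases h : P.Adm w c
    · obtain ⟨c', hc'⟩ := hτ w c h
      exact ⟨c', fun _ => hc'⟩
    · exact ⟨0, fun h' => absurd h' h⟩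
  choose γ hγ using h2
  have hinj : Function.Injective τ := by
    intro w₁ w₂ e
    obtain ⟨c₁, hc₁⟩ := P.hc w₁
    obtain ⟨c₂, hc₂⟩ := P.hc w₂
    have r1 := (hγ w₁ c₁ hc₁).symm' hU
    have r2 := (hγ w₂ c₂ hc₂).symm' hU
    rw [e] at r1
    obtain ⟨d, hd⟩ := rel_fiber (he.symm' hU) r1 (adm_of_iso r2.1)
    exact (pt_inj (hd.unique r2)).1
  exact ⟨Equiv.ofBijective τ (Finite.injective_iff_bijective.1 hinj), γ, hγ⟩

theorem stageA' [Finite K] [Finite V] (hU : P.Good β) (hirr : P.Irr) (hrk : P.Rk)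
    (he : P.Rel β P.e P.e) (hf : P.Rel β P.f P.f) :
    ∃ (τ : P.W ≃+ P.W) (α : K ≃+* K) (γ : P.W → K → K), (∀ k w, τ (k • w) = α k • τ w) ∧
      ∀ w c, P.Adm w c → P.Rel β (P.pt w c) (P.pt (τ w) (γ w c)) := by
  obtain ⟨τ, γ, hγ⟩ := exists_tau' hU he
  obtain ⟨p, hp⟩ := CharP.exists K
  haveI := Fact.mk (CharP.char_is_prime K p)
  have h0 : τ 0 = 0 := by
    have := hγ 0 0 P.adm_zero
    rw [pt_zero] at this
    have h2 := this.unique hf
    rw [← pt_zero] at h2
    exact (pt_inj h2).1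
  have hL : ∀ a ∈ P.LL, ∃ a' : P.W →ₗ[K] P.W, ∀ x, a (τ x) = τ (a' x) := by
    rintro _ ⟨g', l', hl', h1, h2, rfl⟩
    obtain ⟨g, hg⟩ := exists_lift β⁻¹ g'
    obtain ⟨l, hl, h⟩ := (he.symm' hU).fix hg ⟨l', hl', h1⟩
    have hg' := lift_inv hg
    rw [inv_inv] at hg'
    have e := tau_aff hγ hg' hl h hl' h1
    simp only [h2, map_smul, pr_f, smul_zero, zero_add] at e
    have e0 := e 0
    rw [h0, map_zero, map_zero, add_zero, ← h0] at e0
    refine ⟨P.lin g l, fun x => ?_⟩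
    rw [← e, τ.injective e0, zero_add]
  have hadd := affine_additive (p := p) (fun w => by
      rw [← Nat.cast_smul_eq_nsmul K, CharP.cast_eq_zero, zero_smul]) τ h0 (by
      intro w
      obtain ⟨c, hc⟩ := P.hc w
      obtain ⟨u, hu⟩ := exists_isE (show P.Adm w c from hc)
      obtain ⟨g', hg'⟩ := exists_lift β u
      obtain ⟨l', hl', h'⟩ := he.fix hg' (by rw [hu.apply_e]; exact Pa.refl _)
      have e := tau_aff hγ hg' one_ne_zero (by rw [hu.apply_e, one_smul]) hl' h'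
      have e1 : ∀ x, P.lin u 1 x = x := fun x => by simp [lin_apply, hu.apply_W]
      simp only [e1, hu.apply_f, map_one, one_smul, pr_pt] at e
      have e0 := e 0
      rw [add_zero, h0, map_zero, add_zero] at e0
      exact ⟨(P.lin g' l').toAddMonoidHom, fun x => by rw [e, e0]; rfl⟩)
    ((fun a : P.W →ₗ[K] P.W => a.toAddMonoidHom) '' P.LL) (by
      rintro _ ⟨a, ha, rfl⟩
      obtain ⟨a', ha'⟩ := hL a ha
      refine ⟨?_, a'.toAddMonoidHom, ha'⟩
      obtain ⟨g', l', hl', h1, h2, rfl⟩ := ha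
      apply Finite.injective_iff_surjective.1
      rw [injective_iff_map_eq_zero]
      intro x hx
      apply P.W_nondeg
      intro v
      have := B_lin hl' h1 h2 v x
      rw [show P.lin g' l' x = 0 from hx] at this
      simpa [hl'] using this)
    (fun U hU => hirr U fun a ha => hU _ ⟨a, ha, rfl⟩)
  obtain ⟨α, hα⟩ := semilinear_of_normalizes P.LL hirr hrk ⟨τ, hadd⟩ hL
  exact ⟨⟨τ, hadd⟩, α, γ, hα, hγ⟩

theorem stageB_symplectic' [Finite K] [Nontrivial P.W] (hU : P.Good β) (hσ : ∀ x, P.σ x = x)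
    (halt : ∀ v, P.B v v = 0) (he : P.Rel β P.e P.e) (hf : P.Rel β P.f P.f) {τ : P.W ≃+ P.W}
    {α : K ≃+* K} {γ : P.W → K → K} (hα : ∀ k w, τ (k • w) = α k • τ w)
    (hγ : ∀ w c, P.Adm w c → P.Rel β (P.pt w c) (P.pt (τ w) (γ w c))) :
    ∃ m : K, m ≠ 0 ∧ P.σ m = m ∧ (∀ x u : P.W, P.B (τ x) (τ u) = m * α (P.B x u)) ∧
      ∀ w c, P.Adm w c → γ w c = m * α c := by
  have hadm : ∀ w c, P.Adm w c := fun w c => by simp [Adm, halt, hσ]
  obtain ⟨m, hm0, hm1, hm⟩ := exists_mult hα (by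
    intro x u hx
    rcases eq_or_ne u 0 with rfl | hu
    · simp
    have hu' : P.Iso u := ⟨fun h => hu (Subtype.ext h), halt _⟩
    obtain ⟨y, hy⟩ := hU.exists_rel hu'
    obtain ⟨t, a', t', ht, -, ha0, ht', e⟩ := hy.exists_ne (map_one P.σ) one_ne_zero
    have hye := he.perp hy (P.eW u)
    have hyf := hf.perp hy (P.fW u)
    have key : ∀ x : P.W, α (P.B x u) • (τ u : V) = (a' * P.B (τ x) y) • y := by
      intro x
      have h1 : P.ρ t P.e = (1 : K) • P.e := by rw [ht]; simp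
      have h2 : P.ρ t P.f = (P.σ 1)⁻¹ • P.f := by rw [ht]; simp
      have h1' : P.ρ t' P.e = (1 : K) • P.e := by rw [ht']; simp [hye]
      have h2' : P.ρ t' P.f = (P.σ 1)⁻¹ • P.f := by rw [ht']; simp [hyf]
      have h3 := (L_equivariant hγ e one_ne_zero h1 h2 one_ne_zero h1' h2' (hadm x 0)).2.1
      have h4 : P.lin t 1 x = x + P.B x u • u := Subtype.ext (by
        rw [lin_coe one_ne_zero h1 h2, ht]; simp)
      have h5 := congrArg Subtype.val h3
      rw [h4, map_add, hα, lin_coe one_ne_zero h1' h2', ht'] at h5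
      simpa using h5
    obtain ⟨x₀, hx₀⟩ := P.exists_W_B_eq hu 1
    have e1 := key x₀
    have e2 := key x
    rw [hx₀, map_one, one_smul] at e1
    rw [hx, map_zero, zero_smul, eq_comm, smul_eq_zero, mul_eq_zero] at e2
    rw [e1, smul_right, (e2.resolve_right hy.2.1.1).resolve_left ha0, mul_zero])
  refine ⟨m, hm0, hm1, hm, ?_⟩
  have hperp : ∀ (w w' : P.W) c c', P.B w w' + c - c' = 0 →
      γ w c - m * α c = γ w' c' - m * α c' := by
    intro w w' c c' h
    have h1 := (hγ w c (hadm _ _)).perp (hγ w' c' (hadm _ _)) (by rw [B_pt_pt, hσ, h])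
    rw [B_pt_pt, hσ, hm] at h1
    have h2 := congrArg α h
    rw [map_sub, map_add, map_zero] at h2
    linear_combination h1 - m * h2
  have h00 : γ 0 0 = 0 := by
    have := hγ 0 0 P.adm_zero
    rw [pt_zero] at this
    have h2 := this.unique hf
    rw [← pt_zero] at h2
    exact (pt_inj h2).2
  have h1 : ∀ w c, w ≠ 0 → γ w c - m * α c = 0 := by
    intro w c hw
    obtain ⟨v, hv⟩ := P.exists_W_B_eq hw c
    rw [hperp w v c 0 (by rw [P.skew, hv, hσ]; ring), hperp v 0 0 0 (by simp), h00]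
    simp
  intro w c _
  rcases eq_or_ne w 0 with rfl | hw
  · obtain ⟨x, hx⟩ := exists_ne (0 : P.W)
    rw [← sub_eq_zero, hperp 0 x c c (by simp), h1 x c hx]
  · exact sub_eq_zero.1 (h1 w c hw)

theorem stageC' [Finite K] [Finite V] (hU : P.Good β) (he : P.Rel β P.e P.e) {τ : P.W ≃+ P.W}
    {α : K ≃+* K} {γ : P.W → K → K} (hα : ∀ k w, τ (k • w) = α k • τ w)
    (hγ : ∀ w c, P.Adm w c → P.Rel β (P.pt w c) (P.pt (τ w) (γ w c))) {m : K} (hm0 : m ≠ 0)
    (hm1 : P.σ m = m) (hm : ∀ x u : P.W, P.B (τ x) (τ u) = m * α (P.B x u))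
    (hγm : ∀ w c, P.Adm w c → γ w c = m * α c) : P.Ind β := by
  let T₀ : V →+ V := AddMonoidHom.mk'
    (fun v => (m * α (P.B v P.f)) • P.e - α (P.B v P.e) • P.f + τ (P.pr v)) (fun u v => by
      simp only [add_left, map_add, Submodule.coe_add]
      module)
  have hT₀ : ∀ v, T₀ v = (m * α (P.B v P.f)) • P.e - α (P.B v P.e) • P.f + τ (P.pr v) :=
    fun v => rfl
  have hsm : ∀ k v, T₀ (k • v) = α k • T₀ v := by
    intro k v
    simp only [hT₀, smul_left, map_mul, map_smul, hα, Submodule.coe_smul]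
    module
  have hB : ∀ u v, P.B (T₀ u) (T₀ v) = m * α (P.B u v) := by
    intro u v
    conv_rhs => rw [P.decomp u, P.decomp v]
    simp only [hT₀, add_left, add_right, sub_left, sub_right, smul_left, smul_right, P.he, P.hf,
      hef, hfe, eW, fW, We, Wf, hm, map_add, map_sub, map_mul, map_neg, map_zero, map_one, hm1,
      ringAut_comm_apply P.σ α]
    ring
  have hinj : Function.Injective T₀ := by
    rw [injective_iff_map_eq_zero]
    intro v hv
    apply P.nondeg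
    intro u
    have := hB v u
    rw [hv, zero_left] at this
    simpa [hm0] using this
  let T : V ≃+ V := AddEquiv.ofBijective T₀ (Finite.injective_iff_bijective.1 hinj)
  have hT : ∀ v, T v = T₀ v := fun v => rfl
  have hpt : ∀ w c, T₀ (P.pt w c) = P.pt (τ w) (m * α c) := by
    intro w c
    rw [hT₀, pt_f, pt_e, pr_pt, pt]
    simp only [map_neg, map_one]
    module
  have hTe : T₀ P.e = m • P.e := by simp [hT₀]
  have hPa : ∀ {x y}, Pa K x y → Pa K (T₀ x) (T₀ y) := by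
    rintro x y ⟨k, hk, rfl⟩
    exact ⟨α k, by simpa using hk, hsm k x⟩
  have h1 : ∀ x y, P.Rel β x y → P.B x P.e ≠ 0 → Pa K y (T₀ x) := by
    intro x y h hx
    obtain ⟨w, c, hc, hp⟩ := exists_pt h.1 hx
    have := (h.pa_left hp).unique (hγ w c hc)
    rw [hγm w c hc, ← hpt] at this
    exact this.trans (hPa hp.symm)
  have h2 : ∀ x y, P.Rel β x y → Pa K y (T₀ x) := by
    intro x y h
    by_cases hx : P.B x P.e = 0
    swap
    · exact h1 x y h hx
    obtain ⟨w, c, hc, hz⟩ := exists_pt_not_perp h.1.1 hx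
    have rz := hγ w c hc
    rw [hγm w c hc, ← hpt] at rz
    obtain ⟨t, a', t', ht, -, -, ht', e⟩ := rz.exists_ne (map_one P.σ) one_ne_zero
    have ha' : a' * m = 1 := by
      obtain ⟨k, -, hk⟩ := h1 _ _ (he.conj e) (by rw [ht]; simp)
      rw [ht, ht', map_add, hsm, hTe] at hk
      have e1 := congrArg (P.B · P.e) hk
      have e2 := congrArg (P.B · (T₀ (P.pt w c))) hk
      simp only [add_left, smul_left, rz.2.1.2, mul_zero, add_zero] at e2
      simp only [hpt, e_pt, mul_one, map_one, add_left, smul_left, P.he, pt_e] at e1 e2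
      rw [e2]
      linear_combination e1
    have h3 := h1 _ _ (h.conj e) (by rw [ht]; simpa [hx] using hz)
    have h4 : T₀ (P.ρ t x) = P.ρ t' (T₀ x) := by
      rw [ht, ht', map_add, hsm, hB, ← mul_assoc, ha', one_mul, one_mul]
    rw [h4] at h3
    simpa using h3.map (P.ρ t'⁻¹)
  refine ⟨α, T, m, hm0, hm1, hsm, hB, fun g g' hg => ?_⟩
  have hsymm : ∀ k v, T.symm (α k • v) = k • T.symm v := by
    intro k v
    apply T.injective
    rw [hT (k • _), hsm, ← hT, AddEquiv.apply_symm_apply, AddEquiv.apply_symm_apply]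
  let N : V →ₗ[K] V :=
    { toFun := fun v => T.symm (P.ρ g' (T (P.ρ g⁻¹ v)))
      map_add' := fun u v => by simp
      map_smul' := fun k v => by
        rw [map_smul, hT, hsm, map_smul, hsymm]; rfl }
  obtain ⟨c, hc⟩ := scalar_of_iso (P := P) N (by
    intro x hx
    obtain ⟨y, hy⟩ := hU.exists_rel (hx.map g⁻¹)
    have r := hy.conj hg
    rw [ρ_apply_inv] at r
    obtain ⟨k, -, hk⟩ := (h2 _ _ r).symm.trans ((h2 _ _ hy).map (P.ρ g'))
    obtain ⟨k, rfl⟩ := α.surjective k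
    refine ⟨k, ?_⟩
    change T.symm (P.ρ g' (T₀ _)) = _
    rw [hk, hsymm, ← hT, AddEquiv.symm_apply_apply])
  refine ⟨α c, fun v => ?_⟩
  have := hc (P.ρ g v)
  change T.symm (P.ρ g' (T (P.ρ g⁻¹ (P.ρ g v)))) = _ at this
  rw [ρ_inv_apply, AddEquiv.symm_apply_eq] at this
  rw [this, hT, hsm, hT]

theorem ind_symplectic' [Finite K] [Finite V] (h3 : 2 < Module.finrank K V)
    (hσ : ∀ x, P.σ x = x) (halt : ∀ v, P.B v v = 0) {y : V} (hy : P.Rel β P.e y) : P.Ind β := by
  haveI := nontrivial_W (P := P) h3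
  obtain ⟨g, hg⟩ := exists_map_e hy.2.1
  have r1 := (hy.pa_right hg.symm).comp (rel_conj (iso_e.map g) g⁻¹)
  rw [ρ_inv_apply] at r1
  have hU := good_of r1
  obtain ⟨z, hz⟩ := hU.exists_rel iso_f
  obtain ⟨w, c, hc, hp⟩ := exists_pt hz.2.1 (fun h0 => by
    simpa using (hz.symm' hU).perp (r1.symm' hU) h0)
  obtain ⟨u, hu⟩ := exists_isE hc
  have r2 := (hz.pa_right hp).comp (rel_conj hc.iso u⁻¹)
  have r3 := r1.comp (rel_conj iso_e u⁻¹)
  rw [← hu.apply_f, ρ_inv_apply] at r2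
  rw [show P.ρ u⁻¹ P.e = P.e by conv_lhs => rw [← hu.apply_e, ρ_inv_apply]] at r3
  have hU' := good_of r3
  obtain ⟨τ, α, γ, hα, hγ⟩ := stageA' hU' (irr_symplectic hσ halt) (rk_symplectic halt) r3 r2
  obtain ⟨m, h0, h1, h3, h4⟩ := stageB_symplectic' hU' hσ halt r3 r2 hα hγ
  exact (stageC' hU' r3 hα hγ h0 h1 h3 h4).of_conj.of_conj

end Polar

end CfsgH7
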