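import Cfsg.Agent.H7.Polar6

set_option autoImplicit false

namespace CfsgH7

open Subgroup

namespace Polar

variable {K V G : Type*} [Field K] [AddCommGroup V] [Module K V] [Group G] {P : Polar K V G}

theorem mk_eq_one_char_two [CharP K 2] (hσ : ∀ x, P.σ x = x) {g : G}
    (hg : (QuotientGroup.mk g : G ⧸ center G) = 1) : g = 1 := by
  have h2 : (2 : K) = 0 := CharTwo.two_eq_zero
  obtain ⟨c, hc⟩ := (mem_center_iff_scalar (P := P)).1 ((QuotientGroup.eq_one_iff g).1 hg)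
  have h1 := P.isom g P.e P.f
  rw [hc, hc, smul_left, smul_right, hσ, hef, mul_one] at h1
  have h3 : c = 1 := by
    have : (c - 1) ^ 2 = 0 := by linear_combination h1 + (1 - c) * h2
    exact sub_eq_zero.1 (pow_eq_zero_iff two_ne_zero |>.1 this)
  exact P.G_ext fun v => by rw [hc, h3, one_smul, map_one, Module.End.one_apply]

theorem mk_inj_char_two [CharP K 2] (hσ : ∀ x, P.σ x = x) {g h : G}
    (hg : (QuotientGroup.mk g : G ⧸ center G) = QuotientGroup.mk h) : g = h := by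
  rw [← mul_inv_eq_one]
  apply mk_eq_one_char_two hσ
  rw [QuotientGroup.mk_mul, QuotientGroup.mk_inv, hg, mul_inv_cancel]

theorem not_c2 [CharP K 2] (hσ : ∀ x, P.σ x = x) (halt : ∀ v, P.B v v = 0)
    (β : MulAut (G ⧸ center G)) {a c : K} {t g z : G} {w : P.W} (ht : P.IsT P.e a t)
    (hz : P.IsE w c z) (e : β (QuotientGroup.mk t) = QuotientGroup.mk (g * z * g⁻¹)) :
    w = 0 ∨ c = 0 := by
  have h2 : (2 : K) = 0 := CharTwo.two_eq_zero
  have hn1 : (-1 : K) = 1 := CharTwo.neg_eq 1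
  by_contra h0
  obtain ⟨h0, hc0⟩ := not_or.1 h0
  have hsk : ∀ u v, P.B v u = P.B u v := fun u v => by rw [P.skew, hσ, CharTwo.neg_eq]
  obtain ⟨w', hw'⟩ := P.exists_W_B_eq h0 1
  have hww' : P.B w w' = 1 := by rw [hsk, hw']
  obtain ⟨t₁, ht₁⟩ := P.tv (P.f + w' - w) 1 (halt _) (map_one _)
  obtain ⟨t₂, ht₂⟩ := P.tv (P.e - (P.f + w')) 1 (halt _) (map_one _)
  obtain ⟨t₃, ht₃⟩ := P.tv (w' + c⁻¹ • P.e - w) 1 (halt _) (map_one _)
  have hh1 : P.ρ (t₃ * t₂ * t₁) P.e = w' + c⁻¹ • P.e := by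
    have e1 : P.ρ t₁ P.e = P.e + (P.f + w' - w) := by rw [ht₁]; simp
    have e2 : P.ρ t₂ (P.e + (P.f + w' - w)) = w := by
      rw [ht₂]
      simp only [add_left, sub_left, sub_right, add_right, he, hef, eW, hfe, hf, fW, We, Wf, halt,
        hww']
      linear_combination (norm := module) h2 • (P.f + w' - w)
    rw [ρ_mul, ρ_mul, e1, e2, ht₃]
    simp [hww', halt]
  have hh2 : P.ρ (t₃ * t₂ * t₁) w = P.e := by
    have e1 : P.ρ t₁ w = P.f + w' := by rw [ht₁]; simp [hww', halt]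
    have e2 : P.ρ t₂ (P.f + w') = P.e := by rw [ht₂]; simp [halt, hn1]
    rw [ρ_mul, ρ_mul, e1, e2, ht₃]
    simp
  generalize t₃ * t₂ * t₁ = h at hh1 hh2
  have hz' : ∀ v, P.ρ (h * z * h⁻¹) v =
      v - P.B v (w' + c⁻¹ • P.e) • P.e - P.B v P.e • ((w' : V) + c⁻¹ • P.e) -
        (c * P.B v (w' + c⁻¹ • P.e)) • ((w' : V) + c⁻¹ • P.e) := by
    intro v
    rw [ρ_mul, ρ_mul, hz]
    simp only [map_sub, map_smul, ρ_apply_inv, isom_inv, hh1, hh2]
  have hsq : ∀ {w : P.W} {c : K} {z : G}, P.IsE w c z → z * z = 1 := by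
    intro w c z hz
    have := hz.mul hz
    rw [← two_smul K w, ← two_mul, h2, zero_smul, zero_mul, halt, sub_zero] at this
    exact this.unique isE_zero
  have hn := hz.mul (hz.conj (w' := w - c • w') (g := h * z * h⁻¹) (by rw [hz']; simp) (by
    rw [hz']
    simp only [add_right, smul_right, hww', We, mul_zero, add_zero, one_smul, zero_smul, sub_zero,
      mul_one, smul_add, smul_smul, mul_inv_cancel₀ hc0, Submodule.coe_sub, Submodule.coe_smul]
    linear_combination (norm := module) h2 • (-P.e)))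
  have e2 : (z * (h * z * h⁻¹)) ^ 2 = z * (h * z * h⁻¹ * z * (h * z * h⁻¹)⁻¹) := by
    rw [sq, _root_.mul_inv_rev, _root_.mul_inv_rev, inv_inv, inv_eq_of_mul_eq_one_right (hsq hz)]
    group
  have e4 : (z * (h * z * h⁻¹)) ^ 4 = 1 := by
    rw [show 4 = 2 * 2 from rfl, pow_mul, e2, sq, hsq hn]
  obtain ⟨k, hk⟩ := exists_lift β⁻¹ (g * h * g⁻¹)
  have hk' := lift_inv hk
  rw [inv_inv] at hk'
  have e5 : β (QuotientGroup.mk (t * (k * t * k⁻¹))) =
      QuotientGroup.mk (g * (z * (h * z * h⁻¹)) * g⁻¹) := by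
    rw [QuotientGroup.mk_mul, QuotientGroup.mk_mul, QuotientGroup.mk_mul, QuotientGroup.mk_inv,
      map_mul, map_mul, map_mul, map_inv, hk', e, ← QuotientGroup.mk_inv, ← QuotientGroup.mk_mul,
      ← QuotientGroup.mk_mul, ← QuotientGroup.mk_mul]
    congr 1
    group
  have e6 : (t * (k * t * k⁻¹)) ^ 4 = 1 := by
    apply mk_eq_one_char_two hσ
    apply β.injective
    rw [QuotientGroup.mk_pow, map_pow, e5, ← QuotientGroup.mk_pow, conj_pow, e4, map_one]
    simp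
  have e7 := odd_transp hσ P.he (halt _) ht (ht.conj k) e6
  have e8 : g * (z * (h * z * h⁻¹)) ^ 2 * g⁻¹ = 1 := by
    apply mk_eq_one_char_two hσ
    rw [← conj_pow, QuotientGroup.mk_pow, ← e5, ← map_pow, ← QuotientGroup.mk_pow, e7]
    simp
  rw [mul_inv_eq_one, mul_eq_left, e2] at e8
  have e9 := hn.apply_f
  rw [e8, map_one, Module.End.one_apply, ← pt_zero] at e9
  have e10 := (pt_inj' e9).1
  rw [← add_sub_assoc, ← two_smul K w, h2, zero_smul, zero_sub, eq_comm, neg_eq_zero,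
    smul_eq_zero] at e10
  rcases e10 with h | h
  · exact hc0 h
  · rw [h] at hw'
    simp at hw'

theorem dichotomy [Finite K] [Finite V] [Nontrivial P.W] [CharP K 2] (hσ : ∀ x, P.σ x = x)
    (halt : ∀ v, P.B v v = 0) (β : MulAut (G ⧸ center G)) :
    ∃ g : G, P.Rel β P.e (P.ρ g P.e) ∨ ∃ w₀ : P.W, w₀ ≠ 0 ∧ ∀ a t, P.IsT P.e a t →
      ∃ (w : P.W) (z : G), P.B w w₀ = 0 ∧ P.IsE w 0 z ∧
        β (QuotientGroup.mk t) = QuotientGroup.mk (g * z * g⁻¹) := by
  haveI := P.finite_G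
  have h2 : (2 : K) = 0 := CharTwo.two_eq_zero
  obtain ⟨S, hQ, hS⟩ := P.exists_sylow (p := 2)
  obtain ⟨g, hg⟩ := sylow_center_lift P.center_pow β S
  have key : ∀ a t, P.IsT P.e a t → ∃ (w : P.W) (c : K) (z : G), P.IsE w c z ∧
      β (QuotientGroup.mk t) = QuotientGroup.mk (g * z * g⁻¹) := by
    intro a t ht
    obtain ⟨z, hz, hzc, e⟩ := hg t (hQ ⟨0, -a, by simp [Adm, hσ], isE_zero_iff.2 (by
      rwa [neg_neg])⟩) (fun s hs => by
        have := ht.conj s
        rw [hS s hs] at this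
        conv_lhs => rw [ht.unique this]
        group)
    obtain ⟨w, c, -, hw⟩ := centralizer_Q (hS z hz) (fun u hu => hzc u (hQ hu))
    exact ⟨w, c, z, hw, e⟩
  refine ⟨g, ?_⟩
  by_cases H : ∀ a t w c z, P.IsT P.e a t → P.IsE w c z →
      β (QuotientGroup.mk t) = QuotientGroup.mk (g * z * g⁻¹) → w = 0
  · refine Or.inl ⟨iso_e, iso_e.map g, fun a t _ ht => ?_⟩
    obtain ⟨w, c, z, hz, e⟩ := key a t ht
    obtain rfl := H a t w c z ht hz e
    exact ⟨-c, _, hσ _, (isE_zero_iff.1 hz).conj g, e⟩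
  · push Not at H
    obtain ⟨a₀, t₀, w₀, c₀, z₀, ht₀, hz₀, e₀, hw₀⟩ := H
    obtain rfl := (not_c2 hσ halt β ht₀ hz₀ e₀).resolve_left hw₀
    refine Or.inr ⟨w₀, hw₀, fun a t ht => ?_⟩
    obtain ⟨w, c, z, hz, e⟩ := key a t ht
    have e1 : β (QuotientGroup.mk (t₀ * t)) = QuotientGroup.mk (g * (z₀ * z) * g⁻¹) := by
      rw [QuotientGroup.mk_mul, map_mul, e₀, e, ← QuotientGroup.mk_mul]
      congr 1
      group
    have h3 := not_c2 hσ halt β (ht₀.mul P.he ht) (hz₀.mul hz) e1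
    have h4 := not_c2 hσ halt β ht hz e
    have h5 : c = 0 := by
      rcases h4 with rfl | h4
      · simpa [hw₀] using h3
      · exact h4
    subst h5
    refine ⟨w, z, ?_, hz, e⟩
    rcases h3 with h3 | h3
    · rw [eq_neg_of_add_eq_zero_right h3]
      simp [halt]
    · simpa using h3

end Polar

end CfsgH7
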