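import Cfsg.Agent.H9.RootInv3
import Cfsg.Agent.L0.Cores

/-! Root involutions (helper7): midpoints, passage to subgroups and quotients, odd transpositions. -/

set_option autoImplicit false
set_option linter.unusedSectionVars false

namespace CfsgH7.RI
open Cfsg CfsgH9

universe u
variable {G : Type*} [Group G] {D : Set G} {a b c d e f g s x y z : G}

theorem eq_of_sq_eq (hx : Odd (orderOf x)) (hy : Odd (orderOf y)) (h : x * x = y * y) : x = y := by
  obtain ⟨k, hk⟩ := hx.mul hy
  have h1 : x = (x * x) ^ (k + 1) := by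
    rw [← pow_two, ← pow_mul, show 2 * (k + 1) = 2 * k + 1 + 1 by ring, ← hk, pow_succ, pow_mul,
      pow_orderOf_eq_one, one_pow, one_mul]
  have h2 : y = (y * y) ^ (k + 1) := by
    rw [← pow_two, ← pow_mul, show 2 * (k + 1) = 2 * k + 1 + 1 by ring, ← hk, pow_succ, mul_comm (orderOf x),
      pow_mul, pow_orderOf_eq_one, one_pow, one_mul]
  rw [h1, h, ← h2]

theorem mid_unique {s' : G} (h1 : Od s a) (h2 : Od s' a) (h : s * a * s = s' * a * s') : s = s' := by
  have := eq_of_sq_eq h1.2 h2.2 (by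
    calc _ = s * a * s * a := by group
      _ = _ := by rw [h]; group)
  exact mul_right_cancel this

theorem exists_mid (hD : RI D) (ha : a ∈ D) (hb : b ∈ D) (h : Od a b) :
    ∃ s ∈ D, s * a * s = b ∧ s * b * s = a ∧ Od s a ∧ Od s b ∧ s ∈ Subgroup.closure ({a, b} : Set G) := by
  obtain ⟨k, hk⟩ := h.2
  set ρ := a * b with hρ
  have hi : a * ρ * a⁻¹ = ρ⁻¹ := CfsgH4.dih_inv_left (hD.sq a ha) (hD.sq b hb)
  have hip : ∀ n : ℕ, a * ρ ^ n = (ρ ^ n)⁻¹ * a := fun n => by
    have := CfsgH4.inverts_pow hi n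
    rw [← this]; group
  have hρ1 : ρ ^ (2 * k + 1) = 1 := by rw [← hk, pow_orderOf_eq_one]
  have hb' : b = a * ρ := by rw [hρ, hD.sq_assoc ha]
  have hρm : ρ ∈ Subgroup.closure ({a, b} : Set G) :=
    mul_mem (Subgroup.subset_closure (by simp)) (Subgroup.subset_closure (by simp))
  have hcl : Subgroup.closure ({a, b} : Set G) ≤ Subgroup.closure D :=
    Subgroup.closure_mono (by rintro _ (rfl | rfl) <;> assumption)
  have e1 : a * ρ ^ (k + 1) = (ρ ^ ((k + 1) * (k + 1)))⁻¹ * a * (ρ ^ ((k + 1) * (k + 1)))⁻¹⁻¹ := by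
    rw [← hip, inv_inv, mul_assoc, ← pow_add,
      show (k + 1) * (k + 1) + (k + 1) * (k + 1) = (2 * k + 1) * (k + 1) + (k + 1) by ring,
      pow_add _ ((2 * k + 1) * (k + 1)), pow_mul, hρ1, one_pow, one_mul]
  have hs : a * ρ ^ (k + 1) ∈ D := by
    rw [e1]; exact hD.conj_closure (hcl (inv_mem (pow_mem hρm _))) ha
  have e2 : a * ρ ^ (k + 1) * a * (a * ρ ^ (k + 1)) = b := by
    rw [mul_assoc _ a, hD.sq_assoc ha, mul_assoc, ← pow_add, show k + 1 + (k + 1) = 2 * k + 1 + 1 by ring,
      pow_succ, hρ1, one_mul, ← hb']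
  have e3 : a * ρ ^ (k + 1) * b * (a * ρ ^ (k + 1)) = a := by
    rw [← e2]
    generalize a * ρ ^ (k + 1) = t at hs
    calc _ = t * t * a * (t * t) := by group
      _ = a := by rw [hD.sq t hs]; group
  have o1 : Od (a * ρ ^ (k + 1)) a := by
    refine ⟨fun e => h.1 ?_, ?_⟩
    · rw [← e2, e, hD.sq a ha, one_mul]
    · rw [hip, mul_assoc, hD.sq a ha, mul_one, orderOf_inv]; exact odd_orderOf_pow h.2 _
  refine ⟨_, hs, e2, e3, o1, ?_, mul_mem (Subgroup.subset_closure (by simp)) (pow_mem hρm _)⟩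
  have := o1.conj (a * ρ ^ (k + 1))
  rwa [mul_inv_cancel_right, hD.inv hs, e2] at this

theorem commute_of_mem_pair (hs : s ∈ Subgroup.closure ({a, b} : Set G)) (h1 : Commute g a)
    (h2 : Commute g b) : Commute g s := by
  have : Subgroup.closure ({a, b} : Set G) ≤ Subgroup.centralizer {g} := by
    rw [Subgroup.closure_le]
    rintro _ (rfl | rfl)
    · exact Subgroup.mem_centralizer_singleton_iff.2 h1.symm
    · exact Subgroup.mem_centralizer_singleton_iff.2 h2.symm
  exact (Subgroup.mem_centralizer_singleton_iff.1 (this hs) : Commute s g).symm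

/-- anything commuting with `y` and `y ^ s` commutes with `s` -/
theorem commute_mid (hD : RI D) (hs : s ∈ D) (hy : y ∈ D) (h : Od s y) (h1 : Commute g y)
    (h2 : Commute g (s * y * s)) : Commute g s := by
  obtain ⟨t, -, e1, -, o1, -, hm⟩ := exists_mid hD hy (hD.conj s hs y hy) (h.symm.conj_self hD hy hs)
  rw [mid_unique h o1 e1.symm]
  exact commute_of_mem_pair hm h1 h2

/-- an involution `u` moving `y` to an odd partner -/
theorem mid_of_invol (hD : RI D) {u : G} (hu : u * u = 1) (huD : ∀ d ∈ D, u * d * u ∈ D) (hy : y ∈ D)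
    (h : Od y (u * y * u)) :
    ∃ c ∈ D, Od c y ∧ c * y * c = u * y * u ∧ Commute c u ∧ Commute (u * c) y ∧
      ∀ g, Commute g y → Commute g u → Commute g c := by
  obtain ⟨c, hc, e1, e2, o1, o2, hm⟩ := exists_mid hD hy (huD y hy) h
  have hui : u⁻¹ = u := inv_eq_of_mul_eq_one_right hu
  have e3 : u * c * u = c := by
    refine mid_unique (a := u * y * u) ?_ o2 ?_
    · simpa only [hui] using o1.conj u
    · rw [e2]
      calc _ = u * c * (u * u) * y * (u * u) * c * u := by group
        _ = u * (c * y * c) * u := by rw [hu]; group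
        _ = u * u * y * (u * u) := by rw [e1]; group
        _ = y := by rw [hu]; group
  refine ⟨c, hc, o1, e1, ?_, ?_, fun g h1 h2 => commute_of_mem_pair hm h1 ((h2.mul_right h1).mul_right h2)⟩
  · show c * u = u * c
    conv_lhs => rw [← e3]
    rw [mul_assoc, hu, mul_one]
  · show u * c * y = y * (u * c)
    calc _ = u * (c * y * c) * c := by rw [mul_assoc _ _ c, mul_assoc _ c c, hD.sq c hc]; group
      _ = u * u * y * (u * c) := by rw [e1]; group
      _ = _ := by rw [hu, one_mul]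

/-- two odd partners of `y` are conjugate by an element centralising what centralises all three -/
theorem exists_conj_via (hD : RI D) (ha : a ∈ D) (hb : b ∈ D) (hy : y ∈ D) (h1 : Od a y) (h2 : Od b y) :
    ∃ h ∈ Subgroup.closure D, h * a * h⁻¹ = b ∧
      ∀ g, Commute g a → Commute g b → Commute g y → Commute g h := by
  obtain ⟨s, hs, e1, -, -, -, m1⟩ := exists_mid hD ha hy h1
  obtain ⟨t, ht, -, e2, -, -, m2⟩ := exists_mid hD hb hy h2
  refine ⟨t * s, mul_mem (Subgroup.subset_closure ht) (Subgroup.subset_closure hs), ?_,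
    fun g g1 g2 g3 => (commute_of_mem_pair m2 g2 g3).mul_right (commute_of_mem_pair m1 g1 g3)⟩
  rw [mul_inv_rev, hD.inv hs, hD.inv ht, ← e2, ← e1]; group

theorem commute_conj_iff (h : G) : Commute (h * a * h⁻¹) (h * b * h⁻¹) ↔ Commute a b := by
  constructor
  · intro e
    have := e.map (MulAut.conj h⁻¹)
    simpa [mul_assoc] using this
  · intro e
    simpa using e.map (MulAut.conj h)

theorem commute_conj_left {h : G} (hg : Commute h b) : Commute (h * a * h⁻¹) b ↔ Commute a b := by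
  rw [← commute_conj_iff (a := a) h, hg.eq, mul_inv_cancel_right]

/-- inclusion of conjugate perps is equality -/
theorem perp_sub [Finite G] (hD : RI D) {h p : G} (hh : h ∈ Subgroup.closure D) (S : Set G)
    (hS : ∀ x ∈ S, Commute h x)
    (H : ∀ y ∈ D, (∀ x ∈ S, Commute y x) → Commute y p → Commute y (h * p * h⁻¹)) :
    ∀ y ∈ D, (∀ x ∈ S, Commute y x) → Commute y (h * p * h⁻¹) → Commute y p := by
  let A : Set G := {y | y ∈ D ∧ (∀ x ∈ S, Commute y x) ∧ Commute y p}
  let B : Set G := {y | y ∈ D ∧ (∀ x ∈ S, Commute y x) ∧ Commute y (h * p * h⁻¹)}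
  have hc : B.ncard = A.ncard := ncard_eq_of_conj h fun y => by
    have e : y = h * (h⁻¹ * y * h) * h⁻¹ := by group
    refine and_congr ⟨fun hy => by simpa using hD.conj_closure (inv_mem hh) hy,
      fun hy => e ▸ hD.conj_closure hh hy⟩ (and_congr (forall₂_congr fun x hx => ?_) ?_)
    · conv_lhs => rw [e]
      exact commute_conj_left (hS x hx)
    · conv_lhs => rw [e]
      rw [show h * (h⁻¹ * y * h) * h⁻¹ = h * (h⁻¹ * y * h) * h⁻¹ from rfl]
      exact commute_conj_iff h
  have := Set.eq_of_subset_of_ncard_le (s := A) (t := B) (fun y hy => ⟨hy.1, hy.2.1, H y hy.1 hy.2.1 hy.2.2⟩)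
    hc.le
  intro y hy h1 h2
  exact ((this.symm ▸ ⟨hy, h1, h2⟩ : y ∈ A)).2.2

/-! ### passage to the generated subgroup and to quotients -/

/-- `Δ` as a subset of the subgroup it generates -/
def sub (Δ : Set G) : Set (Subgroup.closure Δ) := Subtype.val ⁻¹' Δ

theorem od_coe {H : Subgroup G} {a b : H} : Od (a : G) b ↔ Od a b := by
  unfold Od
  rw [← Subgroup.coe_mul, Subgroup.orderOf_coe, Ne, Ne, Subtype.ext_iff]

theorem fo_coe {H : Subgroup G} {a b : H} : Fo (a : G) b ↔ Fo a b := by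
  unfold Fo
  rw [← Subgroup.coe_mul, Subgroup.orderOf_coe]

theorem commute_coe {H : Subgroup G} {a b : H} : Commute (a : G) b ↔ Commute a b :=
  ⟨fun h => Subtype.ext h, fun h => congrArg Subtype.val h⟩

theorem subRS (hD : RI D) : IsRootInvolutionSet (sub D) where
  orderOf_eq d hd := by
    haveI : Fact (Nat.Prime 2) := ⟨Nat.prime_two⟩
    exact orderOf_eq_prime (by rw [pow_two]; exact Subtype.ext (hD.sq _ hd))
      fun e => hD.ne _ hd (congrArg Subtype.val e)
  generates := Subgroup.closure_closure_coe_preimage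
  conj_mem d hd g := hD.conj_closure g.2 hd
  pair a ha b hb := by
    rcases hD.pair a ha b hb with h | h | h
    · exact Or.inl (Subtype.ext h)
    · exact Or.inr (Or.inl (by rwa [← Subgroup.coe_mul, Subgroup.orderOf_coe] at h))
    · exact Or.inr (Or.inr ⟨by rw [← Subgroup.orderOf_coe]; exact h.1, h.2⟩)

theorem sub_oneClass (hcl : OneClass D) : OneClass (sub D) := fun a ha b hb => by
  obtain ⟨g, hg, e⟩ := hcl a ha b hb
  refine ⟨⟨g, hg⟩, ?_, Subtype.ext e⟩
  rw [show Subgroup.closure (sub D) = ⊤ from Subgroup.closure_closure_coe_preimage]; trivial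

theorem mapRS {G' : Type*} [Group G'] (π : G →* G') (hπ : Function.Surjective π)
    (hD : IsRootInvolutionSet D) (hk : ∀ d ∈ D, π d ≠ 1) : IsRootInvolutionSet (π '' D) where
  orderOf_eq := by
    rintro _ ⟨d, hd, rfl⟩
    haveI : Fact (Nat.Prime 2) := ⟨Nat.prime_two⟩
    exact orderOf_eq_prime (by rw [pow_two, ← map_mul, (RI.of_set hD).sq d hd, map_one]) (hk d hd)
  generates := by rw [← MonoidHom.map_closure, hD.generates, Subgroup.map_top_of_surjective _ hπ]
  conj_mem := by
    rintro _ ⟨d, hd, rfl⟩ g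
    obtain ⟨g, rfl⟩ := hπ g
    exact ⟨_, hD.conj_mem d hd g, by simp⟩
  pair := by
    rintro _ ⟨a, ha, rfl⟩ _ ⟨b, hb, rfl⟩
    rcases hD.pair a ha b hb with h | h | h
    · exact Or.inl (by rw [← map_mul, h, map_mul])
    · exact Or.inr (Or.inl (by rw [← map_mul]; exact h.of_dvd_nat (orderOf_map_dvd π _)))
    · refine Or.inr (Or.inr ⟨?_, _, h.2, by simp⟩)
      rw [← map_mul]
      haveI : Fact (Nat.Prime 2) := ⟨Nat.prime_two⟩
      refine orderOf_eq_prime_pow (p := 2) (n := 1) ?_ ?_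
      · rw [pow_one, ← map_pow]; exact hk _ h.2
      · rw [← map_pow, show 2 ^ (1 + 1) = 4 from rfl, ← h.1, pow_orderOf_eq_one, map_one]

theorem map_oneClass {G' : Type*} [Group G'] (π : G →* G') (hcl : OneClass D) : OneClass (π '' D) := by
  rintro _ ⟨a, ha, rfl⟩ _ ⟨b, hb, rfl⟩
  obtain ⟨g, hg, rfl⟩ := hcl a ha b hb
  exact ⟨π g, by rw [← MonoidHom.map_closure]; exact ⟨g, hg, rfl⟩, by simp⟩

theorem od_map {G' : Type*} [Group G'] (π : G →* G') (hD : RI D) (ha : a ∈ D) (h : Od a b)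
    (hk : IsPGroup 2 π.ker) : Od (π a) (π b) := by
  refine ⟨fun e => h.not_sq_mem hD ha hk ?_, by rw [← map_mul]; exact h.2.of_dvd_nat (orderOf_map_dvd π _)⟩
  rw [MonoidHom.mem_ker, map_pow, map_mul, ← e, ← map_mul, hD.sq a ha, map_one, one_pow]

theorem not_mem_of_od (hD : RI D) (ha : a ∈ D) (hb : b ∈ D) (h : Od a b) {N : Subgroup G} [hN : N.Normal]
    (hk : IsPGroup 2 N) : a ∉ N := fun hm => h.not_sq_mem hD ha hk (by
  have := N.mul_mem hm (hN.conj_mem a hm b)
  rwa [hD.inv hb, ← mul_assoc, ← mul_assoc, mul_assoc _ a b, ← pow_two] at this)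

end CfsgH7.RI
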