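import Cfsg.Agent.H7.RI1

/-! Odd transpositions (helper7): the equivalence `Eqv`, products of equivalent members. -/

set_option autoImplicit false
set_option linter.unusedSectionVars false

namespace CfsgH7.RI
open Cfsg CfsgH9

universe u
variable {G : Type*} [Group G] {D : Set G} {a b c d e f g s x y z : G}

/-- a self-normalised set of odd transpositions -/
structure OT (D : Set G) : Prop extends RI D where
  nfo : ∀ a ∈ D, ∀ b ∈ D, ¬ Fo a b

/-- same commuting members -/
def Eqv (D : Set G) (a b : G) : Prop := ∀ y ∈ D, Commute y a ↔ Commute y b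

theorem Eqv.refl (D : Set G) (a : G) : Eqv D a a := fun _ _ => Iff.rfl
theorem Eqv.symm (h : Eqv D a b) : Eqv D b a := fun y hy => (h y hy).symm
theorem Eqv.trans (h : Eqv D a b) (h' : Eqv D b c) : Eqv D a c := fun y hy => (h y hy).trans (h' y hy)
theorem Eqv.commute (h : Eqv D a b) (ha : a ∈ D) : Commute a b := (h a ha).1 (Commute.refl a)

theorem Eqv.conj (hD : RI D) (h : Eqv D a b) (hg : g ∈ Subgroup.closure D) :
    Eqv D (g * a * g⁻¹) (g * b * g⁻¹) := fun y hy => by
  have e : y = g * (g⁻¹ * y * g⁻¹⁻¹) * g⁻¹ := by group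
  rw [e, commute_conj_iff, commute_conj_iff]
  exact h _ (hD.conj_closure (inv_mem hg) hy)

theorem eqv_iff : Eqv D a b ↔ commutingMembers D a = commutingMembers D b :=
  ⟨fun h => Set.ext fun y => and_congr_right fun hy => h y hy,
    fun h y hy => ⟨fun e => ((Set.ext_iff.1 h y).1 ⟨hy, e⟩).2, fun e => ((Set.ext_iff.1 h y).2 ⟨hy, e⟩).2⟩⟩

theorem eqv_of_sub [Finite G] (hD : RI D) (hcl : OneClass D) (ha : a ∈ D) (hb : b ∈ D)
    (h : ∀ y ∈ D, Commute y a → Commute y b) : Eqv D a b :=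
  eqv_iff.2 (C_eq_of_subset hD hcl ha hb fun y hy => ⟨hy.1, h y hy.1 hy.2⟩)

theorem od_irrefl (h : Od a a) : False := h.1 rfl

theorem OT.od (hD : OT D) (ha : a ∈ D) (hb : b ∈ D) (h : ¬ Commute a b) : Od a b :=
  hD.od_of ha hb h (hD.nfo a ha b hb)

theorem OT.cm (hD : OT D) (ha : a ∈ D) (hb : b ∈ D) (h : ¬ Od a b) : Commute a b :=
  by_contra fun h' => h (hD.od ha hb h')

theorem nc (hD : RI D) (ha : a ∈ D) (hb : b ∈ D) (h : Od a b) : ¬ Commute a b := h.not_comm hD ha hb

theorem OT.tri' (hD : OT D) (ha : a ∈ D) (hb : b ∈ D) : Commute a b ∨ Od a b :=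
  (em _).imp_right (hD.od ha hb)

theorem Eqv.od (hD : OT D) (h : Eqv D a b) (ha : a ∈ D) (hb : b ∈ D) (hy : y ∈ D) (ho : Od y a) : Od y b :=
  hD.od hy hb fun e => nc hD.toRI hy ha ho ((h y hy).2 e)

theorem exists_sep [Finite G] (hD : OT D) (hcl : OneClass D) (ha : a ∈ D) (hb : b ∈ D) (h : ¬ Eqv D a b) :
    ∃ y ∈ D, Commute y a ∧ Od y b := by
  by_contra hn
  push Not at hn
  exact h (eqv_of_sub hD.toRI hcl ha hb fun y hy e => hD.cm hy hb (hn y hy e))

theorem OT.of_mul (hD : OT D) (ha : a ∈ D) (hb : b ∈ D) (hne : a ≠ b) (hy : y ∈ D)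
    (h : Commute y (a * b)) : Commute y a := by
  by_contra h1
  have h2 : ¬ Commute y b := fun e => h1 (by
    have := h.mul_right e
    rwa [mul_assoc, hD.sq b hb, mul_one] at this)
  refine hne (mid_unique (hD.od hy ha h1).symm (hD.od hy hb h2).symm ?_)
  calc a * y * a = a * (y * (a * b)) * b := by rw [mul_assoc _ _ b, mul_assoc _ _ b, mul_assoc a b b, hD.sq b hb]; group
    _ = a * a * b * y * b := by rw [h.eq]; group
    _ = _ := by rw [hD.sq a ha, one_mul]

theorem OT.of_mul' (hD : OT D) (ha : a ∈ D) (hb : b ∈ D) (hne : a ≠ b) (hy : y ∈ D)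
    (h : Commute y (a * b)) : Commute y b := by
  have := (hD.of_mul ha hb hne hy h).mul_right h
  rwa [hD.sq_assoc ha] at this

theorem OT.mono (hD : OT D) {T : Set G} (hT : T ⊆ D) (hc : ∀ a ∈ T, ∀ b ∈ T, a * b * a ∈ T) : OT T where
  sq d hd := hD.sq d (hT hd)
  ne d hd := hD.ne d (hT hd)
  conj := hc
  pair a ha b hb := (hD.tri' (hT ha) (hT hb)).imp id fun h => Or.inl h.2
  nfo a ha b hb := hD.nfo a (hT ha) b (hT hb)

/-- members commuting with `b` -/
def Cn (D : Set G) (b : G) : Set G := {y | y ∈ D ∧ Commute y b}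

theorem OT.cn (hD : OT D) (b : G) : OT (Cn D b) :=
  hD.mono (fun _ h => h.1) fun x hx y hy => ⟨hD.conj x hx.1 y hy.1, (hx.2.mul_left hy.2).mul_left hx.2⟩

/-- the odd component of `a` -/
def Comp (D : Set G) (a : G) : Set G := {y | y ∈ D ∧ OR D a y}

theorem Comp.self (ha : a ∈ D) : a ∈ Comp D a := ⟨ha, Relation.ReflTransGen.refl⟩

theorem Comp.of_od (hy : y ∈ Comp D a) (hg : g ∈ D) (h : Od y g) : g ∈ Comp D a :=
  ⟨hg, hy.2.tail ⟨hy.1, hg, h⟩⟩

theorem OT.comp (hD : OT D) (a : G) : OT (Comp D a) :=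
  hD.mono (fun _ h => h.1) fun x hx y hy => by
    rcases hD.tri' hx.1 hy.1 with h | h
    · rwa [h.eq, mul_assoc, hD.sq x hx.1, mul_one]
    · exact Comp.of_od hy (hD.conj x hx.1 y hy.1) (h.symm.conj_self hD.toRI hy.1 hx.1)

theorem comp_connected (ha : a ∈ D) : IsConnectedSet (OddAdj (Comp D a)) (Comp D a) := by
  have key : ∀ y, OR D a y → OR (Comp D a) a y := fun y hy => by
    induction hy with
    | refl => exact Relation.ReflTransGen.refl
    | tail h1 h2 ih => exact ih.tail ⟨⟨h2.1, h1⟩, ⟨h2.2.1, h1.tail h2⟩, h2.2.2⟩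
  exact fun x hx y hy => (key x hx.2).symm.trans (key y hy.2)

theorem OT.comp_oneClass (hD : OT D) (ha : a ∈ D) : OneClass (Comp D a) :=
  oneClass_of_connected (hD.comp a).toRI (comp_connected ha)

/-- the subgroup generated by the class of `d` -/
def EE (D : Set G) (d : G) : Subgroup G := Subgroup.closure {e | e ∈ D ∧ Eqv D d e}

theorem mem_EE (he : e ∈ D) (h : Eqv D d e) : e ∈ EE D d := Subgroup.subset_closure ⟨he, h⟩

theorem EE.commute {u : G} (hu : u ∈ EE D d) (hy : y ∈ D) (h : Commute y d) : Commute y u := by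
  have : EE D d ≤ Subgroup.centralizer {y} := (Subgroup.closure_le _).2 fun e he =>
    Subgroup.mem_centralizer_singleton_iff.2 ((he.2 y hy).1 h).symm
  exact (Subgroup.mem_centralizer_singleton_iff.1 (this hu) : Commute u y).symm

theorem EE.commute' {u v : G} (hu : u ∈ EE D d) (hv : v ∈ EE D e) (hd : d ∈ D) (h : Commute d e) :
    Commute u v := by
  have : EE D e ≤ Subgroup.centralizer {u} := (Subgroup.closure_le _).2 fun y hy =>
    Subgroup.mem_centralizer_singleton_iff.2 (EE.commute hu hy.1 ((hy.2 d hd).1 h).symm)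
  exact (Subgroup.mem_centralizer_singleton_iff.1 (this hv) : Commute v u).symm

theorem EE.sq (hD : RI D) (hd : d ∈ D) {u : G} (hu : u ∈ EE D d) : u * u = 1 := by
  induction hu using Subgroup.closure_induction with
  | one => simp
  | mem x hx => exact hD.sq x hx.1
  | mul x y hx hy ihx ihy =>
    rw [mul_assoc, ← mul_assoc y, ← (EE.commute' hx hy hd (Commute.refl d)).eq, mul_assoc, ihy, mul_one, ihx]
  | inv x _ ih => rw [← mul_inv_rev, ih, inv_one]

theorem EE.conj (hD : RI D) (hg : g ∈ Subgroup.closure D) {u : G} (hu : u ∈ EE D d) :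
    g * u * g⁻¹ ∈ EE D (g * d * g⁻¹) := by
  induction hu using Subgroup.closure_induction with
  | one => simp
  | mem x hx => exact mem_EE (hD.conj_closure hg hx.1) (hx.2.conj hD hg)
  | mul x y _ _ ihx ihy => convert mul_mem ihx ihy using 1; group
  | inv x _ ih => convert inv_mem ih using 1; group

theorem EE.eq (h : Eqv D d e) : EE D d = EE D e := by
  unfold EE
  congr 1
  ext x
  exact and_congr_right fun _ => ⟨h.symm.trans, h.trans⟩

theorem top_mem (hD : IsRootInvolutionSet D) (g : G) : g ∈ Subgroup.closure D := by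
  rw [hD.generates]; trivial

theorem mem_pCore_of_commute [Finite G] (hD : IsRootInvolutionSet D) (hd : d ∈ D) {u : G} (hu : u ∈ EE D d)
    (h : ∀ y ∈ D, Commute y (u * y * u)) : u ∈ pCore 2 G := by
  have hR := RI.of_set hD
  haveI : Fact (Nat.Prime 2) := ⟨Nat.prime_two⟩
  have u2 := EE.sq hR hd hu
  have ui : u⁻¹ = u := inv_eq_of_mul_eq_one_right u2
  refine CfsgL0.le_pCore (CfsgH4.baer_suzuki_elt u fun g => ?_) (Subgroup.subset_normalClosure rfl)
  have hy := hD.conj_mem d hd g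
  have h1 := EE.conj hR (top_mem hD g) hu
  have h2 := EE.conj hR (top_mem hD u) h1
  rw [ui] at h2
  have h3 := EE.commute' h1 h2 hy (h _ hy)
  have h4 := EE.sq hR hy h1
  generalize g * u * g⁻¹ = v at h3 h4
  refine CfsgH4.dih_isPGroup u2 h4 (k := 2) ?_
  calc _ = (u * v * u * v) * (u * v * u * v) := by
        rw [show (2 : ℕ) ^ 2 = 4 from rfl]; simp only [pow_succ, pow_zero, one_mul, mul_assoc]
    _ = u * v * u * (v * (u * v * u)) * v := by group
    _ = u * v * (u * u) * v * u * (v * v) := by rw [h3.eq]; group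
    _ = 1 := by rw [u2, h4, mul_one, mul_one, mul_assoc u, h4, mul_one, u2]

theorem prod_eqv [Finite G] (hD : IsRootInvolutionSet D) (hT : OT D) (hcl : OneClass D) (he : e ∈ D)
    (hf : f ∈ D) (hef : Eqv D e f) :
    e * f ∈ pCore 2 G ∨ ∃ y ∈ D, Eqv D e y ∧ e * f * y ∈ pCore 2 G := by
  have hR := hT.toRI
  by_cases hne : e = f
  · left; rw [hne, hR.sq f hf]; exact one_mem _
  have hz : e * f ∈ EE D e := mul_mem (mem_EE he (Eqv.refl _ _)) (mem_EE hf hef)
  have inv : ∀ {u : G}, u * u = 1 → ∀ d ∈ D, u * d * u ∈ D := fun {u} hu d hd => by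
    have := hD.conj_mem d hd u
    rwa [inv_eq_of_mul_eq_one_right hu] at this
  have triv : ∀ {u y : G}, u * u = 1 → Commute y u → ¬ Od y (u * y * u) := fun {u y} hu h ho => by
    rw [← h.eq, mul_assoc, hu, mul_one] at ho; exact od_irrefl ho
  by_cases h0 : ∀ y ∈ D, Commute y (e * f * y * (e * f))
  · exact Or.inl (mem_pCore_of_commute hD he hz h0)
  right
  push Not at h0
  obtain ⟨x, hx, h0⟩ := h0
  have z2 := EE.sq hR he hz
  replace h0 := hT.od hx (inv z2 x hx) h0
  obtain ⟨y, hy, oyx, -, cyz, cwx, -⟩ := mid_of_invol hR z2 (inv z2) hx h0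
  have cye := hT.of_mul he hf hne hy cyz
  have cyf := hT.of_mul' he hf hne hy cyz
  have cef := hef.commute he
  have oex : Od e x := (hT.od hx he fun h => triv z2 (EE.commute hz hx h) h0).symm
  set w := e * f * y with hw
  have cwe : Commute w e := ((Commute.refl e).mul_left cef.symm).mul_left cye
  have cwf : Commute w f := (cef.mul_left (Commute.refl f)).mul_left cyf
  have cwy : Commute w y := cyz.symm.mul_left (Commute.refl y)
  have hey : Eqv D e y := by
    obtain ⟨h, hh, e1, hc⟩ := exists_conj_via hR he hy hx oex oyx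
    have e2 : (h * f * h⁻¹) * (h * y * h⁻¹) = e * f := by
      have : y * ((h * f * h⁻¹) * (h * y * h⁻¹)) = y * (e * f) := by
        calc _ = (h * e * h⁻¹) * ((h * f * h⁻¹) * (h * y * h⁻¹)) := by rw [e1]
          _ = h * w * h⁻¹ := by rw [hw]; group
          _ = w := by rw [← (hc w cwe cwy cwx).eq, mul_inv_cancel_right]
          _ = _ := by rw [hw, cyz.eq]
      exact mul_left_cancel this
    have h1 : Eqv D e (h * f * h⁻¹) := eqv_of_sub hR hcl he (hD.conj_mem f hf h) fun g hg hge =>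
      hT.of_mul (hD.conj_mem f hf h) (hD.conj_mem y hy h) (fun e3 => hne (by
        rw [e3, hR.sq _ (hD.conj_mem y hy h)] at e2
        rw [← hR.inv he]; exact inv_eq_of_mul_eq_one_right e2.symm)) hg (e2 ▸ EE.commute hz hg hge)
    exact h1.trans (e1 ▸ (hef.conj hR hh).symm)
  have hwE : w ∈ EE D e := mul_mem hz (mem_EE hy hey)
  have w2 := EE.sq hR he hwE
  refine ⟨y, hy, hey, mem_pCore_of_commute hD he hwE fun b hb => hT.cm hb (inv w2 b hb) fun h1 => ?_⟩
  obtain ⟨v, hv, ovb, -, cvw, cw1b, -⟩ := mid_of_invol hR w2 (inv w2) hb h1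
  have oeb : Od e b := (hT.od hb he fun h => triv w2 (EE.commute hwE hb h) h1).symm
  have case1 : ∀ k, k * v * k⁻¹ = y → Commute w k → False := fun k e1 ck => by
    have hb' := hD.conj_mem b hb k
    have c1 := (commute_conj_iff k).2 cw1b
    have e2 : k * (w * v) * k⁻¹ = e * f := by
      calc _ = k * w * k⁻¹ * (k * v * k⁻¹) := by group
        _ = _ := by rw [← ck.eq, mul_inv_cancel_right, e1, hw, mul_assoc, hR.sq y hy, mul_one]
    rw [e2] at c1
    have o1 := ovb.conj k
    rw [e1] at o1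
    exact nc hR hy hb' o1 ((hey _ hb').1 (hT.of_mul he hf hne hb' c1.symm)).symm
  rcases hT.tri' hv he with cve | ove
  swap
  · obtain ⟨s, hs, e1, -, -, -, hm⟩ := exists_mid hR hv hy (hey.od hT he hy hv ove)
    exact case1 s (by rwa [hR.inv hs]) (commute_of_mem_pair hm cvw.symm cwy)
  rcases hT.tri' hv hx with cvx | ovx
  swap
  · obtain ⟨k, -, e1, hc⟩ := exists_conj_via hR hv hy hx ovx oyx
    exact case1 k e1 (hc w cvw.symm cwy cwx)
  have cw1v : Commute (w * v) v := cvw.symm.mul_left (Commute.refl v)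
  obtain ⟨k, hk, e1, hc⟩ := exists_conj_via hR he hv hb oeb ovb
  have ck := hc (w * v) (cwe.mul_left cve) cw1v cw1b
  have hx' := hD.conj_mem x hx k
  have hv' := hD.conj_mem v hv k
  have o1 : Od v (k * x * k⁻¹) := e1 ▸ oex.conj k
  have hwk : k * w * k⁻¹ ∈ EE D v := e1 ▸ EE.conj hR hk hwE
  have e2 : k * w * k⁻¹ = w * v * (k * v * k⁻¹) := by
    calc _ = k * (w * v) * k⁻¹ * (k * v * k⁻¹) := by
          rw [show k * (w * v) * k⁻¹ * (k * v * k⁻¹) = k * w * (v * v) * k⁻¹ by group, hR.sq v hv, mul_one]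
      _ = _ := by rw [← ck.eq, mul_inv_cancel_right]
  have c1 : Commute (k * x * k⁻¹) (w * v) := by
    have := (commute_conj_iff k).2 (cwx.mul_left cvx).symm
    rwa [← ck.eq, mul_inv_cancel_right] at this
  have o2 : Od e (k * x * k⁻¹) := (hT.od hx' he fun h => nc hR hv hx' o1 (by
    have := (EE.commute hwE hx' h).mul_right c1
    rw [← mul_assoc, w2, one_mul] at this
    exact this.symm)).symm
  obtain ⟨l, hl, e3, hc'⟩ := exists_conj_via hR hv he hx' o1 o2
  have cl := hc' (k * w * k⁻¹) (EE.commute hwk hv (Commute.refl v)).symm (EE.commute hwk he cve.symm).symm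
    ((commute_conj_iff k).2 cwx)
  have hwk' := EE.conj hR hl hwk
  rw [← cl.eq, mul_inv_cancel_right, e3] at hwk'
  have hm := mul_mem hwE hwk'
  rw [e2, show w * (w * v * (k * v * k⁻¹)) = w * w * (v * (k * v * k⁻¹)) by simp only [mul_assoc], w2,
    one_mul] at hm
  have h2 : Eqv D e v := eqv_of_sub hR hcl he hv fun g hg hge =>
    hT.of_mul hv hv' (fun e4 => nc hR he hx oex (by
      rw [← e1] at e4
      have : e = v := by
        rw [← e1]
        exact mul_left_cancel (mul_right_cancel e4)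
      exact this ▸ cvx)) hg (EE.commute hm hg hge)
  exact nc hR he hx oex ((h2 x hx).2 cvx.symm).symm

end CfsgH7.RI
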