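import Cfsg.Agent.H7.RI2

/-! Odd transpositions (helper7): transfer to the quotient by `O₂`, the triangle lemma. -/

set_option autoImplicit false
set_option linter.unusedSectionVars false

namespace CfsgH7.RI
open Cfsg CfsgH9

universe u
variable {G : Type*} [Group G] {D : Set G} {a b c d e f g s x y z : G}

theorem od_nc (ha : a * a = 1) (hb : b * b = 1) (h : Od a b) : ¬ Commute a b := fun e => by
  have : a * b = 1 := eq_one_of_odd_of_sq h.2 (by rw [mul_assoc, ← mul_assoc b, ← e.eq, mul_assoc, hb, mul_one, ha])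
  exact h.1 (by rw [← inv_eq_of_mul_eq_one_right this]; exact (inv_eq_of_mul_eq_one_right ha).symm)

section map
variable {G' : Type*} [Group G'] (π : G →* G')

theorem commute_map_iff (hT : OT D) (hk : IsPGroup 2 π.ker) (ha : a ∈ D) (hb : b ∈ D) :
    Commute (π a) (π b) ↔ Commute a b :=
  ⟨fun h => hT.cm ha hb fun o => od_nc (by rw [← map_mul, hT.sq a ha, map_one])
    (by rw [← map_mul, hT.sq b hb, map_one]) (od_map π hT.toRI ha o hk) h, fun h => h.map π⟩

theorem eqv_of_map_eq (hT : OT D) (hk : IsPGroup 2 π.ker) (ha : a ∈ D) (hb : b ∈ D) (h : π a = π b) :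
    Eqv D a b := fun y hy => by
  rw [← commute_map_iff π hT hk hy ha, h, commute_map_iff π hT hk hy hb]

theorem OT.map (hT : OT D) (hk : IsPGroup 2 π.ker) (hne : ∀ d ∈ D, π d ≠ 1) : OT (π '' D) where
  sq := by rintro _ ⟨d, hd, rfl⟩; rw [← map_mul, hT.sq d hd, map_one]
  ne := by rintro _ ⟨d, hd, rfl⟩; exact hne d hd
  conj := by rintro _ ⟨a, ha, rfl⟩ _ ⟨b, hb, rfl⟩; exact ⟨_, hT.conj a ha b hb, by simp⟩
  pair := by
    rintro _ ⟨a, ha, rfl⟩ _ ⟨b, hb, rfl⟩
    exact (hT.tri' ha hb).imp (fun h => h.map π) fun h => Or.inl (od_map π hT.toRI ha h hk).2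
  nfo := by
    rintro _ ⟨a, ha, rfl⟩ _ ⟨b, hb, rfl⟩ h
    rcases hT.tri' ha hb with h1 | h1
    · have : (π a * π b) ^ 2 = 1 := by
        rw [← map_mul, ← map_pow, h1.mul_pow, pow_two, pow_two, hT.sq a ha, hT.sq b hb, one_mul, map_one]
      have := Nat.le_of_dvd two_pos (orderOf_dvd_of_pow_eq_one this)
      rw [show orderOf (π a * π b) = 4 from h] at this
      omega
    · exact (od_map π hT.toRI ha h1 hk).not_fo h

end map

theorem OT.sub (hT : OT D) : OT (sub D) :=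
  ⟨RI.of_set (subRS hT.toRI), fun a ha b hb h => hT.nfo a ha b hb (fo_coe.2 h)⟩

theorem eqv_coe {a b : Subgroup.closure D} : Eqv (sub D) a b ↔ Eqv D a b :=
  ⟨fun h y hy => by
    have := h ⟨y, Subgroup.subset_closure hy⟩ hy
    rwa [← commute_coe, ← commute_coe] at this,
  fun h y hy => by rw [← commute_coe, ← commute_coe]; exact h y hy⟩

theorem ker_mk_pCore [Finite G] : IsPGroup 2 (QuotientGroup.mk' (pCore 2 G)).ker := by
  haveI : Fact (Nat.Prime 2) := ⟨Nat.prime_two⟩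
  rw [QuotientGroup.ker_mk']; exact CfsgL0.isPGroup_pCore _ _

/-- the action of a product of two equivalent members -/
theorem o2rel [Finite G] (hT : OT D) (hcl : OneClass D) (he : e ∈ D) (hf : f ∈ D) (hef : Eqv D e f) :
    (∀ y ∈ D, Eqv D y (e * f * y * (e * f))) ∨
      ∃ t ∈ D, Eqv D e t ∧ ∀ y ∈ D, Eqv D (t * y * t) (e * f * y * (e * f)) := by
  let e' : Subgroup.closure D := ⟨e, Subgroup.subset_closure he⟩
  let f' : Subgroup.closure D := ⟨f, Subgroup.subset_closure hf⟩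
  have hz : ∀ y ∈ sub D, e' * f' * y * (e' * f') ∈ sub D := fun y hy => by
    have := hT.conj e he _ (hT.conj f hf y hy)
    show e * f * y * (e * f) ∈ D
    rw [(hef.commute he).eq, ← mul_assoc, ← (hef.commute he).eq]
    simpa only [mul_assoc] using this
  rcases prod_eqv (subRS hT.toRI) hT.sub (sub_oneClass hcl) (e := e') (f := f') he hf (eqv_coe.2 hef) with h | ⟨t, ht, h1, h⟩
  · left
    intro y hy
    let y' : Subgroup.closure D := ⟨y, Subgroup.subset_closure hy⟩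
    refine eqv_coe.1 (eqv_of_map_eq (QuotientGroup.mk' _) hT.sub ker_mk_pCore (a := y') hy (hz y' hy) ?_)
    rw [map_mul, map_mul _ (e' * f'), QuotientGroup.mk'_apply _ (e' * f'), (QuotientGroup.eq_one_iff _).2 h]
    simp
  · right
    refine ⟨t, ht, eqv_coe.1 h1, fun y hy => ?_⟩
    let y' : Subgroup.closure D := ⟨y, Subgroup.subset_closure hy⟩
    refine eqv_coe.1 (eqv_of_map_eq (QuotientGroup.mk' _) hT.sub ker_mk_pCore (a := t * y' * t)
      (hT.sub.conj t ht y' hy) (hz y' hy) ?_)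
    have : QuotientGroup.mk' (pCore 2 _) (e' * f') = QuotientGroup.mk' (pCore 2 _) t := by
      rw [← mul_one (QuotientGroup.mk' _ (e' * f')), ← map_one (QuotientGroup.mk' _), ← hT.sub.sq t ht, ← map_mul,
        ← mul_assoc, map_mul, QuotientGroup.mk'_apply _ (e' * f' * t), (QuotientGroup.eq_one_iff _).2 h, one_mul]
    rw [map_mul _ _ (e' * f'), map_mul _ (e' * f'), this, map_mul, map_mul]

theorem XP.eqv [Finite G] (hT : OT D) (hcl : OneClass D) (ha : a ∈ D) (h : XP D a b) : Eqv D a b :=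
  eqv_of_sub hT.toRI hcl ha h.1 fun y hy e =>
    (hT.cm h.1 hy (h.not_od hT.toRI ha hy e.symm)).symm

theorem exists_xp (hD : RI D) (hcl : OneClass D) (ha : a ∈ D) (h : XP D a b) (hd : d ∈ D) : ∃ d', XP D d d' := by
  obtain ⟨g, hg, rfl⟩ := hcl a ha d hd
  exact ⟨_, h.conj hD hg⟩

/-- a class of odd transpositions in which the equivalence classes are closed under products and have size `> 1` -/
structure Red (D : Set G) : Prop extends OT D where
  cl : OneClass D
  p2 : ∀ e ∈ D, ∀ f ∈ D, Eqv D e f → e ≠ f → e * f ∈ D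
  xp : ∀ d ∈ D, ∃ d', XP D d d'

theorem Red.xp_of (hR : Red D) (he : e ∈ D) (hf : f ∈ D) (h : Eqv D e f) (hne : e ≠ f) : XP D e f :=
  ⟨hf, h.commute he, hne.symm, hR.p2 e he f hf h hne⟩

theorem Red.mul_eqv [Finite G] (hR : Red D) (he : e ∈ D) (hf : f ∈ D) (h : Eqv D e f) (hne : e ≠ f) :
    Eqv D e (e * f) := XP.eqv hR.toOT hR.cl he ((hR.xp_of he hf h hne).mul hR.toRI he)

theorem red_of [Finite G] (hD : IsRootInvolutionSet D) (hT : OT D) (hcl : OneClass D) (hO : pCore 2 G = ⊥)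
    (ha : a ∈ D) (h : XP D a b) : Red D where
  toOT := hT
  cl := hcl
  p2 e he f hf hef hne := by
    rcases prod_eqv hD hT hcl he hf hef with h | ⟨y, hy, -, h⟩
    · rw [hO, Subgroup.mem_bot] at h
      exact absurd (by rw [← hT.inv he]; exact inv_eq_of_mul_eq_one_right h) hne
    · rw [hO, Subgroup.mem_bot] at h
      rwa [eq_inv_of_mul_eq_one_left h, hT.inv hy]
  xp d hd := exists_xp hT.toRI hcl ha h hd

theorem exists_red {G : Type u} [Group G] [Finite G] {D : Set G} {a b x : G} (hT : OT D) (hcl : OneClass D)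
    (ha : a ∈ D) (hb : XP D a b) (hx : x ∈ D) (hax : Od a x) :
    ∃ (H : Type u) (_ : Group H) (_ : Finite H) (φ : G → H), Red (φ '' D) ∧ IsRootInvolutionSet (φ '' D) ∧
      pCore 2 H = ⊥ ∧ ∀ a ∈ D, ∀ b ∈ D, (Commute (φ a) (φ b) ↔ Commute a b) := by
  classical
  haveI : Fact (Nat.Prime 2) := ⟨Nat.prime_two⟩
  let π := QuotientGroup.mk' (pCore 2 (Subgroup.closure D))
  let φ : G → _ := fun g => if h : g ∈ Subgroup.closure D then π ⟨g, h⟩ else 1
  have hφ : ∀ g : Subgroup.closure D, φ g = π g := fun g => dif_pos g.2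
  have hφ' : ∀ d (hd : d ∈ D), φ d = π ⟨d, Subgroup.subset_closure hd⟩ := fun d hd => dif_pos _
  have e : φ '' D = π '' sub D := by
    ext y
    exact ⟨fun ⟨d, hd, e⟩ => ⟨⟨d, Subgroup.subset_closure hd⟩, hd, (hφ' d hd).symm.trans e⟩,
      fun ⟨d, hd, e⟩ => ⟨d, hd, (hφ d).trans e⟩⟩
  have hne : ∀ d ∈ sub D, π d ≠ 1 := fun d hd h => by
    obtain ⟨y, hy, o⟩ := hcl.exists_od hT.toRI ha hx hax hd
    exact not_mem_of_od hT.sub.toRI hd (b := ⟨y, Subgroup.subset_closure hy⟩) hy (od_coe.1 o)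
      (CfsgL0.isPGroup_pCore _ _) ((QuotientGroup.eq_one_iff _).1 h)
  have hS := mapRS π (QuotientGroup.mk'_surjective _) (subRS hT.toRI) hne
  let a' : Subgroup.closure D := ⟨a, Subgroup.subset_closure ha⟩
  let b' : Subgroup.closure D := ⟨b, Subgroup.subset_closure hb.1⟩
  refine ⟨_, inferInstance, inferInstance, φ, ?_, e ▸ hS, CfsgL0.pCore_quotient _ _, fun a ha b hb => ?_⟩
  · rw [e]
    refine red_of hS (hT.sub.map π ker_mk_pCore hne) (map_oneClass π (sub_oneClass hcl)) (CfsgL0.pCore_quotient _ _)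
      (a := π a') (b := π b') ⟨a', ha, rfl⟩ ⟨⟨b', hb.1, rfl⟩, ?_, fun h => hne (a' * b') hb.2.2.2 ?_,
        ⟨a' * b', hb.2.2.2, map_mul _ _ _⟩⟩
    · exact (commute_coe.1 (show Commute (a' : G) b' from hb.2.1)).map π
    · rw [map_mul, h, ← map_mul, hT.sub.sq a' ha, map_one]
  · rw [hφ' a ha, hφ' b hb, commute_map_iff π hT.sub ker_mk_pCore ha hb, ← commute_coe]

theorem eqv_image {H : Type*} [Group H] {φ : G → H}
    (hφ : ∀ a ∈ D, ∀ b ∈ D, (Commute (φ a) (φ b) ↔ Commute a b)) (ha : a ∈ D) (hb : b ∈ D) :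
    Eqv (φ '' D) (φ a) (φ b) ↔ Eqv D a b :=
  ⟨fun h y hy => by rw [← hφ y hy a ha, ← hφ y hy b hb]; exact h _ ⟨y, hy, rfl⟩,
    fun h => by rintro _ ⟨y, hy, rfl⟩; rw [hφ y hy a ha, hφ y hy b hb]; exact h y hy⟩

theorem lin [Finite G] (hT : OT D) (hcl : OneClass D) {p p' : G} (hx : x ∈ D) (hp : p ∈ D) (hp' : p' ∈ D)
    (c1 : Commute x p) (c2 : Commute x p') (H : ∀ y ∈ D, Commute y x → Commute y p → Commute y p')
    (hn : ¬ Eqv D x p') : ∀ y ∈ D, Commute y x → Commute y p' → Commute y p := by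
  obtain ⟨f, hf, cf, of⟩ := exists_sep hT hcl hx hp' hn
  have op : Od f p := hT.od hf hp fun h => nc hT.toRI hf hp' of (H f hf cf h)
  obtain ⟨h, hh, rfl, hc⟩ := exists_conj_via hT.toRI hp hp' hf op.symm of.symm
  intro y hy cy
  exact perp_sub hT.toRI hh {x} (by rintro _ rfl; exact (hc _ c1 c2 cf.symm).symm)
    (fun y hy h1 => H y hy (h1 x rfl)) y hy (by rintro _ rfl; exact cy)

theorem Red.tri_aux [Finite G] (hR : Red D) (ha : a ∈ D) (hb : b ∈ D) (he : e ∈ D) (hc : c ∈ D)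
    (cab : Commute a b) (hn : ¬ Eqv D a b) (oa : Od e a) (ob : Od e b) (ccb : Commute c b) (cce : Commute c e)
    (hg : ¬ Commute (a * e * a) (b * e * b)) : ∃ g ∈ D, Commute g a ∧ Commute g b ∧ Commute g e := by
  have hT := hR.toOT
  have hD := hT.toRI
  by_contra hno
  push Not at hno
  have hab : a ≠ b := fun h => hn (h ▸ Eqv.refl _ _)
  have t2 : a * b * (a * b) = 1 := by rw [mul_assoc, ← mul_assoc b, ← cab.eq, mul_assoc, hD.sq b hb, mul_one, hD.sq a ha]
  have conj2 : ∀ {a b : G}, a ∈ D → b ∈ D → Commute a b → ∀ d ∈ D, a * b * d * (a * b) ∈ D := fun {a b} ha hb cab d hd => by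
    have := hD.conj a ha _ (hD.conj b hb d hd)
    rw [cab.eq, ← mul_assoc, ← cab.eq]
    simpa only [mul_assoc] using this
  have ebe : a * b * e * (a * b) = a * (b * e * b) * a := by
    conv_lhs => rw [show a * b * e * (a * b) = a * b * e * (b * a) by rw [cab.eq]]
    group
  have o0 : Od e (a * b * e * (a * b)) := hT.od he (conj2 ha hb cab e he) fun h => hg (by
    have := (commute_conj_iff a).2 h
    rwa [hD.inv ha, ebe, show a * (a * (b * e * b) * a) * a = a * a * (b * e * b) * (a * a) by group,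
      hD.sq a ha, one_mul, mul_one] at this)
  obtain ⟨u, hu, oue, e1, cut, cwe, -⟩ := mid_of_invol hD t2 (conj2 ha hb cab) he o0
  have cua := hT.of_mul ha hb hab hu cut
  have cub := hT.of_mul' ha hb hab hu cut
  have hau : a ≠ u := fun h => nc hD he hb ob (by
    rwa [← h, cab.eq, mul_assoc, hD.sq a ha, mul_one, Commute.symm_iff] at cwe)
  have w2 : a * b * u * (a * b * u) = 1 := by
    rw [mul_assoc, ← mul_assoc u, cut.eq, mul_assoc _ u u, hD.sq u hu, mul_one, t2]
  have cwa : Commute (a * b * u) a := ((Commute.refl a).mul_left cab.symm).mul_left cua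
  have cwb : Commute (a * b * u) b := (cab.mul_left (Commute.refl b)).mul_left cub
  have cwu : Commute (a * b * u) u := cut.symm.mul_left (Commute.refl u)
  have wD : ∀ d ∈ D, a * b * u * d * (a * b * u) ∈ D := fun d hd => by
    have := conj2 ha hb cab _ (hD.conj u hu d hd)
    rw [← cut.eq, ← mul_assoc, cut.eq]
    simpa only [mul_assoc] using this
  have A : ∀ c ∈ D, Commute c b → Commute c e → Od c a := fun c hc h1 h2 => hT.od hc ha fun h => hno c hc h h1 h2
  have ocu : Od c u := hT.od hc hu fun h => nc hD hc ha (A c hc ccb cce) (by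
    refine commute_mid hD ha (hD.conj b hb e he) ?_ ((ccb.mul_right cce).mul_right ccb) ?_
    · have := oa.symm.conj b
      rwa [← cab.eq, mul_inv_cancel_right, hD.inv hb] at this
    · rw [← ebe, ← e1]; exact (h.mul_right cce).mul_right h)
  have ew : a * b * u * c * (a * b * u) = a * u * c * (a * u) := by
    calc _ = a * (b * u) * c * (a * b) * u := by group
      _ = a * u * (b * c * b) * (a * u) := by rw [← cub.eq, cab.eq]; group
      _ = _ := by rw [← ccb.eq, mul_assoc c, hD.sq b hb, mul_one]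
  have hc' := conj2 ha hu cua.symm c hc
  have ccc : Commute c (a * u * c * (a * u)) := hT.cm hc hc' fun o => by
    rw [← ew] at o
    obtain ⟨v, hv, -, -, cvw, -, hv'⟩ := mid_of_invol hD w2 wD hc o
    have cvb := (hv' b ccb.symm cwb.symm).symm
    refine nc hD hv ha (A v hv cvb (hv' e cce.symm cwe.symm).symm) (hT.of_mul ha hu hau hv ?_)
    have := cvb.mul_right cvw
    rwa [cab.eq, mul_assoc, hD.sq_assoc hb] at this
  by_cases h1 : ∃ f ∈ D, Commute f a ∧ Commute f b ∧ Od f u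
  · obtain ⟨f, hf, cfa, cfb, ofu⟩ := h1
    obtain ⟨u', hu'⟩ := hR.xp u hu
    have q1 := XP.eqv hT hR.cl hu hu'
    have q2 := XP.eqv hT hR.cl hu (hu'.mul hD hu)
    have hu'' := hu'.2.2.2
    obtain ⟨h, hh, e2, hc1⟩ := exists_conj_via hD hu'.1 hu hf (q1.od hT hu hu'.1 hf ofu).symm ofu.symm
    obtain ⟨k, hk, e3, hc2⟩ := exists_conj_via hD hu hu'' he oue (q2.od hT hu hu'' he oue.symm).symm
    have cha := hc1 a ((q1 a ha).1 cua.symm) cua.symm cfa.symm
    have chb := hc1 b ((q1 b hb).1 cub.symm) cub.symm cfb.symm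
    have ckw := hc2 _ cwu ((((q2 a ha).1 cua.symm).mul_left ((q2 b hb).1 cub.symm)).mul_left
      ((q2 u hu).1 (Commute.refl u))) cwe
    have e4 : (h * k * a * (h * k)⁻¹) * (h * k * b * (h * k)⁻¹) = a * b * u := by
      calc _ = h * (k * (a * b * (u * u)) * k⁻¹) * h⁻¹ := by rw [hD.sq u hu]; group
        _ = h * (k * (a * b * u) * k⁻¹ * (k * u * k⁻¹)) * h⁻¹ := by group
        _ = h * (a * b * (u * u) * u') * h⁻¹ := by rw [← ckw.eq, mul_inv_cancel_right, e3]; group
        _ = h * (a * b) * h⁻¹ * (h * u' * h⁻¹) := by rw [hD.sq u hu]; group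
        _ = _ := by rw [← (cha.mul_left chb).eq, mul_inv_cancel_right, e2]
    have ha' := hD.conj_closure (mul_mem hh hk) ha
    have hb' := hD.conj_closure (mul_mem hh hk) hb
    have hab' : h * k * a * (h * k)⁻¹ ≠ h * k * b * (h * k)⁻¹ := fun e => hab (mul_left_cancel (mul_right_cancel e))
    exact hno _ ha' (hT.of_mul ha' hb' hab' ha (e4 ▸ cwa.symm)).symm
      (hT.of_mul ha' hb' hab' hb (e4 ▸ cwb.symm)).symm (hT.of_mul ha' hb' hab' he (e4 ▸ cwe.symm)).symm
  have H1 : ∀ y ∈ D, Commute y b → Commute y a → Commute y u := fun y hy c1 c2 =>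
    hT.cm hy hu fun o => h1 ⟨y, hy, c2, c1, o⟩
  have hbu : ¬ Eqv D b u := fun q => by
    by_cases e : b = u
    · refine nc hD he ha oa ?_
      rwa [← e, mul_assoc, hD.sq b hb, mul_one, Commute.symm_iff] at cwe
    · refine nc hD he ha oa (hT.of_mul ha (hR.p2 b hb u hu q e) (fun e' => hn ?_) he ?_)
      · rw [e']; exact (hR.mul_eqv hb hu q e).symm
      · rw [← mul_assoc]; exact cwe.symm
  have H2 := lin hT hR.cl hb ha hu cab.symm cub.symm H1 hbu
  have hT' := (hT.cn b).comp a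
  have ha' : a ∈ Comp (Cn D b) a := Comp.self ⟨ha, cab⟩
  have hc1 : c ∈ Comp (Cn D b) a := Comp.of_od ha' ⟨hc, ccb⟩ (A c hc ccb cce).symm
  have hu1 : u ∈ Comp (Cn D b) a := Comp.of_od hc1 ⟨hu, cub⟩ ocu
  have hc2 : a * u * c * (a * u) ∈ Comp (Cn D b) a := by
    have := hT'.conj a ha' _ (hT'.conj u hu1 c hc1)
    rw [← cua.eq, ← mul_assoc, cua.eq]
    simpa only [mul_assoc] using this
  have q : Eqv (Comp (Cn D b) a) a u := fun y hy => ⟨H1 y hy.1.1 hy.1.2, H2 y hy.1.1 hy.1.2⟩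
  rcases o2rel hT' ((hT.cn b).comp_oneClass ⟨ha, cab⟩) ha' hu1 q with h | ⟨t, ht, q1, h⟩
  swap
  · exact nc hD hc (hD.conj t ht.1.1 c hc) ((q1.od hT' ha' ht hc1 (A c hc ccb cce)).conj_self hD hc ht.1.1)
      ((h c hc1 c hc1).2 ccc)
  have H3 : ∀ y ∈ D, Commute y c → Commute y b → Commute y (a * u * c * (a * u)) := fun y hy c1 c2 =>
    hT.cm hy hc' fun o => nc hD hy hc' o ((h c hc1 y (Comp.of_od hc2 ⟨hy, c2⟩ o.symm)).1 c1)
  have z2 : a * u * (a * u) = 1 := by
    rw [mul_assoc, ← mul_assoc u, cua.eq, mul_assoc, hD.sq u hu, mul_one, hD.sq a ha]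
  have hcc : ¬ Eqv D c (a * u * c * (a * u)) := fun q => by
    generalize hz : a * u = z at *
    have key : ∀ y ∈ D, Commute y z → Commute y a := fun y hy h => hT.of_mul ha hu hau hy (hz ▸ h)
    refine nc hD hc ha (A c hc ccb cce) ?_
    by_cases e : c = z * c * z
    · refine key c hc ?_
      show c * z = z * c
      conv_lhs => rw [e]
      rw [mul_assoc, z2, mul_one]
    · refine (((hR.mul_eqv hc hc' q e) a ha).2 (key _ (hR.p2 c hc _ hc' q e) ?_).symm).symm
      show c * (z * c * z) * z = z * (c * (z * c * z))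
      calc _ = c * z * c * (z * z) := by group
        _ = z * z * c * z * c := by rw [z2]; group
        _ = _ := by rw [ccc.eq]; group
  exact nc hD he hb ob (lin hT hR.cl hc hb hc' ccb ccc H3 hcc e he cce.symm
    (ew ▸ (cwe.symm.mul_right cce.symm).mul_right cwe.symm))

theorem Red.tri [Finite G] (hR : Red D) (ha : a ∈ D) (hb : b ∈ D) (he : e ∈ D) (hc : c ∈ D)
    (cab : Commute a b) (hn : ¬ Eqv D a b) (oa : Od e a) (ob : Od e b) (ccb : Commute c b) (cce : Commute c e) :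
    ∃ g ∈ D, Commute g a ∧ Commute g b ∧ Commute g e := by
  have hT := hR.toOT
  have hD := hT.toRI
  by_cases h1 : Commute (a * e * a) (b * e * b)
  swap
  · exact hR.tri_aux ha hb he hc cab hn oa ob ccb cce h1
  obtain ⟨b', hb'⟩ := hR.xp b hb
  have q1 := XP.eqv hT hR.cl hb hb'
  have q2 := XP.eqv hT hR.cl hb (hb'.mul hD hb)
  obtain ⟨g, hg, c1, c2, c3⟩ := hR.tri_aux ha hb'.1 he hc ((q1 a ha).1 cab) (fun q => hn (q.trans q1.symm)) oa
    (q1.od hT hb hb'.1 he ob) ((q1 c hc).1 ccb) cce (fun h2 => by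
      have hy := hD.conj b hb e he
      have o1 : Od (b * e * b) b := by
        have := ob.conj b
        rwa [mul_inv_cancel_right, hD.inv hb] at this
      have := commute_mid hD hb'.2.2.2 hy (q2.od hT hb hb'.2.2.2 hy o1).symm h1 (by
        rw [show b * b' * (b * e * b) * (b * b') = b * b' * b * e * (b * b) * b' by group, hD.sq b hb, hb'.2.1,
          mul_assoc b', hD.sq b hb, mul_one, mul_one]
        exact h2)
      have := (((q2 _ (hD.conj a ha e he)).2 this))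
      rw [show a * e * a = a * e * a⁻¹ by rw [hD.inv ha], commute_conj_left cab] at this
      exact nc hD he hb ob this)
  exact ⟨g, hg, c1, (q1 g hg).2 c2, c3⟩

/-- the triangle lemma -/
theorem tri_lemma [Finite G] (hT : OT D) (hcl : OneClass D) (hxp : ∃ b', XP D b b') (ha : a ∈ D) (hb : b ∈ D)
    (he : e ∈ D) (hc : c ∈ D) (cab : Commute a b) (hn : ¬ Eqv D a b) (oa : ¬ Commute e a) (ob : ¬ Commute e b)
    (ccb : Commute c b) (cce : Commute c e) : ∃ g ∈ D, Commute g a ∧ Commute g b ∧ Commute g e := by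
  obtain ⟨b', hb'⟩ := hxp
  obtain ⟨H, _, _, φ, hR, -, -, hφ⟩ := exists_red hT hcl hb hb' he (hT.od he hb ob).symm
  obtain ⟨_, ⟨g, hg, rfl⟩, c1, c2, c3⟩ := hR.tri ⟨a, ha, rfl⟩ ⟨b, hb, rfl⟩ ⟨e, he, rfl⟩ ⟨c, hc, rfl⟩
    ((hφ a ha b hb).2 cab) (fun q => hn ((eqv_image hφ ha hb).1 q))
    (hR.toOT.od ⟨e, he, rfl⟩ ⟨a, ha, rfl⟩ fun h => oa ((hφ e he a ha).1 h))
    (hR.toOT.od ⟨e, he, rfl⟩ ⟨b, hb, rfl⟩ fun h => ob ((hφ e he b hb).1 h))
    ((hφ c hc b hb).2 ccb) ((hφ c hc e he).2 cce)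
  exact ⟨g, hg, (hφ g hg a ha).1 c1, (hφ g hg b hb).1 c2, (hφ g hg e he).1 c3⟩

/-- diameter two -/
theorem exists_common [Finite G] (hT : OT D) (hcl : OneClass D) (hxp : ∀ b ∈ D, ∃ b', XP D b b') (hx : x ∈ D)
    (h : Relation.ReflTransGen (CommAdj D) x y) : ∃ g ∈ D, Commute g y ∧ Commute g x := by
  induction h with
  | refl => exact ⟨x, hx, Commute.refl x, Commute.refl x⟩
  | @tail b a _ h ih =>
    obtain ⟨c, hc, c1, c2⟩ := ih
    obtain ⟨hb, ha, -, cba⟩ := h
    by_cases h1 : Commute x a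
    · exact ⟨x, hx, h1, Commute.refl x⟩
    by_cases h2 : Commute x b
    · exact ⟨b, hb, cba, h2.symm⟩
    by_cases h3 : Eqv D a b
    · exact ⟨c, hc, (h3 c hc).2 c1, c2⟩
    obtain ⟨g, hg, g1, -, g3⟩ := tri_lemma hT hcl (hxp b hb) ha hb hx hc (Commute.symm cba) h3 h1 h2 c1 c2
    exact ⟨g, hg, g1, g3⟩

theorem xp_of_DD (hD : RI D) (h : (D ∩ commutingProducts D).Nonempty) : ∃ a ∈ D, ∃ b, XP D a b := by
  obtain ⟨_, hm, a, ha, b, hb, h1, h2, rfl⟩ := h
  exact ⟨a, ha, b, hb, h1, fun e => h2 (by rw [e, hD.sq a ha]), hm⟩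

theorem ot_of_set (h : IsOddTranspositionSet D) : OT D := ⟨RI.of_set h.1, h.2⟩

end CfsgH7.RI
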