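import Cfsg.Agent.H7.RI3
import Cfsg.Agent.S5048
import Cfsg.Agent.BS.Final

/-! Root involutions (helper7): the case of a disconnected commuting graph. -/

set_option autoImplicit false
set_option linter.unusedSectionVars false

namespace CfsgH7.RI
open Cfsg CfsgH9

universe u
variable {G : Type*} [Group G] {D : Set G} {a b c d e f g s x y z : G}

/-- reachability in the commuting graph -/
abbrev CR (D : Set G) (a b : G) : Prop := Relation.ReflTransGen (CommAdj D) a b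

theorem CR.symm (h : CR D a b) : CR D b a := by
  induction h with
  | refl => exact Relation.ReflTransGen.refl
  | tail _ h ih => exact Relation.ReflTransGen.head ⟨h.2.1, h.1, h.2.2.1.symm, h.2.2.2.symm⟩ ih

theorem cr_of_commute (ha : a ∈ D) (hb : b ∈ D) (h : Commute a b) : CR D a b := by
  by_cases e : a = b
  · rw [e]
  · exact Relation.ReflTransGen.single ⟨ha, hb, e, h⟩

theorem cr_of_not_od (hD : RI D) (ha : a ∈ D) (hb : b ∈ D) (h : ¬ Od a b) : CR D a b := by
  rcases hD.comm_mem_or ha hb h with e | e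
  · refine cr_of_commute ha hb ?_
    show a * b = b * a
    rw [← mul_one (b * a), ← e, show b * a * (a * b * a * b) = b * (a * a) * b * a * b by group, hD.sq a ha,
      mul_one, hD.sq b hb, one_mul]
  · exact (cr_of_commute ha e (hD.comm_left ha hb h).symm).trans (cr_of_commute e hb (hD.comm_right ha hb h))

theorem od_of_not_cr (hD : RI D) (ha : a ∈ D) (hb : b ∈ D) (h : ¬ CR D a b) : Od a b :=
  by_contra fun h' => h (cr_of_not_od hD ha hb h')

theorem CR.conj (hD : RI D) (h : CR D a b) (hg : g ∈ Subgroup.closure D) : CR D (g * a * g⁻¹) (g * b * g⁻¹) := by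
  induction h with
  | refl => exact Relation.ReflTransGen.refl
  | tail _ h ih =>
    exact ih.trans (cr_of_commute (hD.conj_closure hg h.1) (hD.conj_closure hg h.2.1)
      ((commute_conj_iff g).2 h.2.2.2))

theorem odd_connected_of_disc (hD : RI D) (hc : ¬ IsConnectedSet (CommAdj D) D) :
    IsConnectedSet (OddAdj D) D := by
  unfold IsConnectedSet at hc
  push Not at hc
  obtain ⟨p, hp, q, hq, h⟩ := hc
  have key : ∀ x ∈ D, OR D p x := fun x hx => by
    by_cases h1 : CR D p x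
    · exact (or_single hp hq (od_of_not_cr hD hp hq h)).trans
        (or_single hq hx (od_of_not_cr hD hq hx fun h2 => h (h1.trans h2.symm)))
    · exact or_single hp hx (od_of_not_cr hD hp hx h1)
  exact fun x hx y hy => (key x hx).symm.trans (key y hy)

/-- the stabiliser of the component of `a` -/
def CH (hD : IsRootInvolutionSet D) (a : G) : Subgroup G where
  carrier := {g | CR D a (g * a * g⁻¹)}
  one_mem' := by show CR D a _; simpa using Relation.ReflTransGen.refl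
  mul_mem' := fun {g h} hg hh => by
    have := hg.trans (CR.conj (RI.of_set hD) hh (top_mem hD g))
    show CR D a _
    convert this using 1; group
  inv_mem' := fun {g} hg => by
    have := (CR.conj (RI.of_set hD) hg (top_mem hD g⁻¹)).symm
    show CR D a _
    convert this using 1; group

theorem mem_CH (hD : IsRootInvolutionSet D) (ha : a ∈ D) (hd : d ∈ D) : d ∈ CH hD a ↔ CR D a d := by
  have hR := RI.of_set hD
  have key : ∀ d ∈ D, CR D a d → d ∈ CH hD a := fun d hd h => by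
    have := h.conj hR (top_mem hD d)
    rw [mul_inv_cancel_right] at this
    exact h.trans this.symm
  refine ⟨fun h => by_contra fun hn => ?_, key d hd⟩
  obtain ⟨k, hk, e⟩ := (od_of_not_cr hR ha hd hn).exists_conj hR ha hd
  have : Subgroup.closure ({a, d} : Set G) ≤ CH hD a := (Subgroup.closure_le _).2 (by
    rintro _ (rfl | rfl)
    exacts [key _ ha Relation.ReflTransGen.refl, h])
  exact hn (e ▸ this hk)

/-- the strongly embedded subgroup criterion, for classes of bounded size -/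
def SpecDisc (n : ℕ) : Prop :=
  ∀ (G : Type u) [Group G] [Finite G] [IsSimpleGroup G] (D : Set G) (hD : IsRootInvolutionClass D) (a b : G),
    D.ncard ≤ n → a ∈ D → XP D a b → ¬ IsConnectedSet (CommAdj D) D → IsStronglyEmbedded (CH hD.1 a)

theorem SpecDisc.mono {m n : ℕ} (h : SpecDisc.{u} n) (hm : m ≤ n) : SpecDisc.{u} m :=
  fun G _ _ _ D hD a b hn => h G D hD a b (hn.trans hm)

theorem SpecDisc.sub [Finite G] (h : SpecDisc.{u} D.ncard) {T : Set G} (hT : T ⊆ D) : SpecDisc.{u} T.ncard :=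
  h.mono (Set.ncard_le_ncard hT)

theorem SpecDisc.image [Finite G] (h : SpecDisc.{u} D.ncard) {G' : Type*} (f : G → G') :
    SpecDisc.{u} (f '' D).ncard := h.mono Set.ncard_image_le

theorem SpecDisc.preim [Finite G] (h : SpecDisc.{u} D.ncard) (H : Subgroup G) :
    SpecDisc.{u} (Subtype.val ⁻¹' D : Set H).ncard :=
  h.mono (Set.ncard_le_ncard_of_injOn Subtype.val (fun _ h => h) Subtype.val_injective.injOn)

/-- the list of conclusions -/
def RankOne (G : Type*) [Group G] : Prop :=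
  (∃ (F : Type) (_ : Field F) (_ : Fintype F), CharP F 2 ∧ 4 ≤ Fintype.card F ∧
      Nonempty (G ≃* Matrix.ProjectiveSpecialLinearGroup (Fin 2) F)) ∨ Cfsg.Lie.IsoSuzuki G ∨
    (∃ (F : Type) (_ : Field F) (_ : Fintype F) (q : ℕ), CharP F 2 ∧ Fintype.card F = q ^ 2 ∧ 4 ≤ q ∧
      Nonempty (G ≃* Cfsg.PSU 3 F q))

theorem disc_se {G : Type u} [Group G] [Finite G] [IsSimpleGroup G] {D : Set G}
    {a b : G} (hS : SpecDisc.{u} D.ncard) (hD : IsRootInvolutionClass D) (ha : a ∈ D) (hb : XP D a b) (hc : ¬ IsConnectedSet (CommAdj D) D) :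
    IsStronglyEmbedded (CH hD.1 a) ∧ ∃ x y : G, x * y ≠ y * x := by
  refine ⟨hS G D hD a b le_rfl ha hb hc, ?_⟩
  by_contra! h
  exact hc fun x hx y hy => cr_of_commute hx hy (h x y)

theorem disc_simple {G : Type u} [Group G] [Finite G] [IsSimpleGroup G] {D : Set G}
    {a b : G} (hS : SpecDisc.{u} D.ncard) (hD : IsRootInvolutionClass D) (ha : a ∈ D) (hb : XP D a b) (hc : ¬ IsConnectedSet (CommAdj D) D) :
    RankOne G ∧ ∀ x ∈ D, ∀ y ∈ D, CR D x y → Commute x y := by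
  have hR := RI.of_set hD.1
  obtain ⟨se, hna⟩ := disc_se hS hD ha hb hc
  obtain ⟨h4, _, X, hX⟩ := CfsgBS.exists_R1_of_se CfsgBS.thmA hna se
  refine ⟨?_, fun x hx y hy h => ?_⟩
  · have e : G ≃* X.L := ((MulEquiv.subgroupCongr X.L_eq_top).trans Subgroup.topEquiv).symm
    obtain ⟨two, h | h | h⟩ := CfsgBS.thmS _ _ _ X (Nat.lt_succ_self _) h4
    · obtain ⟨F, _, _, h1, h2, ⟨f⟩⟩ := CfsgBS.specCA _ _ X h4 h
      exact Or.inl ⟨F, _, _, h1, h2 ▸ X.four_le_q h4, ⟨e.trans f⟩⟩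
    · obtain ⟨F, _, _, m, h1, h2, ⟨f⟩⟩ := CfsgBS.specCB _ _ X h4 two h
      exact Or.inr (Or.inl ⟨F, _, _, m, h1, h2, ⟨e.trans f⟩⟩)
    · obtain ⟨F, _, _, h1, h2, ⟨f⟩⟩ := CfsgBS.specCC _ _ X h4 two h
      exact Or.inr (Or.inr ⟨F, _, _, X.q, h1, h2, X.four_le_q h4, ⟨e.trans f⟩⟩)
  · obtain ⟨g, rfl⟩ := hD.2.2 x hx a ha
    have hy' := hD.1.conj_mem y hy g
    have h1 := (mem_CH hD.1 ha ha).2 Relation.ReflTransGen.refl
    have h2 := (mem_CH hD.1 ha hy').2 (h.conj hR (top_mem hD.1 g))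
    rw [← hX] at h1 h2
    exact (commute_conj_iff g).1 (X.I_comm h4 (X.mem_I.2 ⟨h1, hR.ne _ ha, hR.sq _ ha⟩)
      (X.I_subset_Q (X.mem_I.2 ⟨h2, hR.ne _ hy', hR.sq _ hy'⟩)))

theorem od_map_Z [Finite G] {G' : Type*} [Group G'] (π : G →* G') (hk : π.ker ≤ twoZCore G) (hD : RI D)
    (ha : a ∈ D) (hb : b ∈ D) (h : Od a b) : Od (π a) (π b) := by
  refine ⟨fun e => ?_, by rw [← map_mul]; exact h.2.of_dvd_nat (orderOf_map_dvd π _)⟩
  have o := od_map (QuotientGroup.mk' (pCore 2 G)) hD ha h ker_mk_pCore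
  have hm : a * b ∈ twoZCore G := hk (by rw [MonoidHom.mem_ker, map_mul, ← e, ← map_mul, hD.sq a ha, map_one])
  have c := Subgroup.mem_center_iff.1 (Subgroup.mem_comap.1 hm) (QuotientGroup.mk' _ a)
  rw [map_mul] at c
  exact od_nc (by rw [← map_mul, hD.sq a ha, map_one]) (by rw [← map_mul, hD.sq b hb, map_one]) o
    (mul_left_cancel (c.trans (mul_assoc _ _ _)))

theorem ne_one_of_od {x y : G} (hy : y * y = 1) (h : Od x y) : x ≠ 1 := by
  rintro rfl
  exact od_nc (one_mul 1) hy h (Commute.one_left y)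

theorem dd_of_xp (hD : RI D) (ha : a ∈ D) (hb : XP D a b) : (D ∩ commutingProducts D).Nonempty :=
  ⟨a * b, hb.2.2.2, a, ha, b, hb.1, hb.2.1, hD.ne _ hb.2.2.2, rfl⟩

theorem disc_quot {G : Type*} [Group G] [Finite G] {D : Set G} {a b : G}
    (hD : IsRootInvolutionSet D) (ha : a ∈ D) (hb : XP D a b) (hc : ¬ IsConnectedSet (CommAdj D) D)
    {π : G →* G ⧸ twoZCore G} (hπ : π = QuotientGroup.mk' (twoZCore G)) :
    IsSimpleGroup (G ⧸ twoZCore G) ∧ IsRootInvolutionClass (π '' D) ∧ XP (π '' D) (π a) (π b) ∧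
      (∀ d ∈ D, π d ≠ 1) ∧ (∀ x ∈ D, ∀ y ∈ D, Commute (π x) (π y) → Commute x y ∨ Fo x y) ∧
      ∀ x ∈ D, ∀ y ∈ D, CR (π '' D) (π x) (π y) ↔ CR D x y := by
  have hR := RI.of_set hD
  have hF := odd_connected_of_disc hR hc
  have hcl := oneClass_of_connected hR hF
  have hk : π.ker ≤ twoZCore G := hπ ▸ (QuotientGroup.ker_mk' _).le
  unfold IsConnectedSet at hc
  push Not at hc
  obtain ⟨p, hp, q, hq, hpq⟩ := hc
  have hne : ∀ d ∈ D, π d ≠ 1 := fun d hd => by
    obtain ⟨y, hy, o⟩ := hcl.exists_od hR hp hq (od_of_not_cr hR hp hq hpq) hd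
    exact ne_one_of_od (by rw [← map_mul, hR.sq y hy, map_one]) (od_map_Z π hk hR hd hy o)
  have hD' := mapRS π (hπ ▸ QuotientGroup.mk'_surjective _) hD hne
  have hR' := RI.of_set hD'
  have l1 : ∀ x ∈ D, ∀ y ∈ D, Commute (π x) (π y) → Commute x y ∨ Fo x y := fun x hx y hy h =>
    (hR.tri hx hy).imp_right fun h' => h'.resolve_left fun o =>
      nc hR' ⟨x, hx, rfl⟩ ⟨y, hy, rfl⟩ (od_map_Z π hk hR hx hy o) h
  have l2 : ∀ x ∈ D, ∀ y ∈ D, Commute (π x) (π y) → CR D x y := fun x hx y hy h =>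
    (l1 x hx y hy h).elim (cr_of_commute hx hy) fun h => cr_of_not_od hR hx hy h.not_od
  have l3 : ∀ x ∈ D, ∀ y', CR (π '' D) (π x) y' → ∀ y ∈ D, π y = y' → CR D x y := fun x hx y' h => by
    induction h with
    | refl => exact fun y hy e => l2 x hx y hy (e ▸ Commute.refl _)
    | tail _ h ih =>
      rintro y hy rfl
      obtain ⟨z, hz, rfl⟩ := h.1
      exact (ih z hz rfl).trans (l2 z hz y hy h.2.2.2)
  have l4 : ∀ x y, CR D x y → CR (π '' D) (π x) (π y) := fun x y h => by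
    induction h with
    | refl => exact Relation.ReflTransGen.refl
    | tail _ h ih => exact ih.trans (cr_of_commute ⟨_, h.1, rfl⟩ ⟨_, h.2.1, rfl⟩ (Commute.map h.2.2.2 π))
  exact ⟨(Cfsg.Agent.S5048.result hD hF (dd_of_xp hR ha hb)).2, ⟨hD', ⟨_, a, ha, rfl⟩, fun x hx y hy => by
      obtain ⟨g, -, e⟩ := map_oneClass π hcl x hx y hy
      exact ⟨g, e⟩⟩, ⟨⟨b, hb.1, rfl⟩, Commute.map hb.2.1 π, fun e => hne _ hb.2.2.2 (by
        rw [map_mul, e, ← map_mul, hR.sq a ha, map_one]), ⟨_, hb.2.2.2, map_mul _ _ _⟩⟩, hne, l1,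
    fun x hx y hy => ⟨fun h => l3 x hx _ h y hy rfl, l4 x y⟩⟩

theorem thmD {G : Type u} [Group G] [Finite G] {D : Set G} {a b : G}
    (hS : SpecDisc.{u} D.ncard) (hD : IsRootInvolutionSet D) (ha : a ∈ D) (hb : XP D a b) (hc : ¬ IsConnectedSet (CommAdj D) D) :
    RankOne (G ⧸ twoZCore G) ∧ ∀ x ∈ D, ∀ y ∈ D, CR D x y → Commute x y := by
  have hR := RI.of_set hD
  obtain ⟨_, hD', hb', hne, l1, l2⟩ := disc_quot hD ha hb hc rfl
  have hR' := RI.of_set hD'.1
  obtain ⟨h1, h2⟩ := disc_simple (hS.image _) hD' ⟨a, ha, rfl⟩ hb'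
    fun h => hc fun p hp q hq => (l2 p hp q hq).1 (h _ ⟨p, hp, rfl⟩ _ ⟨q, hq, rfl⟩)
  refine ⟨h1, fun x hx y hy h => ?_⟩
  have c := h2 _ ⟨x, hx, rfl⟩ _ ⟨y, hy, rfl⟩ ((l2 x hx y hy).2 h)
  refine (l1 x hx y hy c).resolve_right fun h4 => hne _ (h4.mem hR hx hy) ?_
  rw [map_mul, map_mul, map_mul, mul_assoc, ← pow_two, c.mul_pow, pow_two, pow_two, hR'.sq _ ⟨x, hx, rfl⟩,
    one_mul, hR'.sq _ ⟨y, hy, rfl⟩]

theorem cr_coe {x y : Subgroup.closure D} : CR (sub D) x y ↔ CR D x y := by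
  constructor
  · intro h
    induction h with
    | refl => exact Relation.ReflTransGen.refl
    | tail _ h ih => exact ih.trans (cr_of_commute h.1 h.2.1 (commute_coe.2 h.2.2.2))
  · intro h
    generalize hy : (y : G) = y' at h
    induction h generalizing y with
    | refl => rw [Subtype.ext hy]
    | @tail p q _ h ih =>
      subst hy
      exact (ih (y := ⟨p, Subgroup.subset_closure h.1⟩) rfl).trans (cr_of_commute h.1 h.2.1 (commute_coe.1 h.2.2.2))

/-- in the disconnected case the components are abelian -/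
theorem disc_comm {G : Type u} [Group G] [Finite G] {D : Set G} {a b p q : G}
    (hS : SpecDisc.{u} D.ncard) (hD : RI D) (ha : a ∈ D) (hb : XP D a b) (hp : p ∈ D) (hq : q ∈ D) (hc : ¬ CR D p q) :
    ∀ x ∈ D, ∀ y ∈ D, CR D x y → Commute x y := fun x hx y hy h =>
  commute_coe.2 ((thmD (hS.preim _) (subRS hD) (a := ⟨a, Subgroup.subset_closure ha⟩) (b := ⟨b, Subgroup.subset_closure hb.1⟩)
    ha ⟨hb.1, Subtype.ext hb.2.1, fun e => hb.2.2.1 (congrArg Subtype.val e), hb.2.2.2⟩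
    (fun h => hc (cr_coe.1 (h ⟨p, Subgroup.subset_closure hp⟩ hp ⟨q, Subgroup.subset_closure hq⟩ hq)))).2
    ⟨x, Subgroup.subset_closure hx⟩ hx ⟨y, Subgroup.subset_closure hy⟩ hy (cr_coe.2 h))

end CfsgH7.RI
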