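import Cfsg.Agent.H7.RI4

/-! Root involutions (helper7): the rank one set-up in the disconnected case. -/

set_option autoImplicit false
set_option linter.unusedSectionVars false

namespace CfsgH7.RI
open Cfsg CfsgH9 CfsgBS MulAction Subgroup Matrix
open scoped MatrixGroups

universe u
variable {G : Type*} [Group G] {D : Set G} {a b c d e f g s x y z : G}

open C1 in
theorem nfA {G Ω : Type*} [Group G] [Finite G] [MulAction G Ω] (X : R1 G Ω) (h4 : HasFour G) (h : X.CaseA) :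
    ∃ (F : Type) (_ : Field F) (_ : Fintype F), CharP F 2 ∧ Fintype.card F = X.q ∧ Nonempty (X.L ≃* SL(2, F)) := by
  obtain ⟨s, r, hd⟩ := X.exists_dist
  obtain ⟨F, _, _, _, hF, ⟨M⟩⟩ := X.exists_FM h4 hd
  refine ⟨F, _, _, inferInstance, hF, ?_⟩
  obtain rfl : r = s := hd.orderOf_eq_three_iff.1 (h.ord s r hd)
  have h2 : (2 : F) = 0 := CharTwo.two_eq_zero
  let ε : Multiplicative F →* G := MonoidHom.mk' (fun x => M.e x.toAdd) fun x y => M.e_add _ _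
  have sq : Function.Injective (powMonoidHom 2 : Fˣ →* Fˣ) := (injective_iff_map_eq_one _).2 fun a e =>
    Units.ext (by simpa [CharTwo.neg_eq] using congrArg Units.val e)
  exact X.iso_of_cover h4 hd ε φ (M.κ.comp (powMonoidHom 2)) δ sw
    (h.Q_eq ▸ le_antisymm (by rintro _ ⟨x, rfl⟩; exact M.e_mem _) fun z hz => M.e_surj z hz) M.e_inj
    (le_antisymm (by rintro _ ⟨x, rfl⟩; exact M.κ_mem _) fun k hk => by
      obtain ⟨l, rfl⟩ := M.κ_surj k hk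
      obtain ⟨a, rfl⟩ := Finite.surjective_of_injective sq l
      exact ⟨a, rfl⟩)
    (M.κ_inj.comp sq) (Subtype.ext (by simp [← Matrix.one_fin_two]))
    (fun a => by rw [← map_inv]; exact Subtype.ext (by simp [-map_inv]))
    (fun a x => ⟨Multiplicative.ofAdd ((a : F) ^ 2 * x.toAdd), M.κ_conj _ _, by
      rw [← map_inv]; exact Subtype.ext (by simp [-map_inv]; ring)⟩)
    (σ := Multiplicative.ofAdd 1) (ρ := Multiplicative.ofAdd 1) M.e_one M.e_one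
    (by rw [← map_inv]; exact Subtype.ext (by simp [-map_inv, CharTwo.neg_eq, CharTwo.add_self_eq_zero]))
    (fun x hx x1 => by
      obtain ⟨k, hk, e⟩ := X.exists_Kset_conj' hd.1 (((X.mem_Q0 h4).1 (h.Q_eq.le hx)).resolve_left x1)
      exact ⟨k, X.Kset_subset_K hk, Or.inl e.symm⟩)
    (fun x a e => by
      have e1 := congrArg (fun g : SL(2, F) => g.1 0 0) e
      have e2 := congrArg (fun g : SL(2, F) => g.1 0 1) e
      simp at e1 e2
      exact ⟨e2, e1⟩)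
    (fun x a e => by simpa using congrArg (fun g : SL(2, F) => g.1 1 0) e)
    (fun γ => by
      have hd := γ.det_coe
      rw [det_fin_two] at hd
      by_cases hc : γ.1 1 0 = 0
      · rw [hc, mul_zero, sub_zero] at hd
        have ha := left_ne_zero_of_mul_eq_one hd
        refine Or.inl ⟨Multiplicative.ofAdd (γ.1 0 0 * γ.1 0 1), Units.mk0 _ ha, Subtype.ext ?_⟩
        ext i j
        fin_cases i <;> fin_cases j <;> simp [hc]
        · field_simp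
        · exact eq_inv_of_mul_eq_one_right hd
      · refine Or.inr ⟨Multiplicative.ofAdd (γ.1 0 0 / γ.1 1 0), (Units.mk0 _ hc)⁻¹,
          Multiplicative.ofAdd (γ.1 1 1 / γ.1 1 0), Subtype.ext ?_⟩
        ext i j
        fin_cases i <;> fin_cases j <;> simp [-map_inv] <;> field_simp
        linear_combination -hd - h2)

theorem sl2_equiv (F : Type) [Field F] [CharP F 2] :
    Nonempty (SL(2, F) ≃* Matrix.ProjectiveSpecialLinearGroup (Fin 2) F) := by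
  refine ⟨((QuotientGroup.quotientMulEquivOfEq (eq_bot_iff.2 fun A hA => ?_)).trans
    QuotientGroup.quotientBot).symm⟩
  obtain ⟨c, h1, h2⟩ := Matrix.SpecialLinearGroup.mem_center_iff.1 hA
  obtain rfl : c = 1 := by simpa [CharTwo.neg_eq] using h1
  exact Subtype.ext (by rw [← h2]; simp)

open CfsgH2.Suz Cfsg.Lie in
theorem nfB {G Ω : Type*} [Group G] [Finite G] [MulAction G Ω] (X : R1 G Ω) (h4 : HasFour G)
    (h2 : IsPGroup 2 X.Q) (h : X.CaseB) : IsoSuzuki X.L := by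
  obtain ⟨s, r, hd⟩ := X.exists_dist
  obtain ⟨F, _, _, _, hF, ⟨M⟩⟩ := X.exists_FM h4 hd
  obtain ⟨n, hn, hq⟩ := X.q_eq h4
  have h5 := hd.five_dvd h4 (h.ord s r hd)
  rw [h.card, hq, ← pow_mul, mul_comm, pow_mul] at h5
  obtain ⟨m, rfl⟩ : Odd n := Nat.not_even_iff_odd.1 fun ⟨m, hm⟩ => by
    rw [hm, ← two_mul, pow_mul, ← Nat.modEq_zero_iff_dvd] at h5
    exact absurd ((((show 1 ≡ (2 ^ 2) ^ 2 [MOD 5] by decide).pow m).add_right 1).trans h5)
      (by rw [one_pow]; decide)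
  letI : Algebra (ZMod 2) F := ZMod.algebra F 2
  obtain ⟨θ, ψ, χ, -, h1, h3, h5, h6, h7, -, h8, h9, h10⟩ := M.typeA h4 hF h2 h.noncomm h.card
  have c : R1.Cd M r θ ψ χ :=
    ⟨h4, hd, (hd.orderOf_eq_five_iff h4).1 (h.ord s r hd), h1, h3, h5, h6, h7, h8, h9, h10⟩
  obtain ⟨θ, ψ, χ, c, h0⟩ : ∃ θ ψ χ, R1.Cd M r θ ψ χ ∧ χ r = 0 := c.β_cases.elim
    (fun e => ⟨_, _, _, c, e⟩) fun e => ⟨_, _, _, c.swap, by simp [e, c.ψr, add_self']⟩
  have hn : Module.finrank (ZMod 2) F = 2 * m + 1 := by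
    have := Module.card_eq_pow_finrank (K := ZMod 2) (V := F)
    rw [hF, hq, ZMod.card] at this
    exact (Nat.pow_right_injective le_rfl this).symm
  have k : ∀ (n : ℕ) x, ((θ ^ 2) ^ n) x = x ^ 2 ^ n := fun n => by
    induction n with
    | zero => simp
    | succ n ih => intro x; rw [pow_succ', AlgEquiv.mul_apply, ih, pow_two, AlgEquiv.mul_apply,
        c.sq_eq h0, ← pow_mul, ← pow_succ]
  refine ⟨F, _, _, m, by omega, hF.trans hq, Sz_eq (θ : F →+* F) _ (fun x => ?_) ▸ c.iso h0⟩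
  rw [← k, ← pow_mul, show 2 * (m + 1) = 2 * m + 1 + 1 from rfl, pow_succ, ← hn, ← card_aut,
    pow_card_eq_one', one_mul]
  rfl

theorem comm_of_mem_twoZCore (hO : pCore 2 G = ⊥) (hz : z ∈ twoZCore G) (g : G) : g * z = z * g := by
  have := mem_center_iff.1 (mem_comap.1 hz) (QuotientGroup.mk' _ g)
  rw [← map_mul, ← map_mul, QuotientGroup.mk'_apply, QuotientGroup.mk'_apply, QuotientGroup.eq, hO, mem_bot] at this
  exact inv_mul_eq_one.1 this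

theorem eq_one_of_central [Finite G] (hO : pCore 2 G = ⊥) (hz : ∀ g, g * z = z * g) {k : ℕ} (h : z ^ 2 ^ k = 1) :
    z = 1 := by
  haveI : Fact (Nat.Prime 2) := ⟨Nat.prime_two⟩
  haveI : (zpowers z).Normal := ⟨fun n hn g => by
    obtain ⟨i, rfl⟩ := hn
    rw [((show Commute g z from hz g).zpow_right i).eq, mul_inv_cancel_right]
    exact ⟨i, rfl⟩⟩
  exact mem_bot.1 (hO ▸ CfsgL0.le_pCore (CfsgH1.isPGroup_zpowers h) (mem_zpowers z))

theorem odd_card_of_central [Finite G] (hO : pCore 2 G = ⊥) {Z : Subgroup G} (hZ : ∀ z ∈ Z, ∀ g, g * z = z * g) :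
    Odd (Nat.card Z) := by
  by_contra h
  haveI : Fact (Nat.Prime 2) := ⟨Nat.prime_two⟩
  obtain ⟨z, hz⟩ := exists_prime_orderOf_dvd_card' 2 (even_iff_two_dvd.1 (Nat.not_odd_iff_even.1 h))
  have := eq_one_of_central hO (hZ z z.2) (k := 1) (by rw [pow_one, ← hz, ← Subgroup.coe_pow, pow_orderOf_eq_one]; rfl)
  rw [show z = 1 from Subtype.ext this, orderOf_one] at hz
  omega

theorem disc_R1 {G : Type u} [Group G] [Finite G] {D : Set G} {a b x : G}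
    (hS : SpecDisc.{u} D.ncard) (hD : IsRootInvolutionSet D) (hO : pCore 2 G = ⊥) (ha : a ∈ D) (hb : XP D a b) (hx : x ∈ D)
    (hn : ¬ CR D a x) :
    ∃ (Ω : Type u) (_ : MulAction G Ω) (X : R1 G Ω), HasFour G ∧ X.t = x ∧ (∀ d ∈ D, d ∈ X.H ↔ CR D a d) ∧
      X.L = ⊤ ∧ X.Concl := by
  haveI : Fact (Nat.Prime 2) := ⟨Nat.prime_two⟩
  have hR := RI.of_set hD
  have hc : ¬ IsConnectedSet (CommAdj D) D := fun h => hn (h a ha x hx)
  let π := QuotientGroup.mk' (twoZCore G)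
  obtain ⟨_, hD', hb', hne, -, l2⟩ := disc_quot hD ha hb hc (π := π) rfl
  obtain ⟨se, hna⟩ := disc_se (hS.image _) hD' ⟨a, ha, rfl⟩ hb'
    fun h => hc fun p hp q hq => (l2 p hp q hq).1 (h _ ⟨p, hp, rfl⟩ _ ⟨q, hq, rfl⟩)
  obtain ⟨h4', _, Y, hY⟩ := exists_R1_of_se thmA hna se
  have two := (thmS _ _ _ Y (Nat.lt_succ_self _) h4').two
  have sea := sea_of_se se
  have hH : ∀ d ∈ D, π d ∈ Y.H ↔ CR D a d := fun d hd => by
    rw [hY, mem_CH hD'.1 ⟨a, ha, rfl⟩ ⟨d, hd, rfl⟩, l2 a ha d hd]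
  let Ω := (G ⧸ twoZCore G) ⧸ CH hD'.1 (π a)
  letI : MulAction G Ω := MulAction.compHom Ω π
  have sm : ∀ (g : G) (c : Ω), g • c = π g • c := fun _ _ => rfl
  have hZ : ∀ z, π z = 1 → ∀ g, g * z = z * g := fun z hz =>
    comm_of_mem_twoZCore hO ((QuotientGroup.eq_one_iff z).1 hz)
  have hsea : SEA G Ω := ⟨fun u h1 h2 => sea.exists_fix (π u)
      (fun e => h1 (eq_one_of_central hO (hZ u e) (k := 1) (by rw [pow_one, pow_two, h2])))
      (by rw [← map_mul, h2, map_one]), fun α β hne => by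
    have e : stabilizer G α ⊓ stabilizer G β = (stabilizer _ α ⊓ stabilizer _ β).comap π := rfl
    rw [e, ← Nat.coprime_two_right, ← CfsgL0.isPi_compl_singleton_iff Nat.prime_two]
    refine CfsgL0.IsPi.comap π ?_ ?_ <;> rw [CfsgL0.isPi_compl_singleton_iff Nat.prime_two, Nat.coprime_two_right]
    exacts [sea.odd_stab α β hne, odd_card_of_central hO hZ]⟩
  obtain ⟨P⟩ : Nonempty (Sylow 2 (Y.Q.comap π)) := inferInstance
  let Q : Subgroup G := (P : Subgroup (Y.Q.comap π)).map (Subgroup.subtype _)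
  have Q1 : ∀ y ∈ Q, π y ∈ Y.Q := by rintro _ ⟨y, -, rfl⟩; exact y.2
  have Q2 : ∀ y ∈ Q, ∃ k, y ^ 2 ^ k = 1 := fun y hy => by
    obtain ⟨k, hk⟩ := P.isPGroup'.map (Subgroup.subtype _) ⟨y, hy⟩
    exact ⟨k, congrArg Subtype.val hk⟩
  have Q3 : ∀ y ∈ Y.Q, ∃ y' ∈ Q, π y' = y := fun y hy => by
    let f : Y.Q.comap π →* Y.Q := π.subgroupComap Y.Q
    have hf : Function.Surjective f := π.subgroupComap_surjective_of_surjective Y.Q (QuotientGroup.mk'_surjective _)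
    have := (P.mapSurjective hf).is_maximal' (two.to_subgroup ⊤) le_top
    obtain ⟨y', h1, h2⟩ : (⟨y, hy⟩ : Y.Q) ∈ (P : Subgroup (Y.Q.comap π)).map f := this.le trivial
    exact ⟨y', ⟨y', h1, rfl⟩, congrArg Subtype.val h2⟩
  have hxa : Y.a ≠ x • Y.a := fun e => hn ((hH x hx).1 e.symm)
  obtain ⟨X, e1, e2, -⟩ := hsea.exists_R1' hxa (t := x) (u := a) (Q := Q) ⟨hR.sq x hx, rfl⟩
    ⟨hR.ne a ha, hR.sq a ha, (hH a ha).2 Relation.ReflTransGen.refl⟩ (fun y hy => Y.Q_le_H (Q1 y hy))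
    (fun h hh y hy => by
      obtain ⟨y', hy', e⟩ := Q3 _ (Y.conj_mem_Q (h := π h) hh (Q1 y hy))
      obtain ⟨k, hk⟩ := Q2 y hy
      obtain ⟨l, hl⟩ := Q2 y' hy'
      have c := hZ (y'⁻¹ * (h * y * h⁻¹)) (by rw [map_mul, map_inv, e, map_mul, map_mul, map_inv, inv_mul_cancel])
      have : y'⁻¹ * (h * y * h⁻¹) = 1 := eq_one_of_central hO c (k := k + l) (by
        have c' : Commute y'⁻¹ (h * y * h⁻¹) := by
          have := ((Commute.refl y').mul_right (show Commute y' _ from c y')).inv_left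
          rwa [mul_inv_cancel_left] at this
        rw [c'.mul_pow, conj_pow, pow_add, pow_mul y, hk, mul_comm (2 ^ k), pow_mul, inv_pow, hl]; simp)
      rwa [← inv_mul_eq_one.1 this])
    (eq_bot_iff.2 fun y hy => by
      obtain ⟨k, hk⟩ := Q2 y hy.1
      exact eq_one_of_central hO (hZ y (Y.eq_one_of_Q_smul (Q1 y hy.1) hxa.symm hy.2)) hk)
    (fun c hc => by
      obtain ⟨y, hy, e⟩ := Y.exists_Q_smul hxa.symm hc
      obtain ⟨y, hy', rfl⟩ := Q3 y hy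
      exact ⟨y, hy', e⟩)
  have h4 : HasFour G := ⟨a, b, hR.ne a ha, hR.ne b hb.1, hb.2.2.1.symm, hR.sq a ha, hR.sq b hb.1, hb.2.1⟩
  refine ⟨Ω, inferInstance, X, h4, e2, fun d hd => by rw [← hH d hd, X.mem_H, e1]; rfl, ?_,
    thmS _ _ _ X (Nat.lt_succ_self _) h4⟩
  rw [eq_top_iff, ← hD.generates, closure_le]
  intro d hd
  obtain ⟨g, -, rfl⟩ := oneClass_of_connected hR (odd_connected_of_disc hR hc) x hx d hd
  exact X.L_normal.conj_mem _ (e2 ▸ X.t_mem_L) g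

theorem pair_R1 {G : Type u} [Group G] [Finite G] {D E : Set G} {d e x : G}
    (hS : SpecDisc.{u} D.ncard) (hD : IsRootInvolutionSet D) (hT : OT D) (hcl : OneClass D) (hO : pCore 2 G = ⊥)
    (hE : ∀ e ∈ E, e ∈ D ∧ Eqv D d e) (hd : d ∈ D) (he : e ∈ E) (hne : d ≠ e) (hx : x ∈ D) (o : Od d x)
    (hgen : closure (E ∪ {x}) = ⊤) :
    ∃ (Ω : Type u) (_ : MulAction G Ω) (X : R1 G Ω), HasFour G ∧ X.t = x ∧ (∀ y ∈ D, y ∈ X.H ↔ CR D d y) ∧
      X.L = ⊤ ∧ IsPGroup 2 X.Q ∧ (X.CaseA ∨ X.CaseB) := by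
  have hb : XP D d e := by
    refine ⟨(hE e he).1, (hE e he).2.commute hd, hne.symm, ?_⟩
    rcases prod_eqv hD hT hcl hd (hE e he).1 (hE e he).2 with h | ⟨y, hy, -, h⟩ <;> rw [hO, mem_bot] at h
    · exact absurd (by rw [← hT.inv hd]; exact inv_eq_of_mul_eq_one_right h) hne
    · rwa [eq_inv_of_mul_eq_one_left h, hT.inv hy]
  have cen : ∀ g, (∀ e ∈ E, Commute g e) → Commute g x → ∀ y, Commute g y := fun g h1 h2 y => by
    have : closure (E ∪ {x}) ≤ centralizer {g} := (closure_le _).2 (by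
      rintro z (hz | rfl)
      exacts [mem_centralizer_singleton_iff.2 (h1 z hz).symm, mem_centralizer_singleton_iff.2 h2.symm])
    exact (mem_centralizer_singleton_iff.1 (this (hgen ▸ mem_top y)) : Commute y g).symm
  have hn : ¬ CR D d x := fun h => by
    obtain ⟨g, hg, c1, c2⟩ := exists_common hT hcl (fun y hy => exists_xp hT.toRI hcl hd hb hy) hd h
    obtain ⟨y, hy, o'⟩ := hcl.exists_od hT.toRI hd hx o hg
    exact nc hT.toRI hg hy o' (cen g (fun e he => ((hE e he).2 g hg).1 c2) c1 y)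
  obtain ⟨Ω, _, X, h4, e1, e2, e3, two, h⟩ := disc_R1 hS hD hO hd hb hx hn
  refine ⟨Ω, _, X, h4, e1, e2, e3, two, or_assoc.2 h |>.resolve_right fun h => ?_⟩
  obtain ⟨-, ζ, -, -, -, -, -, h1, h2, -⟩ := h.special
  refine h2 (R1.mem_N.2 fun c => ?_)
  obtain ⟨g, rfl⟩ := X.exists_smul_eq X.a c
  rw [smul_smul, (cen ζ (fun e he => ?_) (e1 ▸ (X.mem_V.1 (X.W_le_V h1)).2.symm) g).eq, mul_smul,
    show ζ • X.a = X.a from X.D_le_H (X.V_le_D (X.W_le_V h1))]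
  obtain ⟨m, q⟩ := hE e he
  exact (X.mem_W_iff.1 h1).2 e (X.mem_I.2 ⟨(e2 e m).2 (cr_of_commute hd m (q.commute hd)), hT.ne e m, hT.sq e m⟩)

theorem OT.preim (hT : OT D) (H : Subgroup G) : OT (Subtype.val ⁻¹' D : Set H) where
  sq d hd := Subtype.ext (hT.sq _ hd)
  ne d hd e := hT.ne _ hd (congrArg Subtype.val e)
  conj a ha b hb := hT.conj _ ha _ hb
  pair a ha b hb := (hT.tri' ha hb).imp commute_coe.1 fun h => Or.inl (od_coe.1 h).2
  nfo a ha b hb h := hT.nfo _ ha _ hb (fo_coe.2 h)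

theorem cls_setup {E : Set G} (hT : OT D) (hc : ∀ d ∈ D, ∀ g, g * d * g⁻¹ ∈ D) (hE : ∀ e ∈ E, e ∈ D ∧ Eqv D d e)
    (hd : d ∈ D) (hx : x ∈ D) (o : Od d x) (hgen : closure (E ∪ {x}) = ⊤) :
    IsRootInvolutionClass {y | ∃ g, y = g * d * g⁻¹} ∧ OT {y | ∃ g, y = g * d * g⁻¹} ∧
      E ∪ {x} ⊆ {y | ∃ g, y = g * d * g⁻¹} ∧ {y | ∃ g, y = g * d * g⁻¹} ⊆ D := by
  have h1 : {y | ∃ g, y = g * d * g⁻¹} ⊆ D := by rintro _ ⟨g, rfl⟩; exact hc d hd g
  have h2 : ∀ y ∈ {y | ∃ g, y = g * d * g⁻¹}, ∀ g, g * y * g⁻¹ ∈ {y | ∃ g, y = g * d * g⁻¹} := by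
    rintro _ ⟨h, rfl⟩ g; exact ⟨g * h, by group⟩
  have h3 : OT {y | ∃ g, y = g * d * g⁻¹} := hT.mono h1 fun a ha b hb => by
    have := h2 b hb a
    rwa [hT.inv (h1 ha)] at this
  obtain ⟨g, -, e1⟩ := o.exists_conj hT.toRI hd hx
  have h4 : E ∪ {x} ⊆ {y | ∃ g, y = g * d * g⁻¹} := by
    rintro y (hy | rfl)
    · obtain ⟨k, -, e2⟩ := ((hE y hy).2.od hT hd (hE y hy).1 hx o.symm).exists_conj hT.toRI hx (hE y hy).1
      exact e2 ▸ h2 x ⟨g, e1⟩ k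
    · exact ⟨g, e1⟩
  haveI : Fact (Nat.Prime 2) := ⟨Nat.prime_two⟩
  refine ⟨⟨⟨fun y hy => orderOf_eq_prime (by rw [pow_two, h3.sq y hy]) (h3.ne y hy),
    eq_top_iff.2 (hgen ▸ closure_mono h4), h2, h3.pair⟩, ⟨d, 1, by simp⟩, ?_⟩, h3, h4, h1⟩
  rintro _ ⟨a, rfl⟩ _ ⟨b, rfl⟩
  exact ⟨b * a⁻¹, by group⟩

theorem s5051_core {G : Type u} [Group G] [Finite G] {D E : Set G} {d x : G}
    (hS : SpecDisc.{u} D.ncard) (hT : OT D) (hc : ∀ d ∈ D, ∀ g, g * d * g⁻¹ ∈ D) (hE : ∀ e ∈ E, e ∈ D ∧ Eqv D d e) (hd : d ∈ E)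
    (hx : x ∈ D) (o : Od d x) (hgen : closure (E ∪ {x}) = ⊤) :
    (∃ (F : Type) (_ : Field F) (_ : Fintype F), CharP F 2 ∧ 4 ≤ Fintype.card F ∧
      Nonempty (G ⧸ pCore 2 G ≃* Matrix.ProjectiveSpecialLinearGroup (Fin 2) F)) ∨
    Lie.IsoSuzuki (G ⧸ pCore 2 G) ∨ ∃ n : ℕ, Nonempty (G ⧸ pCore 2 G ≃* DihedralGroup n) := by
  haveI : Fact (Nat.Prime 2) := ⟨Nat.prime_two⟩
  obtain ⟨h1, h2, h3, h4⟩ := cls_setup hT hc hE (hE d hd).1 hx o hgen
  generalize {y | ∃ g, y = g * d * g⁻¹} = Δ at *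
  let π := QuotientGroup.mk' (pCore 2 G)
  have hcl := oneClass_of_class h1
  have hdΔ := h3 (Or.inl hd)
  have hxΔ := h3 (Or.inr rfl)
  have hne : ∀ y ∈ Δ, π y ≠ 1 := fun y hy h => by
    obtain ⟨z, hz, o'⟩ := hcl.exists_od h2.toRI hdΔ hxΔ o hy
    exact not_mem_of_od h2.toRI hy hz o' (CfsgL0.isPGroup_pCore _ _) ((QuotientGroup.eq_one_iff _).1 h)
  have hD' := mapRS π (QuotientGroup.mk'_surjective _) h1.1 hne
  have o' := od_map π h2.toRI hdΔ o ker_mk_pCore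
  have hgen' : closure (π '' E ∪ {π x}) = ⊤ := by
    rw [← Set.image_singleton, ← Set.image_union, ← MonoidHom.map_closure, hgen,
      map_top_of_surjective _ (QuotientGroup.mk'_surjective _)]
  by_cases h : ∃ e ∈ E, π d ≠ π e
  · obtain ⟨e, he, hde⟩ := h
    obtain ⟨Ω, _, X, four, -, -, e3, two, h⟩ := pair_R1 ((hS.sub h4).image _) hD' (h2.map π ker_mk_pCore hne) (map_oneClass π hcl)
      (CfsgL0.pCore_quotient _ _) (E := π '' E) (by
        rintro _ ⟨y, hy, rfl⟩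
        exact ⟨⟨y, h3 (Or.inl hy), rfl⟩, (eqv_image (fun a ha b hb => commute_map_iff π h2 ker_mk_pCore ha hb) hdΔ
          (h3 (Or.inl hy))).2 fun z hz => (hE y hy).2 z (h4 hz)⟩) ⟨d, hdΔ, rfl⟩ ⟨e, he, rfl⟩ hde ⟨x, hxΔ, rfl⟩ o' hgen'
    have i : G ⧸ pCore 2 G ≃* X.L := ((MulEquiv.subgroupCongr e3).trans topEquiv).symm
    rcases h with h | h
    · obtain ⟨F, _, _, c1, c2, ⟨f⟩⟩ := nfA X four h
      obtain ⟨f'⟩ := sl2_equiv F
      exact Or.inl ⟨F, _, _, c1, c2 ▸ X.four_le_q four, ⟨(i.trans f).trans f'⟩⟩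
    · obtain ⟨F, _, _, m, c1, c2, ⟨f⟩⟩ := nfB X four two h
      exact Or.inr (Or.inl ⟨F, _, _, m, c1, c2, ⟨i.trans f⟩⟩)
  · push Not at h
    obtain ⟨f⟩ := CfsgH4.closure_pair_dihedral (hD'.orderOf_eq _ ⟨d, hdΔ, rfl⟩) (hD'.orderOf_eq _ ⟨x, hxΔ, rfl⟩) o'.1
    refine Or.inr (Or.inr ⟨_, ⟨((MulEquiv.subgroupCongr (eq_top_iff.2 ?_)).trans topEquiv).symm.trans f⟩⟩)
    rw [← hgen']
    refine closure_mono ?_
    rintro _ (⟨y, hy, rfl⟩ | rfl)
    exacts [Or.inl (h y hy).symm, Or.inr rfl]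

end CfsgH7.RI
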