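import Mathlib

set_option autoImplicit false

namespace CfsgH7

open DihedralGroup Equiv

/-- homomorphism from the dihedral group of order six -/
def dihLift {R : Type*} [Group R] (a b : R) (ha : a * a = 1) (hb : b * b = 1)
    (h : (a * b) ^ 3 = 1) : DihedralGroup 3 →* R :=
  MonoidHom.mk' (fun g => match g with
    | r i => (a * b) ^ i.val
    | sr i => a * (a * b) ^ i.val) (by
    have e1 : ∀ i j : ZMod 3, (a * b) ^ (i + j).val = (a * b) ^ i.val * (a * b) ^ j.val := by
      intro i j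
      rw [ZMod.val_add, ← pow_add, ← pow_eq_pow_mod _ h]
    have e2 : ∀ i j : ZMod 3, (a * b) ^ i.val * (a * b) ^ (j - i).val = (a * b) ^ j.val := by
      intro i j
      rw [← e1, add_sub_cancel]
    have e3 : ∀ n : ℕ, (a * b) ^ n * a * (a * b) ^ n = a := by
      intro n
      induction n with
      | zero => simp
      | succ n ih =>
        calc _ = (a * b) ^ n * (a * b * a * (a * b)) * (a * b) ^ n := by
              nth_rewrite 1 [pow_succ]; rw [pow_succ']; simp only [mul_assoc]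
          _ = _ := by
              rw [show a * b * a * (a * b) = a * (b * (a * a) * b) by simp only [mul_assoc], ha,
                mul_one, hb, mul_one, ih]
    rintro (i | i) (j | j)
    · exact e1 i j
    · change a * (a * b) ^ (j - i).val = (a * b) ^ i.val * (a * (a * b) ^ j.val)
      rw [← e2 i j, ← mul_assoc, ← mul_assoc, e3]
    · change a * (a * b) ^ (i + j).val = a * (a * b) ^ i.val * (a * b) ^ j.val
      rw [e1, mul_assoc]
    · change (a * b) ^ (j - i).val = a * (a * b) ^ i.val * (a * (a * b) ^ j.val)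
      rw [← e2 i j, mul_assoc a, ← mul_assoc _ a, ← mul_assoc, ← mul_assoc, mul_assoc a,
        mul_assoc a, e3, ← mul_assoc, ha, one_mul])

theorem dihLift_sr0 {R : Type*} [Group R] (a b : R) (ha : a * a = 1) (hb : b * b = 1)
    (h : (a * b) ^ 3 = 1) : dihLift a b ha hb h (sr 0) = a := by
  change a * (a * b) ^ 0 = a
  simp

theorem dihLift_sr1 {R : Type*} [Group R] (a b : R) (ha : a * a = 1) (hb : b * b = 1)
    (h : (a * b) ^ 3 = 1) : dihLift a b ha hb h (sr 1) = b := by
  change a * (a * b) ^ 1 = b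
  rw [pow_one, ← mul_assoc, ha, one_mul]

theorem dih3_induction {P : DihedralGroup 3 → Prop} (h0 : P (sr 0)) (h1 : P (sr 1))
    (hm : ∀ g h, P g → P h → P (g * h)) (g : DihedralGroup 3) : P g := by
  have : ∀ g : DihedralGroup 3, g = sr 0 ∨ g = sr 1 ∨ g = sr 0 * sr 0 ∨ g = sr 0 * sr 1 ∨
    g = sr 1 * sr 0 ∨ g = sr 0 * sr 1 * sr 0 := by decide
  rcases this g with rfl | rfl | rfl | rfl | rfl | rfl
  exacts [h0, h1, hm _ _ h0 h0, hm _ _ h0 h1, hm _ _ h1 h0, hm _ _ (hm _ _ h0 h1) h0]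

theorem exists_hom_S3 {R : Type*} [Group R] (a b : R) (ha : a * a = 1) (hb : b * b = 1)
    (h : (a * b) ^ 3 = 1) : ∃ ψ : Perm (Fin 3) →* R, ψ (swap 0 1) = a ∧ ψ (swap 1 2) = b := by
  let e₀ := dihLift (swap (0 : Fin 3) 1) (swap 1 2) (by decide) (by decide) (by decide)
  have hb' : Function.Bijective e₀ := by decide
  let e := MulEquiv.ofBijective e₀ hb'
  have he : ∀ x, ((dihLift a b ha hb h).comp e.symm.toMonoidHom) (e₀ x) = dihLift a b ha hb h x :=
    fun x => congrArg (dihLift a b ha hb h) (e.symm_apply_apply x)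
  refine ⟨(dihLift a b ha hb h).comp e.symm.toMonoidHom, ?_, ?_⟩
  · have := he (sr 0)
    rwa [dihLift_sr0, dihLift_sr0] at this
  · have := he (sr 1)
    rwa [dihLift_sr1, dihLift_sr1] at this

/-- homomorphism from the four-group -/
def kleinLift {R : Type*} [Group R] (z y : R) (hz : z * z = 1) (hy : y * y = 1)
    (h : z * y = y * z) : ℤˣ × ℤˣ →* R :=
  MonoidHom.mk' (fun p => (if p.1 = 1 then 1 else z) * (if p.2 = 1 then 1 else y)) (by
    have e1 : ∀ x, z * (z * x) = x := fun x => by rw [← mul_assoc, hz, one_mul]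
    have e2 : ∀ x, y * (y * x) = x := fun x => by rw [← mul_assoc, hy, one_mul]
    have e3 : ∀ x, y * (z * x) = z * (y * x) := fun x => by rw [← mul_assoc, ← h, mul_assoc]
    rintro ⟨a, b⟩ ⟨c, d⟩
    rcases Int.units_eq_one_or a with rfl | rfl <;> rcases Int.units_eq_one_or b with rfl | rfl <;>
    rcases Int.units_eq_one_or c with rfl | rfl <;> rcases Int.units_eq_one_or d with rfl | rfl <;>
    simp [mul_assoc, e1, e2, e3, hz, hy, ← h])

/-- shear of the four-group -/
def kleinShear : MulAut (ℤˣ × ℤˣ) where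
  toFun p := (p.1 * p.2, p.2)
  invFun p := (p.1 * p.2, p.2)
  left_inv := by decide
  right_inv := by decide
  map_mul' := by decide

/-- action of `S₃` on the four-group -/
def kleinAct : DihedralGroup 3 →* MulAut (ℤˣ × ℤˣ) :=
  dihLift MulEquiv.prodComm kleinShear (MulEquiv.ext (by decide)) (MulEquiv.ext (by decide))
    (MulEquiv.ext (by decide))

theorem exists_hom_sdp {R : Type*} [Group R] (z y a b : R) (hz : z * z = 1) (hy : y * y = 1)
    (hzy : z * y = y * z) (ha : a * a = 1) (hb : b * b = 1) (h : (a * b) ^ 3 = 1)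
    (h1 : a * z * a⁻¹ = y) (h2 : b * z * b⁻¹ = z) (h3 : b * y * b⁻¹ = z * y) :
    ∃ ψ : (ℤˣ × ℤˣ) ⋊[kleinAct] DihedralGroup 3 →* R,
      (∀ p, ψ (.inl p) = (if p.1 = 1 then 1 else z) * (if p.2 = 1 then 1 else y)) ∧
      ∀ g, ψ (.inr g) = dihLift a b ha hb h g := by
  have h4 : a * y * a⁻¹ = z := by
    rw [← h1, inv_eq_of_mul_eq_one_right ha]
    calc _ = (a * a) * z * (a * a) := by group
      _ = z := by rw [ha, one_mul, mul_one]
  refine ⟨SemidirectProduct.lift (kleinLift z y hz hy hzy) (dihLift a b ha hb h) ?_,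
    fun p => SemidirectProduct.lift_inl _ _ _ _, fun p => SemidirectProduct.lift_inr _ _ _ _⟩
  have key : ∀ (f : MulAut (ℤˣ × ℤˣ)) (c : R),
      kleinLift z y hz hy hzy (f (-1, 1)) = c * z * c⁻¹ →
      kleinLift z y hz hy hzy (f (1, -1)) = c * y * c⁻¹ →
      (kleinLift z y hz hy hzy).comp f.toMonoidHom =
        (MulAut.conj c).toMonoidHom.comp (kleinLift z y hz hy hzy) := by
    intro f c e1 e2
    have : ∀ p : ℤˣ × ℤˣ, p = 1 ∨ p = (-1, 1) ∨ p = (1, -1) ∨ p = (-1, 1) * (1, -1) := by decide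
    have e3 : kleinLift z y hz hy hzy (-1, 1) = z := by simp [kleinLift]
    have e4 : kleinLift z y hz hy hzy (1, -1) = y := by simp [kleinLift]
    refine MonoidHom.ext fun p => ?_
    rcases this p with rfl | rfl | rfl | rfl
    · rw [map_one, map_one]
    · exact e1.trans (by simp [e3])
    · exact e2.trans (by simp [e4])
    · rw [map_mul, map_mul]
      exact congrArg₂ _ (e1.trans (by simp [e3])) (e2.trans (by simp [e4]))
  refine dih3_induction ?_ ?_ fun g h e1 e2 => ?_
  · rw [kleinAct, dihLift_sr0, dihLift_sr0]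
    exact key _ _ (by simp [kleinLift, h1]) (by simp [kleinLift, h4])
  · rw [kleinAct, dihLift_sr1, dihLift_sr1]
    exact key _ _ (by simp [kleinLift, h2, kleinShear]) (by simp [kleinLift, h3, kleinShear])
  · refine MonoidHom.ext fun p => ?_
    have e3 := DFunLike.congr_fun e1 (kleinAct h p)
    have e4 := DFunLike.congr_fun e2 p
    simp only [map_mul, MonoidHom.comp_apply, MulEquiv.coe_toMonoidHom, MulAut.mul_apply] at *
    rw [e3, e4]

theorem exists_hom_S4 {R : Type*} [Group R] (z y a b : R) (hz : z * z = 1) (hy : y * y = 1)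
    (hzy : z * y = y * z) (ha : a * a = 1) (hb : b * b = 1) (h : (a * b) ^ 3 = 1)
    (h1 : a * z * a⁻¹ = y) (h2 : b * z * b⁻¹ = z) (h3 : b * y * b⁻¹ = z * y) :
    ∃ ψ : Perm (Fin 4) →* R, ψ (swap 0 3 * swap 1 2) = z ∧ ψ (swap 0 1) = a ∧ ψ (swap 1 2) = b := by
  obtain ⟨ψ, p1, p2⟩ := exists_hom_sdp z y a b hz hy hzy ha hb h h1 h2 h3
  obtain ⟨e₀, q1, q2⟩ := exists_hom_sdp (R := Perm (Fin 4)) (swap 0 3 * swap 1 2)
    (swap 1 3 * swap 0 2) (swap 0 1) (swap 1 2) (by decide) (by decide) (by decide) (by decide)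
    (by decide) (by decide) (by decide) (by decide) (by decide)
  have hb' : Function.Bijective e₀ := by
    haveI : Finite ((ℤˣ × ℤˣ) ⋊[kleinAct] DihedralGroup 3) :=
      Finite.of_equiv _ SemidirectProduct.equivProd.symm
    refine (Function.Surjective.bijective_of_nat_card_le (fun σ => ?_) ?_)
    · have : ∀ σ : Perm (Fin 4), ∃ (p : ℤˣ × ℤˣ) (g : DihedralGroup 3),
          (if p.1 = 1 then 1 else swap 0 3 * swap 1 2) *
            (if p.2 = 1 then 1 else swap 1 3 * swap 0 2) *
            dihLift (swap 0 1) (swap 1 2) (by decide) (by decide) (by decide) g = σ := by decide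
      obtain ⟨p, g, e⟩ := this σ
      exact ⟨.inl p * .inr g, by rw [map_mul, q1, q2, e]⟩
    · rw [SemidirectProduct.card]
      simp [Nat.factorial, Fintype.card_perm, DihedralGroup.card]
  let e := MulEquiv.ofBijective e₀ hb'
  have he : ∀ x, (ψ.comp e.symm.toMonoidHom) (e₀ x) = ψ x := fun x =>
    congrArg _ (e.symm_apply_apply x)
  refine ⟨ψ.comp e.symm.toMonoidHom, ?_, ?_, ?_⟩
  · have := he (.inl (-1, 1))
    rw [q1, p1] at this
    simpa using this
  · have := he (.inr (sr 0))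
    rwa [q2, p2, dihLift_sr0, dihLift_sr0] at this
  · have := he (.inr (sr 1))
    rwa [q2, p2, dihLift_sr1, dihLift_sr1] at this

theorem S3_injective {R : Type*} [Group R] (ψ : Perm (Fin 3) →* R)
    (h : ψ (swap 0 1) ≠ ψ (swap 1 2)) : Function.Injective ψ := by
  rw [injective_iff_map_eq_one]
  intro σ hσ
  by_contra h0
  have : ∀ σ : Perm (Fin 3), σ ≠ 1 → ∃ g h, swap 0 1 = swap 1 2 * (g * σ * g⁻¹ * (h * σ * h⁻¹)) := by
    decide +kernel
  obtain ⟨g, k, e⟩ := this σ h0
  apply h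
  rw [e]
  simp [hσ]

theorem S4_injective {R : Type*} [Group R] (ψ : Perm (Fin 4) →* R)
    (h : ψ (swap 0 3 * swap 1 2) ≠ 1) : Function.Injective ψ := by
  rw [injective_iff_map_eq_one]
  intro σ hσ
  by_contra h0
  have : ∀ σ : Perm (Fin 4), σ ≠ 1 → ∃ g h,
      swap 0 3 * swap 1 2 = g * σ * g⁻¹ * (h * σ * h⁻¹) := by decide +kernel
  obtain ⟨g, k, e⟩ := this σ h0
  apply h
  rw [e]
  simp [hσ]

end CfsgH7
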