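/-
Lifting local data from a section.
-/
import Mathlib

set_option autoImplicit false

namespace CfsgH7.Sec

open Equiv

theorem exists_lift {H Q : Type*} [Group H] [Finite H] [Group Q] (π : H →* Q)
    (hπ : Function.Surjective π) (l : ℕ) [Fact l.Prime] (E : Subgroup Q) (hE : IsPGroup l E) :
    ∃ P : Subgroup H, IsPGroup l P ∧ P.map π = E ∧ ∀ σ ∈ Subgroup.normalizer (E : Set Q),
      ∃ h, (∀ x ∈ P, h * x * h⁻¹ ∈ P) ∧ ∃ e ∈ E, π h = σ * e := by
  let G := (Subgroup.normalizer (E : Set Q)).comap π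
  let N := (E.comap π).subgroupOf G
  haveI : N.Normal := ⟨fun n hn g => (Subgroup.mem_subgroupOf).2 (by
    have := (Subgroup.mem_normalizer_iff.1 g.2 (π n)).1 hn
    simpa using this)⟩
  obtain ⟨P⟩ : Nonempty (Sylow l N) := inferInstance
  refine ⟨(P.1.map N.subtype).map G.subtype, (P.2.map _).map _, ?_, fun σ hσ => ?_⟩
  · let f : N →* E := (π.comp (G.subtype.comp N.subtype)).codRestrict E fun x => x.2
    have hf : Function.Surjective f := fun e => by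
      obtain ⟨x, hx⟩ := hπ e
      exact ⟨⟨⟨x, show π x ∈ _ from hx ▸ Subgroup.le_normalizer e.2⟩,
        show π x ∈ E from hx ▸ e.2⟩, Subtype.ext hx⟩
    have h1 : (P.mapSurjective hf : Subgroup E) = ⊤ :=
      ((P.mapSurjective hf).is_maximal' (hE.to_subgroup ⊤) le_top).symm
    refine le_antisymm ?_ fun e he => ?_
    · rintro _ ⟨_, ⟨_, ⟨x, -, rfl⟩, rfl⟩, rfl⟩
      exact x.2
    · obtain ⟨x, hx, e'⟩ : (⟨e, he⟩ : E) ∈ (P.mapSurjective hf : Subgroup E) := h1 ▸ trivial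
      exact ⟨_, ⟨_, ⟨x, hx, rfl⟩, rfl⟩, congrArg Subtype.val e'⟩
  · obtain ⟨h, rfl⟩ := hπ σ
    obtain ⟨a, ha, n, hn, e⟩ := Subgroup.mem_sup_of_normal_right.1
      (P.normalizer_sup_eq_top ▸ Subgroup.mem_top (⟨h, hσ⟩ : G))
    refine ⟨a, ?_, (π n)⁻¹, E.inv_mem hn, ?_⟩
    · rintro _ ⟨x, hx, rfl⟩
      exact ⟨_, (Subgroup.mem_normalizer_iff.1 ha x).1 hx, rfl⟩
    · rw [← show (a : H) * n = h from congrArg Subtype.val e]
      simp

theorem exists_pow_prime {H : Type*} [Group H] {l : ℕ} [Fact l.Prime] {P : Subgroup H}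
    (hP : IsPGroup l P) {g : H} (hg : g ∈ P) (h1 : g ≠ 1) : ∃ m, (g ^ m) ^ l = 1 ∧ g ^ m ≠ 1 := by
  obtain ⟨n, hn⟩ := IsPGroup.iff_orderOf.1 hP ⟨g, hg⟩
  rw [← Subgroup.orderOf_coe] at hn
  change orderOf g = _ at hn
  obtain rfl | ⟨n, rfl⟩ : n = 0 ∨ ∃ m, n = m + 1 := by cases n <;> simp
  · exact (h1 (orderOf_eq_one_iff.1 hn)).elim
  refine ⟨l ^ n, by rw [← pow_mul, ← pow_succ, ← hn, pow_orderOf_eq_one], fun e => ?_⟩
  have := Nat.le_of_dvd (pow_pos (Fact.out : l.Prime).pos n) (hn ▸ orderOf_dvd_of_pow_eq_one e)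
  exact this.not_gt (Nat.pow_lt_pow_right (Fact.out : l.Prime).one_lt (by omega))

theorem conj_of_norm {H Q : Type*} [Group H] [Finite H] [Group Q] (π : H →* Q) {l : ℕ}
    [Fact l.Prime] {P : Subgroup H} (hP : IsPGroup l P) (hab : ∀ x ∈ P, ∀ y ∈ P, x * y = y * x)
    {h : H} (h4 : ∀ x ∈ P, h * x * h⁻¹ ∈ P) {k : ℕ} (h6 : ∀ x ∈ P, π (h * x * h⁻¹) = π x ^ k)
    {x : H} (hx : x ∈ P) (h1 : π x ≠ 1) : ∃ g ∈ P, g ^ l = 1 ∧ g ≠ 1 ∧ h * g * h⁻¹ = g ^ k := by
  let ψ : P → P := fun x => ⟨h * x * h⁻¹ * ((x : H) ^ k)⁻¹,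
    P.mul_mem (h4 x x.2) (P.inv_mem (P.pow_mem x.2 k))⟩
  have h7 : ¬ Function.Injective ψ := fun hi => by
    obtain ⟨y, hy⟩ := Finite.injective_iff_surjective.1 hi ⟨x, hx⟩
    apply h1
    rw [← show _ = x from congrArg Subtype.val hy, map_mul, h6 y y.2, map_inv, map_pow,
      mul_inv_cancel]
  obtain ⟨x, y, e1, e2⟩ := Function.not_injective_iff.1 h7
  have e3 : h * x * h⁻¹ * ((x : H) ^ k)⁻¹ = h * y * h⁻¹ * ((y : H) ^ k)⁻¹ := congrArg Subtype.val e1
  have e4 : h * ((y : H)⁻¹ * x) * h⁻¹ = ((y : H)⁻¹ * x) ^ k := by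
    rw [Commute.mul_pow (hab _ (P.inv_mem y.2) _ x.2), inv_pow]
    calc _ = (h * y * h⁻¹)⁻¹ * (h * x * h⁻¹ * ((x : H) ^ k)⁻¹) * x ^ k := by group
      _ = _ := by rw [e3]; group
  have e5 := P.mul_mem (P.inv_mem y.2) x.2
  obtain ⟨m, h8, h9⟩ := exists_pow_prime hP e5
    fun e => e2 (Subtype.ext (inv_mul_eq_one.1 e).symm)
  exact ⟨_, P.pow_mem e5 m, h8, h9, by rw [← conj_pow, e4, ← pow_mul, ← pow_mul, mul_comm]⟩

theorem isPGroup_zpowers {Q : Type*} [Group Q] {l : ℕ} {c : Q} (hc : c ^ l = 1) :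
    IsPGroup l (Subgroup.zpowers c) := by
  rintro ⟨_, i, rfl⟩
  exact ⟨1, Subtype.ext (by
    simp only [pow_one, SubmonoidClass.coe_pow, OneMemClass.coe_one]
    rw [← zpow_natCast, ← zpow_mul, mul_comm, zpow_mul, zpow_natCast, hc, one_zpow])⟩

theorem conj_zpowers {Q : Type*} [Group Q] {c σ : Q} {k : ℕ} (hσ : σ * c * σ⁻¹ = c ^ k) :
    ∀ x ∈ Subgroup.zpowers c, ∀ e ∈ Subgroup.zpowers c, σ * e * x * (σ * e)⁻¹ = x ^ k := by
  rintro _ ⟨i, rfl⟩ _ ⟨j, rfl⟩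
  calc _ = (σ * c * σ⁻¹) ^ i := by rw [conj_zpow]; group
    _ = _ := by rw [hσ, ← zpow_natCast, ← zpow_natCast, ← zpow_mul, ← zpow_mul, mul_comm]

theorem mem_norm_zpowers {Q : Type*} [Group Q] [Finite Q] {c σ : Q} {k : ℕ}
    (hσ : σ * c * σ⁻¹ = c ^ k) : σ ∈ Subgroup.normalizer (Subgroup.zpowers c : Set Q) :=
  Subgroup.mem_normalizer_fintype fun x hx => by
    have := conj_zpowers hσ x hx 1 (one_mem _)
    rw [mul_one] at this
    exact this ▸ Subgroup.pow_mem _ hx k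

theorem exists_conj_elt {H Q : Type*} [Group H] [Finite H] [Group Q] (π : H →* Q)
    (hπ : Function.Surjective π) (l : ℕ) [Fact l.Prime] {c σ : Q} (hc : c ^ l = 1) (h1 : c ≠ 1)
    {k : ℕ} (hσ : σ * c * σ⁻¹ = c ^ k)
    (hab : ∀ P : Subgroup H, IsPGroup l P → ∀ x ∈ P, ∀ y ∈ P, x * y = y * x) :
    ∃ g h : H, g ^ l = 1 ∧ g ≠ 1 ∧ h * g * h⁻¹ = g ^ k ∧ π g ∈ Subgroup.zpowers c ∧
      ∃ e ∈ Subgroup.zpowers c, π h = σ * e := by
  haveI : Finite Q := Finite.of_surjective π hπ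
  obtain ⟨P, hP, h2, h3⟩ := exists_lift π hπ l (Subgroup.zpowers c) (isPGroup_zpowers hc)
  obtain ⟨h, h4, e, he, h5⟩ := h3 σ (mem_norm_zpowers hσ)
  obtain ⟨x, hx, rfl⟩ : c ∈ P.map π := h2 ▸ Subgroup.mem_zpowers c
  obtain ⟨g, hg, a1, a2, a3⟩ := conj_of_norm π hP (hab P hP) h4 (fun y hy => by
    rw [map_mul, map_mul, map_inv, h5, conj_zpowers hσ _ (h2 ▸ Subgroup.mem_map_of_mem π hy) e he])
    hx h1
  exact ⟨g, h, a1, a2, a3, h2 ▸ Subgroup.mem_map_of_mem π hg, e, he, h5⟩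

/-- `l`-subgroups are abelian with automizers of exponent `N` -/
def NC (H : Type*) [Group H] (l N : ℕ) : Prop :=
  ∀ P : Subgroup H, IsPGroup l P → (∀ x ∈ P, ∀ y ∈ P, x * y = y * x) ∧
    ∀ h, (∀ x ∈ P, h * x * h⁻¹ ∈ P) → ∀ x ∈ P, h ^ N * x * (h ^ N)⁻¹ = x

theorem NC.comap {H G : Type*} [Group H] [Group G] {l N : ℕ} (h : NC G l N) (j : H →* G)
    (hj : Function.Injective j) : NC H l N := fun P hP => by
  obtain ⟨h1, h2⟩ := h _ (hP.map j)
  refine ⟨fun x hx y hy => hj ?_, fun g hg x hx => hj ?_⟩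
  · simpa using h1 _ ⟨x, hx, rfl⟩ _ ⟨y, hy, rfl⟩
  · simpa using h2 (j g) (by rintro _ ⟨y, hy, rfl⟩; exact ⟨_, hg y hy, by simp⟩) _ ⟨x, hx, rfl⟩

theorem NC.false {H Q : Type*} [Group H] [Finite H] [Group Q] {l N : ℕ} [Fact l.Prime]
    (hN : NC H l N) (π : H →* Q) (hπ : Function.Surjective π) {c σ : Q} (hc : c ^ l = 1)
    (h1 : c ≠ 1) {k : ℕ} (hσ : σ * c * σ⁻¹ = c ^ k) (hk : k ^ N % l ≠ 1 % l) : False := by
  obtain ⟨g, h, a1, a2, a3, -⟩ := exists_conj_elt π hπ l hc h1 hσ fun P hP => (hN P hP).1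
  have e := (hN _ (isPGroup_zpowers a1)).2 h (fun x hx => by
    have := conj_zpowers a3 x hx 1 (one_mem _)
    rw [mul_one] at this
    exact this ▸ Subgroup.pow_mem _ hx k) g (Subgroup.mem_zpowers g)
  have e' : ∀ n, h ^ n * g * (h ^ n)⁻¹ = g ^ k ^ n := fun n => by
    induction n with
    | zero => simp
    | succ n ih => rw [pow_succ' k, pow_mul, ← a3, conj_pow, ← ih, pow_succ']; group
  rw [e'] at e
  exact hk (orderOf_eq_prime a1 a2 ▸ pow_eq_pow_iff_modEq.1 (e.trans (pow_one g).symm))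

theorem exists_two {H Q : Type*} [Group H] [Finite H] [Group Q] {l l' N : ℕ} [Fact l.Prime]
    [Fact l'.Prime] (hN : NC H l N) (hN' : NC H l' N) (π : H →* Q) (hπ : Function.Surjective π)
    {c c' σ : Q} (hc : c ^ l = 1) (h1 : c ≠ 1) (hc' : c' ^ l' = 1) (h1' : c' ^ N ≠ 1)
    (hcc : Commute c c') {k k' : ℕ} (hσ : σ * c * σ⁻¹ = c ^ k) (hσ' : σ * c' * σ⁻¹ = c' ^ k') :
    ∃ g g' h : H, g ^ l = 1 ∧ g ≠ 1 ∧ g' ^ l' = 1 ∧ g' ≠ 1 ∧ g' * g * g'⁻¹ = g ∧
      h * g * h⁻¹ = g ^ k ∧ h * g' * h⁻¹ = g' ^ k' := by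
  haveI : Finite Q := Finite.of_surjective π hπ
  obtain ⟨P, hP, h2, h3⟩ := exists_lift π hπ l (Subgroup.zpowers c) (isPGroup_zpowers hc)
  obtain ⟨hab, hn⟩ := hN P hP
  obtain ⟨h, h4, e, he, h5⟩ := h3 σ (mem_norm_zpowers hσ)
  obtain ⟨h', h4', e', he', h5'⟩ := h3 c' (mem_norm_zpowers (k := 1) (by rw [← hcc.eq]; simp))
  have hc1 : ∀ e ∈ Subgroup.zpowers c, Commute c' e := by
    rintro _ ⟨i, rfl⟩
    exact hcc.symm.zpow_right i
  obtain ⟨y, hy, e1⟩ : e' ^ N ∈ P.map π := h2 ▸ Subgroup.pow_mem _ he' N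
  have z1 : π (h' ^ N * y⁻¹) = c' ^ N := by
    rw [map_mul, map_inv, map_pow, h5', e1, (hc1 _ he').mul_pow, mul_inv_cancel_right]
  have z2 : ∀ x ∈ P, h' ^ N * y⁻¹ * x * (h' ^ N * y⁻¹)⁻¹ = x := fun x hx => by
    rw [mul_assoc _ _ x, hab _ (inv_mem hy) x hx, ← hn h' h4' x hx]
    conv_lhs => rw [hn h' h4' x hx]
    group
  generalize h' ^ N * y⁻¹ = z at z1 z2
  obtain ⟨x, hx, rfl⟩ : c ∈ P.map π := h2 ▸ Subgroup.mem_zpowers c
  obtain ⟨g, hg, a1, a2, a3⟩ := conj_of_norm π hP hab h4 (fun y hy => by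
    rw [map_mul, map_mul, map_inv, h5, conj_zpowers hσ _ (h2 ▸ Subgroup.mem_map_of_mem π hy) e he])
    hx h1
  let G := Subgroup.normalizer (P : Set H)
  let π' : G →* Q × MulAut P := (π.comp G.subtype).prod P.normalizerMonoidHom
  let z' : G := ⟨z, Subgroup.mem_normalizer_fintype fun x hx => (z2 x hx).symm ▸ hx⟩
  have z3 : π' z' = (c' ^ N, 1) := Prod.ext z1 (MulEquiv.ext fun x => Subtype.ext (z2 x x.2))
  obtain ⟨g', a, b1, b2, b3, ⟨i, b4⟩, _, ⟨j, rfl⟩, b5⟩ := exists_conj_elt π'.rangeRestrict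
    π'.rangeRestrict_surjective l' (c := π'.rangeRestrict z') (k := k')
    (σ := π'.rangeRestrict ⟨h, Subgroup.mem_normalizer_fintype h4⟩)
    (Subtype.ext (by
      change π' z' ^ l' = 1
      rw [z3, Prod.pow_mk, ← pow_mul, mul_comm, pow_mul, hc', one_pow, one_pow]; rfl))
    (fun e => h1' (congrArg Prod.fst (z3.symm.trans (congrArg Subtype.val e))))
    (Subtype.ext (by
      change π' _ * π' z' * (π' _)⁻¹ = π' z' ^ k'
      rw [z3]
      refine Prod.ext ?_ (by simp)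
      change π h * c' ^ N * (π h)⁻¹ = (c' ^ N) ^ k'
      rw [h5, mul_assoc σ, ← ((hc1 e he).pow_left N).eq, ← pow_mul, mul_comm N, pow_mul, ← hσ',
        conj_pow]
      group))
    fun P hP => (hN'.comap G.subtype G.subtype_injective P hP).1
  have c1 : (π' g').2 = 1 := by
    rw [← show π' z' ^ i = π' g' from congrArg Subtype.val b4, z3]; simp
  have c2 : (π' a).2 = (π' ⟨h, Subgroup.mem_normalizer_fintype h4⟩).2 := by
    rw [show π' a = π' _ * π' z' ^ j from congrArg Subtype.val b5, z3]; simp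
  exact ⟨g, g', a, a1, a2, congrArg Subtype.val b1, fun e => b2 (Subtype.ext e),
    (congrArg Subtype.val (DFunLike.congr_fun c1 (⟨g, hg⟩ : P)) :),
    Eq.trans (congrArg Subtype.val (DFunLike.congr_fun c2 (⟨g, hg⟩ : P)) :) a3,
    congrArg Subtype.val b3⟩

theorem exists_section_le {H : Type*} [Group H] {r s : ℕ} (hs : s ≤ r)
    (π : H →* alternatingGroup (Fin r)) (hπ : Function.Surjective π) :
    ∃ (H' : Subgroup H) (π' : H' →* alternatingGroup (Fin s)), Function.Surjective π' := by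
  classical
  let f := (Fin.castLEEmb hs).toEquivRange
  let ι : alternatingGroup (Fin s) →* alternatingGroup (Fin r) :=
    ((Perm.extendDomainHom f).comp (alternatingGroup _).subtype).codRestrict _ fun x => by
      exact (Perm.sign_extendDomain x.1 f).trans x.2
  have hι : Function.Injective ι := fun x y e =>
    Subtype.ext (Perm.extendDomainHom_injective f (congrArg Subtype.val e))
  refine ⟨ι.range.comap π, (MonoidHom.ofInjective hι).symm.toMonoidHom.comp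
    ((π.comp (Subgroup.subtype _)).codRestrict _ fun x => x.2), fun q => ?_⟩
  obtain ⟨x, hx⟩ := hπ (ι q)
  exact ⟨⟨x, q, hx.symm⟩, (MonoidHom.ofInjective hι).symm_apply_eq.2 (Subtype.ext hx)⟩

theorem of_section {G : Type*} [Group G] {r s : ℕ} (H : Subgroup G)
    (K : Subgroup H) [K.Normal] (h : Nonempty (H ⧸ K ≃* alternatingGroup (Fin r)))
    (hs : ∀ (H' : Subgroup H) (π : H' →* alternatingGroup (Fin (s + 1))),
      Function.Surjective π → False) : r ≤ s := by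
  by_contra hr
  obtain ⟨e⟩ := h
  obtain ⟨H', π, hπ⟩ := exists_section_le (show s + 1 ≤ r by omega)
    (e.toMonoidHom.comp (QuotientGroup.mk' K)) (e.surjective.comp (QuotientGroup.mk'_surjective K))
  exact hs H' π hπ

/-- squares of `2`-subgroups lie in abelian groups of `2`-rank at most two -/
def SQ (H : Type*) [Group H] : Prop :=
  ∀ P : Subgroup H, IsPGroup 2 P → ∃ A : Subgroup H, (∀ x ∈ A, ∀ y ∈ A, x * y = y * x) ∧
    (∀ x ∈ P, x ^ 2 ∈ A) ∧ Nat.card {a : A // a ^ 2 = 1} ≤ 4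

theorem SQ.comap {H G : Type*} [Group H] [Group G] [Finite G] (h : SQ G) (j : H →* G)
    (hj : Function.Injective j) : SQ H := fun P hP => by
  obtain ⟨A, h1, h2, h3⟩ := h _ (hP.map j)
  refine ⟨A.comap j, fun x hx y hy => hj (by simpa using h1 _ hx _ hy), fun x hx => ?_,
    (Nat.card_le_card_of_injective (β := {a : A // a ^ 2 = 1})
      (fun a => ⟨⟨j a.1, a.1.2⟩, Subtype.ext (by simpa using congrArg (fun x => j x.1) a.2)⟩)
      fun a b e => Subtype.ext (Subtype.ext (hj (congrArg (·.1.1) e)))).trans h3⟩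
  simpa using h2 _ ⟨x, hx, rfl⟩

theorem card_range_le {A E : Type*} [CommGroup A] [Finite A] [Group E] (f : A →* E)
    (hf : ∀ a, f a ^ 2 = 1) : Nat.card f.range ≤ Nat.card {a : A // a ^ 2 = 1} := by
  have h1 := (powMonoidHom 2 : A →* A).ker.card_mul_index
  have h2 := f.ker.card_mul_index
  rw [Subgroup.index_ker] at h1 h2
  have h3 : Nat.card (powMonoidHom 2 : A →* A).range ≤ Nat.card f.ker :=
    Subgroup.card_le_of_le (by rintro _ ⟨a, rfl⟩; simpa using hf a)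
  have h4 : 0 < Nat.card f.ker := Nat.card_pos
  change _ ≤ Nat.card (powMonoidHom 2 : A →* A).ker
  nlinarith

/-- octal digits -/
def dg (c i : ℕ) : ℕ := c / 8 ^ i % 8

/-- a group of order 32 -/
def L32 : List ℕ := [343525, 343980, 372204, 372645, 2178540, 2178981, 2207205, 2207660, 4987255,
  4987710, 5015934, 5016375, 6822270, 6822711, 6850935, 6851390, 9924691, 9925146, 9953370, 9953811,
  11759706, 11760147, 11788371, 11788826, 14570689, 14571144, 14599368, 14599809, 16405704,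
  16406145, 16434369, 16434824]

theorem L32_pow {x : alternatingGroup (Fin 8)} (h : ∃ c ∈ L32, ∀ i : Fin 8, (x.1 i).val = dg c i) :
    x ^ 4 = 1 := by
  obtain ⟨c, hc, h⟩ := h
  refine Subtype.ext (Equiv.ext fun i => Fin.ext ?_)
  change (x.1 (x.1 (x.1 (x.1 i)))).val = i
  rw [h, h, h, h]
  clear h
  revert c i
  decide +kernel

/-- a `2`-subgroup of `A₈` -/
def D32 : Subgroup (alternatingGroup (Fin 8)) :=
  let M : Submonoid (alternatingGroup (Fin 8)) :=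
    { carrier := {x | ∃ c ∈ L32, ∀ i : Fin 8, (x.1 i).val = dg c i}
      one_mem' := ⟨16434824, by decide, by decide⟩
      mul_mem' := by
        rintro x y ⟨a, ha, hx⟩ ⟨b, hb, hy⟩
        obtain ⟨c, hc, h⟩ : ∃ c ∈ L32, ∀ i : Fin 8, dg a (dg b i) = dg c i := by
          clear hx hy
          revert a b
          decide +kernel
        exact ⟨c, hc, fun i => by rw [← h, ← hy, ← hx]; rfl⟩ }
  { M with
    inv_mem' := fun {x} hx => by
      rw [inv_eq_of_mul_eq_one_right (pow_succ' x 3 ▸ L32_pow hx)]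
      exact M.pow_mem hx 3 }

/-- generator -/
def a8 : alternatingGroup (Fin 8) :=
  ⟨swap 0 7 * swap 1 6 * swap 2 5 * swap 3 4 * swap 4 7 * swap 5 6,
    by simp [Perm.mem_alternatingGroup]⟩

/-- generator -/
def b8 : alternatingGroup (Fin 8) :=
  ⟨swap 0 6 * swap 1 7 * swap 2 5 * swap 3 4 * swap 4 7 * swap 5 6,
    by simp [Perm.mem_alternatingGroup]⟩

/-- generator -/
def c8 : alternatingGroup (Fin 8) :=
  ⟨swap 0 7 * swap 1 6 * swap 2 5 * swap 3 4 * swap 4 6 * swap 5 7,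
    by simp [Perm.mem_alternatingGroup]⟩

theorem abc_inj : Function.Injective fun k : Fin 2 × Fin 2 × Fin 2 =>
    (((a8 * a8) ^ k.1.val * (b8 * b8) ^ k.2.1.val * (c8 * c8) ^ k.2.2.val).1 0,
      ((a8 * a8) ^ k.1.val * (b8 * b8) ^ k.2.1.val * (c8 * c8) ^ k.2.2.val).1 4) := by
  decide +kernel

theorem SQ.false {H : Type*} [Group H] [Finite H] (h : SQ H) (π : H →* alternatingGroup (Fin 8))
    (hπ : Function.Surjective π) : False := by
  obtain ⟨P, hP, h2, -⟩ := exists_lift π hπ 2 D32 fun x => ⟨2, Subtype.ext (L32_pow x.2)⟩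
  obtain ⟨A, h3, h4, h5⟩ := h P hP
  let A' : Subgroup H :=
    { carrier := {a | a ∈ A ∧ π a ^ 2 = 1}
      one_mem' := ⟨one_mem _, by simp⟩
      mul_mem' := fun {a b} ha hb => ⟨mul_mem ha.1 hb.1, by
        rw [← map_pow, Commute.mul_pow (h3 _ ha.1 _ hb.1), map_mul, map_pow, map_pow, ha.2, hb.2,
          one_mul]⟩
      inv_mem' := fun {a} ha => ⟨inv_mem ha.1, by rw [map_inv, inv_pow, ha.2, inv_one]⟩ }
  letI : CommGroup A' := { (inferInstance : Group A') with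
    mul_comm := fun a b => Subtype.ext (h3 _ a.2.1 _ b.2.1) }
  have h6 := (card_range_le (π.comp A'.subtype) fun a => a.2.2).trans
    ((Nat.card_le_card_of_injective (β := {a : A // a ^ 2 = 1})
      (fun a : {a : A' // a ^ 2 = 1} => ⟨⟨a.1, a.1.2.1⟩, Subtype.ext (congrArg Subtype.val a.2 :)⟩)
       fun a b e =>
      Subtype.ext (Subtype.ext (congrArg (·.1.1) e))).trans h5)
  have h7 : ∀ x ∈ D32, x * x ∈ (π.comp A'.subtype).range := fun x hx => by
    obtain ⟨y, hy, rfl⟩ : x ∈ P.map π := h2 ▸ hx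
    exact ⟨⟨y ^ 2, h4 y hy, by rw [map_pow, ← pow_mul]; exact L32_pow hx⟩, by simp [sq]⟩
  have ha := h7 a8 ⟨6850935, by decide, by decide⟩
  have hb := h7 b8 ⟨6822270, by decide, by decide⟩
  have hc := h7 c8 ⟨4987255, by decide, by decide⟩
  have h8 := Nat.card_le_card_of_injective (fun k : Fin 2 × Fin 2 × Fin 2 =>
    (⟨(a8 * a8) ^ k.1.val * (b8 * b8) ^ k.2.1.val * (c8 * c8) ^ k.2.2.val,
      mul_mem (mul_mem (pow_mem ha _) (pow_mem hb _)) (pow_mem hc _)⟩ : (π.comp A'.subtype).range))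
    fun k k' e => abc_inj (congrArg (fun x => (x.1.1 0, x.1.1 4)) e)
  rw [Nat.card_eq_fintype_card] at h8
  exact absurd (h8.trans h6) (by decide)

end CfsgH7.Sec
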