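/-
Tori of abstract Chevalley groups: fusion and `s`-subgroups.
-/
import Cfsg.Agent.H8.Chev9

set_option autoImplicit false
set_option linter.unusedSectionVars false

namespace CfsgH7

theorem sylow_conj_le {G : Type*} [Group G] [Finite G] {s : ℕ} [Fact s.Prime] (M : Subgroup G)
    {t : G} {e : ℕ} (ht : t ^ s ^ e = 1) (htM : t ∈ M) (h : ∀ x : G, x * t * x⁻¹ ∈ M → x ∈ M)
    (P : Subgroup G) (hP : IsPGroup s P) : ∃ g : G, ∀ x ∈ P, g * x * g⁻¹ ∈ M := by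
  obtain ⟨S, hS⟩ := IsPGroup.exists_le_sylow (P := Subgroup.zpowers t) (p := s) (by
    rintro ⟨_, i, rfl⟩
    refine ⟨e, Subtype.ext ?_⟩
    change (t ^ i) ^ s ^ e = 1
    rw [← zpow_natCast, ← zpow_mul, mul_comm, zpow_mul, zpow_natCast, ht, one_zpow])
  have h4 := hS (Subgroup.mem_zpowers _)
  have h5 : ∀ x ∈ S, x ∈ M := by
    haveI := S.2.isNilpotent
    have := normalizerCondition_iff_only_full_group_self_normalizing.1
      (Group.normalizerCondition_of_isNilpotent (G := S)) (M.comap S.1.subtype)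
      (le_antisymm (fun x hx => h _ ((Subgroup.mem_normalizer_iff.1 hx ⟨t, h4⟩).1 htM))
        Subgroup.le_normalizer)
    exact fun x hx => (this ▸ Subgroup.mem_top (⟨x, hx⟩ : S) : (⟨x, hx⟩ : S) ∈ M.comap S.1.subtype)
  obtain ⟨S', hS'⟩ := hP.exists_le_sylow
  obtain ⟨g, rfl⟩ := MulAction.exists_smul_eq G S' S
  exact ⟨g, fun x hx => h5 _ ⟨x, hS' hx, rfl⟩⟩

open CfsgH8 CfsgH8.Chev Matrix

variable {ι R l F : Type*} [Fintype ι] [DecidableEq ι] [Fintype l] [DecidableEq l] [Field F]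
  (C : Chev ι R l F)

theorem hh_inv (χ : Ch l F) : C.hh χ⁻¹ = (C.hh χ)⁻¹ := map_inv C.hh χ

theorem hh_comm (χ ψ : Ch l F) : C.hh χ * C.hh ψ = C.hh ψ * C.hh χ := by
  rw [← _root_.map_mul, ← _root_.map_mul]
  exact congrArg C.hh (mul_comm χ ψ)

theorem hh_pow (χ : Ch l F) (k : ℕ) : C.hh (χ ^ k) = C.hh χ ^ k := map_pow C.hh χ k

/-- Bruhat form -/
def Bru (g : GL ι F) (L : List l) : Prop :=
  ∃ u ∈ C.U C.f 1, ∃ χ, ∃ v ∈ C.U C.f 1, g = u * C.hh χ * C.nw L * v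

/-- the inner-diagonal group -/
def GG : Subgroup (GL ι F) where
  carrier := {g | ∃ x ∈ C.Xs Set.univ, ∃ χ, g = x * C.hh χ}
  one_mem' := ⟨1, one_mem _, 1, by simp⟩
  mul_mem' := by
    rintro _ _ ⟨x, hx, χ, rfl⟩ ⟨y, hy, ψ, rfl⟩
    exact ⟨_, mul_mem hx (C.hh_conj_mem χ hy), χ * ψ, by rw [_root_.map_mul]; group⟩
  inv_mem' := by
    rintro _ ⟨x, hx, χ, rfl⟩
    exact ⟨_, C.hh_conj_mem χ⁻¹ (inv_mem hx), χ⁻¹, by rw [hh_inv]; group⟩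

theorem nw_inv (L : List l) : ∃ χ L', (C.nw L)⁻¹ = C.hh χ * C.nw L' := by
  induction L with
  | nil => exact ⟨1, [], by simp [nw]⟩
  | cons i L ih =>
    obtain ⟨χ, L', e⟩ := ih
    obtain ⟨ψ, e'⟩ := C.nw_hh L' (pw (-1) (C.A i))
    refine ⟨χ * ψ, L' ++ [i], ?_⟩
    rw [nw_cons, _root_.mul_inv_rev, e, n_inv, nw_append, _root_.map_mul, mul_assoc,
      ← mul_assoc (C.nw L'), e']
    simp [nw, mul_assoc]

/-- the monomial group -/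
def NN : Subgroup (GL ι F) where
  carrier := {g | ∃ χ L, g = C.hh χ * C.nw L}
  one_mem' := ⟨1, [], by simp [nw]⟩
  mul_mem' := by
    rintro _ _ ⟨χ, L, rfl⟩ ⟨ψ, L', rfl⟩
    obtain ⟨ψ', e⟩ := C.nw_hh L ψ
    exact ⟨χ * ψ', L ++ L', by
      rw [_root_.map_mul, nw_append, mul_assoc, ← mul_assoc (C.nw L), e]; group⟩
  inv_mem' := by
    rintro _ ⟨χ, L, rfl⟩
    obtain ⟨ψ, L', e⟩ := nw_inv C L
    obtain ⟨χ', e'⟩ := C.nw_hh L' χ⁻¹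
    exact ⟨ψ * χ', L', by
      rw [_root_.mul_inv_rev, e, ← hh_inv, mul_assoc, e', _root_.map_mul, mul_assoc]⟩

theorem Xs_le_GG : C.Xs Set.univ ≤ GG C := fun x hx => ⟨x, hx, 1, by simp⟩

theorem hh_mem_GG (χ : Ch l F) : C.hh χ ∈ GG C := ⟨1, one_mem _, χ, by simp⟩

theorem nw_mem_GG (L : List l) : C.nw L ∈ GG C :=
  Xs_le_GG C (Subgroup.list_prod_mem _ fun x hx => by
    obtain ⟨i, -, rfl⟩ := List.mem_map.1 hx
    exact mul_mem (mul_mem (C.x_mem (Set.mem_univ _) _) (C.x_mem (Set.mem_univ _) _)) (C.x_mem (Set.mem_univ _) _))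

theorem ch_ext' {χ χ' : Ch l F} (h : ∀ i, cv χ (C.rt (C.p i)) = cv χ' (C.rt (C.p i))) : χ = χ' :=
  ch_ext fun j => by simpa only [C.rt_p] using h j

theorem hh_inj : Function.Injective C.hh := fun χ χ' h => ch_ext' C fun i => by
  have := congrArg (fun g : GL ι F => (g : Matrix ι ι F) (C.e (C.p i)) (C.e (C.p i))) h
  simpa only [hh_val, diagonal_apply_eq, C.wt_e] using this

theorem cv_pow (χ : Ch l F) (k : ℕ) (v : l → ℤ) : cv (χ ^ k) v = cv χ v ^ k := by simp [cv]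

theorem cv_one (v : l → ℤ) : cv (1 : Ch l F) v = 1 := by simp [cv]

/-- strongly regular characters -/
def SR (χ : Ch l F) : Prop :=
  (∀ r, 0 < C.f (C.rt r) → cv χ (C.rt r) ≠ 1) ∧
    ∀ r i, cv χ (C.rt r) = cv χ (C.rt (C.p i)) → 0 < C.f (C.rt r)

variable {C} [Finite R]

theorem SR.cent_U {χ : Ch l F} (hχ : SR C χ) {u : GL ι F} (hu : u ∈ C.U C.f 1)
    (h : C.hh χ * u * (C.hh χ)⁻¹ = u) : u = 1 := by
  refine C.level_ind C.f 1 (fun c => ∀ u ∈ C.U C.f c, C.hh χ * u * (C.hh χ)⁻¹ = u → u = 1)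
    (fun c e u hu _ => by rwa [e, Subgroup.mem_bot] at hu) (fun c hc ih u hu h => ?_) u hu h
  by_cases hr : ∃ r, C.f (C.rt r) = c
  swap
  · refine ih u (C.Xs_mono (fun s hs => ?_) hu) h
    have : c ≤ C.f (C.rt s) := hs
    exact lt_of_le_of_ne this fun e => hr ⟨s, e.symm⟩
  obtain ⟨r, rfl⟩ := hr
  obtain ⟨t, u', hu', rfl⟩ := C.split_one hc rfl (fun s hs => C.f_inj _ _ hs) hu
  have e : C.x r (cv χ (C.rt r) * t) * (C.hh χ * u' * (C.hh χ)⁻¹) = C.x r t * u' := by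
    rw [← h, ← C.hh_conj]; group
  have e' : cv χ (C.rt r) * t = t := C.co_cancel r fun i => by
    rw [← C.entry_peel hc (C.hh_conj_mem χ hu') _ i, e, C.entry_peel hc hu']
  have : t = 0 := by
    by_contra ht
    exact hχ.1 r hc (mul_right_cancel₀ ht (e'.trans (one_mul t).symm))
  subst this
  rw [x_zero, one_mul] at h ⊢
  exact ih _ hu' h

variable (hE : C.Extra)
include hE

theorem bru_of {g : GL ι F} (hg : g ∈ GG C) : ∃ L, Bru C g L := by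
  obtain ⟨x, hx, χ, rfl⟩ := hg
  obtain ⟨u, hu, ψ, L, v, hv, rfl⟩ := hE.bruhat hx
  obtain ⟨χ', e⟩ := C.nw_hh L χ
  refine ⟨L, u, hu, ψ * χ', _, C.hh_conj_mem χ⁻¹ hv, ?_⟩
  rw [_root_.map_mul, hh_inv, ← mul_inv_eq_iff_eq_mul.2 e]
  group

theorem fusion {g : GL ι F} {L : List l} (hg : Bru C g L) {χ χ' : Ch l F}
    (h : g * C.hh χ * g⁻¹ = C.hh χ') : χ = chm χ' (C.wl L) := by
  obtain ⟨u, hu, ψ, v, hv, rfl⟩ := hg
  have hA := hE.acts_nw L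
  obtain ⟨v₁, h1, v₂, h2, e1⟩ := hA.conj_factor (mul_mem hv (C.hh_conj_mem χ (inv_mem hv)))
  obtain ⟨χ₂, e2⟩ := C.nw_hh L χ
  have h3 := C.hh_conj_mem ψ⁻¹ (mul_mem (inv_mem hu) (C.hh_conj_mem χ' hu))
  have e3 := (C.udl_unique h1 h3 h2 (one_mem _) (χ := 1) (χ' := ψ⁻¹ * χ' * ψ * χ₂⁻¹) (by
    simp only [_root_.map_mul, hh_inv, _root_.map_one]
    rw [mul_one, ← e1, ← mul_inv_eq_iff_eq_mul.2 e2, ← h]
    group)).2.1
  have e4 : χ' = χ₂ := by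
    have := hh_inj C e3
    refine ch_ext fun j => ?_
    have e := congrArg (cv · (Pi.single j 1)) this
    simp only [cv_mul, cv_inv, cv_one] at e
    have := cv_ne ψ (Pi.single j 1)
    have := cv_ne χ₂ (Pi.single j 1)
    field_simp at e
    exact e.symm
  exact hh_inj C (mul_left_cancel ((e2.trans (e4 ▸ rfl)).trans (hA.mul_hh χ').symm))

theorem fusion_rt {g : GL ι F} {L : List l} (hg : Bru C g L) {χ χ' : Ch l F}
    (h : g * C.hh χ * g⁻¹ = C.hh χ') (r : R) : cv χ (C.rt r) = cv χ' (C.rt (C.wr L r)) := by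
  rw [fusion hE hg h, cv_chm, (hE.acts_nw L).rt]

theorem SR.cent {χ : Ch l F} (hχ : SR C χ) {g : GL ι F} (hg : g ∈ GG C)
    (h : g * C.hh χ * g⁻¹ = C.hh χ) : g ∈ C.hh.range := by
  obtain ⟨L, hL⟩ := bru_of hE hg
  obtain ⟨ψ, e⟩ := hE.mem_H L fun i => hχ.2 _ i (fusion_rt hE hL h _).symm
  obtain ⟨u, hu, χ', v, hv, rfl⟩ := hL
  have e1 : u * C.hh χ' * C.nw L * v = u * (C.hh (χ' * ψ) * v * (C.hh (χ' * ψ))⁻¹) *
      C.hh (χ' * ψ) := by rw [e, _root_.map_mul]; group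
  rw [e1] at h ⊢
  have h1 := mul_mem hu (C.hh_conj_mem (χ' * ψ) hv)
  generalize u * (C.hh (χ' * ψ) * v * (C.hh (χ' * ψ))⁻¹) = u' at h h1
  rw [hχ.cent_U h1 (by
    rw [mul_assoc u', hh_comm] at h
    calc _ = u' * (C.hh χ * C.hh (χ' * ψ)) * (u' * C.hh (χ' * ψ))⁻¹ * u' * (C.hh χ)⁻¹ := by rw [h]
      _ = _ := by group), one_mul]
  exact ⟨_, rfl⟩

theorem SR.norm {χ χ' : Ch l F} (hχ : SR C χ) {g : GL ι F} (hg : g ∈ GG C)
    (h : g * C.hh χ * g⁻¹ = C.hh χ') : g ∈ NN C := by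
  obtain ⟨L, hL⟩ := bru_of hE hg
  have e := (hE.acts_nw L).mul_hh χ'
  rw [← fusion hE hL h] at e
  obtain ⟨ψ, e'⟩ := hχ.cent hE (mul_mem (inv_mem (nw_mem_GG C L)) hg) (by
    calc _ = (C.nw L)⁻¹ * (g * C.hh χ * g⁻¹) * C.nw L := by group
      _ = _ := by rw [h, mul_assoc, ← e]; group)
  rw [inv_mul_eq_iff_eq_mul.1 e'.symm]
  exact mul_mem ⟨1, L, by simp⟩ ⟨ψ, [], by simp [nw]⟩

omit hE in
theorem pow_form (χ : Ch l F) (L : List l) (k : ℕ) : ∃ ψ L', (C.hh χ * C.nw L) ^ k =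
    C.hh ψ * C.nw L' ∧ ∀ s, C.wr L' s = (C.wr L)^[k] s := by
  induction k with
  | zero => exact ⟨1, [], by simp [nw], fun _ => rfl⟩
  | succ k ih =>
    obtain ⟨ψ, L', e1, e2⟩ := ih
    obtain ⟨ψ', e⟩ := C.nw_hh L' χ
    refine ⟨ψ * ψ', L' ++ L, ?_, fun s => by rw [wr_append, e2]; rfl⟩
    rw [pow_succ, e1, nw_append, _root_.map_mul, mul_assoc, ← mul_assoc (C.nw L'), e]
    group

variable (C) in
/-- the Weyl group elements seen by `Γ` have exponent `N` -/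
def WExp (Γ : Subgroup (GL ι F)) (N : ℕ) : Prop :=
  Γ ≤ GG C ∧ ∀ g ∈ Γ, ∀ L, Bru C g L → ∀ i, (C.wr L)^[N] (C.p i) = C.p i

variable {Γ : Subgroup (GL ι F)} {N : ℕ} (hW : WExp C Γ N)
include hW

theorem WExp.pow_mem {g : GL ι F} (hg : g ∈ Γ) (h : g ∈ NN C) : g ^ N ∈ C.hh.range := by
  obtain ⟨χ, L, rfl⟩ := h
  obtain ⟨ψ, L', e1, e2⟩ := pow_form (C := C) χ L N
  obtain ⟨ψ', e⟩ := hE.mem_H L' fun i => by
    rw [e2, hW.2 _ hg L ⟨1, one_mem _, χ, 1, one_mem _, by simp⟩]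
    exact C.f_p i
  exact ⟨ψ * ψ', by rw [e1, e, _root_.map_mul]⟩

theorem WExp.conj_N [Finite Γ] {s : ℕ} [Fact s.Prime] {χ : Ch l F} (h1 : C.hh χ ∈ Γ) {e : ℕ}
    (h2 : χ ^ s ^ e = 1) (h3 : SR C (χ ^ N)) (P : Subgroup Γ) (hP : IsPGroup s P) :
    ∃ g : Γ, ∀ x ∈ P, ((g * x * g⁻¹ : Γ) : GL ι F) ∈ NN C := by
  have e0 : C.hh χ ^ s ^ e = 1 := by rw [← hh_pow, h2, _root_.map_one]
  have e1 : C.hh χ ∈ NN C := ⟨χ, [], by simp [nw]⟩
  have e2 : ∀ x ∈ Γ, x * C.hh χ * x⁻¹ ∈ NN C → x ∈ NN C := fun x hx h => by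
    obtain ⟨ψ, e⟩ := hW.pow_mem hE (mul_mem (mul_mem hx h1) (inv_mem hx)) h
    exact h3.norm hE (hW.1 hx) (χ' := ψ) (by rw [e, hh_pow, conj_pow])
  exact sylow_conj_le ((NN C).comap Γ.subtype) (t := ⟨_, h1⟩) (Subtype.ext e0) e1
    (fun x => e2 x x.2) P hP

theorem WExp.conj_T [Finite Γ] {s : ℕ} [Fact s.Prime] (hs : s.Coprime N) {χ : Ch l F}
    (h1 : C.hh χ ∈ Γ) {e : ℕ} (h2 : χ ^ s ^ e = 1) (h3 : SR C (χ ^ N)) (P : Subgroup Γ)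
    (hP : IsPGroup s P) : ∃ g : Γ, ∀ x ∈ P, ((g * x * g⁻¹ : Γ) : GL ι F) ∈ C.hh.range := by
  obtain ⟨g, hg⟩ := hW.conj_N hE h1 h2 h3 P hP
  refine ⟨g, fun x hx => ?_⟩
  obtain ⟨n, hn⟩ := hP ⟨x, hx⟩
  have hn' : (g * x * g⁻¹) ^ s ^ n = 1 := by
    rw [conj_pow, show x ^ s ^ n = 1 from congrArg Subtype.val hn]; group
  obtain ⟨m, hm⟩ := exists_pow_eq_self_of_coprime (x := g * x * g⁻¹) (n := N)
    ((hs.symm.pow_right n).coprime_dvd_right (orderOf_dvd_of_pow_eq_one hn'))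
  rw [← hm]
  exact Subgroup.pow_mem _ (hW.pow_mem hE (g * x * g⁻¹).2 (hg x hx)) m

omit hW in
theorem fusion_iter {g : GL ι F} {L : List l} (hg : Bru C g L) {χ : ℕ → Ch l F}
    (h : ∀ k, g * C.hh (χ k) * g⁻¹ = C.hh (χ (k + 1))) (k : ℕ) (r : R) :
    cv (χ 0) (C.rt r) = cv (χ k) (C.rt ((C.wr L)^[k] r)) := by
  induction k with
  | zero => rfl
  | succ k ih => rw [ih, fusion_rt hE hg (h k), Function.iterate_succ_apply']

end CfsgH7
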