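/-
Tori of Chevalley groups: local consequences, regular characters, Weyl group enumeration.
-/
import Cfsg.Agent.H7.Tor1
import Cfsg.Agent.H7.Sec1
import Cfsg.Agent.H8.FoldD4

set_option autoImplicit false
set_option linter.unusedSectionVars false

namespace CfsgH7

open CfsgH8 CfsgH8.Chev Matrix Sec

section abs
variable {ι R l F : Type*} [Fintype ι] [DecidableEq ι] [Fintype l] [DecidableEq l] [Field F]
  {C : Chev ι R l F}

/-- height -/
def ht : (l → ℤ) →+ ℤ where
  toFun v := ∑ j, v j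
  map_zero' := by simp
  map_add' a b := by simp [Finset.sum_add_distrib]

theorem SR_ht {c : Fˣ} {s N B : ℕ} (hs : 1 < s) (hN : 0 < N) (hB : ∀ r, |ht (C.rt r)| < B)
    (hc : orderOf c = s ^ (N * B)) : SR C (pw c ht ^ N) := by
  have key : ∀ m : ℤ, |m| ≤ B → ((c : F) ^ m) ^ N = 1 → m = 0 := fun m hm h => by
    have h1 : (orderOf c : ℤ) ∣ m * N := orderOf_dvd_iff_zpow_eq_one.2 (Units.ext (by
      rw [_root_.zpow_mul, zpow_natCast]; simpa using h))
    have h2 : N * B < s ^ (N * B) := Nat.lt_pow_self hs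
    have h3 := Int.eq_zero_of_abs_lt_dvd h1 (by
      rw [hc, abs_mul, Nat.abs_cast]
      have : (0 : ℤ) < N := by exact_mod_cast hN
      have h2' : (N : ℤ) * B < (s ^ (N * B) : ℕ) := by exact_mod_cast h2
      nlinarith)
    exact (mul_eq_zero.1 h3).resolve_right (by exact_mod_cast hN.ne')
  refine ⟨fun r hr e => ?_, fun r i e => ?_⟩
  · rw [cv_pow, cv_pw] at e
    have h0 := key _ (hB r).le e
    have : C.rt r = 0 := by
      rcases C.sgn r with h | h
      · exact funext fun j => (Finset.sum_eq_zero_iff_of_nonneg fun j _ => h j).1 h0 j (by simp)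
      · exact funext fun j => (Finset.sum_eq_zero_iff_of_nonpos fun j _ => h j).1 h0 j (by simp)
    simp [this] at hr
  · rw [cv_pow, cv_pow, cv_pw, cv_pw, C.rt_p, show ht (Pi.single i 1 : l → ℤ) = 1 by simp [ht]] at e
    have h0 := key (ht (C.rt r) - 1) (by have := hB r; rw [abs_le]; rw [abs_lt] at this; omega) (by
      rw [zpow_sub₀ c.ne_zero, div_pow, e, div_self (by simp)])
    rcases C.sgn r with h | h
    · exact C.f_pos' h fun e => by simp [e] at h0
    · have : ht (C.rt r) ≤ 0 := Finset.sum_nonpos fun j _ => h j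
      omega

theorem pw_pow {c : Fˣ} {n : ℕ} (h : c ^ n = 1) (a : (l → ℤ) →+ ℤ) : pw c a ^ n = 1 :=
  ch_ext fun j => by
    rw [cv_pow, cv_pw, cv_one, ← zpow_natCast, ← _root_.zpow_mul, mul_comm, _root_.zpow_mul,
      zpow_natCast, ← Units.val_pow_eq_pow_val, h, Units.val_one, _root_.one_zpow]

variable [Finite R] (hE : C.Extra) {Γ : Subgroup (GL ι F)} {N : ℕ} (hW : WExp C Γ N) [Finite Γ]
include hE hW

theorem WExp.nc {s : ℕ} [Fact s.Prime] (hs : s.Coprime N) {χ : Ch l F}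
    (h1 : C.hh χ ∈ Γ) {e : ℕ} (h2 : χ ^ s ^ e = 1) (h3 : SR C (χ ^ N)) : NC Γ s N := fun P hP => by
  obtain ⟨g, hg⟩ := hW.conj_T hE hs h1 h2 h3 P hP
  refine ⟨fun x hx y hy => ?_, fun h hh x hx => ?_⟩
  · obtain ⟨a, ha⟩ := hg x hx
    obtain ⟨b, hb⟩ := hg y hy
    have : g * x * g⁻¹ * (g * y * g⁻¹) = g * y * g⁻¹ * (g * x * g⁻¹) := Subtype.ext (by
      rw [Subgroup.coe_mul, Subgroup.coe_mul _ (g * y * g⁻¹), ← ha, ← hb, hh_comm])
    simpa using this
  have h4 : ∀ k, h ^ k * x * (h ^ k)⁻¹ ∈ P := fun k => by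
    induction k with
    | zero => simpa using hx
    | succ k ih => convert hh _ ih using 1; rw [pow_succ']; group
  choose ψ hψ using fun k => hg _ (h4 k)
  obtain ⟨L, hL⟩ := bru_of hE (hW.1 (g * h * g⁻¹).2)
  have h5 : ψ 0 = ψ N := ch_ext' C fun i => by
    rw [fusion_iter hE hL (χ := ψ) (fun k => by
      rw [hψ, hψ, ← Subgroup.coe_inv, ← Subgroup.coe_mul, ← Subgroup.coe_mul, pow_succ']
      congr 1
      group) N, hW.2 _ (g * h * g⁻¹).2 L hL]
  have h6 := Subtype.ext ((hψ N).symm.trans (h5 ▸ hψ 0))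
  simpa using h6

omit hW in
theorem WExp.sq (hW : WExp C Γ 6) {χ : Ch l F} (h1 : C.hh χ ∈ Γ) {e : ℕ} (h2 : χ ^ 2 ^ e = 1)
    (h3 : SR C (χ ^ 6)) (i j : l) (h4 : ∀ χ, C.hh χ ∈ Γ → χ ^ 2 = 1 → cv χ (Pi.single i 1) = 1 →
      cv χ (Pi.single j 1) = 1 → χ = 1) : SQ Γ := fun P hP => by
  obtain ⟨g, hg⟩ := hW.conj_N hE h1 h2 h3 P hP
  let f : Γ →* GL ι F := Γ.subtype.comp (MulAut.conj g).toMonoidHom
  have hf : Function.Injective f := Γ.subtype_injective.comp (MulAut.conj g).injective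
  refine ⟨C.hh.range.comap f, fun x ⟨a, ha⟩ y ⟨b, hb⟩ => hf (by
    rw [_root_.map_mul, _root_.map_mul, ← ha, ← hb, hh_comm]), fun x hx => ?_, ?_⟩
  · obtain ⟨n, hn⟩ := hP ⟨x, hx⟩
    obtain ⟨m, hm⟩ := exists_pow_eq_self_of_coprime (x := x ^ 2) (n := 3)
      (((by decide : Nat.Coprime 3 2).pow_right n).coprime_dvd_right (orderOf_dvd_of_pow_eq_one (by
        rw [← pow_mul, mul_comm, pow_mul, show x ^ 2 ^ n = 1 from congrArg Subtype.val hn, one_pow])))
    rw [← hm, ← pow_mul x]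
    refine (C.hh.range.comap f).pow_mem ?_ m
    rw [Subgroup.mem_comap, _root_.map_pow]
    exact hW.pow_mem hE (g * x * g⁻¹).2 (hg x hx)
  have : ∀ a : {a : C.hh.range.comap f // a ^ 2 = 1}, ∃ χ, C.hh χ = f a.1 ∧ χ ^ 2 = 1 := fun a => by
    obtain ⟨χ, h⟩ := a.1.2
    refine ⟨χ, h, hh_inj C ?_⟩
    rw [hh_pow, h, ← _root_.map_pow, show a.1.1 ^ 2 = 1 from congrArg Subtype.val a.2,
      _root_.map_one, _root_.map_one]
  choose ψ h5 h6 using this
  have h7 : ∀ a b v, (cv (ψ a) v = 1) = (cv (ψ b) v = 1) → cv (ψ a * ψ b) v = 1 := fun a b v e => by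
    have e1 := congrArg (cv · v) (h6 a)
    have e2 := congrArg (cv · v) (h6 b)
    simp only [cv_pow, cv_one, sq_eq_one_iff] at e1 e2
    rw [cv_mul]
    by_cases e3 : cv (ψ a) v = 1
    · rw [e3, e.mp e3, one_mul]
    · rw [e1.resolve_left e3, e2.resolve_left fun h => e3 (e.mpr h)]; simp
  refine (Nat.card_le_card_of_injective (fun a => (cv (ψ a) (Pi.single i 1) = 1,
    cv (ψ a) (Pi.single j 1) = 1)) fun a b e => Subtype.ext (Subtype.ext (hf ?_))).trans (by simp)
  have := congrArg C.hh (h4 (ψ a * ψ b) (by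
    rw [_root_.map_mul, h5, h5]; exact mul_mem (g * _ * g⁻¹).2 (g * _ * g⁻¹).2)
    (hh_inj C (by rw [hh_pow, _root_.map_mul, Commute.mul_pow (hh_comm C _ _), ← hh_pow, ← hh_pow,
      h6, h6, _root_.map_one, one_mul]))
    (h7 a b _ (congrArg Prod.fst e)) (h7 a b _ (congrArg Prod.snd e)))
  rw [_root_.map_mul, _root_.map_one] at this
  rw [← h5, ← h5, eq_inv_of_mul_eq_one_left this, inv_eq_of_mul_eq_one_left]
  rw [← _root_.sq, ← hh_pow, h6, _root_.map_one]

end abs

theorem exists_ext (F : Type*) [Field F] [Finite F] (n : ℕ) (hn : (n : F) ≠ 0) :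
    ∃ (K : Type) (_ : Field K) (_ : Finite K) (_ : F →+* K) (ζ : Kˣ), orderOf ζ = n := by
  haveI : NeZero (n : F) := ⟨hn⟩
  haveI : NeZero n := ⟨fun h => hn (by simp [h])⟩
  haveI := IsCyclotomicExtension.finite {n} F (CyclotomicField n F)
  haveI : Finite (CyclotomicField n F) := Module.finite_of_finite F
  obtain ⟨K, _, _, ⟨e⟩⟩ := exists_small_field (CyclotomicField n F)
  have h := (IsCyclotomicExtension.zeta_spec n F (CyclotomicField n F)).map_of_injective
    e.symm.injective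
  exact ⟨K, inferInstance, inferInstance, e.symm.toRingHom.comp (algebraMap F _),
    (h.isUnit (NeZero.ne n)).unit, (h.isUnit_unit (NeZero.ne n)).eq_orderOf.symm⟩

theorem map_inj {ι F K : Type*} [Fintype ι] [DecidableEq ι] [Field F] [Field K] (φ : F →+* K) :
    Function.Injective (GeneralLinearGroup.map (n := ι) φ) := fun _ _ e =>
  Units.ext (Matrix.map_injective φ.injective (congrArg Units.val e))

open CfsgH5 Cfsg.Lie

/-- iterating a packed permutation -/
def itr (c k s : ℕ) : ℕ := Nat.rec (motive := fun _ => ℕ) s (fun _ ih => ap 6 63 c ih) k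

/-- closure check for the enumeration of a Weyl group -/
def ckW (T : Tab) (W M E NX m j : ℕ) : Bool :=
  force (ap W M E j) fun c => lin T.l fun i =>
    force (ap 11 2047 NX (Nat.add (Nat.mul T.l j) i)) fun j' => band (Nat.blt j' m)
      (force (ap W M E j') fun c' => lin T.n fun s => Nat.beq (ap 6 63 c' s) (T.wf i (ap 6 63 c s)))

variable {D : ChevalleyDatum} {T : Tab} (h : T.Ok D)
include h

theorem enumW {W M E NX m : ℕ} (P : ℕ → Bool) (hm : 0 < m)
    (h0 : lin T.n (fun s => Nat.beq (ap 6 63 (ap W M E 0) s) s) = true)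
    (h1 : allLt m (fun j => band (ckW T W M E NX m j) (force (ap W M E j) P)) = true)
    (F : Type*) [Field F] (L : List (Fin D.rank)) :
    ∃ c, P c = true ∧ ∀ k s, (((h.chev F).wr L)^[k] s).val = itr c k s := by
  simp only [allLt_iff, band_eq, Bool.and_eq_true, force_eq] at h1
  have : ∃ j < m, ∀ s, ((h.chev F).wr L s).val = ap 6 63 (ap W M E j) s := by
    induction L with
    | nil => exact ⟨0, hm, fun s => (Nat.eq_of_beq_eq_true ((lin_iff _ _).1 h0 s (s.2.trans_eq h.hn.symm))).symm⟩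
    | cons i L ih =>
      obtain ⟨j, hj, e⟩ := ih
      have := (h1 j hj).1
      simp only [ckW, force_eq, lin_iff, band_eq, Bool.and_eq_true, Nat.blt_eq, Nat.beq_eq] at this
      obtain ⟨h2, h3⟩ := this i (i.2.trans_eq h.hl.symm)
      exact ⟨_, h2, fun s => by rw [h3 s (s.2.trans_eq h.hn.symm), ← e]; rfl⟩
  obtain ⟨j, hj, e⟩ := this
  refine ⟨_, (h1 j hj).2, fun k s => ?_⟩
  induction k with
  | zero => rfl
  | succ k ih => rw [Function.iterate_succ_apply', e, ih]; rfl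

theorem exists_bound : ∃ B : ℕ, ∀ (F : Type) [Field F] (r : Fin D.nroots),
    |ht ((h.chev F).rt r)| < B := by
  obtain ⟨M, hM⟩ := (Set.finite_range fun r : Fin D.nroots =>
    (∑ j : Fin D.rank, T.rtc r j).natAbs).bddAbove
  refine ⟨M + 1, fun F _ r => ?_⟩
  have : (∑ j : Fin D.rank, T.rtc r j).natAbs ≤ M := hM ⟨r, rfl⟩
  change |∑ j : Fin D.rank, T.rtc r j| < _
  rw [Int.abs_eq_natAbs]
  exact_mod_cast Nat.lt_succ_of_le this

theorem map_mem_GG {F K : Type*} [Field F] [Field K] (φ : F →+* K) {g : GL D.Idx F}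
    (hg : g ∈ D.group F) : GeneralLinearGroup.map φ g ∈ GG (h.chev K) := by
  rw [h.group_eq] at hg
  exact Xs_le_GG _ ((h.chev F).Xs_le (K := ((h.chev K).Xs Set.univ).comap
    (GeneralLinearGroup.map φ)) (fun r _ t => by
      rw [Subgroup.mem_comap, h.map_xU]; exact (h.chev K).x_mem (Set.mem_univ _) _) hg)

/-- base change into the inner-diagonal group -/
def bc {F K : Type*} [Field F] [Field K] (φ : F →+* K) : D.group F →* GG (h.chev K) :=
  ((GeneralLinearGroup.map φ).comp (D.group F).subtype).codRestrict _ fun g => map_mem_GG h φ g.2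

theorem bc_inj {F K : Type*} [Field F] [Field K] (φ : F →+* K) : Function.Injective (bc h φ) :=
  fun _ _ e => Subtype.ext (map_inj φ (congrArg Subtype.val e))

theorem exists_reg (F : Type*) [Field F] [Finite F] {s : ℕ} (hs : 1 < s) (hF : (s : F) ≠ 0) {N : ℕ}
    (hN : 0 < N) : ∃ (K : Type) (_ : Field K) (_ : Finite K) (_ : F →+* K) (c : Kˣ) (e : ℕ),
      c ^ s ^ e = 1 ∧ SR (h.chev K) (pw c ht ^ N) := by
  obtain ⟨B, hB⟩ := exists_bound h
  obtain ⟨K, _, _, φ, c, hc⟩ := exists_ext F (s ^ (N * B)) (by simpa using fun h => absurd h hF)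
  exact ⟨K, _, inferInstance, φ, c, _, hc ▸ pow_orderOf_eq_one c, SR_ht hs hN (hB K) hc⟩

theorem nc_of (hη : ∀ i < D.rank, ∀ s < D.nroots, T.eta i (T.ng s) = T.eta i s) {N : ℕ}
    (hN : 0 < N) (hW : ∀ (K : Type) [Field K] (L : List (Fin D.rank)) i,
      ((h.chev K).wr L)^[N] ((h.chev K).p i) = (h.chev K).p i)
    (F : Type*) [Field F] [Finite F] {s : ℕ} [Fact s.Prime] (hF : (s : F) ≠ 0) (hs : s.Coprime N) :
    NC (D.group F) s N := by
  obtain ⟨K, _, _, φ, c, e, h1, h2⟩ := exists_reg h F (Fact.out : s.Prime).one_lt hF hN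
  exact (WExp.nc (h.extra K hη) ⟨le_rfl, fun _ _ L _ => hW K L⟩ hs (hh_mem_GG _ _) (pw_pow h1 _)
    h2).comap _ (bc_inj h φ)

end CfsgH7
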