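import Cfsg.Agent.H7.POApi2
import Cfsg.Agent.H7.Octo

set_option autoImplicit false

namespace CfsgH7

open CfsgH8 hiding map_mul map_one
open QuadraticMap hiding map_add map_sub map_smul map_zero map_neg sq
open Module Subgroup
open scoped commutatorElement

theorem aut_conj_conj {G : Type*} [Group G] (α : MulAut G) (x : G) :
    α * MulAut.conj x * α⁻¹ = MulAut.conj (α x) := by
  ext y; simp

theorem exists_aut_of_pairs {G Γ : Type*} [Group G] [Group Γ] (Φ : Γ →* MulAut G)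
    (hc : Function.Injective (MulAut.conj : G →* MulAut G)) (T : Subgroup (Γ × Γ))
    (hs : ∀ t ∈ T, t.swap ∈ T) (hk : ∀ t ∈ T, Φ t.1 = 1 → Φ t.2 = 1)
    (hi : ∀ x, ∃ y, ∃ t ∈ T, Φ t.1 = MulAut.conj x ∧ Φ t.2 = MulAut.conj y) :
    ∃ τ : MulAut G, τ * τ = 1 ∧ ∀ t ∈ T, τ * Φ t.1 * τ⁻¹ = Φ t.2 := by
  choose f s hsT h1 h2 using hi
  have key : ∀ t ∈ T, ∀ x y, Φ t.1 = MulAut.conj x → Φ t.2 = MulAut.conj y → f x = y :=
    fun t ht x y e1 e2 => hc (by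
      have := hk _ (mul_mem (inv_mem (hsT x)) ht) (by simp [h1, e1])
      rw [← h2, ← e2]
      simpa [inv_mul_eq_one] using this)
  have hf : ∀ x, f (f x) = x := fun x => key _ (hs _ (hsT x)) _ _ (h2 x) (h1 x)
  refine ⟨⟨⟨f, f, hf, hf⟩, fun x y => key _ (mul_mem (hsT x) (hsT y)) _ _ (by simp [h1])
    (by simp [h2])⟩, MulEquiv.ext hf, fun t ht => MulEquiv.ext fun x => ?_⟩
  refine key _ (mul_mem (mul_mem ht (hsT (f x))) (inv_mem ht)) _ _ ?_ ?_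
  · simp only [Prod.fst_mul, Prod.fst_inv, map_mul, map_inv, h1, aut_conj_conj]
    rfl
  · simp only [Prod.snd_mul, Prod.snd_inv, map_mul, map_inv, h2, aut_conj_conj, hf]

section general

variable {F V : Type*} [Field F] [AddCommGroup V] [Module F V] {Q : QuadraticForm F V}
  [Finite F] [hB : Big Q]

theorem conj_pmk (g : Om Q) : MulAut.conj (pmk Q g) = Phi Q (ofOG Q g) := (Phi_ofOG g).symm

theorem conj_POm_injective : Function.Injective (MulAut.conj : POm Q →* MulAut (POm Q)) := by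
  rw [injective_iff_map_eq_one]
  intro x hx
  obtain ⟨g, rfl⟩ := QuotientGroup.mk'_surjective _ x
  obtain ⟨a, ha⟩ := Phi_eq_one_iff.1 ((conj_pmk g).symm.trans hx)
  exact (QuotientGroup.eq_one_iff _).2 (mem_center_of_scal ha)

omit [Finite F] in
theorem Om_le_commutator_SO : Om Q ≤ ⁅SOg Q, SOg Q⁆ := by
  haveI := Big.fd Q
  haveI : (SOg Q).Normal := MonoidHom.normal_ker _
  rw [Om, commutator_def, commutator_le]
  rintro g - h -
  rw [← QuotientGroup.eq_one_iff, ← QuotientGroup.mk'_apply, map_commutatorElement,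
    commutatorElement_eq_one_iff_commute]
  induction g using refl_induction hB.nd Big.good with
  | h1 => simp
  | hs a g ha ih =>
    rw [map_mul]
    refine Commute.mul_left ?_ ih
    clear ih
    induction h using refl_induction hB.nd Big.good with
    | h1 => simp
    | hs b h hb ih =>
      rw [map_mul]
      refine Commute.mul_right ?_ ih
      obtain ⟨c, hc, hc0⟩ := exists_nonsing_perp hB.nd (U := (F ∙ a) ⊔ F ∙ b) (by
        have h1 := finrank_sup_span_le (F ∙ a) b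
        have h2 : finrank F (F ∙ a) ≤ 1 := by simpa using finrank_span_le_card ({a} : Set V)
        have := hB.five
        omega)
      rw [mem_perp_sup, mem_perp_span_singleton, mem_perp_span_singleton] at hc
      have e : ∀ v, polar Q v c = 0 → Commute (refl Q v) (refl Q c) := fun v hv => by
        have := refl_conj (refl Q v) c
        rw [refl_of_perp hv, mul_inv_eq_iff_eq_mul] at this
        exact this
      rw [← commutatorElement_eq_one_iff_commute, ← map_commutatorElement, QuotientGroup.mk'_apply,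
        QuotientGroup.eq_one_iff]
      have h3 : ⁅refl Q a, refl Q b⁆ = ⁅refl Q a * refl Q c, refl Q b * refl Q c⁆ := by
        simp only [commutatorElement_def, mul_inv_rev, refl_inv, mul_assoc]
        rw [← mul_assoc (refl Q c) (refl Q c), refl_mul_self, one_mul, ← mul_assoc (refl Q c),
          ← (e b hc.2).eq, mul_assoc, ← mul_assoc (refl Q c), ← (e a hc.1).eq, mul_assoc,
          ← mul_assoc (refl Q c), ← (e b hc.2).eq, mul_assoc (refl Q b) (refl Q c), refl_mul_self,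
          mul_one]
      rw [h3]
      exact commutator_mem_commutator
        (by rw [mem_SOg, dick_mul, dick_refl ha, dick_refl hc0]; simp)
        (by rw [mem_SOg, dick_mul, dick_refl hb, dick_refl hc0]; simp)

theorem comm_mem_sc_Om {g s : Gam Q} (hg : g.σ = 1) (hs : s ∈ sc (SOg Q)) : ⁅g, s⁆ ∈ sc (Om Q) := by
  haveI := Big.fd Q
  obtain ⟨a, h, hh, rfl⟩ := hs
  rw [commutatorElement_def, ← mul_assoc g, scal_comm a hg, mul_assoc _ g, mul_assoc (scal Q a),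
    conj_ofOG, mul_inv_rev, ← map_inv, ← map_inv, mul_assoc, ← mul_assoc (ofOG Q _), ← map_mul,
    scal_comm _ rfl, ← mul_assoc, ← map_mul]
  refine ⟨_, _, mem_Om_iff.2 ⟨?_, ?_⟩, rfl⟩
  · rw [dick_mul, SIso.dickF_og, ← dick_mul, mul_inv_cancel, dickF_one]
  · rw [spin_mul, SIso.spinF_og g hB.nd Big.good, if_pos (mem_SOg.1 hh), mul_one, ← spin_mul,
      mul_inv_cancel, spinF_one]

theorem commutator_Dg_le : ⁅Dg Q, Dg Q⁆ ≤ sc (Om Q) := by
  rw [commutator_le]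
  intro g hg h hh
  rcases Nat.even_or_odd (finrank F V) with hn | hn
  swap
  · exact comm_mem_sc_Om hg.1 (Dg_le_sc_SOg_of_odd hn hh)
  by_cases h1 : h ∈ sc (SOg Q)
  · exact comm_mem_sc_Om hg.1 h1
  by_cases h2 : g ∈ sc (SOg Q)
  · rw [← inv_mem_iff, commutatorElement_inv]
    exact comm_mem_sc_Om hh.1 h2
  have h3 := (mul_mem_sc_SOg_or hn hh (fun h => h1 ((mem_sc_SOg_iff hn).2 ⟨hh, h⟩))
    (inv_mem hg)).resolve_right fun h => h2 (inv_mem_iff.1 h.1)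
  have := sc_Om_normal.conj_mem _ (comm_mem_sc_Om hg.1 h3.1) g
  convert this using 1
  simp only [commutatorElement_def]
  group

omit [Finite F] in
theorem cls_of_quadratic {E : Submodule F V} (hE : MTS Q E) {γ : Gam Q} (h : γ.σ = 1) {t c : F}
    (h1 : ∀ x, γ.T (γ.T x) = t • γ.T x - c • x) (h2 : ∀ x, Q x = 0 → polar Q x (γ.T x) = 0) :
    cls hE γ = 1 := by
  haveI := Big.fd Q
  obtain ⟨U, ⟨h3, h4⟩, h5⟩ := (wellFounded_gt (α := Submodule F V)).has_min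
    {U | TS Q U ∧ ∀ x ∈ U, γ.T x ∈ U} ⟨⊥, TS.bot, by simp⟩
  have h6 := hE.1.finrank_le_of_max hB.nd h3 fun x hx hx0 => by
    by_contra hxU
    have h7 : γ.T x ∈ perp Q U := by
      rw [← mapS_eq_self h4]
      intro y hy
      obtain ⟨y, rfl⟩ := γ.T.surjective y
      exact γ.polar_eq_zero.2 (hx y (γ.T_mem_mapS.1 hy))
    refine h5 (U ⊔ Submodule.span F {x, γ.T x}) ⟨h3.sup (TS.span ?_ ?_) ?_, fun y hy => ?_⟩
      (lt_of_le_of_ne le_sup_left fun e => hxU ?_)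
    · simp [hx0, γ.Q_eq_zero]
    · simp [polar_self', hx0, γ.Q_eq_zero, h2 x hx0, pcomm (γ.T x) x]
    · intro u hu
      rw [mem_perp_span]
      simp [mem_perp'.1 hx u hu, mem_perp'.1 h7 u hu]
    · obtain ⟨u, hu, z, hz, rfl⟩ := Submodule.mem_sup.1 hy
      obtain ⟨a, b, rfl⟩ := Submodule.mem_span_pair.1 hz
      rw [map_add, map_add, Gam.smul_of_lin h, Gam.smul_of_lin h, h1]
      exact Submodule.add_mem_sup (h4 u hu) (Submodule.mem_span_pair.2 ⟨-(b * c), a + b * t, by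
        module⟩)
    · rw [e]
      exact Submodule.mem_sup_right (Submodule.subset_span (by simp))
  have h7 := two_mul_finrank_le hB.nd h3.le_perp
  have h8 := hE.2
  exact cls_of_fix hE ⟨h3, by omega⟩ h4

omit [Finite F] hB in
theorem map_UR_le (g : OG Q) (W : Submodule F V) :
    ((UR Q W).map (pmk Q)).map (Phi Q (ofOG Q g)).toMonoidHom ≤
      (UR Q (W.map g.1.toLinearMap)).map (pmk Q) := by
  rintro _ ⟨_, ⟨h, hh, rfl⟩, rfl⟩
  refine ⟨commCongr (ofOG Q g).og h, ⟨?_, fun x hx => ?_⟩, rfl⟩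
  · rintro _ ⟨x, hx, rfl⟩
    simp [og_ofOG, hh.1 x hx]
  · rw [perp_map] at hx
    obtain ⟨x, hx, rfl⟩ := hx
    exact ⟨_, hh.2 x hx, by simp [og_ofOG]⟩

omit [Finite F] hB in
theorem map_UR (g : OG Q) (W : Submodule F V) :
    ((UR Q W).map (pmk Q)).map (Phi Q (ofOG Q g)).toMonoidHom =
      (UR Q (W.map g.1.toLinearMap)).map (pmk Q) := by
  refine le_antisymm (map_UR_le g W) fun x hx => ?_
  have := map_UR_le g⁻¹ _ ⟨x, hx, rfl⟩
  rw [← CfsgH8.map_mul, inv_mul_cancel, CfsgH8.map_one] at this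
  exact ⟨_, this, by simp⟩

end general

variable {F : Type*} [Field F]

instance fact_three_le_four : Fact (3 ≤ 4) := ⟨by norm_num⟩

instance nontrivial_V8 : Nontrivial (V8 F) := Big.nontrivial (QP 4 F)

/-- left multiplication -/
noncomputable def oL (a : V8 F) (ha : QP 4 F a ≠ 0) : Gam (QP 4 F) :=
  SIso.ofSim (LinearEquiv.ofInjectiveEndo
    { toFun := om a, map_add' := om_add a, map_smul' := fun c x => om_smul c a x }
    ((injective_iff_map_eq_zero _).2 fun x hx => by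
      have := ob_om_om a x
      rw [show om a x = 0 from hx, om_zero] at this
      exact (smul_eq_zero.1 this.symm).resolve_left ha)) ha fun x => Q_om a x

theorem oL_T (a : V8 F) (ha : QP 4 F a ≠ 0) (x : V8 F) : (oL a ha).T x = om a x := rfl

/-- the reflection in the unit -/
noncomputable def oρ (F : Type*) [Field F] : Gam (QP 4 F) := ofOG _ (refl _ oe)

theorem oρ_T (x : V8 F) : (oρ F).T x = -ob x := refl_oe x

theorem oρ_mul_self : oρ F * oρ F = 1 := by rw [oρ, ← map_mul, refl_mul_self, map_one]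

theorem oρ_inv : (oρ F)⁻¹ = oρ F := inv_eq_of_mul_eq_one_right oρ_mul_self

theorem cls_oρ : cls MTS_stdE (oρ F) = -1 := by
  rw [oρ, cls_ofOG, dick_refl (by rw [Q_oe]; exact one_ne_zero)]

theorem Q_ob_ne {a : V8 F} (ha : QP 4 F a ≠ 0) : QP 4 F (ob a) ≠ 0 := by rwa [Q_ob]

/-- right multiplication -/
noncomputable def oR (a : V8 F) (ha : QP 4 F a ≠ 0) : Gam (QP 4 F) :=
  oρ F * oL (ob a) (Q_ob_ne ha) * oρ F

theorem oR_T (a : V8 F) (ha : QP 4 F a ≠ 0) (x : V8 F) : (oR a ha).T x = om x a := by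
  rw [oR, Gam.mul_T, Gam.mul_T, oρ_T, oρ_T, oL_T, om_neg, ob_neg, neg_neg, ob_om, ob_ob, ob_ob]

/-- bimultiplication -/
noncomputable def oB (a : V8 F) (ha : QP 4 F a ≠ 0) : Gam (QP 4 F) := oL a ha * oR a ha

theorem oB_T (a : V8 F) (ha : QP 4 F a ≠ 0) (x : V8 F) : (oB a ha).T x = om a (om x a) := by
  rw [oB, Gam.mul_T, oR_T, oL_T]

theorem oB_eq (a : V8 F) (ha : QP 4 F a ≠ 0) :
    oB a ha = scal _ (Units.mk0 _ ha) * (ofOG _ (refl _ a) * oρ F) :=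
  Gam.ext ND_QH fun x => by
    rw [oB_T, om_om_eq, Gam.mul_T, Gam.mul_T, oρ_T, ofOG_T, scal_T, refl_apply, polar_neg_right]
    simp only [Units.val_mk0]
    match_scalars <;> field_simp

theorem cls_oL (a : V8 F) (ha : QP 4 F a ≠ 0) : cls MTS_stdE (oL a ha) = 1 :=
  cls_of_quadratic _ rfl (om_sq_left a) fun x hx => by rw [oL_T, polar_om_left, hx, mul_zero]

theorem cls_oR (a : V8 F) (ha : QP 4 F a ≠ 0) : cls MTS_stdE (oR a ha) = 1 := by
  simp [oR, cls_oρ, cls_oL]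

theorem cls_oB (a : V8 F) (ha : QP 4 F a ≠ 0) : cls MTS_stdE (oB a ha) = 1 := by
  simp [oB, cls_oR, cls_oL]

theorem oR_mul_oR_ob (a : V8 F) (ha : QP 4 F a ≠ 0) :
    oR (ob a) (Q_ob_ne ha) * oR a ha = scal _ (Units.mk0 _ ha) :=
  Gam.ext ND_QH fun x => by rw [Gam.mul_T, oR_T, oR_T, om_om_ob]; rfl

theorem oρ_oB (a : V8 F) (ha : QP 4 F a ≠ 0) :
    oρ F * oB (ob a) (Q_ob_ne ha) * oρ F = oB a ha :=
  Gam.ext ND_QH fun x => by
    have := moufang_mid a x oe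
    rw [oe_om, om_oe] at this
    rw [Gam.mul_T, Gam.mul_T, oρ_T, oρ_T, oB_T, oB_T, ← ob_neg x, ← ob_om, ← ob_om, ob_ob, om_neg,
      ← this, ← neg_one_smul F (om a x), smul_om, neg_one_smul, neg_neg]

theorem oρ_frob (σ : F ≃+* F) : oρ F * frob σ (QH_comp _) * oρ F = frob σ (QH_comp _) :=
  Gam.ext ND_QH fun x => by
    rw [Gam.mul_T, Gam.mul_T, oρ_T, oρ_T]
    apply ext8 <;> simp [ob, otr, oe, frob_T]

/-- one-sided relation -/
def TR (γ δ : Gam (QP 4 F)) : Prop := ∃ g : V8 F ≃ V8 F, ∀ x y, γ.T (om x y) = om (δ.T x) (g y)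

theorem TR.mul {γ δ γ' δ' : Gam (QP 4 F)} (h : TR γ δ) (h' : TR γ' δ') : TR (γ * γ') (δ * δ') := by
  obtain ⟨g, h⟩ := h
  obtain ⟨g', h'⟩ := h'
  exact ⟨g'.trans g, fun x y => by rw [Gam.mul_T, h', h]; rfl⟩

theorem TR.inv {γ δ : Gam (QP 4 F)} (h : TR γ δ) : TR γ⁻¹ δ⁻¹ := by
  obtain ⟨g, h⟩ := h
  exact ⟨g.symm, fun x y => γ.T.injective (by rw [h]; simp)⟩

theorem TR.scal {δ : Gam (QP 4 F)} {c : Fˣ} (h : TR δ (scal _ c)) : ∃ a, δ = scal _ a := by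
  obtain ⟨g, h⟩ := h
  simp only [scal_T, smul_om, ← om_smul] at h
  have h1 : ∀ y, δ.T y = (c : F) • g y := fun y => by simpa [oe_om] using h oe y
  simp only [← h1] at h
  have h2 : ∀ x, δ.T x = om x (δ.T oe) := fun x => by simpa [om_oe] using h x oe
  have h3 := eq_smul_of_assoc (d := δ.T oe) fun x y => by rw [← h2, ← h2, h]
  have h4 : δ.T oe (.inl 0) ≠ 0 := fun h0 => by
    rw [h0, zero_smul, δ.T_eq_zero] at h3
    simpa [h3] using Q_oe (F := F)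
  exact ⟨Units.mk0 _ h4, Gam.ext ND_QH fun x => by
    rw [scal_T, Units.val_mk0, h2]
    conv_lhs => rw [h3, om_smul, om_oe]⟩

variable (F) in
/-- the group of related pairs -/
def TT : Subgroup (Gam (QP 4 F) × Gam (QP 4 F)) where
  carrier := {t | t.1.σ = t.2.σ ∧ cls MTS_stdE t.1 = 1 ∧ cls MTS_stdE t.2 = 1 ∧ TR t.1 t.2 ∧
    TR t.2 t.1}
  mul_mem' := fun ⟨a1, a2, a3, a4, a5⟩ ⟨b1, b2, b3, b4, b5⟩ =>
    ⟨by simp [a1, b1], by simp [a2, b2], by simp [a3, b3], a4.mul b4, a5.mul b5⟩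
  one_mem' := ⟨rfl, by simp, by simp, ⟨Equiv.refl _, fun _ _ => rfl⟩, ⟨Equiv.refl _, fun _ _ => rfl⟩⟩
  inv_mem' := fun ⟨a1, a2, a3, a4, a5⟩ =>
    ⟨by simp [a1], by simp [a2], by simp [a3], a4.inv, a5.inv⟩

theorem TT_swap {t : Gam (QP 4 F) × Gam (QP 4 F)} (h : t ∈ TT F) : t.swap ∈ TT F :=
  ⟨h.1.symm, h.2.2.1, h.2.1, h.2.2.2.2, h.2.2.2.1⟩

theorem scal_mem_TT (a : Fˣ) : (scal _ a, scal _ a) ∈ TT F :=
  ⟨rfl, cls_scal _ _, cls_scal _ _, ⟨Equiv.refl _, fun x y => (smul_om _ x y).symm⟩,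
    ⟨Equiv.refl _, fun x y => (smul_om _ x y).symm⟩⟩

theorem BL_mem_TT (a : V8 F) (ha : QP 4 F a ≠ 0) : (oB a ha, oL a ha) ∈ TT F :=
  ⟨rfl, cls_oB _ _, cls_oL _ _, ⟨(oR a ha).T, fun x y => by
    rw [oB_T, oL_T, ← moufang_mid]; exact congrArg _ (oR_T a ha y).symm⟩,
    ⟨(oL a ha).T.symm, fun x y => by
      obtain ⟨y, rfl⟩ := (oL a ha).T.surjective y
      rw [oB_T, oL_T, oL_T, ← moufang_left]
      exact congrArg _ ((oL a ha).T.symm_apply_apply y).symm⟩⟩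

theorem TR_oR (a : V8 F) (ha : QP 4 F a ≠ 0) : TR (oR a ha) (oR a ha)⁻¹ :=
  ⟨(oB a ha).T, fun x y => by
    obtain ⟨x, rfl⟩ := (oR a ha).T.surjective x
    rw [Gam.inv_T_T, oR_T, oR_T, ← moufang_right]
    exact congrArg _ (oB_T a ha y).symm⟩

theorem R_mem_TT (a : V8 F) (ha : QP 4 F a ≠ 0) : (oR a ha, (oR a ha)⁻¹) ∈ TT F :=
  ⟨rfl, cls_oR a ha, by simp [cls_oR], TR_oR a ha, by simpa using (TR_oR a ha).inv⟩

universe u

variable {F : Type u} [Field F] [Finite F]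

theorem frob_mem_TT (σ : F ≃+* F) :
    ((frob σ (QH_comp _), frob σ (QH_comp _)) : Gam (QP 4 F) × Gam (QP 4 F)) ∈ TT F := by
  have : TR (frob σ (QH_comp _) : Gam (QP 4 F)) (frob σ (QH_comp _)) :=
    ⟨(frob σ (QH_comp _) : Gam (QP 4 F)).T, fun x y => by
      have e : ∀ x, (frob σ (QH_comp _) : Gam (QP 4 F)).T x = σ.toRingHom ∘ x := fun x =>
        funext (frob_T _ _ x)
      change _ = om _ ((frob σ (QH_comp _) : Gam (QP 4 F)).T y)
      rw [e, e, e, map_om]⟩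
  exact ⟨rfl, cls_frob σ, cls_frob σ, this, this⟩

theorem ker_cls_le {P : Subgroup (Gam (QP 4 F))} (h1 : ∀ a, scal _ a ∈ P)
    (h2 : ∀ a ha, oB a ha ∈ P) (h3 : ∀ a ha, oL a ha ∈ P) (h4 : ∀ σ, frob σ (QH_comp _) ∈ P) :
    (cls MTS_stdE).ker ≤ P := by
  have a1 : ∀ a, QP 4 F a ≠ 0 → ofOG _ (refl _ a) * oρ F ∈ P := fun a ha => by
    have := h2 a ha
    rwa [oB_eq, mul_mem_cancel_left (h1 _)] at this
  have a2 : ∀ g : OG (QP 4 F), (dickF g = 1 ∧ ofOG _ g ∈ P) ∨ (dickF g = -1 ∧ oρ F * ofOG _ g ∈ P) :=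
    fun g => by
    induction g using refl_induction (Q := QP 4 F) ND_QH Big.good with
    | h1 => exact Or.inl ⟨dickF_one, by simp⟩
    | hs a g ha ih =>
      rw [dick_mul, dick_refl ha, map_mul]
      rcases ih with ⟨h5, h6⟩ | ⟨h5, h6⟩
      · refine Or.inr ⟨by simp [h5], ?_⟩
        have := mul_mem (inv_mem (a1 a ha)) h6
        rwa [mul_inv_rev, oρ_inv, ← map_inv, refl_inv, mul_assoc] at this
      · refine Or.inl ⟨by simp [h5], ?_⟩
        have := mul_mem (a1 a ha) h6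
        rwa [mul_assoc, ← mul_assoc (oρ F), oρ_mul_self, one_mul] at this
  have a3 : sc (SOg (QP 4 F)) ≤ P := by
    rintro _ ⟨a, g, hg, rfl⟩
    exact mul_mem (h1 a) ((a2 g).resolve_right fun h => by simp [mem_SOg.1 hg] at h).2
  have a4 : Dg (QP 4 F) ≤ P := fun g hg => by
    obtain ⟨a, ha⟩ := ND_QH.represents (Q := QP 4 F) (by simp) g.c
    have ha0 : QP 4 F a ≠ 0 := ha ▸ g.c.ne_zero
    rw [← mul_mem_cancel_right (h3 a ha0)]
    refine a3 ((mem_sc_SOg_iff (MTS_even MTS_stdE)).2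
      ⟨mul_mem hg ((mem_Dg_QH rfl).2 (cls_oL a ha0)), g.c, ?_⟩)
    rw [Gam.mul_c, hg.1]
    exact congrArg _ ha
  intro γ hγ
  rw [← mul_mem_cancel_right (inv_mem (h4 γ.σ))]
  exact a4 ((mem_Dg_QH (by simp [frob_σ])).2 (by simp [MonoidHom.mem_ker.1 hγ, cls_frob]))

theorem exists_TT {γ : Gam (QP 4 F)} (h : cls MTS_stdE γ = 1) : ∃ δ, (γ, δ) ∈ TT F := by
  obtain ⟨⟨_, δ⟩, h', rfl⟩ := ker_cls_le (P := (TT F).map (MonoidHom.fst _ _))
    (fun a => ⟨_, scal_mem_TT a, rfl⟩) (fun a ha => ⟨_, BL_mem_TT a ha, rfl⟩)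
    (fun a ha => ⟨_, TT_swap (BL_mem_TT a ha), rfl⟩) (fun σ => ⟨_, frob_mem_TT σ, rfl⟩) h
  exact ⟨δ, h'⟩

theorem TT_Dg {γ δ : Gam (QP 4 F)} (h : (γ, δ) ∈ TT F) (hγ : γ ∈ Dg (QP 4 F)) :
    δ ∈ Dg (QP 4 F) := (mem_Dg_QH (h.1.symm.trans hγ.1)).2 h.2.2.1

theorem exists_tri : ∃ τ : MulAut (POm (QP 4 F)), τ * τ = 1 ∧
    ∀ t ∈ TT F, τ * Phi _ t.1 * τ⁻¹ = Phi _ t.2 := by
  refine exists_aut_of_pairs _ conj_POm_injective _ (fun _ => TT_swap) (fun t ht h => ?_) fun x => ?_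
  · obtain ⟨a, ha⟩ := Phi_eq_one_iff.1 h
    exact Phi_eq_one_iff.2 (TR.scal (ha ▸ ht.2.2.2.2))
  · obtain ⟨g, rfl⟩ := QuotientGroup.mk'_surjective _ x
    have : ⁅SOg (QP 4 F), SOg (QP 4 F)⁆ ≤ (((TT F) ⊓ (sc (Om _)).comap (MonoidHom.snd _ _)).map
        (MonoidHom.fst _ _)).comap (ofOG _) := by
      rw [commutator_le]
      intro a ha b hb
      have ha' := sc_SOg_le_Dg (ofOG_mem_sc ha)
      have hb' := sc_SOg_le_Dg (ofOG_mem_sc hb)
      obtain ⟨a', h1⟩ := exists_TT ((mem_Dg_QH rfl).1 ha')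
      obtain ⟨b', h2⟩ := exists_TT ((mem_Dg_QH rfl).1 hb')
      exact ⟨⁅(ofOG _ a, a'), (ofOG _ b, b')⁆,
        ⟨(TT F).mul_mem ((TT F).mul_mem ((TT F).mul_mem h1 h2) ((TT F).inv_mem h1))
          ((TT F).inv_mem h2),
          commutator_Dg_le (commutator_mem_commutator (TT_Dg h1 ha') (TT_Dg h2 hb'))⟩,
        (map_commutatorElement _ _ _).symm⟩
    obtain ⟨⟨_, _⟩, ⟨h1, a, k, hk, rfl⟩, rfl⟩ := this (Om_le_commutator_SO g.2)
    exact ⟨pmk _ ⟨k, hk⟩, _, h1, (conj_pmk g).symm, by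
      rw [conj_pmk, map_mul, Phi_scal, one_mul]⟩

variable (F) in
/-- an involutory graph automorphism of `PΩ₈⁺` not induced by a semisimilarity -/
noncomputable def tri : MulAut (POm (QP 4 F)) := exists_tri.choose

theorem tri_mul_self : tri F * tri F = 1 := exists_tri.choose_spec.1

theorem tri_inv : (tri F)⁻¹ = tri F := inv_eq_of_mul_eq_one_right tri_mul_self

theorem tri_conj {γ δ : Gam (QP 4 F)} (h : (γ, δ) ∈ TT F) :
    tri F * Phi _ γ * (tri F)⁻¹ = Phi _ δ := (exists_tri (F := F)).choose_spec.2 (γ, δ) h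

theorem tri_frob (σ : F ≃+* F) :
    tri F * Phi _ (frob σ (QH_comp _)) = Phi _ (frob σ (QH_comp _)) * tri F :=
  mul_inv_eq_iff_eq_mul.1 (tri_conj (frob_mem_TT σ))

theorem tri_conj_Dg {γ : Gam (QP 4 F)} (h : γ ∈ Dg (QP 4 F)) :
    ∃ δ ∈ Dg (QP 4 F), tri F * Phi _ γ * (tri F)⁻¹ = Phi _ δ := by
  obtain ⟨δ, h1⟩ := exists_TT ((mem_Dg_QH h.1).1 h)
  exact ⟨δ, TT_Dg h1 h, tri_conj h1⟩

theorem tri_conj_ker {γ : Gam (QP 4 F)} (h : cls MTS_stdE γ = 1) :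
    ∃ δ, cls MTS_stdE δ = 1 ∧ δ.σ = γ.σ ∧ tri F * Phi _ γ * (tri F)⁻¹ = Phi _ δ := by
  obtain ⟨δ, h1⟩ := exists_TT h
  exact ⟨δ, h1.2.2.1, h1.1.symm, tri_conj h1⟩

theorem tri_braid_aux {A : Type*} [Group A] (Φ : Gam (QP 4 F) →* A) (hs : ∀ a, Φ (scal _ a) = 1)
    {c : A} (h0 : ∀ γ δ, (oρ F * γ * oρ F, δ) ∈ TT F → c * Φ γ * c⁻¹ = Φ δ) :
    (cls MTS_stdE).ker ≤ (centralizer {c ^ 3}).comap Φ := by
  have h1 : ∀ a ha, c * Φ (oL a ha) * c⁻¹ = Φ (oR a ha) := fun a ha => by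
    have e : oρ F * oL a ha * oρ F = oR (ob a) (Q_ob_ne ha) := by simp only [oR, ob_ob]
    rw [h0 _ _ (by rw [e]; exact R_mem_TT _ _), map_inv, inv_eq_iff_mul_eq_one, ← map_mul,
      oR_mul_oR_ob, hs]
  have h2 : ∀ a ha, c * Φ (oR a ha) * c⁻¹ = Φ (oB (ob a) (Q_ob_ne ha)) := fun a ha => by
    refine h0 _ _ ?_
    rw [oR, ← mul_assoc, ← mul_assoc, oρ_mul_self, one_mul, mul_assoc, oρ_mul_self, mul_one]
    exact TT_swap (BL_mem_TT _ _)
  have h3 : ∀ a ha, c * Φ (oB (ob a) (Q_ob_ne ha)) * c⁻¹ = Φ (oL a ha) := fun a ha =>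
    h0 _ _ (by rw [oρ_oB a ha]; exact BL_mem_TT a ha)
  have h4 : ∀ γ, c * (c * (c * Φ γ * c⁻¹) * c⁻¹) * c⁻¹ = Φ γ →
      γ ∈ (centralizer {c ^ 3}).comap Φ := fun γ h => by
    rw [mem_comap, mem_centralizer_singleton_iff, pow_three]
    conv_lhs => rw [← h]
    group
  refine ker_cls_le (fun a => h4 _ (by simp [hs])) (fun a ha => h4 _ ?_)
    (fun a ha => h4 _ (by rw [h1, h2, h3])) fun σ => h4 _ ?_
  · have := h3 (ob a) (Q_ob_ne ha)
    simp only [ob_ob] at this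
    rw [this, h1, h2]
    simp only [ob_ob]
  · have : c * Φ (frob σ (QH_comp _)) * c⁻¹ = Φ (frob σ (QH_comp _)) := h0 _ _ (by
      rw [oρ_frob]; exact frob_mem_TT σ)
    rw [this, this, this]

theorem tri_braid : (tri F * Phi _ (oρ F)) ^ 3 = 1 := by
  have h5 := tri_braid_aux (Phi (QP 4 F)) Phi_scal (c := tri F * Phi _ (oρ F)) fun γ δ h => by
    rw [← tri_conj h, map_mul, map_mul, mul_inv_rev, ← map_inv, oρ_inv]
    simp only [mul_assoc]
  generalize (tri F * Phi _ (oρ F)) ^ 3 = c at h5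
  refine MulEquiv.ext fun x => conj_POm_injective ?_
  obtain ⟨g, rfl⟩ := QuotientGroup.mk'_surjective _ x
  rw [← aut_conj_conj, mul_inv_eq_iff_eq_mul, MulAut.one_apply, conj_pmk]
  exact (mem_centralizer_singleton_iff.1
    (h5 ((mem_Dg_QH rfl).1 (sc_Om_le_Dg (ofOG_mem_sc g.2))))).symm

theorem tri_not_mem : tri F ∉ (Phi (QP 4 F)).range := by
  rintro ⟨γ, hγ⟩
  let a : V8 F := Sum.elim ![1, 1, 0, 0] ![1, 0, 0, 0]
  let w : V8 F := Sum.elim ![0, 0, 1, 0] ![0, 0, 1, 0]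
  have ha : QP 4 F a ≠ 0 := by simp [a, Q8]
  have h1 := tri_conj (BL_mem_TT a ha)
  rw [← hγ, ← map_inv, ← map_mul, ← map_mul, ← mul_inv_eq_one, ← map_inv, ← map_mul,
    Phi_eq_one_iff] at h1
  obtain ⟨s, hs⟩ := h1
  rw [mul_inv_eq_iff_eq_mul, mul_inv_eq_iff_eq_mul] at hs
  have h2 := congrArg (fun δ : Gam (QP 4 F) => δ.T w) hs
  have h3 : om a (om w a) = w := by apply ext8 <;> simp [a, w, om]
  simp only [Gam.mul_T, oB_T, oL_T, h3, scal_T] at h2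
  have h4 := congrArg (fun y => om y (ob (γ.T w)) (.inl 1)) h2
  simp only [smul_om, om_om_ob] at h4
  have h5 := om_om_ob oe (γ.T w)
  rw [oe_om] at h5
  rw [h5] at h4
  have h6 : QP 4 F (γ.T w) ≠ 0 := by rw [Ne, γ.Q_eq_zero]; simp [w, Q8]
  simp [a, oe, h6] at h4

theorem aut_O8 (α : MulAut (POm (QP 4 F))) :
    (∃ γ, α = Phi _ γ) ∨ ∃ γ δ, α = Phi _ γ * tri F * Phi _ δ := by
  obtain ⟨u, hu0, hu⟩ := exists_sing (Q := QP 4 F) (by simp)
  have h7 : 7 ≤ finrank F (V8 F) := by simp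
  rcases aut_BS h7 α hu hu0 with ⟨u', a1, a2, a3⟩ | ⟨-, W, a2, a3⟩
  · exact Or.inl ((exists_Phi_of_BS h7 hu hu0 a1 a2 a3).imp fun _ => Eq.symm)
  rcases aut_BS h7 (tri F) hu hu0 with ⟨u', b1, b2, b3⟩ | ⟨-, W', b2, b3⟩
  · exact absurd (exists_Phi_of_BS h7 hu hu0 b1 b2 b3) tri_not_mem
  obtain ⟨g, rfl⟩ := b2.1.exists_map_eq ND_QH a2.1 (Nat.eq_of_mul_eq_mul_left two_pos
    (b2.2.trans a2.2.symm))
  obtain ⟨δ, hδ⟩ := exists_Phi_of_BS h7 (α := (Phi _ (ofOG _ g) * tri F)⁻¹ * α) hu hu0 hu hu0 (by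
    apply Subgroup.map_injective (f := (Phi _ (ofOG _ g) * tri F).toMonoidHom) (MulEquiv.injective _)
    rw [Subgroup.map_map]
    calc _ = (BS _ u).map α.toMonoidHom := by congr 1; ext; simp
      _ = _ := by rw [a3, ← map_UR, ← b3, Subgroup.map_map]; rfl)
  exact Or.inr ⟨ofOG _ g, δ, by rw [hδ, mul_inv_cancel_left]⟩

instance Dg_O8_normal : ((Dg (QP 4 F)).map (Phi _)).Normal := by
  have h1 : ∀ γ, ∀ x ∈ (Dg (QP 4 F)).map (Phi _),
      Phi _ γ * x * (Phi _ γ)⁻¹ ∈ (Dg (QP 4 F)).map (Phi _) := by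
    rintro γ _ ⟨g, hg, rfl⟩
    exact ⟨_, Dg_normal.conj_mem g hg γ, by simp⟩
  have h2 : ∀ x ∈ (Dg (QP 4 F)).map (Phi _), tri F * x * (tri F)⁻¹ ∈ (Dg (QP 4 F)).map (Phi _) := by
    rintro _ ⟨g, hg, rfl⟩
    obtain ⟨δ, h1, h2⟩ := tri_conj_Dg hg
    exact ⟨δ, h1, h2.symm⟩
  refine ⟨fun x hx α => ?_⟩
  rcases aut_O8 α with ⟨γ, rfl⟩ | ⟨γ, δ, rfl⟩
  · exact h1 γ x hx
  · convert h1 γ _ (h2 _ (h1 δ x hx)) using 1
    group

theorem inndiagPlus_normal {m : ℕ} (hm : 4 ≤ m) [hB : Big (QP m F)] :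
    ((Dg (QP m F)).map (PhiM (QP_coe m F))).Normal := by
  rcases hm.eq_or_lt with rfl | hm
  · rw [PhiM, ← Subgroup.map_map]
    exact Dg_O8_normal.map _ (MulEquiv.surjective _)
  · exact Dg_normal.map _ (PhiM_surjective _ (Phi_surj_QP hm))

end CfsgH7
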